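import Cfsg.Agent.Lib.H29.ExtraSp2
import Cfsg.Prelude.Def_KGroupFacts
import Cfsg.Prelude.Def_Classical

/-! # The outer automorphism group of the cocycle model of an extraspecial group -/

set_option autoImplicit false
set_option linter.style.haveILetI false

namespace Cfsg.Agent.H29.XS

open Cfsg
open scoped Matrix

lemma add2' (x : ZMod 2) : x + x = 0 := by revert x; decide

lemma z01' (x : ZMod 2) : x = 0 ∨ x = 1 := by revert x; decide

section model

variable {ι : Type} [Fintype ι] [DecidableEq ι]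

/-- A biadditive cocycle with non-degenerate polarisation. -/
structure Coc (ι : Type) [Fintype ι] where
  β : (ι → ZMod 2) → (ι → ZMod 2) → ZMod 2
  add_l : ∀ u v w, β (u + v) w = β u w + β v w
  add_r : ∀ u v w, β w (u + v) = β w u + β w v
  nondeg : ∀ v, v ≠ 0 → ∃ w, β v w + β w v ≠ 0

lemma Coc.zero_l (c : Coc ι) (w : ι → ZMod 2) : c.β 0 w = 0 := by
  have h := c.add_l 0 0 w
  rw [add_zero] at h
  simpa using h

lemma Coc.zero_r (c : Coc ι) (w : ι → ZMod 2) : c.β w 0 = 0 := by
  have h := c.add_r 0 0 w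
  rw [add_zero] at h
  simpa using h

/-- The group of a cocycle. -/
@[ext] structure MM (c : Coc ι) : Type where
  v : ι → ZMod 2
  s : ZMod 2

instance (c : Coc ι) : Group (MM c) where
  mul x y := ⟨x.v + y.v, x.s + y.s + c.β x.v y.v⟩
  one := ⟨0, 0⟩
  inv x := ⟨-x.v, -x.s - c.β (-x.v) x.v⟩
  mul_assoc x y w := by
    apply MM.ext
    · exact add_assoc _ _ _
    · show x.s + y.s + c.β x.v y.v + w.s + c.β (x.v + y.v) w.v =
        x.s + (y.s + w.s + c.β y.v w.v) + c.β x.v (y.v + w.v)
      rw [c.add_l, c.add_r]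
      ring
  one_mul x := by
    apply MM.ext
    · exact zero_add _
    · show 0 + x.s + c.β 0 x.v = x.s
      rw [c.zero_l]
      ring
  mul_one x := by
    apply MM.ext
    · exact add_zero _
    · show x.s + 0 + c.β x.v 0 = x.s
      rw [c.zero_r]
      ring
  inv_mul_cancel x := by
    apply MM.ext
    · exact neg_add_cancel _
    · show -x.s - c.β (-x.v) x.v + x.s + c.β (-x.v) x.v = 0
      ring

lemma MM.mul_v {c : Coc ι} (x y : MM c) : (x * y).v = x.v + y.v := rfl
lemma MM.mul_s {c : Coc ι} (x y : MM c) : (x * y).s = x.s + y.s + c.β x.v y.v := rfl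
lemma MM.one_v {c : Coc ι} : (1 : MM c).v = 0 := rfl
lemma MM.one_s {c : Coc ι} : (1 : MM c).s = 0 := rfl

/-- The coordinates. -/
def MM.equiv (c : Coc ι) : MM c ≃ (ι → ZMod 2) × ZMod 2 where
  toFun x := (x.v, x.s)
  invFun p := ⟨p.1, p.2⟩
  left_inv _ := rfl
  right_inv _ := rfl

instance (c : Coc ι) : Finite (MM c) := Finite.of_equiv _ (MM.equiv c).symm

lemma v_add_self' (v : ι → ZMod 2) : v + v = 0 := by
  funext i
  exact add2' _

theorem MM.xs (c : Coc ι) : XS (MM c) (⟨0, 1⟩ : MM c) := by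
  refine ⟨?_, ?_, ?_, ?_, ?_, ?_⟩
  · intro h
    have : (1 : ZMod 2) = 0 := congrArg MM.s h
    exact one_ne_zero this
  · apply MM.ext
    · exact add_zero _
    · show (1 : ZMod 2) + 1 + c.β 0 0 = 0
      rw [c.zero_l]
      decide
  · intro x
    apply MM.ext
    · show x.v + 0 = 0 + x.v
      simp
    · show x.s + 1 + c.β x.v 0 = 1 + x.s + c.β 0 x.v
      rw [c.zero_l, c.zero_r]
      ring
  · intro x
    rcases z01' (c.β x.v x.v) with h | h
    · left
      apply MM.ext
      · exact v_add_self' _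
      · show x.s + x.s + c.β x.v x.v = 0
        rw [h, add2', add_zero]
    · right
      apply MM.ext
      · exact v_add_self' _
      · show x.s + x.s + c.β x.v x.v = 1
        rw [h, add2', zero_add]
  · intro a b
    rcases z01' (c.β a.v b.v) with h | h <;> rcases z01' (c.β b.v a.v) with h' | h'
    · left
      apply MM.ext
      · exact add_comm _ _
      · show a.s + b.s + c.β a.v b.v = b.s + a.s + c.β b.v a.v
        rw [h, h']
        ring
    · right
      apply MM.ext
      · show a.v + b.v = 0 + (b.v + a.v)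
        rw [zero_add, add_comm]
      · show a.s + b.s + c.β a.v b.v = 1 + (b.s + a.s + c.β b.v a.v) + c.β 0 (b.v + a.v)
        rw [h, h', c.zero_l]
        generalize a.s = s1
        generalize b.s = s2
        revert s1 s2
        decide
    · right
      apply MM.ext
      · show a.v + b.v = 0 + (b.v + a.v)
        rw [zero_add, add_comm]
      · show a.s + b.s + c.β a.v b.v = 1 + (b.s + a.s + c.β b.v a.v) + c.β 0 (b.v + a.v)
        rw [h, h', c.zero_l]
        generalize a.s = s1
        generalize b.s = s2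
        revert s1 s2
        decide
    · left
      apply MM.ext
      · exact add_comm _ _
      · show a.s + b.s + c.β a.v b.v = b.s + a.s + c.β b.v a.v
        rw [h, h']
        ring
  · intro g hg
    have hv : g.v = 0 := by
      by_contra hne
      obtain ⟨w, hw⟩ := c.nondeg g.v hne
      have h1 := congrArg MM.s (hg ⟨w, 0⟩)
      simp only [MM.mul_s] at h1
      apply hw
      have h2 : c.β g.v w = c.β w g.v := by
        generalize c.β g.v w = x at *
        generalize c.β w g.v = y at *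
        generalize g.s = t at *
        revert x y t
        decide
      rw [h2, add2']
    rcases z01' g.s with h | h
    · left
      exact MM.ext hv h
    · right
      exact MM.ext hv h

/-- The automorphism fixes the central elements. -/
lemma aut_fix_center (c : Coc ι) (φ : MulAut (MM c)) (s : ZMod 2) : φ ⟨0, s⟩ = ⟨0, s⟩ := by
  have hx := MM.xs c
  rcases z01' s with rfl | rfl
  · exact map_one φ
  · have h1 : φ ⟨0, 1⟩ ≠ 1 := by
      intro h
      have h2 : (⟨0, 1⟩ : MM c) = 1 := by
        apply φ.injective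
        rw [h, map_one]
      exact hx.z_ne h2
    have hcen : ∀ g : MM c, φ ⟨0, 1⟩ * g = g * φ ⟨0, 1⟩ := by
      intro g
      obtain ⟨g', rfl⟩ := φ.surjective g
      rw [← map_mul, ← map_mul]
      congr 1
      exact (hx.z_cen g').symm
    rcases hx.cen _ hcen with h2 | h2
    · exact absurd h2 h1
    · exact h2

/-- The induced map on the coordinates. -/
def fv (c : Coc ι) (φ : MulAut (MM c)) (v : ι → ZMod 2) : ι → ZMod 2 := (φ ⟨v, 0⟩).v

lemma mk_eq_mul (c : Coc ι) (v : ι → ZMod 2) (s : ZMod 2) : (⟨v, s⟩ : MM c) = ⟨v, 0⟩ * ⟨0, s⟩ := by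
  apply MM.ext
  · show v = v + 0
    simp
  · show s = 0 + s + c.β v 0
    rw [c.zero_r]
    ring

lemma aut_v (c : Coc ι) (φ : MulAut (MM c)) (g : MM c) : (φ g).v = fv c φ g.v := by
  have h1 : g = ⟨g.v, 0⟩ * ⟨0, g.s⟩ := mk_eq_mul c g.v g.s
  conv_lhs => rw [h1, map_mul, aut_fix_center, MM.mul_v]
  show fv c φ g.v + 0 = _
  simp

lemma fv_add (c : Coc ι) (φ : MulAut (MM c)) (v w : ι → ZMod 2) :
    fv c φ (v + w) = fv c φ v + fv c φ w := by
  have h1 : (φ (⟨v, 0⟩ * ⟨w, 0⟩)).v = fv c φ (v + w) := by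
    rw [aut_v]
    rfl
  rw [← h1, map_mul, MM.mul_v]
  rfl

lemma fv_Q (c : Coc ι) (φ : MulAut (MM c)) (v : ι → ZMod 2) :
    c.β (fv c φ v) (fv c φ v) = c.β v v := by
  have h0 : (⟨v, 0⟩ * ⟨v, 0⟩ : MM c) = ⟨0, c.β v v⟩ := by
    apply MM.ext
    · exact v_add_self' _
    · show (0 : ZMod 2) + 0 + c.β v v = c.β v v
      ring
  have h1 := aut_fix_center c φ (c.β v v)
  rw [← h0, map_mul] at h1
  have h2 := congrArg MM.s h1
  simp only [MM.mul_s, add2', zero_add] at h2
  exact h2

lemma fv_mul (c : Coc ι) (φ ψ : MulAut (MM c)) (v : ι → ZMod 2) :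
    fv c (φ * ψ) v = fv c φ (fv c ψ v) := by
  show (φ (ψ ⟨v, 0⟩)).v = _
  rw [aut_v]
  rfl

lemma fv_one (c : Coc ι) (v : ι → ZMod 2) : fv c 1 v = v := rfl

/-- The linear map of an automorphism. -/
noncomputable def linM (c : Coc ι) (φ : MulAut (MM c)) : (ι → ZMod 2) →ₗ[ZMod 2] (ι → ZMod 2) :=
  (AddMonoidHom.mk' (fv c φ) (fv_add c φ)).toZModLinearMap 2

lemma linM_apply (c : Coc ι) (φ : MulAut (MM c)) (v : ι → ZMod 2) : linM c φ v = fv c φ v := rfl

/-- The matrix of an automorphism. -/
noncomputable def matM (c : Coc ι) : MulAut (MM c) →* Matrix ι ι (ZMod 2) where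
  toFun φ := LinearMap.toMatrix' (linM c φ)
  map_one' := by
    have : linM c 1 = LinearMap.id := by
      ext v
      rfl
    rw [this, LinearMap.toMatrix'_id]
  map_mul' φ ψ := by
    have : linM c (φ * ψ) = (linM c φ).comp (linM c ψ) := by
      apply LinearMap.ext
      intro v
      exact fv_mul c φ ψ v
    rw [this, LinearMap.toMatrix'_comp]

lemma matM_mulVec (c : Coc ι) (φ : MulAut (MM c)) (v : ι → ZMod 2) : matM c φ *ᵥ v = fv c φ v := by
  show LinearMap.toMatrix' (linM c φ) *ᵥ v = _
  rw [LinearMap.toMatrix'_mulVec]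
  rfl

/-- The homomorphism to the isometry group. -/
noncomputable def Θ (c : Coc ι) (Q : (ι → ZMod 2) → ZMod 2) (hQ : ∀ v, Q v = c.β v v) :
    MulAut (MM c) →* Cfsg.isometryGroup (ZMod 2) Q :=
  ((matM c).toHomUnits).codRestrict (Cfsg.isometryGroup (ZMod 2) Q) (by
    intro φ u _
    show Q (matM c φ *ᵥ u) = Q u
    rw [matM_mulVec, hQ, hQ, fv_Q])

lemma Θ_val (c : Coc ι) (Q : (ι → ZMod 2) → ZMod 2) (hQ : ∀ v, Q v = c.β v v) (φ : MulAut (MM c)) :
    (((Θ c Q hQ φ : Cfsg.isometryGroup (ZMod 2) Q) : Matrix.GeneralLinearGroup ι (ZMod 2)) :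
      Matrix ι ι (ZMod 2)) = matM c φ := rfl

lemma mat_eq_one_of {A : Matrix ι ι (ZMod 2)} (h : ∀ v, A *ᵥ v = v) : A = 1 := by
  apply Matrix.ext_of_mulVec_single
  intro i
  rw [h, Matrix.one_mulVec]

/-- Inner automorphisms act trivially on the coordinates. -/
theorem inn_le_ker (c : Coc ι) (Q : (ι → ZMod 2) → ZMod 2) (hQ : ∀ v, Q v = c.β v v) :
    Cfsg.Inn (MM c) ≤ (Θ c Q hQ).ker := by
  rintro _ ⟨g, rfl⟩
  rw [MonoidHom.mem_ker]
  apply Subtype.ext
  apply Units.ext
  show matM c (MulAut.conj g) = 1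
  apply mat_eq_one_of
  intro v
  rw [matM_mulVec]
  show (g * ⟨v, 0⟩ * g⁻¹).v = v
  rw [MM.mul_v, MM.mul_v]
  show g.v + v + -g.v = v
  abel

/-- Automorphisms trivial on the coordinates are inner. -/
theorem ker_le_inn (c : Coc ι) (Q : (ι → ZMod 2) → ZMod 2) (hQ : ∀ v, Q v = c.β v v) :
    (Θ c Q hQ).ker ≤ Cfsg.Inn (MM c) := by
  intro φ hφ
  have h1 : matM c φ = 1 := by
    have := congrArg (fun u : Cfsg.isometryGroup (ZMod 2) Q =>
      ((u : Matrix.GeneralLinearGroup ι (ZMod 2)) : Matrix ι ι (ZMod 2))) (MonoidHom.mem_ker.1 hφ)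
    exact this
  have hfv : ∀ v, fv c φ v = v := by
    intro v
    rw [← matM_mulVec, h1, Matrix.one_mulVec]
  let μ : (ι → ZMod 2) → ZMod 2 := fun v => (φ ⟨v, 0⟩).s
  have hφv : ∀ v, φ ⟨v, 0⟩ = ⟨v, μ v⟩ := fun v => MM.ext (hfv v) rfl
  have hμ : ∀ v w, μ (v + w) = μ v + μ w := by
    intro v w
    have h2 : (⟨v, 0⟩ * ⟨w, 0⟩ : MM c) = ⟨v + w, 0⟩ * ⟨0, c.β v w⟩ := by
      apply MM.ext
      · show v + w = v + w + 0
        simp
      · show (0 : ZMod 2) + 0 + c.β v w = 0 + c.β v w + c.β (v + w) 0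
        rw [c.zero_r]
        ring
    have h3 := congrArg φ h2
    rw [map_mul, map_mul, aut_fix_center, hφv, hφv, hφv] at h3
    have h4 := congrArg MM.s h3
    simp only [MM.mul_s, c.zero_r] at h4
    clear h2 h3
    generalize μ (v + w) = x at *
    generalize μ v = y at *
    generalize μ w = z at *
    generalize c.β v w = t at *
    revert x y z t
    decide
  -- the polar form is surjective onto the dual
  let B : (ι → ZMod 2) → (ι → ZMod 2) → ZMod 2 := fun u v => c.β u v + c.β v u
  have hBr : ∀ u v w, B u (v + w) = B u v + B u w := by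
    intro u v w
    simp only [B, c.add_l, c.add_r]
    ring
  have hBl : ∀ u v w, B (u + v) w = B u w + B v w := by
    intro u v w
    simp only [B, c.add_l, c.add_r]
    ring
  let Bd : (ι → ZMod 2) → Module.Dual (ZMod 2) (ι → ZMod 2) := fun u =>
    (AddMonoidHom.mk' (B u) (hBr u)).toZModLinearMap 2
  have hBd : ∀ u v, Bd u v = B u v := fun _ _ => rfl
  let Φ : (ι → ZMod 2) →ₗ[ZMod 2] Module.Dual (ZMod 2) (ι → ZMod 2) :=
    (AddMonoidHom.mk' Bd (by
      intro u v
      apply LinearMap.ext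
      intro w
      rw [LinearMap.add_apply, hBd, hBd, hBd, hBl])).toZModLinearMap 2
  have hΦ : ∀ u v, Φ u v = B u v := fun _ _ => rfl
  have hinj : Function.Injective Φ := by
    rw [← LinearMap.ker_eq_bot, LinearMap.ker_eq_bot']
    intro u hu
    by_contra hne
    obtain ⟨w, hw⟩ := c.nondeg u hne
    apply hw
    have := congrArg (fun f : Module.Dual (ZMod 2) (ι → ZMod 2) => f w) hu
    exact this
  have hsurj : Function.Surjective Φ :=
    (LinearMap.injective_iff_surjective_of_finrank_eq_finrank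
      (Subspace.dual_finrank_eq).symm).1 hinj
  obtain ⟨u, hu⟩ := hsurj ((AddMonoidHom.mk' μ hμ).toZModLinearMap 2)
  have huμ : ∀ v, B u v = μ v := by
    intro v
    rw [← hΦ, hu]
    rfl
  refine ⟨(⟨u, 0⟩ : MM c), ?_⟩
  apply MulEquiv.ext
  intro g
  show (⟨u, 0⟩ : MM c) * g * (⟨u, 0⟩ : MM c)⁻¹ = φ g
  rw [mul_inv_eq_iff_eq_mul]
  have h5 : g = ⟨g.v, 0⟩ * ⟨0, g.s⟩ := mk_eq_mul c g.v g.s
  have h6 : φ g = ⟨g.v, μ g.v + g.s⟩ := by
    conv_lhs => rw [h5, map_mul, aut_fix_center, hφv]
    apply MM.ext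
    · show g.v + 0 = g.v
      simp
    · show μ g.v + g.s + c.β g.v 0 = _
      rw [c.zero_r]
      ring
  rw [h6]
  apply MM.ext
  · show u + g.v = g.v + u
    exact add_comm _ _
  · show (0 : ZMod 2) + g.s + c.β u g.v = μ g.v + g.s + 0 + c.β g.v u
    rw [← huμ]
    show (0 : ZMod 2) + g.s + c.β u g.v = c.β u g.v + c.β g.v u + g.s + 0 + c.β g.v u
    generalize c.β u g.v = x
    generalize c.β g.v u = y
    generalize g.s = t
    revert x y t
    decide

/-- A biadditive alternating form over the field of two elements is the polarisation of a function. -/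
theorem exists_refine (γ : (ι → ZMod 2) → (ι → ZMod 2) → ZMod 2)
    (add_l : ∀ u v w, γ (u + v) w = γ u w + γ v w) (add_r : ∀ u v w, γ w (u + v) = γ w u + γ w v)
    (alt : ∀ v, γ v v = 0) :
    ∃ lam : (ι → ZMod 2) → ZMod 2, ∀ v w, lam (v + w) = lam v + lam w + γ v w := by
  classical
  let e := Fintype.equivFin ι
  let δ : ι → (ι → ZMod 2) := fun i j => if i = j then 1 else 0
  have hexp1 : ∀ (f : (ι → ZMod 2) → ZMod 2), (∀ u v, f (u + v) = f u + f v) →
      ∀ v, f v = ∑ i, v i * f (δ i) := by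
    intro f hf v
    have := LinearMap.pi_apply_eq_sum_univ ((AddMonoidHom.mk' f hf).toZModLinearMap 2) v
    exact this
  have hexp : ∀ v w, γ v w = ∑ i, ∑ j, v i * w j * γ (δ i) (δ j) := by
    intro v w
    rw [hexp1 (fun u => γ u w) (fun u u' => add_l u u' w) v]
    apply Finset.sum_congr rfl
    intro i _
    rw [hexp1 (fun u => γ (δ i) u) (fun u u' => add_r u u' (δ i)) w, Finset.mul_sum]
    apply Finset.sum_congr rfl
    intro j _
    ring
  have hsymm : ∀ u v, γ u v = γ v u := by
    intro u v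
    have h := alt (u + v)
    rw [add_l, add_r, add_r, alt, alt] at h
    generalize γ u v = x at *
    generalize γ v u = y at *
    revert x y
    decide
  let T : (ι → ZMod 2) → (ι → ZMod 2) → ZMod 2 := fun v w =>
    ∑ i, ∑ j, if e i < e j then v i * w j * γ (δ i) (δ j) else 0
  have hTl : ∀ u v w, T (u + v) w = T u w + T v w := by
    intro u v w
    simp only [T, ← Finset.sum_add_distrib]
    apply Finset.sum_congr rfl
    intro i _
    apply Finset.sum_congr rfl
    intro j _
    by_cases h : e i < e j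
    · simp only [if_pos h, Pi.add_apply]
      ring
    · simp only [if_neg h, add_zero]
  have hTr : ∀ u v w, T w (u + v) = T w u + T w v := by
    intro u v w
    simp only [T, ← Finset.sum_add_distrib]
    apply Finset.sum_congr rfl
    intro i _
    apply Finset.sum_congr rfl
    intro j _
    by_cases h : e i < e j
    · simp only [if_pos h, Pi.add_apply]
      ring
    · simp only [if_neg h, add_zero]
  have hTs : ∀ v w, T v w + T w v = γ v w := by
    intro v w
    rw [hexp v w]
    have h1 : T w v = ∑ i, ∑ j, if e j < e i then v i * w j * γ (δ i) (δ j) else 0 := by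
      simp only [T]
      rw [Finset.sum_comm]
      apply Finset.sum_congr rfl
      intro i _
      apply Finset.sum_congr rfl
      intro j _
      by_cases h : e j < e i
      · simp only [if_pos h]
        rw [hsymm (δ j) (δ i)]
        ring
      · simp only [if_neg h]
    rw [h1]
    simp only [T, ← Finset.sum_add_distrib]
    apply Finset.sum_congr rfl
    intro i _
    apply Finset.sum_congr rfl
    intro j _
    rcases lt_trichotomy (e i) (e j) with h | h | h
    · simp only [if_pos h, if_neg (not_lt.2 h.le), add_zero]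
    · have hij : i = j := e.injective h
      subst hij
      simp [alt]
    · simp only [if_pos h, if_neg (not_lt.2 h.le), zero_add]
  refine ⟨fun v => T v v, ?_⟩
  intro v w
  show T (v + w) (v + w) = T v v + T w w + γ v w
  rw [hTl, hTr, hTr, ← hTs v w]
  ring

/-- Every isometry lifts. -/
theorem Θ_surjective (c : Coc ι) (Q : (ι → ZMod 2) → ZMod 2) (hQ : ∀ v, Q v = c.β v v) :
    Function.Surjective (Θ c Q hQ) := by
  rintro ⟨g, hg⟩
  let A : Matrix ι ι (ZMod 2) := g.1
  let A' : Matrix ι ι (ZMod 2) := (g⁻¹).1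
  have hAA' : ∀ v, A *ᵥ (A' *ᵥ v) = v := by
    intro v
    rw [Matrix.mulVec_mulVec]
    have : A * A' = 1 := g.mul_inv
    rw [this, Matrix.one_mulVec]
  have hA'A : ∀ v, A' *ᵥ (A *ᵥ v) = v := by
    intro v
    rw [Matrix.mulVec_mulVec]
    have : A' * A = 1 := g.inv_mul
    rw [this, Matrix.one_mulVec]
  have hQA : ∀ v, c.β (A *ᵥ v) (A *ᵥ v) = c.β v v := by
    intro v
    rw [← hQ, ← hQ]
    exact hg v 0
  obtain ⟨lam, hlam⟩ := exists_refine (fun v w => c.β (A *ᵥ v) (A *ᵥ w) + c.β v w)
    (by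
      intro u v w
      simp only [Matrix.mulVec_add, c.add_l]
      ring)
    (by
      intro u v w
      simp only [Matrix.mulVec_add, c.add_r]
      ring)
    (by
      intro v
      show c.β (A *ᵥ v) (A *ᵥ v) + c.β v v = 0
      rw [hQA, add2'])
  let E : MM c ≃ MM c :=
    { toFun := fun x => ⟨A *ᵥ x.v, x.s + lam x.v⟩
      invFun := fun x => ⟨A' *ᵥ x.v, x.s + lam (A' *ᵥ x.v)⟩
      left_inv := by
        intro x
        apply MM.ext
        · exact hA'A x.v
        · show x.s + lam x.v + lam (A' *ᵥ (A *ᵥ x.v)) = x.s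
          rw [hA'A, add_assoc, add2', add_zero]
      right_inv := by
        intro x
        apply MM.ext
        · exact hAA' x.v
        · show x.s + lam (A' *ᵥ x.v) + lam (A' *ᵥ x.v) = x.s
          rw [add_assoc, add2', add_zero] }
  let φ : MulAut (MM c) := MulEquiv.mk' E (by
    intro x y
    apply MM.ext
    · show A *ᵥ (x.v + y.v) = A *ᵥ x.v + A *ᵥ y.v
      rw [Matrix.mulVec_add]
    · show x.s + y.s + c.β x.v y.v + lam (x.v + y.v) =
        x.s + lam x.v + (y.s + lam y.v) + c.β (A *ᵥ x.v) (A *ᵥ y.v)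
      rw [hlam]
      generalize x.s = s₁
      generalize y.s = s₂
      generalize c.β x.v y.v = s₃
      generalize lam x.v = s₄
      generalize lam y.v = s₅
      generalize c.β (A *ᵥ x.v) (A *ᵥ y.v) = s₆
      revert s₁ s₂ s₃ s₄ s₅ s₆
      decide)
  refine ⟨φ, ?_⟩
  apply Subtype.ext
  apply Units.ext
  show matM c φ = A
  apply Matrix.ext_of_mulVec_single
  intro i
  rw [matM_mulVec]
  rfl

/-- The outer automorphism group of the model. -/
noncomputable def outEquiv (c : Coc ι) (Q : (ι → ZMod 2) → ZMod 2) (hQ : ∀ v, Q v = c.β v v) :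
    Cfsg.Out (MM c) ≃* Cfsg.isometryGroup (ZMod 2) Q :=
  (QuotientGroup.quotientMulEquivOfEq (le_antisymm (inn_le_ker c Q hQ) (ker_le_inn c Q hQ))).trans
    (QuotientGroup.quotientKerEquivOfSurjective (Θ c Q hQ) (Θ_surjective c Q hQ))

/-- The outer automorphism groups of isomorphic groups are isomorphic. -/
theorem out_congr {G H : Type*} [Group G] [Group H] (e : G ≃* H) : Nonempty (Cfsg.Out G ≃* Cfsg.Out H) := by
  refine ⟨QuotientGroup.congr _ _ (MulAut.congr e) ?_⟩
  ext f
  constructor
  · rintro ⟨_, ⟨g, rfl⟩, rfl⟩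
    refine ⟨e g, ?_⟩
    apply MulEquiv.ext
    intro h
    show e g * h * (e g)⁻¹ = e (g * e.symm h * g⁻¹)
    simp
  · rintro ⟨g, rfl⟩
    refine ⟨MulAut.conj (e.symm g), ⟨e.symm g, rfl⟩, ?_⟩
    apply MulEquiv.ext
    intro h
    show e (e.symm g * e.symm h * (e.symm g)⁻¹) = g * h * g⁻¹
    simp

/-! ### The count -/

/-- The sign of an element of the field of two elements. -/
def chi2 (x : ZMod 2) : ℤ := if x = 0 then 1 else -1

lemma chi2_add (x y : ZMod 2) : chi2 (x + y) = chi2 x * chi2 y := by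
  revert x y; decide

lemma chi2_sum {α : Type*} (s : Finset α) (f : α → ZMod 2) : chi2 (∑ i ∈ s, f i) = ∏ i ∈ s, chi2 (f i) := by
  classical
  induction s using Finset.induction_on with
  | empty => simp [chi2]
  | insert a s ha ih => rw [Finset.sum_insert ha, Finset.prod_insert ha, chi2_add, ih]

/-- The number of involutions of the model in terms of the sign sum. -/
lemma sq1_MM (c : Coc ι) :
    (sq1 (MM c) : ℤ) = 2 ^ Fintype.card ι + ∑ v : ι → ZMod 2, chi2 (c.β v v) := by
  classical
  have h1 : sq1 (MM c) = Nat.card {p : (ι → ZMod 2) × ZMod 2 // c.β p.1 p.1 = 0} := by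
    apply Nat.card_congr
    apply (MM.equiv c).subtypeEquiv
    intro x
    constructor
    · intro h
      have h2 := congrArg MM.s h
      simp only [MM.mul_s, add2', zero_add, MM.one_s] at h2
      exact h2
    · intro h
      have h' : c.β x.v x.v = 0 := h
      apply MM.ext
      · exact v_add_self' _
      · show x.s + x.s + c.β x.v x.v = 0
        rw [h', add2', add_zero]
  rw [h1, Nat.card_eq_fintype_card, Fintype.card_subtype, Finset.card_filter]
  push_cast
  rw [Fintype.sum_prod_type]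
  have h2 : ∀ v : ι → ZMod 2,
      (∑ _y : ZMod 2, (if c.β v v = 0 then (1 : ℤ) else 0)) = 1 + chi2 (c.β v v) := by
    intro v
    rw [Finset.sum_const, Finset.card_univ, ZMod.card]
    rcases z01' (c.β v v) with h | h
    · rw [h]
      simp [chi2]
    · rw [h]
      simp [chi2]
  simp only [h2, Finset.sum_add_distrib]
  congr 1
  simp only [Finset.sum_const, Finset.card_univ, Fintype.card_pi, ZMod.card, Finset.prod_const]
  simp

lemma card_MM (c : Coc ι) : Nat.card (MM c) = 2 ^ (Fintype.card ι + 1) := by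
  rw [Nat.card_congr (MM.equiv c), Nat.card_prod, Nat.card_eq_fintype_card, Nat.card_eq_fintype_card]
  simp only [Fintype.card_pi, ZMod.card, Finset.prod_const, Finset.card_univ]
  rw [pow_succ]

end model

end Cfsg.Agent.H29.XS
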