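import Cfsg.Agent.Lib.H13.Extra

/-! # Extraspecial `2`-groups: classification through central decomposition -/

set_option autoImplicit false
set_option linter.style.haveILetI false

namespace Cfsg.Agent.H29.XS

open Cfsg

/-- The class of the finite groups with centre `{1, z}` and central squares:
the extraspecial `2`-groups and the group of order two. -/
structure XS (E : Type*) [Group E] (z : E) : Prop where
  z_ne : z ≠ 1
  z_sq : z * z = 1
  z_cen : ∀ x, x * z = z * x
  sq : ∀ x : E, x * x = 1 ∨ x * x = z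
  comm : ∀ a b : E, a * b = b * a ∨ a * b = z * (b * a)
  cen : ∀ c : E, (∀ x, c * x = x * c) → c = 1 ∨ c = z

section words

variable {E : Type*} [Group E]

/-- The centraliser of a pair. -/
def Cn (x y : E) : Subgroup E where
  carrier := {c | c * x = x * c ∧ c * y = y * c}
  mul_mem' := by
    rintro a b ⟨h1, h2⟩ ⟨h3, h4⟩
    constructor
    · rw [mul_assoc, h3, ← mul_assoc, h1, mul_assoc]
    · rw [mul_assoc, h4, ← mul_assoc, h2, mul_assoc]
  one_mem' := by simp
  inv_mem' := by
    rintro a ⟨h1, h2⟩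
    constructor
    · rw [inv_mul_eq_iff_eq_mul, ← mul_assoc, h1, mul_assoc, mul_inv_cancel, mul_one]
    · rw [inv_mul_eq_iff_eq_mul, ← mul_assoc, h2, mul_assoc, mul_inv_cancel, mul_one]

lemma mem_Cn {x y c : E} : c ∈ Cn x y ↔ c * x = x * c ∧ c * y = y * c := Iff.rfl

/-- The elements `x^a y^b`. -/
def dw (x y : E) (a b : Bool) : E := (cond a x 1) * (cond b y 1)

/-- The data of a non-commuting pair. -/
structure Pr (z x y s t : E) : Prop where
  hxy : x * y = z * (y * x)
  hxx : x * x = s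
  hyy : y * y = t
  hz : ∀ g, g * z = z * g
  hs : ∀ g, g * s = s * g
  ht : ∀ g, g * t = t * g
  hzz : z * z = 1
  hne : z ≠ 1

variable {z x y s t : E}

lemma Pr.hyx (h : Pr z x y s t) : y * x = z * (x * y) := by
  rw [h.hxy, ← mul_assoc, h.hzz, one_mul]

/-- The multiplication rule for the normal form. -/
theorem Pr.word_mul (h : Pr z x y s t) (a b a' b' : Bool) (c c' : E)
    (hc : c ∈ Cn x y) (hc' : c' ∈ Cn x y) :
    dw x y a b * c * (dw x y a' b' * c') =
      dw x y (xor a a') (xor b b') *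
        ((cond (a && a') s 1) * (cond (b && b') t 1) * (cond (b && a') z 1) * (c * c')) := by
  obtain ⟨hcx, hcy⟩ := hc
  obtain ⟨hcx', hcy'⟩ := hc'
  have hxx' : ∀ w, x * (x * w) = s * w := fun w => by rw [← mul_assoc, h.hxx]
  have hyy' : ∀ w, y * (y * w) = t * w := fun w => by rw [← mul_assoc, h.hyy]
  have hyx' : ∀ w, y * (x * w) = z * (x * (y * w)) := fun w => by
    rw [← mul_assoc, h.hyx]; simp only [mul_assoc]
  have hcx2 : ∀ w, c * (x * w) = x * (c * w) := fun w => by
    rw [← mul_assoc, hcx, mul_assoc]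
  have hcy2 : ∀ w, c * (y * w) = y * (c * w) := fun w => by
    rw [← mul_assoc, hcy, mul_assoc]
  have hmove : ∀ (ζ : E), (∀ g, g * ζ = ζ * g) → ∀ u w, u * (ζ * w) = ζ * (u * w) := fun ζ hζ u w => by
    rw [← mul_assoc, hζ, mul_assoc]
  have hz2 := hmove z h.hz
  have hs2 := hmove s h.hs
  have ht2 := hmove t h.ht
  have hxz := h.hz x
  have hyz := h.hz y
  have hxs := h.hs x
  have hys := h.hs y
  have hxt := h.ht x
  have hyt := h.ht y
  have hcz := h.hz c
  have hcs := h.hs c
  have hct := h.ht c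
  have hsz := h.hz s
  have htz := h.hz t
  have hts := h.hs t
  cases a <;> cases b <;> cases a' <;> cases b' <;>
    simp only [dw, cond_true, cond_false, Bool.xor_true, Bool.xor_false, Bool.not_true, Bool.not_false,
      Bool.and_true, Bool.and_false, Bool.true_and, Bool.false_and, one_mul, mul_one, mul_assoc,
      hcx, hcy, hcx2, hcy2, hxx', hyy', h.hxx, h.hyy, h.hyx, hyx', hz2 c, hs2 c, ht2 c,
      hz2 x, hz2 y, hs2 x, hs2 y, ht2 x, ht2 y, hxz, hyz, hxs, hys, hxt, hyt,
      hcz, hcs, hct, hsz, htz, hts, hz2 s, hz2 t, hs2 t]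

/-- The normal form map. -/
def ev (x y : E) (p : Bool × Bool × Cn x y) : E := dw x y p.1 p.2.1 * (p.2.2 : E)

lemma Pr.dw_comm_y (h : Pr z x y s t) (a b : Bool) (c : E) (hc : c ∈ Cn x y) :
    (dw x y a b * c) * y = y * (dw x y a b * c) ↔ a = false := by
  obtain ⟨hcx, hcy⟩ := hc
  have hcan : ∀ w : E, w = z * w → False := fun w hw => by
    apply h.hne
    have : z * w = 1 * w := by rw [← hw, one_mul]
    exact mul_right_cancel this
  have hyx' : ∀ w, y * (x * w) = z * (x * (y * w)) := fun w => by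
    rw [← mul_assoc, h.hyx]; simp only [mul_assoc]
  have hcy2 : ∀ w, c * (y * w) = y * (c * w) := fun w => by
    rw [← mul_assoc, hcy, mul_assoc]
  cases a <;> cases b <;> simp only [dw, cond_true, cond_false, one_mul, mul_one, mul_assoc, hcy, hcy2,
    Bool.true_eq_false, iff_false, iff_true]
  · intro hh
    rw [hyx'] at hh
    exact hcan _ hh
  · intro hh
    rw [hyx'] at hh
    exact hcan _ hh

lemma Pr.dw_comm_x (h : Pr z x y s t) (a b : Bool) (c : E) (hc : c ∈ Cn x y) :
    (dw x y a b * c) * x = x * (dw x y a b * c) ↔ b = false := by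
  obtain ⟨hcx, hcy⟩ := hc
  have hcan : ∀ w : E, w = z * w → False := fun w hw => by
    apply h.hne
    have : z * w = 1 * w := by rw [← hw, one_mul]
    exact mul_right_cancel this
  have hyx' : ∀ w, y * (x * w) = z * (x * (y * w)) := fun w => by
    rw [← mul_assoc, h.hyx]; simp only [mul_assoc]
  have hz2 : ∀ u w, u * (z * w) = z * (u * w) := fun u w => by
    rw [← mul_assoc, h.hz, mul_assoc]
  cases a <;> cases b <;> simp only [dw, cond_true, cond_false, one_mul, mul_one, mul_assoc, hcx,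
    Bool.true_eq_false, iff_false, iff_true]
  · intro hh
    rw [hyx'] at hh
    exact hcan _ hh.symm
  · intro hh
    rw [hyx', hz2] at hh
    exact hcan _ hh.symm

lemma Pr.ev_injective (h : Pr z x y s t) : Function.Injective (ev x y) := by
  rintro ⟨a, b, c, hc⟩ ⟨a', b', c', hc'⟩ he
  have he' : dw x y a b * c = dw x y a' b' * c' := he
  have h1 : a = a' := by
    have h2 := h.dw_comm_y a b c hc
    have h3 := h.dw_comm_y a' b' c' hc'
    rw [he'] at h2
    have h4 : a = false ↔ a' = false := h2.symm.trans h3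
    cases a <;> cases a' <;> simp_all
  have h2 : b = b' := by
    have h2 := h.dw_comm_x a b c hc
    have h3 := h.dw_comm_x a' b' c' hc'
    rw [he'] at h2
    have h4 : b = false ↔ b' = false := h2.symm.trans h3
    cases b <;> cases b' <;> simp_all
  subst h1 h2
  have h3 : c = c' := mul_left_cancel he'
  subst h3
  rfl

/-- A sign lemma giving membership in the centraliser. -/
lemma inv_mul_mem_Cn {d g σ τ : E} (hσ : ∀ u, u * σ = σ * u) (hτ : ∀ u, u * τ = τ * u)
    (h1 : d * x = σ * (x * d)) (h2 : d * y = τ * (y * d)) (h3 : g * x = σ * (x * g))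
    (h4 : g * y = τ * (y * g)) : d⁻¹ * g ∈ Cn x y := by
  constructor
  · have h5 : x * d⁻¹ = d⁻¹ * (σ * x) := by
      rw [eq_inv_mul_iff_mul_eq, ← mul_assoc, h1]
      simp only [mul_assoc, mul_inv_cancel, mul_one]
    rw [mul_assoc, h3, ← mul_assoc x, h5]
    simp only [mul_assoc]
  · have h5 : y * d⁻¹ = d⁻¹ * (τ * y) := by
      rw [eq_inv_mul_iff_mul_eq, ← mul_assoc, h2]
      simp only [mul_assoc, mul_inv_cancel, mul_one]
    rw [mul_assoc, h4, ← mul_assoc y, h5]
    simp only [mul_assoc]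

lemma Pr.ev_surjective (h : Pr z x y s t) (hcomm : ∀ a b : E, a * b = b * a ∨ a * b = z * (b * a)) :
    Function.Surjective (ev x y) := by
  intro g
  have h1c : ∀ u : E, u * 1 = 1 * u := fun u => by simp
  have hxy1 : x * y = z * (y * x) := h.hxy
  have hyx1 : y * x = z * (x * y) := h.hyx
  -- the four commutation signs of the words
  have hd1 : (x * y) * x = z * (x * (x * y)) := by
    rw [mul_assoc, hyx1, ← mul_assoc x z, h.hz x]
    simp only [mul_assoc]
  have hd2 : (x * y) * y = z * (y * (x * y)) := by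
    rw [← mul_assoc y, hyx1, mul_assoc z, ← mul_assoc z z, h.hzz, one_mul]
  rcases hcomm g x with h1 | h1 <;> rcases hcomm g y with h2 | h2
  · exact ⟨(false, false, ⟨g, h1, h2⟩), by simp [ev, dw]⟩
  · -- the word `x`
    have hm : x⁻¹ * g ∈ Cn x y :=
      inv_mul_mem_Cn (σ := 1) (τ := z) h1c h.hz (by simp) hxy1 (by simpa using h1) h2
    exact ⟨(true, false, ⟨x⁻¹ * g, hm⟩), by simp [ev, dw]⟩
  · -- the word `y`
    have hm : y⁻¹ * g ∈ Cn x y :=
      inv_mul_mem_Cn (σ := z) (τ := 1) h.hz h1c hyx1 (by simp) h1 (by simpa using h2)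
    exact ⟨(false, true, ⟨y⁻¹ * g, hm⟩), by simp [ev, dw]⟩
  · -- the word `x y`
    have hm : (x * y)⁻¹ * g ∈ Cn x y :=
      inv_mul_mem_Cn (σ := z) (τ := z) h.hz h.hz hd1 hd2 h1 h2
    exact ⟨(true, true, ⟨(x * y)⁻¹ * g, hm⟩), by simp [ev, dw, mul_assoc]⟩

/-- The normal form bijection. -/
noncomputable def Pr.evEquiv (h : Pr z x y s t) (hcomm : ∀ a b : E, a * b = b * a ∨ a * b = z * (b * a)) :
    Bool × Bool × Cn x y ≃ E :=
  Equiv.ofBijective (ev x y) ⟨h.ev_injective, h.ev_surjective hcomm⟩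

lemma Pr.card_eq (h : Pr z x y s t) (hcomm : ∀ a b : E, a * b = b * a ∨ a * b = z * (b * a)) :
    Nat.card E = 4 * Nat.card (Cn x y) := by
  rw [← Nat.card_congr (h.evEquiv hcomm), Nat.card_prod, Nat.card_prod]
  simp
  ring

/-- Being central elements of the group, `z, s, t` lie in the centraliser. -/
lemma Pr.z_mem (h : Pr z x y s t) : z ∈ Cn x y := ⟨(h.hz x).symm, (h.hz y).symm⟩
lemma Pr.s_mem (h : Pr z x y s t) : s ∈ Cn x y := ⟨(h.hs x).symm, (h.hs y).symm⟩
lemma Pr.t_mem (h : Pr z x y s t) : t ∈ Cn x y := ⟨(h.ht x).symm, (h.ht y).symm⟩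

/-- The isomorphism of two central decompositions. -/
theorem iso_of_decomp {E' : Type*} [Group E'] {z' x' y' s' t' : E'}
    (h : Pr z x y s t) (h' : Pr z' x' y' s' t')
    (hcomm : ∀ a b : E, a * b = b * a ∨ a * b = z * (b * a))
    (hcomm' : ∀ a b : E', a * b = b * a ∨ a * b = z' * (b * a))
    (ψ : Cn x y ≃* Cn x' y')
    (hψz : ψ ⟨z, h.z_mem⟩ = ⟨z', h'.z_mem⟩) (hψs : ψ ⟨s, h.s_mem⟩ = ⟨s', h'.s_mem⟩)
    (hψt : ψ ⟨t, h.t_mem⟩ = ⟨t', h'.t_mem⟩) : Nonempty (E ≃* E') := by
  classical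
  let e := h.evEquiv hcomm
  let e' := h'.evEquiv hcomm'
  let Φ : E ≃ E' := e.symm.trans
    ((Equiv.prodCongr (Equiv.refl _) (Equiv.prodCongr (Equiv.refl _) ψ.toEquiv)).trans e')
  have hΦ : ∀ (a b : Bool) (c : Cn x y), Φ (dw x y a b * (c : E)) = dw x' y' a b * (ψ c : E') := by
    intro a b c
    have h1 : dw x y a b * (c : E) = e (a, b, c) := rfl
    show e' (_) = _
    rw [show (dw x y a b * (c : E)) = e (a, b, c) from rfl]
    simp only [Equiv.symm_apply_apply]
    rfl
  -- the twisted product on `C`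
  let κ : Bool → Bool → Bool → Bool → Cn x y := fun a b a' b' =>
    (cond (a && a') (⟨s, h.s_mem⟩ : Cn x y) 1) * (cond (b && b') (⟨t, h.t_mem⟩ : Cn x y) 1) *
      (cond (b && a') (⟨z, h.z_mem⟩ : Cn x y) 1)
  have hκ : ∀ a b a' b', ((κ a b a' b' : Cn x y) : E) =
      (cond (a && a') s 1) * (cond (b && b') t 1) * (cond (b && a') z 1) := by
    intro a b a' b'
    cases a <;> cases b <;> cases a' <;> cases b' <;> simp [κ]
  have hκ' : ∀ a b a' b', ((ψ (κ a b a' b') : Cn x' y') : E') =
      (cond (a && a') s' 1) * (cond (b && b') t' 1) * (cond (b && a') z' 1) := by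
    intro a b a' b'
    have hc : ∀ (c : Bool) (u : Cn x y), ψ (cond c u 1) = cond c (ψ u) 1 := by
      intro c u
      cases c <;> simp
    simp only [κ, map_mul, hc, hψs, hψt, hψz]
    cases a <;> cases b <;> cases a' <;> cases b' <;> simp
  refine ⟨MulEquiv.mk' Φ ?_⟩
  intro u v
  obtain ⟨⟨a, b, c⟩, rfl⟩ := e.surjective u
  obtain ⟨⟨a', b', c'⟩, rfl⟩ := e.surjective v
  have huv : e (a, b, c) * e (a', b', c') =
      dw x y (xor a a') (xor b b') * ((κ a b a' b' * (c * c') : Cn x y) : E) := by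
    show dw x y a b * (c : E) * (dw x y a' b' * (c' : E)) = _
    rw [h.word_mul _ _ _ _ _ _ c.2 c'.2]
    congr 1
    show _ = ((κ a b a' b' : Cn x y) : E) * ((c : E) * (c' : E))
    rw [hκ]
  have h1 : Φ (e (a, b, c)) = dw x' y' a b * (ψ c : E') := hΦ a b c
  have h2 : Φ (e (a', b', c')) = dw x' y' a' b' * (ψ c' : E') := hΦ a' b' c'
  rw [huv, hΦ, h1, h2, h'.word_mul _ _ _ _ _ _ (ψ c).2 (ψ c').2]
  congr 1
  have h3 : ∀ k u v : Cn x y, ((ψ (k * (u * v)) : Cn x' y') : E') =
      ((ψ k : Cn x' y') : E') * ((ψ u : E') * (ψ v : E')) := by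
    intro k u v
    rw [map_mul, map_mul]
    rfl
  rw [h3, hκ']


/-! ### Inheritance to the centraliser -/

/-- The class passes to the centraliser of a pair. -/
theorem XS.cn {z x y s t : E} (hE : XS E z) (h : Pr z x y s t) :
    XS (Cn x y) (⟨z, h.z_mem⟩ : Cn x y) := by
  refine ⟨?_, ?_, ?_, ?_, ?_, ?_⟩
  · intro h1
    exact hE.z_ne (congrArg Subtype.val h1)
  · exact Subtype.ext hE.z_sq
  · intro u
    exact Subtype.ext (hE.z_cen u)
  · intro u
    rcases hE.sq (u : E) with h1 | h1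
    · exact Or.inl (Subtype.ext h1)
    · exact Or.inr (Subtype.ext h1)
  · intro a b
    rcases hE.comm (a : E) (b : E) with h1 | h1
    · exact Or.inl (Subtype.ext h1)
    · exact Or.inr (Subtype.ext h1)
  · intro c hc
    have hc' : ∀ g : E, (c : E) * g = g * c := by
      intro g
      obtain ⟨⟨a, b, u⟩, rfl⟩ := h.ev_surjective hE.comm g
      have h1 : (c : E) * u = u * c := congrArg Subtype.val (hc u)
      have h2 : (c : E) * x = x * c := c.2.1.symm ▸ c.2.1
      have h3 : (c : E) * y = y * c := c.2.2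
      have h4 : (c : E) * dw x y a b = dw x y a b * c := by
        cases a <;> cases b <;> simp only [dw, cond_true, cond_false, one_mul, mul_one]
        · exact h3
        · exact c.2.1
        · rw [← mul_assoc, c.2.1, mul_assoc, h3, mul_assoc]
      show (c : E) * (dw x y a b * u) = (dw x y a b * u) * c
      rw [← mul_assoc, h4, mul_assoc, h1, mul_assoc]
    rcases hE.cen _ hc' with h1 | h1
    · exact Or.inl (Subtype.ext h1)
    · exact Or.inr (Subtype.ext h1)

end words

end Cfsg.Agent.H29.XS
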