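import Cfsg.Agent.Lib.H29.ExtraSp
import Cfsg.Agent.Lib.H13.OneInv3

/-! # Extraspecial `2`-groups: the counts, the ranks and the classification -/

set_option autoImplicit false
set_option linter.style.haveILetI false

universe u v

namespace Cfsg.Agent.H29.XS

open Cfsg

/-- The number of solutions of `g * g = 1`. -/
noncomputable def sq1 (E : Type*) [Group E] : ℕ := Nat.card {g : E // g * g = 1}

section count

variable {E : Type*} [Group E] {z x y : E}

lemma ev_sq (h : Pr z x y 1 1) (a b : Bool) (c : Cn x y) :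
    ev x y (a, b, c) * ev x y (a, b, c) = (cond (b && a) z 1) * ((c : E) * c) := by
  show dw x y a b * (c : E) * (dw x y a b * (c : E)) = _
  rw [h.word_mul a b a b c c c.2 c.2]
  cases a <;> cases b <;> simp [dw]

/-- The number of involutions through the decomposition. -/
theorem sq1_eq [Finite E] (hE : XS E z) (h : Pr z x y 1 1) :
    sq1 E = 2 * sq1 (Cn x y) + Nat.card (Cn x y) := by
  classical
  letI : Fintype (Cn x y) := Fintype.ofFinite _
  let e := h.evEquiv hE.comm
  have h1 : sq1 E = Nat.card {p : Bool × Bool × Cn x y // ev x y p * ev x y p = 1} :=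
    (Nat.card_congr (e.subtypeEquiv (fun p => Iff.rfl))).symm
  have hkey : ∀ (a b : Bool) (c : Cn x y), (ev x y (a, b, c) * ev x y (a, b, c) = 1) ↔
      (if (a && b) = true then (c : E) * c = z else (c : E) * c = 1) := by
    intro a b c
    rw [ev_sq h]
    cases a <;> cases b <;> simp
    constructor
    · intro h2
      have : z * (z * ((c : E) * c)) = z * 1 := by rw [h2]
      rw [← mul_assoc, hE.z_sq, one_mul, mul_one] at this
      exact this
    · intro h2
      rw [h2]
      exact hE.z_sq
  have hn1 : sq1 (Cn x y) = ∑ c : Cn x y, if (c : E) * c = 1 then 1 else 0 := by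
    rw [sq1, Nat.card_eq_fintype_card, Fintype.card_subtype, Finset.card_filter]
    apply Finset.sum_congr rfl
    intro c _
    by_cases hc : (c : E) * c = 1
    · rw [if_pos hc, if_pos (Subtype.ext hc)]
    · rw [if_neg hc, if_neg (fun h => hc (congrArg Subtype.val h))]
  have hn2 : Nat.card (Cn x y) = (∑ c : Cn x y, if (c : E) * c = 1 then 1 else 0) +
      ∑ c : Cn x y, if (c : E) * c = z then 1 else 0 := by
    rw [Nat.card_eq_fintype_card, ← Finset.sum_add_distrib, Fintype.card, Finset.card_eq_sum_ones]
    apply Finset.sum_congr rfl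
    intro c _
    rcases hE.sq (c : E) with hc | hc
    · have : ¬ (c : E) * c = z := by
        rw [hc]
        exact fun h => hE.z_ne h.symm
      rw [if_pos hc, if_neg this]
    · have : ¬ (c : E) * c = 1 := by
        rw [hc]
        exact hE.z_ne
      rw [if_neg this, if_pos hc]
  rw [h1, hn2, hn1, Nat.card_eq_fintype_card, Fintype.card_subtype, Finset.card_filter,
    Fintype.sum_prod_type]
  simp only [Fintype.sum_prod_type, Fintype.sum_bool]
  have hite : ∀ (a b : Bool) (c : Cn x y), (if ev x y (a, b, c) * ev x y (a, b, c) = 1 then 1 else 0) =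
      (if (if (a && b) = true then (c : E) * c = z else (c : E) * c = 1) then 1 else 0) := by
    intro a b c
    simp only [hkey]
  simp only [hite]
  simp
  ring

end count

section pairs

variable {E : Type*} [Group E] {z : E}

/-- A non-central involution lies in a hyperbolic pair of involutions. -/
theorem exists_pair (hE : XS E z) {x : E} (hx : x * x = 1) (hnc : ¬ ∀ g, x * g = g * x) :
    ∃ y, Pr z x y 1 1 := by
  push Not at hnc
  obtain ⟨w, hw⟩ := hnc
  have hwc : x * w = z * (w * x) := (hE.comm x w).resolve_left hw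
  have hz2 : ∀ u v, u * (z * v) = z * (u * v) := fun u v => by
    rw [← mul_assoc, hE.z_cen, mul_assoc]
  rcases hE.sq w with hww | hww
  · refine ⟨w, hwc, hx, hww, hE.z_cen, by simp, by simp, hE.z_sq, hE.z_ne⟩
  · refine ⟨w * x, ?_, hx, ?_, hE.z_cen, by simp, by simp, hE.z_sq, hE.z_ne⟩
    · rw [← mul_assoc x, hwc]
      simp only [mul_assoc]
    · calc w * x * (w * x) = w * (x * w) * x := by simp only [mul_assoc]
        _ = w * (z * (w * x)) * x := by rw [hwc]
        _ = z * (w * w) * (x * x) := by rw [hz2]; simp only [mul_assoc]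
        _ = 1 := by rw [hww, hx, hE.z_sq, one_mul]

/-- Elementary abelian subgroups are commutative. -/
lemma comm_of_exp2 {A : Subgroup E} (hA : ∀ a ∈ A, a * a = 1) {a b : E} (ha : a ∈ A) (hb : b ∈ A) :
    a * b = b * a := by
  have h1 := hA _ (A.mul_mem ha hb)
  have h2 := hA a ha
  have h3 := hA b hb
  calc a * b = a * b * (b * a) * (b * a)⁻¹ := by group
    _ = (b * a)⁻¹ := by
      rw [show a * b * (b * a) = a * (b * b) * a by simp only [mul_assoc], h3, mul_one, h2, one_mul]
    _ = b * a := by
      rw [inv_eq_iff_mul_eq_one, show b * a * (b * a) = (b * a) * (b * a) from rfl]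
      exact hA _ (A.mul_mem hb ha)

/-- The rank goes up by one: existence. -/
theorem up_ex [Finite E] {x y : E} (hE : XS E z) (h : Pr z x y 1 1) (A' : Subgroup (Cn x y))
    (hA' : ∀ a ∈ A', a * a = 1) :
    ∃ A : Subgroup E, (∀ a ∈ A, a * a = 1) ∧ Nat.card A = 2 * Nat.card A' := by
  classical
  have hcx : ∀ c : Cn x y, (c : E) * x = x * c := fun c => c.2.1
  have hxx := h.hxx
  have hsq : ∀ g : E, (∃ c ∈ A', g = c ∨ g = x * c) → g * g = 1 := by
    rintro g ⟨c, hc, rfl | rfl⟩
    · exact congrArg Subtype.val (hA' c hc)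
    · have h1 : (c : E) * c = 1 := congrArg Subtype.val (hA' c hc)
      calc x * c * (x * c) = (x * x) * ((c : E) * c) := by
            rw [mul_assoc, ← mul_assoc (c : E), hcx]; simp only [mul_assoc]
        _ = 1 := by rw [hxx, h1, one_mul]
  let A : Subgroup E :=
    { carrier := {g | ∃ c ∈ A', g = c ∨ g = x * c}
      mul_mem' := by
        rintro a b ⟨c, hc, rfl | rfl⟩ ⟨c', hc', rfl | rfl⟩
        · exact ⟨c * c', A'.mul_mem hc hc', Or.inl rfl⟩
        · refine ⟨c * c', A'.mul_mem hc hc', Or.inr ?_⟩
          show (c : E) * (x * c') = x * ((c : E) * c')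
          rw [← mul_assoc, hcx, mul_assoc]
        · refine ⟨c * c', A'.mul_mem hc hc', Or.inr ?_⟩
          show x * (c : E) * c' = x * ((c : E) * c')
          rw [mul_assoc]
        · refine ⟨c * c', A'.mul_mem hc hc', Or.inl ?_⟩
          show x * (c : E) * (x * c') = (c : E) * c'
          rw [mul_assoc, ← mul_assoc (c : E), hcx]
          simp only [mul_assoc]
          rw [← mul_assoc x x, hxx, one_mul]
      one_mem' := ⟨1, A'.one_mem, Or.inl rfl⟩
      inv_mem' := by
        intro g hg
        have h1 := hsq g hg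
        have h2 : g⁻¹ = g := inv_eq_of_mul_eq_one_left h1
        rw [h2]
        exact hg }
  refine ⟨A, fun a ha => hsq a ha, ?_⟩
  let f : Bool × A' → A := fun p => ⟨cond p.1 x 1 * ((p.2 : Cn x y) : E), by
    rcases p with ⟨a, c, hc⟩
    cases a
    · exact ⟨c, hc, Or.inl (by simp)⟩
    · exact ⟨c, hc, Or.inr (by simp)⟩⟩
  have hf : Function.Bijective f := by
    constructor
    · rintro ⟨a, c⟩ ⟨a', c'⟩ he
      have he' : cond a x 1 * ((c : Cn x y) : E) = cond a' x 1 * ((c' : Cn x y) : E) :=
        congrArg Subtype.val he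
      have h1 : ev x y (a, false, c) = ev x y (a', false, c') := by
        show dw x y a false * _ = dw x y a' false * _
        simpa [dw] using he'
      have h2 := h.ev_injective h1
      simp only [Prod.mk.injEq] at h2
      obtain ⟨rfl, -, h3⟩ := h2
      have : c = c' := Subtype.ext h3
      rw [this]
    · rintro ⟨g, c, hc, hg⟩
      rcases hg with rfl | rfl
      · exact ⟨(false, ⟨c, hc⟩), Subtype.ext (by simp [f])⟩
      · exact ⟨(true, ⟨c, hc⟩), Subtype.ext (by simp [f])⟩
  rw [← Nat.card_congr (Equiv.ofBijective f hf), Nat.card_prod]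
  simp

/-- The rank goes up by one: the upper bound, for a subgroup through `x`. -/
theorem up_ub [Finite E] {x y : E} (hE : XS E z) (h : Pr z x y 1 1) (A : Subgroup E)
    (hA : ∀ a ∈ A, a * a = 1) (hxA : x ∈ A) (n : ℕ)
    (hB : ∀ B : Subgroup (Cn x y), (∀ b ∈ B, b * b = 1) → Nat.card B ≤ n) :
    Nat.card A ≤ 2 * n := by
  classical
  have hcx : ∀ c : Cn x y, (c : E) * x = x * c := fun c => c.2.1
  have hxx := h.hxx
  have hmem : ∀ c : Cn x y, ((c : E) ∈ A ∨ x * (c : E) ∈ A) → ((c : E) * c = 1) := by
    rintro c (hc | hc)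
    · exact hA _ hc
    · have h1 := hA _ hc
      have h2 : x * (c : E) * (x * c) = (x * x) * ((c : E) * c) := by
        rw [mul_assoc, ← mul_assoc (c : E), hcx]; simp only [mul_assoc]
      rw [h2, hxx, one_mul] at h1
      exact h1
  let B : Subgroup (Cn x y) :=
    { carrier := {c | (c : E) ∈ A ∨ x * (c : E) ∈ A}
      mul_mem' := by
        rintro a b (ha | ha) (hb | hb)
        · exact Or.inl (A.mul_mem ha hb)
        · refine Or.inr ?_
          have : x * ((a * b : Cn x y) : E) = (a : E) * (x * b) := by
            show x * ((a : E) * b) = _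
            rw [← mul_assoc, ← mul_assoc, hcx]
          rw [this]
          exact A.mul_mem ha hb
        · refine Or.inr ?_
          have : x * ((a * b : Cn x y) : E) = (x * a) * b := by
            show x * ((a : E) * b) = _
            rw [mul_assoc]
          rw [this]
          exact A.mul_mem ha hb
        · refine Or.inl ?_
          have : ((a * b : Cn x y) : E) = (x * a) * (x * b) := by
            show (a : E) * b = _
            rw [mul_assoc, ← mul_assoc (a : E), hcx]
            simp only [mul_assoc]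
            rw [← mul_assoc x x, hxx, one_mul]
          rw [this]
          exact A.mul_mem ha hb
      one_mem' := Or.inl A.one_mem
      inv_mem' := by
        intro c hc
        have h1 : c * c = 1 := Subtype.ext (hmem c hc)
        have h2 : c⁻¹ = c := inv_eq_of_mul_eq_one_left h1
        rw [h2]
        exact hc }
  have hBexp : ∀ b ∈ B, b * b = 1 := fun b hb => Subtype.ext (hmem b hb)
  have hrep : ∀ a : A, ∃ (f : Bool) (c : B), (a : E) = cond f x 1 * (((c : Cn x y)) : E) := by
    rintro ⟨a, ha⟩
    have hax : a * x = x * a := comm_of_exp2 hA ha hxA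
    rcases hE.comm a y with h1 | h1
    · exact ⟨false, ⟨⟨a, hax, h1⟩, Or.inl ha⟩, by simp⟩
    · have hm : x * a ∈ Cn x y := by
        constructor
        · rw [mul_assoc, hax]
        · show x * a * y = y * (x * a)
          calc x * a * y = x * (a * y) := mul_assoc _ _ _
            _ = x * (z * (y * a)) := by rw [h1]
            _ = z * (x * (y * a)) := by
                rw [← mul_assoc, hE.z_cen, mul_assoc]
            _ = z * ((x * y) * a) := by rw [mul_assoc]
            _ = z * ((z * (y * x)) * a) := by rw [h.hxy]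
            _ = (z * z) * (y * (x * a)) := by simp only [mul_assoc]
            _ = y * (x * a) := by rw [hE.z_sq, one_mul]
      have hm2 : x * ((⟨x * a, hm⟩ : Cn x y) : E) ∈ A := by
        show x * (x * a) ∈ A
        rw [← mul_assoc, hxx, one_mul]
        exact ha
      refine ⟨true, ⟨⟨x * a, hm⟩, Or.inr hm2⟩, ?_⟩
      show a = cond true x 1 * (x * a)
      simp only [cond_true]
      rw [← mul_assoc, hxx, one_mul]
  choose f c hfc using hrep
  have hinj : Function.Injective (fun a : A => (f a, c a)) := by
    intro a a' he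
    have h1 : f a = f a' := congrArg Prod.fst he
    have h2 : c a = c a' := congrArg Prod.snd he
    apply Subtype.ext
    rw [hfc a, hfc a', h1, h2]
  have h1 := Nat.card_le_card_of_injective _ hinj
  rw [Nat.card_prod] at h1
  have h2 := hB B hBexp
  simp at h1
  nlinarith

end pairs

section main

/-- The invariants of a group of the class. -/
structure Ty (E : Type*) [Group E] (m : ℕ) (ε : Bool) : Prop where
  card : Nat.card E = 2 ^ (2 * m + 1)
  nn : sq1 E + cond ε 0 (2 ^ m) = 2 ^ (2 * m) + cond ε (2 ^ m) 0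
  ex : ∃ A : Subgroup E, (∀ a ∈ A, a * a = 1) ∧ Nat.card A = 2 ^ (m + cond ε 1 0)
  ub : ∀ A : Subgroup E, (∀ a ∈ A, a * a = 1) → Nat.card A ≤ 2 ^ (m + cond ε 1 0)
  pos : ε = false → 1 ≤ m

variable {E : Type*} [Group E] {z : E}

/-- The subgroup `{1, z}`. -/
def Z0 (hE : XS E z) : Subgroup E where
  carrier := {c | c = 1 ∨ c = z}
  mul_mem' := by
    rintro a b (rfl | rfl) (rfl | rfl)
    · left; simp
    · right; simp
    · right; simp
    · left; exact hE.z_sq
  one_mem' := Or.inl rfl
  inv_mem' := by
    rintro a (rfl | rfl)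
    · left; simp
    · right
      exact inv_eq_of_mul_eq_one_left hE.z_sq

lemma card_Z0 (hE : XS E z) : Nat.card (Z0 hE) = 2 := by
  rw [Nat.card_eq_two_iff]
  refine ⟨⟨1, Or.inl rfl⟩, ⟨z, Or.inr rfl⟩, ?_, ?_⟩
  · intro h
    exact hE.z_ne (congrArg Subtype.val h).symm
  · ext ⟨c, hc⟩
    simp only [Set.mem_insert_iff, Set.mem_singleton_iff, Set.mem_univ, iff_true]
    rcases hc with rfl | rfl
    · exact Or.inl rfl
    · exact Or.inr rfl

lemma sq1_of_noinv (hE : XS E z) (h : ∀ g : E, g * g = 1 → g = 1 ∨ g = z) : sq1 E = 2 := by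
  rw [← card_Z0 hE]
  apply Nat.card_congr
  apply Equiv.subtypeEquivRight
  intro g
  constructor
  · exact h g
  · rintro (rfl | rfl)
    · simp
    · exact hE.z_sq

/-- The case of a group without non-central involution. -/
theorem qcase (hE : XS E z) (hnab : ¬ ∀ c g : E, c * g = g * c)
    (hnoinv : ∀ g : E, g * g = 1 → g = 1 ∨ g = z) :
    ∃ a b, Pr z a b z z ∧ ∀ c ∈ Cn a b, c = 1 ∨ c = z := by
  have hnc : ∀ g : E, (¬ ∀ h, g * h = h * g) → g * g = z := by
    intro g hg
    rcases hE.sq g with h1 | h1
    · exfalso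
      rcases hnoinv g h1 with rfl | rfl
      · exact hg (by simp)
      · exact hg (fun h => (hE.z_cen h).symm)
    · exact h1
  push Not at hnab
  obtain ⟨a, b, hab⟩ := hnab
  have haa : a * a = z := hnc a (fun h => hab (h b))
  have hbb : b * b = z := hnc b (fun h => hab (h a).symm)
  refine ⟨a, b, ⟨(hE.comm a b).resolve_left hab, haa, hbb, hE.z_cen, hE.z_cen, hE.z_cen, hE.z_sq, hE.z_ne⟩, ?_⟩
  rintro c ⟨hca, hcb⟩
  by_contra hne
  have hc : c * c = z := by
    apply hnc
    intro hall
    exact hne (hE.cen c hall)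
  have hu : (a * c) * (a * c) = 1 := by
    calc (a * c) * (a * c) = a * (c * a) * c := by simp only [mul_assoc]
      _ = (a * a) * (c * c) := by rw [hca]; simp only [mul_assoc]
      _ = 1 := by rw [haa, hc, hE.z_sq]
  have hcen : (a * c) * b = b * (a * c) := by
    rcases hnoinv _ hu with h1 | h1
    · rw [h1]; simp
    · rw [h1]; exact (hE.z_cen b).symm
  apply hab
  have h2 : a * b * c = b * a * c := by
    calc a * b * c = a * (b * c) := mul_assoc _ _ _
      _ = a * (c * b) := by rw [hcb]
      _ = a * c * b := (mul_assoc _ _ _).symm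
      _ = b * (a * c) := hcen
      _ = b * a * c := (mul_assoc _ _ _).symm
  exact mul_right_cancel h2

lemma pow_aux (m : ℕ) : (2 : ℕ) ^ (2 * (m + 1) + 1) = 4 * 2 ^ (2 * m + 1) := by ring

/-- Any group of the class has invariants. -/
theorem ty_exists : ∀ (n : ℕ) (E : Type u) [Group E] [Finite E] (z : E), XS E z → Nat.card E = n →
    ∃ m ε, Ty E m ε := by
  intro n
  induction n using Nat.strong_induction_on with
  | _ n ih =>
  intro E _ _ z hE hn
  by_cases hab : ∀ c g : E, c * g = g * c
  · -- the group of order two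
    have hall : ∀ c : E, c = 1 ∨ c = z := fun c => hE.cen c (hab c)
    have hZ : Z0 hE = ⊤ := by
      ext c
      simp only [Subgroup.mem_top, iff_true]
      exact hall c
    have hc2 : Nat.card E = 2 := by
      rw [← card_Z0 hE, hZ]
      exact (Nat.card_congr Subgroup.topEquiv.toEquiv).symm
    refine ⟨0, true, ⟨by simpa using hc2, ?_, ⟨⊤, ?_, ?_⟩, ?_, by simp⟩⟩
    · have : sq1 E = 2 := sq1_of_noinv hE (fun g _ => hall g)
      simp [this]
    · intro a _
      rcases hall a with rfl | rfl
      · simp
      · exact hE.z_sq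
    · rw [Nat.card_congr Subgroup.topEquiv.toEquiv, hc2]
      simp
    · intro A _
      have := Subgroup.card_le_card_group A
      rw [hc2] at this
      simpa using this
  by_cases hinv : ∀ g : E, g * g = 1 → g = 1 ∨ g = z
  · -- no non-central involution
    obtain ⟨a, b, hp, hC⟩ := qcase hE hab hinv
    have hC2 : Nat.card (Cn a b) = 2 := by
      rw [← card_Z0 hE]
      apply Nat.card_congr
      apply Equiv.subtypeEquivRight
      intro c
      constructor
      · exact hC c
      · rintro (rfl | rfl)
        · exact (Cn a b).one_mem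
        · exact hp.z_mem
    refine ⟨1, false, ⟨?_, ?_, ⟨Z0 hE, ?_, ?_⟩, ?_, by simp⟩⟩
    · rw [hp.card_eq hE.comm, hC2]
      norm_num
    · rw [sq1_of_noinv hE hinv]
      norm_num
    · rintro c (rfl | rfl)
      · simp
      · exact hE.z_sq
    · rw [card_Z0]
      norm_num
    · intro A hA
      have hle : A ≤ Z0 hE := fun c hc => hinv c (hA c hc)
      have := Subgroup.card_le_of_le hle
      rw [card_Z0] at this
      simpa using this
  -- the general step
  have hinv' := hinv
  push Not at hinv'
  obtain ⟨x, hxx, hx1, hxz⟩ := hinv'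
  have hxnc : ¬ ∀ g, x * g = g * x := fun h => by
    rcases hE.cen x h with h1 | h1
    · exact hx1 h1
    · exact hxz h1
  obtain ⟨y, hp⟩ := exists_pair hE hxx hxnc
  have hcard := hp.card_eq hE.comm
  have hpos : 0 < Nat.card (Cn x y) := Nat.card_pos
  obtain ⟨m, ε, ht⟩ := ih (Nat.card (Cn x y)) (by omega) (Cn x y) _ (hE.cn hp) rfl
  have hsq := sq1_eq hE hp
  refine ⟨m + 1, ε, ⟨?_, ?_, ?_, ?_, by simp⟩⟩
  · rw [hcard, ht.card]
    ring
  · have h1 := ht.nn
    have h2 := ht.card
    rw [hsq, h2]
    have h3 : (2 : ℕ) ^ (2 * m + 1) = 2 * 2 ^ (2 * m) := by ring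
    have h4 : (2 : ℕ) ^ (2 * (m + 1)) = 4 * 2 ^ (2 * m) := by ring
    have h5 : (2 : ℕ) ^ (m + 1) = 2 * 2 ^ m := by ring
    rw [h3, h4, h5]
    cases ε
    · simp only [cond_false] at h1 ⊢
      omega
    · simp only [cond_true] at h1 ⊢
      omega
  · obtain ⟨A', hA', hA'c⟩ := ht.ex
    obtain ⟨A, hA, hAc⟩ := up_ex hE hp A' hA'
    refine ⟨A, hA, ?_⟩
    rw [hAc, hA'c]
    ring
  · intro A hA
    by_cases hsub : ∀ a ∈ A, a = 1 ∨ a = z
    · have := Subgroup.card_le_of_le (show A ≤ Z0 hE from hsub)
      rw [card_Z0] at this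
      refine this.trans ?_
      calc 2 = 2 ^ 1 := by norm_num
        _ ≤ 2 ^ (m + 1 + cond ε 1 0) := Nat.pow_le_pow_right (by norm_num) (by omega)
    · push Not at hsub
      obtain ⟨u, huA, hu1, huz⟩ := hsub
      have hunc : ¬ ∀ g, u * g = g * u := fun h => by
        rcases hE.cen u h with h1 | h1
        · exact hu1 h1
        · exact huz h1
      obtain ⟨v, hp'⟩ := exists_pair hE (hA u huA) hunc
      have hcard' := hp'.card_eq hE.comm
      obtain ⟨m', ε', ht'⟩ := ih (Nat.card (Cn u v)) (by
        have : 0 < Nat.card (Cn u v) := Nat.card_pos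
        omega) (Cn u v) _ (hE.cn hp') rfl
      have hsq' := sq1_eq hE hp'
      have hCC : Nat.card (Cn u v) = Nat.card (Cn x y) := by omega
      have hsqq : sq1 (Cn u v) = sq1 (Cn x y) := by omega
      have hm : m' = m := by
        have h1 := ht'.card
        rw [hCC, ht.card] at h1
        have := Nat.pow_right_injective (le_refl 2) h1
        omega
      subst hm
      have hε : ε' = ε := by
        have h1 := ht.nn
        have h2 := ht'.nn
        have h3 : 0 < 2 ^ m' := by positivity
        rw [hsqq] at h2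
        cases ε <;> cases ε'
        · rfl
        · simp only [cond_true, cond_false] at h1 h2
          omega
        · simp only [cond_true, cond_false] at h1 h2
          omega
        · rfl
      subst hε
      have h5 := up_ub hE hp' A hA huA _ ht'.ub
      refine h5.trans (le_of_eq ?_)
      ring

lemma three_le_sq1 {F : Type*} [Group F] [Finite F] {w : F} (hF : XS F w)
    (hne : ¬ ∀ g : F, g * g = 1 → g = 1 ∨ g = w) : 3 ≤ sq1 F := by
  push Not at hne
  obtain ⟨g, hg, hg1, hgw⟩ := hne
  classical
  letI : Fintype F := Fintype.ofFinite _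
  rw [sq1, Nat.card_eq_fintype_card, Fintype.card_subtype]
  have hsub : ({1, w, g} : Finset F) ⊆ Finset.univ.filter (fun h : F => h * h = 1) := by
    intro h hh
    simp only [Finset.mem_insert, Finset.mem_singleton] at hh
    simp only [Finset.mem_filter, Finset.mem_univ, true_and]
    rcases hh with rfl | rfl | rfl
    · simp
    · exact hF.z_sq
    · exact hg
  have h3 : ({1, w, g} : Finset F).card = 3 := by
    rw [Finset.card_insert_of_notMem, Finset.card_insert_of_notMem, Finset.card_singleton]
    · simpa using hgw.symm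
    · simp only [Finset.mem_insert, Finset.mem_singleton, not_or]
      exact ⟨hF.z_ne.symm, hg1.symm⟩
  rw [← h3]
  exact Finset.card_le_card hsub

/-- Groups of the class with the same order and the same count are isomorphic. -/
theorem iso_exists : ∀ (n : ℕ) (E : Type u) [Group E] [Finite E] (z : E) (E' : Type v) [Group E'] [Finite E']
    (z' : E'), XS E z → XS E' z' → Nat.card E = n → Nat.card E' = n → sq1 E = sq1 E' →
    Nonempty (E ≃* E') := by
  intro n
  induction n using Nat.strong_induction_on with
  | _ n ih =>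
  intro E _ _ z E' _ _ z' hE hE' hn hn' hsq
  haveI : Fact (Nat.Prime 2) := ⟨Nat.prime_two⟩
  by_cases hab : ∀ c g : E, c * g = g * c
  · -- the groups of order two
    have hall : ∀ c : E, c = 1 ∨ c = z := fun c => hE.cen c (hab c)
    have hZ : Z0 hE = ⊤ := by
      ext c
      simp only [Subgroup.mem_top, iff_true]
      exact hall c
    have hc2 : Nat.card E = 2 := by
      rw [← card_Z0 hE, hZ]
      exact (Nat.card_congr Subgroup.topEquiv.toEquiv).symm
    exact ⟨mulEquivOfPrimeCardEq hc2 (by omega)⟩
  by_cases hinv : ∀ g : E, g * g = 1 → g = 1 ∨ g = z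
  · -- no non-central involutions
    have hs2 := sq1_of_noinv hE hinv
    obtain ⟨a, b, hp, hC⟩ := qcase hE hab hinv
    have hC2 : Nat.card (Cn a b) = 2 := by
      rw [← card_Z0 hE]
      apply Nat.card_congr
      apply Equiv.subtypeEquivRight
      intro c
      constructor
      · exact hC c
      · rintro (rfl | rfl)
        · exact (Cn a b).one_mem
        · exact hp.z_mem
    have hinv' : ∀ g : E', g * g = 1 → g = 1 ∨ g = z' := by
      by_contra hne
      have := three_le_sq1 hE' hne
      omega
    have hc8 : n = 8 := by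
      rw [← hn, hp.card_eq hE.comm, hC2]
    have hab' : ¬ ∀ c g : E', c * g = g * c := by
      intro hab'
      have hall : ∀ c : E', c = 1 ∨ c = z' := fun c => hE'.cen c (hab' c)
      have hZ : Z0 hE' = ⊤ := by
        ext c
        simp only [Subgroup.mem_top, iff_true]
        exact hall c
      have hc2 : Nat.card E' = 2 := by
        rw [← card_Z0 hE', hZ]
        exact (Nat.card_congr Subgroup.topEquiv.toEquiv).symm
      omega
    obtain ⟨a', b', hp', hC'⟩ := qcase hE' hab' hinv'
    have hC2' : Nat.card (Cn a' b') = 2 := by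
      rw [← card_Z0 hE']
      apply Nat.card_congr
      apply Equiv.subtypeEquivRight
      intro c
      constructor
      · exact hC' c
      · rintro (rfl | rfl)
        · exact (Cn a' b').one_mem
        · exact hp'.z_mem
    let ψ : Cn a b ≃* Cn a' b' := mulEquivOfPrimeCardEq hC2 hC2'
    have hψ : ψ ⟨z, hp.z_mem⟩ = ⟨z', hp'.z_mem⟩ := by
      have h1 : ψ ⟨z, hp.z_mem⟩ ≠ 1 := by
        intro h
        have h2 : (⟨z, hp.z_mem⟩ : Cn a b) = 1 := by
          apply ψ.injective
          rw [h, map_one]
        exact hE.z_ne (congrArg Subtype.val h2)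
      apply Subtype.ext
      rcases hC' _ (ψ ⟨z, hp.z_mem⟩).2 with h2 | h2
      · exact absurd (Subtype.ext h2) h1
      · exact h2
    exact iso_of_decomp hp hp' hE.comm hE'.comm ψ hψ hψ hψ
  -- the general step
  have hinv2 : ¬ ∀ g : E', g * g = 1 → g = 1 ∨ g = z' := by
    intro hall
    have h1 := sq1_of_noinv hE' hall
    have h2 := three_le_sq1 hE hinv
    omega
  have hx' := hinv
  push Not at hx'
  obtain ⟨x, hxx, hx1, hxz⟩ := hx'
  have hxnc : ¬ ∀ g, x * g = g * x := fun h => by
    rcases hE.cen x h with h1 | h1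
    · exact hx1 h1
    · exact hxz h1
  obtain ⟨y, hp⟩ := exists_pair hE hxx hxnc
  have hx2 := hinv2
  push Not at hx2
  obtain ⟨u, huu, hu1, huz⟩ := hx2
  have hunc : ¬ ∀ g, u * g = g * u := fun h => by
    rcases hE'.cen u h with h1 | h1
    · exact hu1 h1
    · exact huz h1
  obtain ⟨v, hp'⟩ := exists_pair hE' huu hunc
  have hcard := hp.card_eq hE.comm
  have hcard' := hp'.card_eq hE'.comm
  have hs1 := sq1_eq hE hp
  have hs2 := sq1_eq hE' hp'
  have hpos : 0 < Nat.card (Cn x y) := Nat.card_pos
  obtain ⟨ψ⟩ := ih (Nat.card (Cn x y)) (by omega) (Cn x y) _ (Cn u v) _ (hE.cn hp) (hE'.cn hp') rfl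
    (by omega) (by omega)
  have hψ : ψ ⟨z, hp.z_mem⟩ = ⟨z', hp'.z_mem⟩ := by
    have h1 : ψ ⟨z, hp.z_mem⟩ ≠ 1 := by
      intro h
      have h2 : (⟨z, hp.z_mem⟩ : Cn x y) = 1 := by
        apply ψ.injective
        rw [h, map_one]
      exact hE.z_ne (congrArg Subtype.val h2)
    have hcen : ∀ g : Cn u v, ψ ⟨z, hp.z_mem⟩ * g = g * ψ ⟨z, hp.z_mem⟩ := by
      intro g
      obtain ⟨g', rfl⟩ := ψ.surjective g
      rw [← map_mul, ← map_mul]
      congr 1
      apply Subtype.ext
      exact (hE.z_cen g').symm
    rcases (hE'.cn hp').cen _ hcen with h2 | h2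
    · exact absurd h2 h1
    · exact h2
  exact iso_of_decomp hp hp' hE.comm hE'.comm ψ hψ (map_one ψ) (map_one ψ)

/-- Extraspecial `2`-groups belong to the class. -/
theorem xs_of_extraspecial [Finite E] (hE : IsExtraspecial 2 E) :
    ∃ z : E, XS E z ∧ ¬ ∀ c g : E, c * g = g * c := by
  obtain ⟨z, hz1, hz2, hzc, hsq, hcm, hcen⟩ := Cfsg.Agent.H13.extraspecial_two_setup hE
  refine ⟨z, ⟨hz1, ?_, hzc, ?_, hcm, ?_⟩, ?_⟩
  · rw [← pow_two]; exact hz2
  · intro x
    rcases hsq x with h | h
    · left; rw [← pow_two]; exact h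
    · right; rw [← pow_two]; exact h
  · intro c hc
    apply (hcen c).1
    rw [Subgroup.mem_center_iff]
    exact fun g => (hc g).symm
  · intro hab
    have h1 : commutator E = ⊥ := by
      rw [commutator_def, Subgroup.commutator_eq_bot_iff_le_centralizer]
      intro a _
      rw [Subgroup.mem_centralizer_iff]
      intro b _
      exact hab b a
    have h2 := hE.2
    rw [← hE.1.2.2, h1] at h2
    simp at h2

/-- The non-abelian members of the class are extraspecial. -/
theorem extraspecial_of_xs [Finite E] (hE : XS E z) (hnab : ¬ ∀ c g : E, c * g = g * c) :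
    IsExtraspecial 2 E := by
  have hord : orderOf z = 2 := by
    apply orderOf_eq_prime
    · rw [pow_two]; exact hE.z_sq
    · exact hE.z_ne
  have hmem : ∀ c : E, c ∈ Subgroup.zpowers z ↔ c = 1 ∨ c = z := by
    intro c
    constructor
    · intro hc
      have h1 : Subgroup.zpowers z ≤ Z0 hE := by
        rw [Subgroup.zpowers_le]
        exact Or.inr rfl
      exact h1 hc
    · rintro (rfl | rfl)
      · exact Subgroup.one_mem _
      · exact Subgroup.mem_zpowers _
  obtain ⟨m, ε, ht⟩ := ty_exists _ E z hE rfl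
  apply Cfsg.Agent.H13.isExtraspecial_of (z := z) _ hord
  · intro u v
    rw [hmem]
    rcases hE.comm u v with h | h
    · left
      rw [h]
      group
    · right
      rw [h]
      have : z * (v * u) * u⁻¹ * v⁻¹ = z * ((v * u) * u⁻¹ * v⁻¹) := by simp only [mul_assoc]
      rw [this]
      simp
  · intro u
    rw [hmem]
    exact hE.sq u
  · intro w
    rw [hmem, Subgroup.mem_center_iff]
    constructor
    · intro h
      exact hE.cen w (fun g => (h g).symm)
    · rintro (rfl | rfl)
      · simp
      · exact hE.z_cen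
  · push Not at hnab
    obtain ⟨u, v, huv⟩ := hnab
    refine ⟨u, v, ?_⟩
    have h := (hE.comm u v).resolve_left huv
    rw [h]
    have : z * (v * u) * u⁻¹ * v⁻¹ = z * ((v * u) * u⁻¹ * v⁻¹) := by simp only [mul_assoc]
    rw [this]
    simp
  · rw [IsPGroup.iff_card]
    exact ⟨_, ht.card⟩

lemma sq1_eq_pow (E : Type*) [Group E] : Nat.card {x : E // x ^ 2 = 1} = sq1 E := by
  apply Nat.card_congr
  apply Equiv.subtypeEquivRight
  intro g
  rw [pow_two]

/-- The dimension must be positive for a non-abelian group. -/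
lemma Ty.one_le [Finite E] {m : ℕ} {ε : Bool} (ht : Ty E m ε) (hnab : ¬ ∀ c g : E, c * g = g * c) : 1 ≤ m := by
  by_contra hm
  have hm0 : m = 0 := by omega
  subst hm0
  have h2 : Nat.card E = 2 := by simpa using ht.card
  haveI : Fact (Nat.Prime 2) := ⟨Nat.prime_two⟩
  haveI : IsCyclic E := isCyclic_of_prime_card h2
  have hcm : IsMulCommutative E := IsCyclic.isMulCommutative
  exact hnab (fun c g => hcm.is_comm.comm c g)

end main

end Cfsg.Agent.H29.XS
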