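import Mathlib

/-!
Stabilisers of uniform partitions of a finite set, given by the fibres of a map `f : Ω → Fin b`.
-/

set_option autoImplicit false

namespace Cfsg.Agent.H29

section Basic

variable {Ω : Type*} {β : Type*}

/-- The stabiliser in `Perm Ω` of the partition of `Ω` into the fibres of `f`. -/
def fibW (f : Ω → β) : Subgroup (Equiv.Perm Ω) where
  carrier := {g | ∀ x y, f x = f y ↔ f (g x) = f (g y)}
  mul_mem' := by
    intro a b ha hb x y
    exact (hb x y).trans (ha (b x) (b y))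
  one_mem' := fun _ _ => Iff.rfl
  inv_mem' := by
    intro a ha x y
    have := ha (a⁻¹ x) (a⁻¹ y)
    have hx : a (a⁻¹ x) = x := by simp
    have hy : a (a⁻¹ y) = y := by simp
    rw [hx, hy] at this
    exact this.symm

lemma mem_fibW {f : Ω → β} {g : Equiv.Perm Ω} :
    g ∈ fibW f ↔ ∀ x y, f x = f y ↔ f (g x) = f (g y) := Iff.rfl

lemma closure_fibSet (f : Ω → β) :
    Subgroup.closure {g : Equiv.Perm Ω | ∀ x y : Ω, f x = f y ↔ f (g x) = f (g y)} = fibW f :=
  Subgroup.closure_eq (fibW f)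

lemma swap_mem_fibW [DecidableEq Ω] {f : Ω → β} {x y : Ω} (h : f x = f y) :
    Equiv.swap x y ∈ fibW f := by
  have hkey : ∀ z, f (Equiv.swap x y z) = f z := by
    intro z
    by_cases h1 : z = x
    · subst h1; simpa using h.symm
    · by_cases h2 : z = y
      · subst h2; simpa using h
      · rw [Equiv.swap_apply_of_ne_of_ne h1 h2]
  intro u v
  rw [hkey, hkey]

end Basic

section Lift

variable {Ω : Type*} [Finite Ω] {a b : ℕ}

/-- A labelling of `Ω` by `Fin b × Fin a`, compatible with `f`. -/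
noncomputable def fibEquiv (f : Ω → Fin b) (hf : ∀ i : Fin b, Nat.card {x : Ω // f x = i} = a) :
    Ω ≃ Fin b × Fin a :=
  (Equiv.sigmaFiberEquiv f).symm.trans
    ((Equiv.sigmaCongrRight fun i => Finite.equivFinOfCardEq (hf i)).trans (Equiv.sigmaEquivProd _ _))

lemma fibEquiv_fst (f : Ω → Fin b) (hf : ∀ i : Fin b, Nat.card {x : Ω // f x = i} = a) (x : Ω) :
    (fibEquiv f hf x).1 = f x := rfl

lemma fibEquiv_symm (f : Ω → Fin b) (hf : ∀ i : Fin b, Nat.card {x : Ω // f x = i} = a)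
    (p : Fin b × Fin a) : f ((fibEquiv f hf).symm p) = p.1 := by
  have := fibEquiv_fst f hf ((fibEquiv f hf).symm p)
  rw [Equiv.apply_symm_apply] at this
  exact this.symm

/-- The lift to `Ω` of a permutation of the labels. -/
noncomputable def fibLift (f : Ω → Fin b) (hf : ∀ i : Fin b, Nat.card {x : Ω // f x = i} = a)
    (σ : Equiv.Perm (Fin b)) : Equiv.Perm Ω :=
  (fibEquiv f hf).trans ((Equiv.prodCongr σ (Equiv.refl _)).trans (fibEquiv f hf).symm)

lemma f_fibLift (f : Ω → Fin b) (hf : ∀ i : Fin b, Nat.card {x : Ω // f x = i} = a)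
    (σ : Equiv.Perm (Fin b)) (x : Ω) : f (fibLift f hf σ x) = σ (f x) := by
  simp only [fibLift, Equiv.trans_apply]
  rw [fibEquiv_symm f hf]
  rfl

lemma fibLift_mem (f : Ω → Fin b) (hf : ∀ i : Fin b, Nat.card {x : Ω // f x = i} = a)
    (σ : Equiv.Perm (Fin b)) : fibLift f hf σ ∈ fibW f := by
  intro x y
  rw [f_fibLift f hf, f_fibLift f hf]
  exact σ.injective.eq_iff.symm

/-- Two distinct points in the same fibre. -/
lemma exists_two_in_fibre (ha : 2 ≤ a) (f : Ω → Fin b) (hf : ∀ i : Fin b, Nat.card {x : Ω // f x = i} = a)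
    (i : Fin b) : ∃ x y : Ω, f x = i ∧ f y = i ∧ x ≠ y := by
  let e := (fibEquiv f hf).symm
  refine ⟨e (i, ⟨0, by omega⟩), e (i, ⟨1, by omega⟩), fibEquiv_symm f hf _, fibEquiv_symm f hf _, ?_⟩
  intro h
  have := e.injective h
  simp [Fin.ext_iff] at this

/-- Every label is used. -/
lemma exists_in_fibre (ha : 1 ≤ a) (f : Ω → Fin b) (hf : ∀ i : Fin b, Nat.card {x : Ω // f x = i} = a)
    (i : Fin b) : ∃ x : Ω, f x = i :=
  ⟨(fibEquiv f hf).symm (i, ⟨0, by omega⟩), fibEquiv_symm f hf _⟩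

/-- Permutations of `Fin b` are two-transitive, explicitly. -/
lemma exists_perm_pair {β : Type*} [DecidableEq β] {p q r s : β} (hpq : p ≠ q) (hrs : r ≠ s) :
    ∃ σ : Equiv.Perm β, σ p = r ∧ σ q = s := by
  let σ₁ := Equiv.swap p r
  let v := σ₁ q
  have hv : v ≠ r := by
    intro h
    apply hpq
    have : σ₁ q = σ₁ p := by
      rw [show σ₁ q = v from rfl, h]
      simp [σ₁]
    exact (σ₁.injective this).symm
  refine ⟨Equiv.swap v s * σ₁, ?_, ?_⟩
  · rw [Equiv.Perm.mul_apply, show σ₁ p = r by simp [σ₁]]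
    exact Equiv.swap_apply_of_ne_of_ne hv.symm hrs
  · rw [Equiv.Perm.mul_apply, show σ₁ q = v from rfl]
    simp

end Lift

section Coatom

variable {Ω : Type*} [Fintype Ω] [DecidableEq Ω] {a b : ℕ}

omit [Fintype Ω] in
lemma swap_conj_mem {X : Subgroup (Equiv.Perm Ω)} {g : Equiv.Perm Ω} (hg : g ∈ X) {x y : Ω}
    (h : Equiv.swap x y ∈ X) : Equiv.swap (g x) (g y) ∈ X := by
  have : Equiv.swap (g x) (g y) = g * Equiv.swap x y * g⁻¹ := by
    rw [Equiv.swap_apply_apply]
  rw [this]
  exact X.mul_mem (X.mul_mem hg h) (X.inv_mem hg)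

omit [Fintype Ω] in
lemma swap_trans_mem {X : Subgroup (Equiv.Perm Ω)} {x y z : Ω}
    (h1 : Equiv.swap x y ∈ X) (h2 : Equiv.swap y z ∈ X) : Equiv.swap x z ∈ X := by
  by_cases hxy : x = y
  · subst hxy; exact h2
  by_cases hyz : y = z
  · subst hyz; exact h1
  by_cases hxz : x = z
  · subst hxz; rw [Equiv.swap_self]; exact one_mem _
  have : Equiv.swap x z = Equiv.swap y z * Equiv.swap x y * Equiv.swap y z := by
    rw [Equiv.swap_mul_swap_mul_swap hxy hxz, Equiv.swap_comm]
  rw [this]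
  exact X.mul_mem (X.mul_mem h2 h1) h2

/-- The stabiliser of a uniform partition is maximal in the symmetric group. -/
theorem fibW_isCoatom (ha : 2 ≤ a) (hb : 2 ≤ b) (f : Ω → Fin b)
    (hf : ∀ i : Fin b, Nat.card {x : Ω // f x = i} = a) : IsCoatom (fibW f) := by
  classical
  constructor
  · intro htop
    let i : Fin b := ⟨0, by omega⟩
    let j : Fin b := ⟨1, by omega⟩
    have hij : i ≠ j := by simp [i, j, Fin.ext_iff]
    obtain ⟨x, x', hx, hx', hne⟩ := exists_two_in_fibre ha f hf i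
    obtain ⟨y, hy⟩ := exists_in_fibre (by omega) f hf j
    have hmem : Equiv.swap x' y ∈ fibW f := htop ▸ Subgroup.mem_top _
    have h1 : f x = f x' := hx.trans hx'.symm
    have h2 := (hmem x x').mp h1
    have hxy : x ≠ y := fun h => hij (by rw [← hx, ← hy, h])
    rw [Equiv.swap_apply_of_ne_of_ne hne hxy, Equiv.swap_apply_left, hx, hy] at h2
    exact hij h2
  · intro X hX
    -- a swap of `X` across fibres
    obtain ⟨g, hgX, hgW⟩ := SetLike.exists_of_lt hX
    have hsame : ∀ x y, f x = f y → Equiv.swap x y ∈ X := fun x y h => hX.le (swap_mem_fibW h)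
    obtain ⟨u, v, huv, hswap⟩ : ∃ u v, f u ≠ f v ∧ Equiv.swap u v ∈ X := by
      have hnot : ¬ ∀ x y, f x = f y ↔ f (g x) = f (g y) := hgW
      push Not at hnot
      obtain ⟨x, y, h⟩ := hnot
      rcases h with ⟨h1, h2⟩ | ⟨h1, h2⟩
      · exact ⟨g x, g y, h2, swap_conj_mem hgX (hsame x y h1)⟩
      · refine ⟨x, y, h1, ?_⟩
        have h3 := swap_conj_mem (X.inv_mem hgX) (hsame (g x) (g y) h2)
        simpa using h3
    -- all swaps lie in `X`
    have hall : ∀ s t, Equiv.swap s t ∈ X := by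
      intro s t
      by_cases hst : f s = f t
      · exact hsame s t hst
      obtain ⟨σ, hσ1, hσ2⟩ := exists_perm_pair huv hst
      let w := fibLift f hf σ
      have hwX : w ∈ X := hX.le (fibLift_mem f hf σ)
      have h1 : Equiv.swap (w u) (w v) ∈ X := swap_conj_mem hwX hswap
      have h2 : f (w u) = f s := by rw [f_fibLift f hf, hσ1]
      have h3 : f (w v) = f t := by rw [f_fibLift f hf, hσ2]
      exact swap_trans_mem (swap_trans_mem (hsame s (w u) h2.symm) h1) (hsame (w v) t h3)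
    rw [eq_top_iff, ← Equiv.Perm.closure_isSwap, Subgroup.closure_le]
    rintro _ ⟨s, t, _, rfl⟩
    exact hall s t

end Coatom

end Cfsg.Agent.H29
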