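/-
Subgroups of `GL_F(V)` containing the `E`-linear elements of determinant one, for a field extension
`E / F` of prime degree: they contain a transvection as soon as they contain a non-semilinear element.
-/
import Mathlib

set_option autoImplicit false

namespace Cfsg.Agent.H29

open Module

section Basic

variable {F E V : Type*} [Field F] [Field E] [Algebra F E] [AddCommGroup V] [Module F V] [Module E V]
  [IsScalarTower F E V]

/-- The `F`-linear map `v ↦ f (l v) • w`. -/
def rootMap (l : V →ₗ[E] E) (w : V) (f : E →ₗ[F] E) : Module.End F V :=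
  ((LinearMap.toSpanSingleton E V w).restrictScalars F) ∘ₗ f ∘ₗ (l.restrictScalars F)

@[simp] theorem rootMap_apply (l : V →ₗ[E] E) (w : V) (f : E →ₗ[F] E) (v : V) :
    rootMap l w f v = f (l v) • w := rfl

/-- A unit from a square zero element. -/
def unipU (f : Module.End F V) (hf : f * f = 0) : (Module.End F V)ˣ :=
  ⟨1 + f, 1 - f, by simp [mul_sub, add_mul, hf], by simp [mul_add, sub_mul, hf]⟩

@[simp] theorem unipU_coe (f : Module.End F V) (hf : f * f = 0) :
    ((unipU f hf : (Module.End F V)ˣ) : Module.End F V) = 1 + f := rfl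

@[simp] theorem unipU_inv_coe (f : Module.End F V) (hf : f * f = 0) :
    (((unipU f hf)⁻¹ : (Module.End F V)ˣ) : Module.End F V) = 1 - f := rfl

theorem unipU_mul (f g : Module.End F V) (hf : f * f = 0) (hg : g * g = 0) (hfg : f * g = 0)
    (hfg' : (f + g) * (f + g) = 0) : unipU f hf * unipU g hg = unipU (f + g) hfg' := by
  apply Units.ext
  simp [mul_add, add_mul, hfg, add_assoc]

theorem unipU_conj (y : (Module.End F V)ˣ) (f : Module.End F V) (hf : f * f = 0)
    (h : ((y : Module.End F V) * f * ((y⁻¹ : (Module.End F V)ˣ) : Module.End F V)) *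
      ((y : Module.End F V) * f * ((y⁻¹ : (Module.End F V)ˣ) : Module.End F V)) = 0) :
    y * unipU f hf * y⁻¹ =
      unipU ((y : Module.End F V) * f * ((y⁻¹ : (Module.End F V)ˣ) : Module.End F V)) h := by
  apply Units.ext
  simp [mul_add, add_mul]

theorem rootMap_mul_rootMap (l : V →ₗ[E] E) (w : V) (hl : l w = 0) (f g : E →ₗ[F] E) :
    rootMap l w f * rootMap l w g = 0 := by
  ext v
  simp [hl]

theorem rootMap_add (l : V →ₗ[E] E) (w : V) (f g : E →ₗ[F] E) :
    rootMap l w (f + g) = rootMap l w f + rootMap l w g := by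
  ext v
  simp [add_smul]

/-- The root element attached to `f`. -/
def rootU (l : V →ₗ[E] E) (w : V) (hl : l w = 0) (f : E →ₗ[F] E) : (Module.End F V)ˣ :=
  unipU (rootMap l w f) (rootMap_mul_rootMap l w hl f f)

@[simp] theorem rootU_coe (l : V →ₗ[E] E) (w : V) (hl : l w = 0) (f : E →ₗ[F] E) :
    ((rootU l w hl f : (Module.End F V)ˣ) : Module.End F V) = 1 + rootMap l w f := rfl

theorem rootU_add (l : V →ₗ[E] E) (w : V) (hl : l w = 0) (f g : E →ₗ[F] E) :
    rootU l w hl (f + g) = rootU l w hl f * rootU l w hl g := by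
  apply Units.ext
  simp [rootMap_add, mul_add, add_mul, rootMap_mul_rootMap l w hl, add_assoc]

theorem rootU_neg (l : V →ₗ[E] E) (w : V) (hl : l w = 0) (f : E →ₗ[F] E) :
    rootU l w hl (-f) = (rootU l w hl f)⁻¹ := by
  apply Units.ext
  have : rootMap l w (-f) = - rootMap l w f := by
    ext v
    simp
  rw [rootU_coe, this, ← sub_eq_add_neg]
  rfl

/-- The multiplication by `c`, as an `F`-linear map. -/
abbrev mulF (c : E) : E →ₗ[F] E := LinearMap.mulLeft F c

/-- `F`-linear maps commuting with the action of `E`. -/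
def IsElin (g : Module.End F V) : Prop := ∀ (c : E) (v : V), g (c • v) = c • g v

theorem det_restrict [FiniteDimensional F E] [FiniteDimensional E V] (g : V →ₗ[E] V) :
    LinearMap.det (g.restrictScalars F) = Algebra.norm F (LinearMap.det g) :=
  LinearMap.det_restrictScalars

end Basic

section Functionals

variable {F E V : Type*} [Field F] [Field E] [Algebra F E] [AddCommGroup V] [Module F V] [Module E V]
  [IsScalarTower F E V]

theorem exists_func (w p : V) (hp : p ∉ Submodule.span E {w}) : ∃ l : V →ₗ[E] E, l w = 0 ∧ l p = 1 := by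
  obtain ⟨f, hf, hmap⟩ := Submodule.exists_dual_map_eq_bot_of_notMem hp inferInstance
  have hw : f w = 0 := by
    have h1 : f w ∈ (Submodule.span E {w}).map f := Submodule.mem_map_of_mem (Submodule.mem_span_singleton_self w)
    rw [hmap] at h1
    simpa using h1
  refine ⟨(f p)⁻¹ • f, ?_, ?_⟩
  · simp [hw]
  · simp [hf]

theorem exists_func2 (τ₀ : E) (hτ₀ : τ₀ ∉ (algebraMap F E).range) (w p₁ p₂ : V)
    (h : ∀ κ₁ κ₂ : F, κ₁ • p₁ + κ₂ • p₂ ∈ Submodule.span E {w} → κ₁ = 0 ∧ κ₂ = 0) :
    ∃ l : V →ₗ[E] E, l w = 0 ∧ l p₁ = 1 ∧ l p₂ ∉ (algebraMap F E).range := by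
  have hp₁ : p₁ ∉ Submodule.span E {w} := by
    intro hm
    have := (h 1 0 (by simpa using hm)).1
    exact one_ne_zero this
  obtain ⟨f₁, hf₁w, hf₁p⟩ := exists_func (E := E) w p₁ hp₁
  by_cases hτ : f₁ p₂ ∈ (algebraMap F E).range
  · obtain ⟨κ, hκ⟩ := hτ
    have hp₃ : p₂ - κ • p₁ ∉ Submodule.span E {w} := by
      intro hm
      have h2 := (h (-κ) 1 (by
        have : (-κ) • p₁ + (1 : F) • p₂ = p₂ - κ • p₁ := by
          rw [one_smul, neg_smul]
          abel
        rw [this]
        exact hm)).2
      exact one_ne_zero h2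
    obtain ⟨f₂, hf₂w, hf₂p⟩ := exists_func (E := E) w _ hp₃
    set t := f₂ p₁ with ht
    refine ⟨(1 - τ₀ * t) • f₁ + τ₀ • f₂, ?_, ?_, ?_⟩
    · simp [hf₁w, hf₂w]
    · simp [hf₁p, ← ht]
    · intro hmem
      apply hτ₀
      have h3 : f₂ p₂ = 1 + κ • t := by
        have h4 : f₂ (p₂ - κ • p₁) = 1 := hf₂p
        rw [map_sub, LinearMap.map_smul_of_tower] at h4
        rw [← h4, ← ht]
        abel
      have h5 : ((1 - τ₀ * t) • f₁ + τ₀ • f₂) p₂ = τ₀ + algebraMap F E κ := by
        simp only [LinearMap.add_apply, LinearMap.smul_apply, smul_eq_mul, h3, ← hκ]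
        rw [Algebra.smul_def]
        ring
      rw [h5] at hmem
      have h6 : τ₀ = (τ₀ + algebraMap F E κ) - algebraMap F E κ := by ring
      rw [h6]
      exact sub_mem hmem ⟨κ, rfl⟩
  · exact ⟨f₁, hf₁w, hf₁p, hτ⟩

end Functionals

section Stabilizer

variable {F E : Type*} [Field F] [Field E] [Algebra F E]

/-- A subalgebra of a field extension of prime degree is trivial or everything. -/
theorem subalgebra_eq_top_of_prime [FiniteDimensional F E] (hr : (finrank F E).Prime) (St : Subalgebra F E)
    (τ : E) (hτ : τ ∉ (algebraMap F E).range) (hτS : τ ∈ St) : St = ⊤ := by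
  have hfield : IsField St := Subalgebra.isField_of_algebraic St
  let K : IntermediateField F E := St.toIntermediateField' hfield
  have hK : ∀ x, x ∈ K ↔ x ∈ St := fun x => Iff.rfl
  have h1 := Module.finrank_mul_finrank F K E
  have h2 : finrank F K ∣ finrank F E := Dvd.intro _ h1
  rcases (Nat.dvd_prime hr).1 h2 with h3 | h3
  · have h4 : K = ⊥ := IntermediateField.finrank_eq_one_iff.1 h3
    exfalso
    apply hτ
    have h5 : τ ∈ K := (hK τ).2 hτS
    rw [h4, IntermediateField.mem_bot] at h5
    obtain ⟨κ, hκ⟩ := h5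
    exact ⟨κ, hκ⟩
  · have h4 : K.toSubalgebra.toSubmodule = ⊤ := by
      apply Submodule.eq_top_of_finrank_eq
      exact h3
    apply Algebra.eq_top_iff.2
    intro x
    have h5 : x ∈ K.toSubalgebra.toSubmodule := by
      rw [h4]
      exact Submodule.mem_top
    exact (hK x).1 h5

theorem eq_top_of_stable [FiniteDimensional F E] (hr : (finrank F E).Prime) (τ : E)
    (hτ : τ ∉ (algebraMap F E).range) (A : Submodule F E) (hA : A ≠ ⊥) (hst : ∀ c ∈ A, τ * c ∈ A) : A = ⊤ := by
  let St : Subalgebra F E :=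
    { carrier := {c | ∀ a ∈ A, c * a ∈ A}
      mul_mem' := fun {c d} hc hd a ha => by
        rw [mul_assoc]
        exact hc _ (hd a ha)
      add_mem' := fun {c d} hc hd a ha => by
        rw [add_mul]
        exact A.add_mem (hc a ha) (hd a ha)
      algebraMap_mem' := fun κ a ha => by
        rw [← Algebra.smul_def]
        exact A.smul_mem κ ha }
  have hS : St = ⊤ := subalgebra_eq_top_of_prime hr St τ hτ hst
  obtain ⟨a₀, ha₀, ha₀0⟩ := Submodule.exists_mem_ne_zero_of_ne_bot hA
  rw [eq_top_iff]
  intro c _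
  have h1 : c * a₀⁻¹ ∈ St := by
    rw [hS]
    exact Algebra.mem_top
  have h2 := h1 a₀ ha₀
  rwa [mul_assoc, inv_mul_cancel₀ ha₀0, mul_one] at h2

end Stabilizer

section Lines

variable {F E V : Type*} [Field F] [Field E] [Algebra F E] [AddCommGroup V] [Module F V] [Module E V]
  [IsScalarTower F E V]

theorem uinv_apply (x : (Module.End F V)ˣ) (v : V) :
    ((x⁻¹ : (Module.End F V)ˣ) : Module.End F V) ((x : Module.End F V) v) = v := by
  rw [← Module.End.mul_apply, Units.inv_mul, Module.End.one_apply]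

theorem u_apply_inv (x : (Module.End F V)ˣ) (v : V) :
    (x : Module.End F V) (((x⁻¹ : (Module.End F V)ˣ) : Module.End F V) v) = v := by
  rw [← Module.End.mul_apply, Units.mul_inv, Module.End.one_apply]

theorem unit_injective (x : (Module.End F V)ˣ) : Function.Injective (x : Module.End F V) := by
  intro a b h
  rw [← uinv_apply x a, h, uinv_apply]

theorem ne_zero_of_unit (x : (Module.End F V)ˣ) {v : V} (hv : v ≠ 0) : (x : Module.End F V) v ≠ 0 := by
  intro h
  apply hv
  apply unit_injective x
  rw [h, map_zero]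

theorem exists_not_mem_span (hm : 2 ≤ finrank E V) [FiniteDimensional E V] (w : V) :
    ∃ v : V, v ∉ Submodule.span E {w} := by
  by_contra hcon
  push Not at hcon
  have h1 : Submodule.span E {w} = ⊤ := by
    rw [eq_top_iff]
    intro v _
    exact hcon v
  rcases eq_or_ne w 0 with rfl | hw
  · rw [Submodule.span_singleton_eq_bot.2 rfl] at h1
    have h2 : finrank E (⊥ : Submodule E V) = finrank E (⊤ : Submodule E V) := by rw [h1]
    rw [finrank_bot, finrank_top] at h2
    omega
  · have h2 := finrank_span_singleton (K := E) hw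
    rw [h1, finrank_top] at h2
    omega

/-- A bijection of an `E`-space taking `E`-lines into `E`-lines is semilinear. -/
theorem semilinear_of_lines [Finite E] [FiniteDimensional E V] (hm : 2 ≤ finrank E V) (x : (Module.End F V)ˣ)
    (h : ∀ (w : V) (c : E), ∃ c' : E, (x : Module.End F V) (c • w) = c' • (x : Module.End F V) w) :
    ∀ c : E, ∃ c' : E, ∀ v : V, (x : Module.End F V) (c • v) = c' • (x : Module.End F V) v := by
  classical
  have hi : ∀ (w v : V) (d : E), w ≠ 0 → (x : Module.End F V) v = d • (x : Module.End F V) w →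
      v ∈ Submodule.span E {w} := by
    intro w v d hw hvd
    choose g hg using h w
    have hginj : Function.Injective g := by
      intro c₁ c₂ h12
      have h1 : (x : Module.End F V) (c₁ • w) = (x : Module.End F V) (c₂ • w) := by
        rw [hg, hg, h12]
      have h2 := unit_injective x h1
      exact smul_left_injective E hw h2
    obtain ⟨c₁, hc₁⟩ := (Finite.injective_iff_surjective.1 hginj) d
    have h1 : (x : Module.End F V) v = (x : Module.End F V) (c₁ • w) := by
      rw [hvd, hg, hc₁]
    rw [unit_injective x h1]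
    exact Submodule.smul_mem _ _ (Submodule.mem_span_singleton_self w)
  have aux : ∀ (c a : E) (w v : V), w ≠ 0 → v ∉ Submodule.span E {w} →
      (x : Module.End F V) (c • w) = a • (x : Module.End F V) w →
      (x : Module.End F V) (c • v) = a • (x : Module.End F V) v := by
    intro c a w v hw hv ha
    have hv0 : v ≠ 0 := by
      rintro rfl
      exact hv (Submodule.zero_mem _)
    obtain ⟨b, hb⟩ := h v c
    obtain ⟨b', hb'⟩ := h (w + v) c
    have h1 : (a - b') • (x : Module.End F V) w = (b' - b) • (x : Module.End F V) v := by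
      rw [smul_add, map_add, map_add, ha, hb, smul_add] at hb'
      rw [sub_smul, sub_smul, sub_eq_sub_iff_add_eq_add, hb']
      abel
    have h2 : a = b' := by
      by_contra hne
      have h3 : a - b' ≠ 0 := sub_ne_zero.2 hne
      have h4 : (x : Module.End F V) w = ((a - b')⁻¹ * (b' - b)) • (x : Module.End F V) v := by
        rw [mul_smul, ← h1, smul_smul, inv_mul_cancel₀ h3, one_smul]
      have h5 := hi v w _ hv0 h4
      obtain ⟨t, ht⟩ := Submodule.mem_span_singleton.1 h5
      apply hv
      have ht0 : t ≠ 0 := by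
        rintro rfl
        rw [zero_smul] at ht
        exact hw ht.symm
      rw [Submodule.mem_span_singleton]
      refine ⟨t⁻¹, ?_⟩
      rw [← ht, smul_smul, inv_mul_cancel₀ ht0, one_smul]
    have h3 : (b' - b) • (x : Module.End F V) v = 0 := by
      rw [← h1, h2, sub_self, zero_smul]
    have h4 : b' = b := by
      have := (smul_eq_zero.1 h3).resolve_right (ne_zero_of_unit x hv0)
      exact sub_eq_zero.1 this
    rw [hb, h2, h4]
  intro c
  have hV : Nontrivial V := Module.nontrivial_of_finrank_pos (R := E) (by omega)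
  obtain ⟨w₀, hw₀⟩ := exists_ne (0 : V)
  obtain ⟨a, ha⟩ := h w₀ c
  refine ⟨a, fun v => ?_⟩
  by_cases hv : v ∈ Submodule.span E {w₀}
  · by_cases hv0 : v = 0
    · simp [hv0]
    obtain ⟨w₁, hw₁⟩ := exists_not_mem_span hm w₀
    have h1 := aux c a w₀ w₁ hw₀ hw₁ ha
    have hw₁0 : w₁ ≠ 0 := by
      rintro rfl
      exact hw₁ (Submodule.zero_mem _)
    have hv' : v ∉ Submodule.span E {w₁} := by
      intro hm1
      obtain ⟨t, ht⟩ := Submodule.mem_span_singleton.1 hm1
      obtain ⟨s, hs⟩ := Submodule.mem_span_singleton.1 hv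
      have ht0 : t ≠ 0 := by
        rintro rfl
        rw [zero_smul] at ht
        exact hv0 ht.symm
      apply hw₁
      rw [Submodule.mem_span_singleton]
      refine ⟨t⁻¹ * s, ?_⟩
      rw [mul_smul, hs, ← ht, smul_smul, inv_mul_cancel₀ ht0, one_smul]
    exact aux c a w₁ v hw₁0 hv' h1
  · exact aux c a w₀ v hw₀ hv ha

theorem rootMap_mulF_apply (l : V →ₗ[E] E) (w : V) (c : E) (v : V) :
    rootMap l w (mulF (F := F) c) v = (c * l v) • w := rfl

theorem isElin_one_add (l : V →ₗ[E] E) (w : V) (c : E) :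
    IsElin (E := E) (1 + rootMap l w (mulF (F := F) c)) := by
  intro e v
  simp only [LinearMap.add_apply, Module.End.one_apply, rootMap_mulF_apply, map_smul, smul_eq_mul, smul_add, smul_smul]
  congr 2
  ring

theorem det_one_add [FiniteDimensional F E] [FiniteDimensional E V] (l : V →ₗ[E] E) (w : V) (c : E) (hl : l w = 0) :
    LinearMap.det (1 + rootMap l w (mulF (F := F) c)) = 1 := by
  have h1 : (1 + rootMap l w (mulF (F := F) c)) = (LinearMap.transvection (c • l) w).restrictScalars F := by
    ext v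
    simp [LinearMap.transvection.apply, rootMap_mulF_apply]
  rw [h1, det_restrict, LinearMap.transvection.det]
  simp [hl]

theorem exists_elin_move [FiniteDimensional F E] [FiniteDimensional E V] (hm : 2 ≤ finrank E V) (u w : V) (hu : u ≠ 0)
    (hw : w ≠ 0) : ∃ g : (Module.End F V)ˣ, IsElin (E := E) (g : Module.End F V) ∧
      LinearMap.det (g : Module.End F V) = 1 ∧ (g : Module.End F V) u = w := by
  have step : ∀ u w : V, u ≠ 0 → w ≠ 0 → w ∉ Submodule.span E {u} → ∃ g : (Module.End F V)ˣ,
      IsElin (E := E) (g : Module.End F V) ∧ LinearMap.det (g : Module.End F V) = 1 ∧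
        (g : Module.End F V) u = w := by
    intro u w hu hw hwu
    obtain ⟨f₁, hf₁u, hf₁w⟩ := exists_func (E := E) u w hwu
    have huw : u ∉ Submodule.span E {w} := by
      intro hm1
      obtain ⟨t, ht⟩ := Submodule.mem_span_singleton.1 hm1
      have ht0 : t ≠ 0 := by
        rintro rfl
        rw [zero_smul] at ht
        exact hu ht.symm
      apply hwu
      rw [Submodule.mem_span_singleton]
      refine ⟨t⁻¹, ?_⟩
      rw [← ht, smul_smul, inv_mul_cancel₀ ht0, one_smul]
    obtain ⟨f₂, hf₂w, hf₂u⟩ := exists_func (E := E) w u huw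
    have hl : (f₁ + f₂) (w - u) = 0 := by
      simp [hf₁u, hf₁w, hf₂u, hf₂w]
    refine ⟨rootU (f₁ + f₂) (w - u) hl (mulF (F := F) 1), ?_, ?_, ?_⟩
    · exact isElin_one_add _ _ _
    · exact det_one_add _ _ _ hl
    · simp [rootU_coe, rootMap_mulF_apply, hf₁u, hf₂u]
  by_cases hwu : w ∈ Submodule.span E {u}
  · obtain ⟨z, hz⟩ := exists_not_mem_span hm u
    have hz0 : z ≠ 0 := by
      rintro rfl
      exact hz (Submodule.zero_mem _)
    obtain ⟨g₁, hg₁, hd₁, hm₁⟩ := step u z hu hz0 hz
    have hwz : w ∉ Submodule.span E {z} := by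
      intro hm1
      obtain ⟨t, ht⟩ := Submodule.mem_span_singleton.1 hm1
      obtain ⟨s, hs⟩ := Submodule.mem_span_singleton.1 hwu
      have ht0 : t ≠ 0 := by
        rintro rfl
        rw [zero_smul] at ht
        exact hw ht.symm
      apply hz
      rw [Submodule.mem_span_singleton]
      refine ⟨t⁻¹ * s, ?_⟩
      rw [mul_smul, hs, ← ht, smul_smul, inv_mul_cancel₀ ht0, one_smul]
    obtain ⟨g₂, hg₂, hd₂, hm₂⟩ := step z w hz0 hw hwz
    refine ⟨g₂ * g₁, ?_, ?_, ?_⟩
    · intro c v
      rw [Units.val_mul, Module.End.mul_apply, hg₁ c v, hg₂ c, Module.End.mul_apply]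
    · rw [Units.val_mul, map_mul, hd₁, hd₂, one_mul]
    · rw [Units.val_mul, Module.End.mul_apply, hm₁, hm₂]
  · exact step u w hu hw hwu

end Lines

end Cfsg.Agent.H29
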