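/-
The maximal intersection argument: a non-semilinear element produces an image of an `E`-line meeting
an `E`-line in a hyperplane.
-/
import Cfsg.Agent.Lib.H29.FieldOver

set_option autoImplicit false
set_option linter.unusedSectionVars false

namespace Cfsg.Agent.H29

open Module

section Near

variable {F E V : Type*} [Field F] [Field E] [Algebra F E] [AddCommGroup V] [Module F V] [Module E V]
  [IsScalarTower F E V]

/-- The `c` with `y (c • w) ∈ E w`. -/
def lineSub (y : Module.End F V) (w : V) : Submodule F E :=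
  ((Submodule.span E {w}).restrictScalars F).comap (y ∘ₗ (LinearMap.toSpanSingleton E V w).restrictScalars F)

theorem mem_lineSub (y : Module.End F V) (w : V) (c : E) :
    c ∈ lineSub y w ↔ y (c • w) ∈ Submodule.span E {w} := Iff.rfl

/-- The image of the line through `w` lies on the line through the image of `w`. -/
def IsLineLike (y : Module.End F V) (w : V) : Prop :=
  ∀ c : E, y (c • w) ∈ Submodule.span E {y w}

theorem exists_not_mem_range [FiniteDimensional F E] (hr : 2 ≤ finrank F E) :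
    ∃ τ : E, τ ∉ (algebraMap F E).range := by
  by_contra hcon
  push Not at hcon
  have h1 : (⊥ : Subalgebra F E) = ⊤ := by
    rw [eq_top_iff]
    intro x _
    obtain ⟨κ, hκ⟩ := hcon x
    exact ⟨κ, hκ⟩
  have h2 := Subalgebra.bot_eq_top_iff_finrank_eq_one.1 h1
  omega

theorem exists_indep_mod [FiniteDimensional F E] (B : Submodule F E) (hB : finrank F B + 2 ≤ finrank F E) :
    ∃ d₁ d₂ : E, ∀ κ₁ κ₂ : F, κ₁ • d₁ + κ₂ • d₂ ∈ B → κ₁ = 0 ∧ κ₂ = 0 := by
  have h1 : B ≠ ⊤ := by
    rintro rfl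
    rw [finrank_top] at hB
    omega
  obtain ⟨d₁, hd₁⟩ : ∃ d₁, d₁ ∉ B := by
    by_contra hcon
    push Not at hcon
    exact h1 (eq_top_iff.2 fun x _ => hcon x)
  have h2 : B ⊔ Submodule.span F {d₁} ≠ ⊤ := by
    intro htop
    have h3 := Submodule.finrank_add_le_finrank_add_finrank B (Submodule.span F {d₁})
    rw [htop, finrank_top] at h3
    have h4 : finrank F (Submodule.span F {d₁}) ≤ 1 := by
      rcases eq_or_ne d₁ 0 with rfl | h0
      · rw [Submodule.span_singleton_eq_bot.2 rfl, finrank_bot]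
        omega
      · rw [finrank_span_singleton h0]
    omega
  obtain ⟨d₂, hd₂⟩ : ∃ d₂, d₂ ∉ B ⊔ Submodule.span F {d₁} := by
    by_contra hcon
    push Not at hcon
    exact h2 (eq_top_iff.2 fun x _ => hcon x)
  refine ⟨d₁, d₂, fun κ₁ κ₂ h => ?_⟩
  have hκ₂ : κ₂ = 0 := by
    by_contra h0
    apply hd₂
    have h3 : d₂ = κ₂⁻¹ • (κ₁ • d₁ + κ₂ • d₂) + (-(κ₂⁻¹ * κ₁)) • d₁ := by
      rw [smul_add, smul_smul, smul_smul, inv_mul_cancel₀ h0, neg_smul, one_smul]
      abel
    rw [h3]
    exact Submodule.add_mem _ (Submodule.mem_sup_left (B.smul_mem _ h))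
      (Submodule.mem_sup_right (Submodule.smul_mem _ _ (Submodule.mem_span_singleton_self d₁)))
  subst hκ₂
  refine ⟨?_, rfl⟩
  by_contra h0
  apply hd₁
  rw [zero_smul, add_zero] at h
  have h3 := B.smul_mem κ₁⁻¹ h
  rwa [smul_smul, inv_mul_cancel₀ h0, one_smul] at h3

variable [Finite F] [FiniteDimensional F E] [FiniteDimensional E V]

/-- The induction hypothesis. -/
def NearP (Y : Subgroup (Module.End F V)ˣ) (b : ℕ) : Prop :=
  ∃ y ∈ Y, ∃ w : V, w ≠ 0 ∧ ¬ IsLineLike (E := E) (y : Module.End F V) w ∧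
    b ≤ finrank F (lineSub (E := E) ((y⁻¹ : (Module.End F V)ˣ) : Module.End F V) w)

theorem nearP_base (hm : 2 ≤ finrank E V) (Y : Subgroup (Module.End F V)ˣ)
    (hY : ∀ g : (Module.End F V)ˣ, IsElin (E := E) (g : Module.End F V) → LinearMap.det (g : Module.End F V) = 1 → g ∈ Y)
    (x : (Module.End F V)ˣ) (hxY : x ∈ Y)
    (hx : ¬ ∀ c : E, ∃ c' : E, ∀ v : V, (x : Module.End F V) (c • v) = c' • (x : Module.End F V) v) :
    NearP (E := E) Y 1 := by
  haveI : Finite E := Module.finite_of_finite F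
  have h1 : ¬ ∀ (w : V) (c : E), ∃ c' : E, (x : Module.End F V) (c • w) = c' • (x : Module.End F V) w :=
    fun h => hx (semilinear_of_lines hm x h)
  push Not at h1
  obtain ⟨w, c, hwc⟩ := h1
  have hw : w ≠ 0 := by
    rintro rfl
    apply hwc 1
    simp
  obtain ⟨g, hg, hdg, hgx⟩ := exists_elin_move (F := F) (E := E) hm ((x : Module.End F V) w) w (ne_zero_of_unit x hw) hw
  have hyw : ((g * x : (Module.End F V)ˣ) : Module.End F V) w = w := by
    rw [Units.val_mul, Module.End.mul_apply, hgx]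
  refine ⟨g * x, Y.mul_mem (hY g hg hdg) hxY, w, hw, ?_, ?_⟩
  · intro hl
    obtain ⟨t, ht⟩ := Submodule.mem_span_singleton.1 (hl c)
    rw [hyw, Units.val_mul, Module.End.mul_apply] at ht
    apply hwc t
    apply unit_injective g
    rw [← ht, hg, hgx]
  · rw [Submodule.one_le_finrank_iff]
    intro hbot
    have h2 : (1 : E) ∈ lineSub (E := E) (((g * x)⁻¹ : (Module.End F V)ˣ) : Module.End F V) w := by
      rw [mem_lineSub, one_smul]
      have h3 := uinv_apply (g * x) w
      rw [hyw] at h3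
      rw [h3]
      exact Submodule.mem_span_singleton_self w
    rw [hbot] at h2
    exact one_ne_zero ((Submodule.mem_bot F).1 h2)

theorem nearP_step (hr : (finrank F E).Prime) (Y : Subgroup (Module.End F V)ˣ)
    (hY : ∀ g : (Module.End F V)ˣ, IsElin (E := E) (g : Module.End F V) → LinearMap.det (g : Module.End F V) = 1 → g ∈ Y)
    (b : ℕ) (hb1 : 1 ≤ b) (hb : b + 2 ≤ finrank F E) (hP : NearP (E := E) Y b) : NearP (E := E) Y (b + 1) := by
  obtain ⟨y, hyY, w, hw, hnl, hbB⟩ := hP
  by_cases hfin : b + 1 ≤ finrank F (lineSub (E := E) ((y⁻¹ : (Module.End F V)ˣ) : Module.End F V) w)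
  · exact ⟨y, hyY, w, hw, hnl, hfin⟩
  obtain ⟨B, hBdef⟩ : ∃ B, B = lineSub (E := E) ((y⁻¹ : (Module.End F V)ˣ) : Module.End F V) w := ⟨_, rfl⟩
  rw [← hBdef] at hfin hbB
  have hBmem : ∀ d, d ∈ B ↔ ((y⁻¹ : (Module.End F V)ˣ) : Module.End F V) (d • w) ∈ Submodule.span E {w} := by
    intro d
    rw [hBdef, mem_lineSub]
  have hBfin : finrank F B + 2 ≤ finrank F E := by omega
  obtain ⟨d₁, d₂, hd⟩ := exists_indep_mod B hBfin
  obtain ⟨τ₀, hτ₀⟩ := exists_not_mem_range (F := F) (E := E) hr.two_le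
  set p₁ := ((y⁻¹ : (Module.End F V)ˣ) : Module.End F V) (d₁ • w) with hp₁
  set p₂ := ((y⁻¹ : (Module.End F V)ˣ) : Module.End F V) (d₂ • w) with hp₂
  obtain ⟨l, hlw, hlp₁, hlp₂⟩ := exists_func2 (F := F) τ₀ hτ₀ w p₁ p₂ (by
    intro κ₁ κ₂ hκ
    apply hd κ₁ κ₂
    rw [hBmem]
    have h2 : ((y⁻¹ : (Module.End F V)ˣ) : Module.End F V) ((κ₁ • d₁ + κ₂ • d₂) • w) = κ₁ • p₁ + κ₂ • p₂ := by
      rw [add_smul, map_add, smul_assoc, smul_assoc, LinearMap.map_smul, LinearMap.map_smul]
    rw [h2]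
    exact hκ)
  set τ := l p₂ with hτ
  obtain ⟨A, hAdef⟩ : ∃ A, A = lineSub (E := E) (y : Module.End F V) w := ⟨_, rfl⟩
  have hAmem : ∀ c, c ∈ A ↔ (y : Module.End F V) (c • w) ∈ Submodule.span E {w} := by
    intro c
    rw [hAdef, mem_lineSub]
  have hB0 : B ≠ ⊥ := by
    intro h0
    rw [h0, finrank_bot] at hbB
    omega
  obtain ⟨d₀, hd₀B, hd₀⟩ := Submodule.exists_mem_ne_zero_of_ne_bot hB0
  have hd₀w : d₀ • w ≠ 0 := smul_ne_zero hd₀ hw
  obtain ⟨c₀, hc₀⟩ := Submodule.mem_span_singleton.1 ((hBmem d₀).1 hd₀B)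
  have hc₀' : (y : Module.End F V) (c₀ • w) = d₀ • w := by
    rw [hc₀, u_apply_inv]
  have hc₀0 : c₀ ≠ 0 := by
    rintro rfl
    rw [zero_smul, map_zero] at hc₀'
    exact hd₀w hc₀'.symm
  have hA₀ : c₀ ∈ A := by
    rw [hAmem, hc₀']
    exact Submodule.smul_mem _ _ (Submodule.mem_span_singleton_self w)
  have hA0 : A ≠ ⊥ := by
    intro h0
    rw [h0] at hA₀
    exact hc₀0 ((Submodule.mem_bot F).1 hA₀)
  -- the elements `u c`
  let u : E → (Module.End F V)ˣ := fun c => y * rootU l w hlw (mulF (F := F) c) * y⁻¹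
  have huY : ∀ c, u c ∈ Y := fun c =>
    Y.mul_mem (Y.mul_mem hyY (hY _ (isElin_one_add _ _ _) (det_one_add _ _ _ hlw))) (Y.inv_mem hyY)
  have hu : ∀ c v, ((u c : (Module.End F V)ˣ) : Module.End F V) v =
      v + (y : Module.End F V) ((c * l (((y⁻¹ : (Module.End F V)ˣ) : Module.End F V) v)) • w) := by
    intro c v
    simp only [u, Units.val_mul, Module.End.mul_apply, rootU_coe, LinearMap.add_apply, Module.End.one_apply,
      rootMap_mulF_apply, map_add, u_apply_inv]
  have hui : ∀ c v, (((u c)⁻¹ : (Module.End F V)ˣ) : Module.End F V) v =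
      v - (y : Module.End F V) ((c * l (((y⁻¹ : (Module.End F V)ˣ) : Module.End F V) v)) • w) := by
    intro c v
    have h2 : (u c)⁻¹ = y * (rootU l w hlw (mulF (F := F) c))⁻¹ * y⁻¹ := by
      simp only [u, mul_inv_rev, inv_inv, mul_assoc]
    rw [h2, ← rootU_neg]
    simp only [Units.val_mul, Module.End.mul_apply, rootU_coe, LinearMap.add_apply, Module.End.one_apply,
      rootMap_apply, map_add, u_apply_inv, LinearMap.neg_apply, neg_smul, map_neg]
    rw [sub_eq_add_neg]
    rfl
  have hlB : ∀ d ∈ B, l (((y⁻¹ : (Module.End F V)ˣ) : Module.End F V) (d • w)) = 0 := by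
    intro d hdB
    obtain ⟨e, he⟩ := Submodule.mem_span_singleton.1 ((hBmem d).1 hdB)
    rw [← he, map_smul, hlw, smul_zero]
  by_cases hall : ∀ c ∈ A, IsLineLike (E := E) ((u c : (Module.End F V)ˣ) : Module.End F V) w
  · -- all line like: `A` is stable under `τ`
    exfalso
    have hst : ∀ c ∈ A, τ * c ∈ A := by
      intro c hc
      have hl := hall c hc
      have h2 : ((u c : (Module.End F V)ˣ) : Module.End F V) (d₀ • w) = d₀ • w := by
        rw [hu, hlB d₀ hd₀B, mul_zero, zero_smul, map_zero, add_zero]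
      obtain ⟨t, ht⟩ := Submodule.mem_span_singleton.1 (hl d₀)
      rw [h2] at ht
      have ht0 : t ≠ 0 := by
        rintro rfl
        rw [zero_smul] at ht
        exact hd₀w ht.symm
      have h3 : ((u c : (Module.End F V)ˣ) : Module.End F V) w ∈ Submodule.span E {w} := by
        rw [Submodule.mem_span_singleton]
        refine ⟨t⁻¹ * d₀, ?_⟩
        rw [mul_smul, ← ht, smul_smul, inv_mul_cancel₀ ht0, one_smul]
      have h4 : ((u c : (Module.End F V)ˣ) : Module.End F V) (d₂ • w) ∈ Submodule.span E {w} := by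
        have h5 := hl d₂
        exact (Submodule.span_singleton_le_iff_mem _ _).2 h3 h5
      rw [hu] at h4
      have h5 : (y : Module.End F V) ((c * τ) • w) ∈ Submodule.span E {w} := by
        have h6 := Submodule.sub_mem _ h4 (Submodule.smul_mem _ d₂ (Submodule.mem_span_singleton_self w))
        rwa [add_sub_cancel_left] at h6
      rw [mul_comm, hAmem]
      exact h5
    have htop := eq_top_of_stable hr τ hlp₂ A hA0 hst
    apply hnl
    intro c
    have h2 : ∀ e : E, (y : Module.End F V) (e • w) ∈ Submodule.span E {w} := by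
      intro e
      rw [← hAmem, htop]
      exact Submodule.mem_top
    have h3 := h2 1
    rw [one_smul] at h3
    obtain ⟨t, ht⟩ := Submodule.mem_span_singleton.1 h3
    have hyw0 : (y : Module.End F V) w ≠ 0 := ne_zero_of_unit y hw
    have ht0 : t ≠ 0 := by
      rintro rfl
      rw [zero_smul] at ht
      exact hyw0 ht.symm
    obtain ⟨s, hs⟩ := Submodule.mem_span_singleton.1 (h2 c)
    rw [Submodule.mem_span_singleton]
    refine ⟨s * t⁻¹, ?_⟩
    rw [← ht, smul_smul, mul_assoc, inv_mul_cancel₀ ht0, mul_one, hs]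
  · push Not at hall
    obtain ⟨c, hcA, hcl⟩ := hall
    refine ⟨u c, huY c, w, hw, hcl, ?_⟩
    have hle : B ≤ lineSub (E := E) (((u c)⁻¹ : (Module.End F V)ˣ) : Module.End F V) w := by
      intro d hdB
      rw [mem_lineSub, hui, hlB d hdB, mul_zero, zero_smul, map_zero, sub_zero]
      exact Submodule.smul_mem _ _ (Submodule.mem_span_singleton_self w)
    have hd₁mem : d₁ ∈ lineSub (E := E) (((u c)⁻¹ : (Module.End F V)ˣ) : Module.End F V) w := by
      rw [mem_lineSub, hui, ← hp₁, hlp₁, mul_one]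
      exact Submodule.sub_mem _ (Submodule.smul_mem _ _ (Submodule.mem_span_singleton_self w)) ((hAmem c).1 hcA)
    have hd₁B : d₁ ∉ B := by
      intro h
      have := (hd 1 0 (by simpa using h)).1
      exact one_ne_zero this
    have hlt : B < lineSub (E := E) (((u c)⁻¹ : (Module.End F V)ˣ) : Module.End F V) w :=
      lt_of_le_of_ne hle (fun h => hd₁B (h ▸ hd₁mem))
    have := Submodule.finrank_lt_finrank_of_lt hlt
    omega

end Near

end Cfsg.Agent.H29
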