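/-
From an image of an `E`-line meeting an `E`-line in a hyperplane to a transvection.
-/
import Cfsg.Agent.Lib.H29.FieldNear

set_option autoImplicit false
set_option linter.unusedSectionVars false

namespace Cfsg.Agent.H29

open Module

section Ring

variable {F V : Type*} [Field F] [AddCommGroup V] [Module F V]

theorem comm_identity (a b : Module.End F V) (ha : a * a = 0) (hb : b * b = 0) (haba : a * b * a = 0) :
    (1 + a) * (1 + b) * (1 - a) * (1 - b) = 1 + (a * b - b * a + b * a * b) := by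
  have h1 : (1 + a) * (1 + b) * (1 - a) = 1 + b + a * b - b * a := by
    have : (1 + a) * (1 + b) * (1 - a) = 1 + b + a * b - b * a - a * a - a * b * a := by
      noncomm_ring
    rw [this, ha, haba]
    simp
  rw [h1]
  have : (1 + b + a * b - b * a) * (1 - b) =
      1 + (a * b - b * a + b * a * b) - b * b - a * (b * b) := by
    noncomm_ring
  rw [this, hb]
  simp

theorem unit_commutator (a b : Module.End F V) (ha : a * a = 0) (hb : b * b = 0) (haba : a * b * a = 0)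
    (h : (a * b - b * a + b * a * b) * (a * b - b * a + b * a * b) = 0) :
    unipU a ha * unipU b hb * (unipU a ha)⁻¹ * (unipU b hb)⁻¹ = unipU (a * b - b * a + b * a * b) h := by
  apply Units.ext
  simp only [Units.val_mul, unipU_coe, unipU_inv_coe]
  exact comm_identity a b ha hb haba

theorem unipU_mul_inv (r₁ r₂ : Module.End F V) (h₁ : r₁ * r₁ = 0) (h₂ : r₂ * r₂ = 0) (h₁₂ : r₁ * r₂ = 0)
    (h : (r₁ - r₂) * (r₁ - r₂) = 0) : unipU r₁ h₁ * (unipU r₂ h₂)⁻¹ = unipU (r₁ - r₂) h := by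
  apply Units.ext
  simp only [Units.val_mul, unipU_coe, unipU_inv_coe]
  have : (1 + r₁) * (1 - r₂) = 1 + (r₁ - r₂) - r₁ * r₂ := by noncomm_ring
  rw [this, h₁₂]
  simp

/-- The quadratic trick. -/
theorem quad_extract (Y : Subgroup (Module.End F V)ˣ) (φ ψ : Module.End F V) (h1 : φ * φ = 0) (h2 : ψ * ψ = 0)
    (h3 : φ * ψ * φ = 0) (s : F)
    (hφ : ∀ κ : F, ∃ h, unipU (κ • φ) h ∈ Y) (hψ : ∀ κ : F, ∃ h, unipU (κ • ψ) h ∈ Y)
    (hQ : ((s - s ^ 2) • (ψ * φ * ψ)) * ((s - s ^ 2) • (ψ * φ * ψ)) = 0) :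
    unipU ((s - s ^ 2) • (ψ * φ * ψ)) hQ ∈ Y := by
  obtain ⟨P, hP⟩ : ∃ P, P = φ * ψ - ψ * φ := ⟨_, rfl⟩
  obtain ⟨Q, hQd⟩ : ∃ Q, Q = ψ * φ * ψ := ⟨_, rfl⟩
  have h4 : φ * ψ * φ * ψ = 0 := by rw [h3, zero_mul]
  have h5 : ψ * φ * ψ * φ = 0 := by rw [mul_assoc ψ, mul_assoc ψ, h3, mul_zero]
  have hPP : P * P = 0 := by
    rw [hP]
    have : (φ * ψ - ψ * φ) * (φ * ψ - ψ * φ) =
        φ * ψ * φ * ψ - φ * (ψ * ψ) * φ - ψ * (φ * φ) * ψ + ψ * φ * ψ * φ := by noncomm_ring
    rw [this, h4, h5, h1, h2]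
    simp
  have hPQ : P * Q = 0 := by
    rw [hP, hQd]
    have : (φ * ψ - ψ * φ) * (ψ * φ * ψ) = φ * (ψ * ψ) * φ * ψ - ψ * (φ * ψ * φ) * ψ := by noncomm_ring
    rw [this, h2, h3]
    simp
  have hQP : Q * P = 0 := by
    rw [hP, hQd]
    have : (ψ * φ * ψ) * (φ * ψ - ψ * φ) = ψ * (φ * ψ * φ) * ψ - ψ * φ * (ψ * ψ) * φ := by noncomm_ring
    rw [this, h2, h3]
    simp
  have hQQ : Q * Q = 0 := by
    rw [hQd]
    have : (ψ * φ * ψ) * (ψ * φ * ψ) = ψ * φ * (ψ * ψ) * φ * ψ := by noncomm_ring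
    rw [this, h2]
    simp
  have hT : ∀ κ t : F, ∃ h, unipU ((κ * t) • P + (κ * t ^ 2) • Q) h ∈ Y := by
    intro κ t
    obtain ⟨ha, hau⟩ := hφ κ
    obtain ⟨hb, hbu⟩ := hψ t
    have e1 : (κ • φ) * (t • ψ) * (κ • φ) = 0 := by
      simp only [smul_mul_assoc, mul_smul_comm, h3, smul_zero]
    have e2 : (κ • φ) * (t • ψ) - (t • ψ) * (κ • φ) + (t • ψ) * (κ • φ) * (t • ψ) =
        (κ * t) • P + (κ * t ^ 2) • Q := by
      rw [hP, hQd]
      simp only [smul_mul_assoc, mul_smul_comm, smul_smul, smul_sub]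
      rw [show t * κ = κ * t by ring, show t * (κ * t) = κ * t ^ 2 by ring]
    have hsq : ((κ * t) • P + (κ * t ^ 2) • Q) * ((κ * t) • P + (κ * t ^ 2) • Q) = 0 := by
      simp only [add_mul, mul_add, smul_mul_assoc, mul_smul_comm, hPP, hPQ, hQP, hQQ, smul_zero, add_zero]
    have hsq' : ((κ • φ) * (t • ψ) - (t • ψ) * (κ • φ) + (t • ψ) * (κ • φ) * (t • ψ)) *
        ((κ • φ) * (t • ψ) - (t • ψ) * (κ • φ) + (t • ψ) * (κ • φ) * (t • ψ)) = 0 := by
      rw [e2]
      exact hsq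
    refine ⟨hsq, ?_⟩
    have e3 := unit_commutator (κ • φ) (t • ψ) ha hb e1 hsq'
    have e4 : unipU ((κ * t) • P + (κ * t ^ 2) • Q) hsq =
        unipU ((κ • φ) * (t • ψ) - (t • ψ) * (κ • φ) + (t • ψ) * (κ • φ) * (t • ψ)) hsq' := by
      apply Units.ext
      simp only [unipU_coe]
      rw [e2]
    rw [e4, ← e3]
    exact Y.mul_mem (Y.mul_mem (Y.mul_mem hau hbu) (Y.inv_mem hau)) (Y.inv_mem hbu)
  obtain ⟨h₁, hm₁⟩ := hT s 1
  obtain ⟨h₂, hm₂⟩ := hT 1 s
  have h₁₂ : ((s * 1) • P + (s * 1 ^ 2) • Q) * ((1 * s) • P + (1 * s ^ 2) • Q) = 0 := by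
    simp only [add_mul, mul_add, smul_mul_assoc, mul_smul_comm, hPP, hPQ, hQP, hQQ, smul_zero, add_zero]
  have hd : ((s * 1) • P + (s * 1 ^ 2) • Q) - ((1 * s) • P + (1 * s ^ 2) • Q) = (s - s ^ 2) • Q := by
    simp only [mul_one, one_mul, one_pow, sub_smul]
    abel
  have hdsq : (((s * 1) • P + (s * 1 ^ 2) • Q) - ((1 * s) • P + (1 * s ^ 2) • Q)) *
      (((s * 1) • P + (s * 1 ^ 2) • Q) - ((1 * s) • P + (1 * s ^ 2) • Q)) = 0 := by
    rw [hd]
    simp only [smul_mul_assoc, mul_smul_comm, hQQ, smul_zero]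
  have e5 := unipU_mul_inv _ _ h₁ h₂ h₁₂ hdsq
  have e6 : unipU ((s - s ^ 2) • (ψ * φ * ψ)) hQ =
      unipU (((s * 1) • P + (s * 1 ^ 2) • Q) - ((1 * s) • P + (1 * s ^ 2) • Q)) hdsq := by
    apply Units.ext
    simp only [unipU_coe]
    rw [hd, hQd]
  rw [e6, ← e5]
  exact Y.mul_mem hm₁ (Y.inv_mem hm₂)

end Ring

section Core

variable {F E V : Type*} [Field F] [Field E] [Algebra F E] [AddCommGroup V] [Module F V] [Module E V]
  [IsScalarTower F E V]

/-- The rank one map `x ↦ μ x • v`. -/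
def ot (μ : V →ₗ[F] F) (v : V) : Module.End F V := (LinearMap.toSpanSingleton F V v) ∘ₗ μ

@[simp] theorem ot_apply (μ : V →ₗ[F] F) (v x : V) : ot μ v x = μ x • v := rfl

theorem ot_sq (μ : V →ₗ[F] F) (v : V) (h : μ v = 0) : ot μ v * ot μ v = 0 := by
  ext x
  simp [h]

/-- The subgroup contains a transvection. -/
def HasSeed (Y : Subgroup (Module.End F V)ˣ) : Prop :=
  ∃ (μ : V →ₗ[F] F) (v : V) (h : μ v = 0), v ≠ 0 ∧ μ ≠ 0 ∧ unipU (ot μ v) (ot_sq μ v h) ∈ Y

/-- The data produced by the maximal intersection argument. -/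
structure NearData (y : (Module.End F V)ˣ) (w : V) (l l' : V →ₗ[E] E) (c₁ d₁ : E) (μA μB : E →ₗ[F] F) : Prop where
  hw : w ≠ 0
  hlw : l w = 0
  hl'w : l' w = 0
  hA : ∀ e : E, μA e = 0 ↔ (y : Module.End F V) (e • w) ∈ Submodule.span E {w}
  hB : ∀ e : E, μB e = 0 ↔ ((y⁻¹ : (Module.End F V)ˣ) : Module.End F V) (e • w) ∈ Submodule.span E {w}
  hA1 : μA c₁ = 1
  hB1 : μB d₁ = 1
  hlz : l ((y : Module.End F V) (c₁ • w)) = 1
  hlp : l' (((y⁻¹ : (Module.End F V)ˣ) : Module.End F V) (d₁ • w)) = 1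

/-- The conjugate of a root map. -/
def psiM (y : (Module.End F V)ˣ) (l' : V →ₗ[E] E) (w : V) (c : E) : Module.End F V :=
  (y : Module.End F V) * rootMap l' w (mulF (F := F) c) * ((y⁻¹ : (Module.End F V)ˣ) : Module.End F V)

theorem psiM_apply (y : (Module.End F V)ˣ) (l' : V →ₗ[E] E) (w : V) (c : E) (v : V) :
    psiM y l' w c v = (y : Module.End F V) ((c * l' (((y⁻¹ : (Module.End F V)ˣ) : Module.End F V) v)) • w) := rfl

namespace NearData

variable {y : (Module.End F V)ˣ} {w : V} {l l' : V →ₗ[E] E} {c₁ d₁ : E} {μA μB : E →ₗ[F] F}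

theorem l'_inv (h : NearData y w l l' c₁ d₁ μA μB) (e : E) :
    l' (((y⁻¹ : (Module.End F V)ˣ) : Module.End F V) (e • w)) = algebraMap F E (μB e) := by
  have h1 : μB (e - μB e • d₁) = 0 := by
    rw [map_sub, map_smul, h.hB1, smul_eq_mul, mul_one, sub_self]
  obtain ⟨t, ht⟩ := Submodule.mem_span_singleton.1 ((h.hB _).1 h1)
  have h2 : e • w = (e - μB e • d₁) • w + μB e • (d₁ • w) := by
    rw [sub_smul, smul_assoc]
    abel
  rw [h2, map_add, map_add, ← ht, map_smul, h.hl'w, smul_zero, zero_add, LinearMap.map_smul,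
    LinearMap.map_smul_of_tower, h.hlp, Algebra.algebraMap_eq_smul_one]

theorem l_y (h : NearData y w l l' c₁ d₁ μA μB) (e : E) :
    l ((y : Module.End F V) (e • w)) = algebraMap F E (μA e) := by
  have h1 : μA (e - μA e • c₁) = 0 := by
    rw [map_sub, map_smul, h.hA1, smul_eq_mul, mul_one, sub_self]
  obtain ⟨t, ht⟩ := Submodule.mem_span_singleton.1 ((h.hA _).1 h1)
  have h2 : e • w = (e - μA e • c₁) • w + μA e • (c₁ • w) := by
    rw [sub_smul, smul_assoc]
    abel
  rw [h2, map_add, map_add, ← ht, map_smul, h.hlw, smul_zero, zero_add, LinearMap.map_smul,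
    LinearMap.map_smul_of_tower, h.hlz, Algebra.algebraMap_eq_smul_one]

theorem psi_on (h : NearData y w l l' c₁ d₁ μA μB) (c e : E) :
    psiM y l' w c (e • w) = μB e • (y : Module.End F V) (c • w) := by
  rw [psiM_apply, h.l'_inv, mul_comm, ← Algebra.smul_def, smul_assoc, LinearMap.map_smul]

theorem psi_on_y (h : NearData y w l l' c₁ d₁ μA μB) (c e : E) :
    psiM y l' w c ((y : Module.End F V) (e • w)) = 0 := by
  rw [psiM_apply, uinv_apply, l'.map_smul e w, h.hl'w, smul_zero, mul_zero, zero_smul, map_zero]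

theorem phi_on (h : NearData y w l l' c₁ d₁ μA μB) (d e : E) :
    rootMap l w (mulF (F := F) d) (e • w) = 0 := by
  rw [rootMap_mulF_apply, map_smul, h.hlw, smul_zero, mul_zero, zero_smul]

theorem phi_on_y (h : NearData y w l l' c₁ d₁ μA μB) (d e : E) :
    rootMap l w (mulF (F := F) d) ((y : Module.End F V) (e • w)) = μA e • (d • w) := by
  rw [rootMap_mulF_apply, h.l_y, mul_comm, ← Algebra.smul_def, smul_assoc]

theorem psi_mul_psi (h : NearData y w l l' c₁ d₁ μA μB) (c c' : E) : psiM y l' w c * psiM y l' w c' = 0 := by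
  ext v
  rw [Module.End.mul_apply, psiM_apply y l' w c', h.psi_on_y]
  rfl

theorem psi_smul (c : E) (κ : F) : psiM y l' w (κ • c) = κ • psiM y l' w c := by
  ext v
  rw [psiM_apply, LinearMap.smul_apply, psiM_apply, ← LinearMap.map_smul, smul_mul_assoc, smul_assoc]

theorem phi_smul (d : E) (κ : F) :
    rootMap l w (mulF (F := F) (κ • d)) = κ • rootMap l w (mulF (F := F) d) := by
  ext v
  rw [rootMap_mulF_apply, LinearMap.smul_apply, rootMap_mulF_apply, smul_mul_assoc, smul_assoc]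

theorem phi_sq (h : NearData y w l l' c₁ d₁ μA μB) (d d' : E) :
    rootMap l w (mulF (F := F) d) * rootMap l w (mulF (F := F) d') = 0 :=
  rootMap_mul_rootMap l w h.hlw _ _

/-- The root element conjugated by `y`. -/
theorem psiU_mem (h : NearData y w l l' c₁ d₁ μA μB) {Y : Subgroup (Module.End F V)ˣ}
    [Finite F] [FiniteDimensional F E] [FiniteDimensional E V]
    (hY : ∀ g : (Module.End F V)ˣ, IsElin (E := E) (g : Module.End F V) → LinearMap.det (g : Module.End F V) = 1 → g ∈ Y)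
    (hyY : y ∈ Y) (c : E) : unipU (psiM y l' w c) (h.psi_mul_psi c c) ∈ Y := by
  have h1 := unipU_conj y (rootMap l' w (mulF (F := F) c)) (rootMap_mul_rootMap l' w h.hl'w _ _) (h.psi_mul_psi c c)
  have h2 : unipU (psiM y l' w c) (h.psi_mul_psi c c) = y * unipU (rootMap l' w (mulF (F := F) c))
      (rootMap_mul_rootMap l' w h.hl'w _ _) * y⁻¹ := h1.symm
  rw [h2]
  exact Y.mul_mem (Y.mul_mem hyY (hY _ (isElin_one_add _ _ _) (det_one_add _ _ _ h.hl'w))) (Y.inv_mem hyY)

theorem phiU_mem (h : NearData y w l l' c₁ d₁ μA μB) {Y : Subgroup (Module.End F V)ˣ}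
    [Finite F] [FiniteDimensional F E] [FiniteDimensional E V]
    (hY : ∀ g : (Module.End F V)ˣ, IsElin (E := E) (g : Module.End F V) → LinearMap.det (g : Module.End F V) = 1 → g ∈ Y)
    (d : E) : unipU (rootMap l w (mulF (F := F) d)) (h.phi_sq d d) ∈ Y :=
  hY _ (isElin_one_add _ _ _) (det_one_add _ _ _ h.hlw)

/-- If `y (c w) = d w`, then `φ_d' ψ_c φ_d' = 0`. -/
theorem phi_psi_phi (h : NearData y w l l' c₁ d₁ μA μB) (c d d' : E) (hcd : (y : Module.End F V) (c • w) = d • w) :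
    rootMap l w (mulF (F := F) d') * psiM y l' w c * rootMap l w (mulF (F := F) d') = 0 := by
  ext v
  simp only [Module.End.mul_apply]
  rw [rootMap_mulF_apply l w d' v, h.psi_on, hcd, LinearMap.map_smul, h.phi_on, smul_zero]
  rfl

/-- The linear functional `v ↦ μA (c * l' (y⁻¹ v))`. -/
def etaF (y : (Module.End F V)ˣ) (l' : V →ₗ[E] E) (μA : E →ₗ[F] F) (c : E) : V →ₗ[F] F :=
  μA ∘ₗ (mulF (F := F) c) ∘ₗ (l'.restrictScalars F) ∘ₗ ((y⁻¹ : (Module.End F V)ˣ) : Module.End F V)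

theorem etaF_apply (y : (Module.End F V)ˣ) (l' : V →ₗ[E] E) (μA : E →ₗ[F] F) (c : E) (v : V) :
    etaF y l' μA c v = μA (c * l' (((y⁻¹ : (Module.End F V)ˣ) : Module.End F V) v)) := rfl

/-- The linear functional `v ↦ μB (d * l v)`. -/
def etaG (l : V →ₗ[E] E) (μB : E →ₗ[F] F) (d : E) : V →ₗ[F] F :=
  μB ∘ₗ (mulF (F := F) d) ∘ₗ (l.restrictScalars F)

theorem etaG_apply (l : V →ₗ[E] E) (μB : E →ₗ[F] F) (d : E) (v : V) :
    etaG l μB d v = μB (d * l v) := rfl

theorem phi_psi (h : NearData y w l l' c₁ d₁ μA μB) (c d : E) (v : V) :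
    rootMap l w (mulF (F := F) d) (psiM y l' w c v) = etaF y l' μA c v • (d • w) := by
  rw [psiM_apply, h.phi_on_y, etaF_apply]

theorem psi_phi (h : NearData y w l l' c₁ d₁ μA μB) (c d : E) (v : V) :
    psiM y l' w c (rootMap l w (mulF (F := F) d) v) = etaG l μB d v • (y : Module.End F V) (c • w) := by
  rw [rootMap_mulF_apply, h.psi_on, etaG_apply]

/-- The aligned commutator. -/
theorem seed_aligned (h : NearData y w l l' c₁ d₁ μA μB) {Y : Subgroup (Module.End F V)ˣ}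
    [Finite F] [FiniteDimensional F E] [FiniteDimensional E V]
    (hY : ∀ g : (Module.End F V)ˣ, IsElin (E := E) (g : Module.End F V) → LinearMap.det (g : Module.End F V) = 1 → g ∈ Y)
    (hyY : y ∈ Y) (c d : E) (hd0 : d ≠ 0) (hcd : (y : Module.End F V) (c • w) = d • w)
    (hne : ∃ v, etaF y l' μA c v ≠ etaG l μB d v) : HasSeed Y := by
  have hμBd : μB d = 0 := by
    rw [h.hB, ← hcd, uinv_apply]
    exact Submodule.smul_mem _ _ (Submodule.mem_span_singleton_self w)
  obtain ⟨φ, hφ⟩ : ∃ φ, φ = rootMap l w (mulF (F := F) d) := ⟨_, rfl⟩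
  obtain ⟨ψ, hψ⟩ : ∃ ψ, ψ = psiM y l' w c := ⟨_, rfl⟩
  have h1 : φ * φ = 0 := by rw [hφ]; exact h.phi_sq _ _
  have h2 : ψ * ψ = 0 := by rw [hψ]; exact h.psi_mul_psi _ _
  have h3 : φ * ψ * φ = 0 := by rw [hφ, hψ]; exact h.phi_psi_phi c d d hcd
  have h4 : ψ * φ * ψ = 0 := by
    ext v
    simp only [Module.End.mul_apply]
    rw [hφ, hψ, h.phi_psi, LinearMap.map_smul, h.psi_on, hμBd, zero_smul, smul_zero]
    rfl
  have h5 : φ * ψ - ψ * φ = ot (etaF y l' μA c - etaG l μB d) (d • w) := by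
    ext v
    simp only [LinearMap.sub_apply, Module.End.mul_apply, ot_apply, sub_smul]
    rw [hφ, hψ, h.phi_psi, h.psi_phi, hcd]
  have hv : (etaF y l' μA c - etaG l μB d) (d • w) = 0 := by
    have e1 : etaF y l' μA c (d • w) = 0 := by
      rw [etaF_apply, h.l'_inv, hμBd, map_zero, mul_zero, map_zero]
    have e2 : etaG l μB d (d • w) = 0 := by
      rw [etaG_apply, l.map_smul, h.hlw, smul_zero, mul_zero, map_zero]
    rw [LinearMap.sub_apply, e1, e2, sub_self]
  refine ⟨_, d • w, hv, smul_ne_zero hd0 h.hw, ?_, ?_⟩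
  · obtain ⟨v, hv'⟩ := hne
    intro h0
    apply hv'
    have := LinearMap.congr_fun h0 v
    rw [LinearMap.sub_apply, LinearMap.zero_apply] at this
    exact sub_eq_zero.1 this
  · have hsq : (φ * ψ - ψ * φ + ψ * φ * ψ) * (φ * ψ - ψ * φ + ψ * φ * ψ) = 0 := by
      rw [h4, add_zero, h5]
      exact ot_sq _ _ hv
    have e3 := unit_commutator φ ψ h1 h2 h3 hsq
    have e4 : unipU (ot (etaF y l' μA c - etaG l μB d) (d • w)) (ot_sq _ _ hv) =
        unipU (φ * ψ - ψ * φ + ψ * φ * ψ) hsq := by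
      apply Units.ext
      simp only [unipU_coe]
      rw [h4, add_zero, h5]
    rw [e4, ← e3]
    have m1 : unipU φ h1 ∈ Y := by
      subst hφ
      exact h.phiU_mem hY d
    have m2 : unipU ψ h2 ∈ Y := by
      subst hψ
      exact h.psiU_mem hY hyY c
    exact Y.mul_mem (Y.mul_mem (Y.mul_mem m1 m2) (Y.inv_mem m1)) (Y.inv_mem m2)

/-- A second functional gives a transvection if `E`-dimension is at least `3`. -/
theorem seed_var (h : NearData y w l l' c₁ d₁ μA μB) {Y : Subgroup (Module.End F V)ˣ}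
    [Finite F] [FiniteDimensional F E] [FiniteDimensional E V] (hm : 3 ≤ finrank E V)
    (hY : ∀ g : (Module.End F V)ˣ, IsElin (E := E) (g : Module.End F V) → LinearMap.det (g : Module.End F V) = 1 → g ∈ Y)
    (hyY : y ∈ Y) (c d : E) (hd0 : d ≠ 0) (hcd : (y : Module.End F V) (c • w) = d • w) : HasSeed Y := by
  classical
  set z := (y : Module.End F V) (c₁ • w) with hz
  have hne : Submodule.span E ({w, z} : Set V) ≠ ⊤ := by
    intro htop
    have h2 := finrank_span_le_card (R := E) ({w, z} : Set V)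
    rw [htop, finrank_top] at h2
    have h3 : ({w, z} : Set V).toFinset.card ≤ 2 := by
      rw [Set.toFinset_insert, Set.toFinset_singleton]
      exact Finset.card_le_two
    omega
  obtain ⟨p, hp⟩ : ∃ p, p ∉ Submodule.span E ({w, z} : Set V) := by
    by_contra hcon
    push Not at hcon
    exact hne (eq_top_iff.2 fun x _ => hcon x)
  obtain ⟨l₃, hl₃p, hl₃⟩ := Submodule.exists_dual_map_eq_bot_of_notMem hp inferInstance
  have hl₃v : ∀ x ∈ Submodule.span E ({w, z} : Set V), l₃ x = 0 := by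
    intro x hx
    have h1 : l₃ x ∈ (Submodule.span E ({w, z} : Set V)).map l₃ := Submodule.mem_map_of_mem hx
    rw [hl₃] at h1
    exact (Submodule.mem_bot E).1 h1
  have hl₃w : l₃ w = 0 := hl₃v w (Submodule.subset_span (by simp))
  have hl₃z : l₃ z = 0 := hl₃v z (Submodule.subset_span (by simp))
  have h2 : NearData y w (l + l₃) l' c₁ d₁ μA μB :=
    { hw := h.hw
      hlw := by simp [h.hlw, hl₃w]
      hl'w := h.hl'w
      hA := h.hA
      hB := h.hB
      hA1 := h.hA1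
      hB1 := h.hB1
      hlz := by rw [LinearMap.add_apply, h.hlz, ← hz, hl₃z, add_zero]
      hlp := h.hlp }
  by_cases hex : ∃ v, etaF y l' μA c v ≠ etaG l μB d v
  · exact h.seed_aligned hY hyY c d hd0 hcd hex
  by_cases hex2 : ∃ v, etaF y l' μA c v ≠ etaG (l + l₃) μB d v
  · exact h2.seed_aligned hY hyY c d hd0 hcd hex2
  exfalso
  push Not at hex hex2
  have e1 := hex ((d⁻¹ * d₁ * (l₃ p)⁻¹) • p)
  have e2 := hex2 ((d⁻¹ * d₁ * (l₃ p)⁻¹) • p)
  rw [e1] at e2
  rw [etaG_apply, etaG_apply, LinearMap.add_apply, mul_add, map_add] at e2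
  have e3 : μB (d * l₃ ((d⁻¹ * d₁ * (l₃ p)⁻¹) • p)) = 0 := by
    exact left_eq_add.1 e2
  have e4 : d * l₃ ((d⁻¹ * d₁ * (l₃ p)⁻¹) • p) = d₁ := by
    rw [l₃.map_smul, smul_eq_mul]
    field_simp
  rw [e4, h.hB1] at e3
  exact one_ne_zero e3

/-- The quadratic trick gives a transvection if `F` has more than two elements. -/
theorem seed_quad (h : NearData y w l l' c₁ d₁ μA μB) {Y : Subgroup (Module.End F V)ˣ}
    [Finite F] [FiniteDimensional F E] [FiniteDimensional E V]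
    (hY : ∀ g : (Module.End F V)ˣ, IsElin (E := E) (g : Module.End F V) → LinearMap.det (g : Module.End F V) = 1 → g ∈ Y)
    (hyY : y ∈ Y) (s : F) (hs0 : s ≠ 0) (hs1 : s ≠ 1) (c d : E) (hc0 : c ≠ 0) (hd0 : d ≠ 0)
    (hcd : (y : Module.End F V) (c • w) = d • w) : HasSeed Y := by
  have hμBd : μB d = 0 := by
    rw [h.hB, ← hcd, uinv_apply]
    exact Submodule.smul_mem _ _ (Submodule.mem_span_singleton_self w)
  obtain ⟨φ, hφd⟩ : ∃ φ, φ = rootMap l w (mulF (F := F) d₁) := ⟨_, rfl⟩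
  obtain ⟨ψ, hψd⟩ : ∃ ψ, ψ = psiM y l' w c := ⟨_, rfl⟩
  have h1 : φ * φ = 0 := by rw [hφd]; exact h.phi_sq _ _
  have h2 : ψ * ψ = 0 := by rw [hψd]; exact h.psi_mul_psi _ _
  have h3 : φ * ψ * φ = 0 := by rw [hφd, hψd]; exact h.phi_psi_phi c d d₁ hcd
  have hs : s - s ^ 2 ≠ 0 := by
    have : s - s ^ 2 = s * (1 - s) := by ring
    rw [this]
    exact mul_ne_zero hs0 (sub_ne_zero.2 (Ne.symm hs1))
  have hφ : ∀ κ : F, ∃ h', unipU (κ • φ) h' ∈ Y := by
    intro κ
    have e : κ • φ = rootMap l w (mulF (F := F) (κ • d₁)) := by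
      rw [hφd, phi_smul]
    refine ⟨by rw [e]; exact h.phi_sq _ _, ?_⟩
    have e2 : unipU (κ • φ) (by rw [e]; exact h.phi_sq _ _) =
        unipU (rootMap l w (mulF (F := F) (κ • d₁))) (h.phi_sq _ _) := by
      apply Units.ext
      simp only [unipU_coe]
      rw [e]
    rw [e2]
    exact h.phiU_mem hY _
  have hψ : ∀ κ : F, ∃ h', unipU (κ • ψ) h' ∈ Y := by
    intro κ
    have e : κ • ψ = psiM y l' w (κ • c) := by
      rw [hψd, psi_smul]
    refine ⟨by rw [e]; exact h.psi_mul_psi _ _, ?_⟩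
    have e2 : unipU (κ • ψ) (by rw [e]; exact h.psi_mul_psi _ _) =
        unipU (psiM y l' w (κ • c)) (h.psi_mul_psi _ _) := by
      apply Units.ext
      simp only [unipU_coe]
      rw [e]
    rw [e2]
    exact h.psiU_mem hY hyY _
  have hQ : ψ * φ * ψ = ot (etaF y l' μA c) (d • w) := by
    ext v
    simp only [Module.End.mul_apply, ot_apply]
    rw [hφd, hψd, h.phi_psi, LinearMap.map_smul, h.psi_on, h.hB1, one_smul, hcd]
  have hv : ((s - s ^ 2) • etaF y l' μA c) (d • w) = 0 := by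
    have e1 : etaF y l' μA c (d • w) = 0 := by
      rw [etaF_apply, h.l'_inv, hμBd, map_zero, mul_zero, map_zero]
    rw [LinearMap.smul_apply, e1, smul_zero]
  have hQQ : ((s - s ^ 2) • (ψ * φ * ψ)) * ((s - s ^ 2) • (ψ * φ * ψ)) = 0 := by
    have : (ψ * φ * ψ) * (ψ * φ * ψ) = ψ * φ * (ψ * ψ) * φ * ψ := by noncomm_ring
    simp only [smul_mul_assoc, mul_smul_comm, this, h2, mul_zero, zero_mul, smul_zero]
  have hm := quad_extract Y φ ψ h1 h2 h3 s hφ hψ hQQ
  refine ⟨_, d • w, hv, smul_ne_zero hd0 h.hw, ?_, ?_⟩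
  · intro h0
    have e1 : etaF y l' μA c = 0 := (smul_eq_zero.1 h0).resolve_left hs
    have e2 := LinearMap.congr_fun e1 ((y : Module.End F V) ((c⁻¹ * c₁) • ((y⁻¹ : (Module.End F V)ˣ) : Module.End F V) (d₁ • w)))
    rw [etaF_apply, uinv_apply, l'.map_smul, h.hlp, smul_eq_mul, mul_one, ← mul_assoc, mul_inv_cancel₀ hc0, one_mul,
      h.hA1, LinearMap.zero_apply] at e2
    exact one_ne_zero e2
  · have e3 : unipU (ot ((s - s ^ 2) • etaF y l' μA c) (d • w)) (ot_sq _ _ hv) =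
        unipU ((s - s ^ 2) • (ψ * φ * ψ)) hQQ := by
      apply Units.ext
      simp only [unipU_coe]
      rw [hQ]
      congr 1
      ext v
      simp [smul_smul]
    rw [e3]
    exact hm

theorem exists_aligned (h : NearData y w l l' c₁ d₁ μA μB) [FiniteDimensional F E] (hr : 2 ≤ finrank F E) :
    ∃ c d : E, c ≠ 0 ∧ d ≠ 0 ∧ (y : Module.End F V) (c • w) = d • w := by
  have hker : LinearMap.ker μA ≠ ⊥ := by
    intro h0
    have h1 := LinearMap.finrank_le_finrank_of_injective (LinearMap.ker_eq_bot.1 h0)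
    rw [finrank_self] at h1
    omega
  obtain ⟨c, hc, hc0⟩ := Submodule.exists_mem_ne_zero_of_ne_bot hker
  obtain ⟨d, hd⟩ := Submodule.mem_span_singleton.1 ((h.hA c).1 hc)
  refine ⟨c, d, hc0, ?_, hd.symm⟩
  rintro rfl
  rw [zero_smul] at hd
  exact ne_zero_of_unit y (smul_ne_zero hc0 h.hw) hd.symm

end NearData

theorem exists_hyperplane_func [FiniteDimensional F E] (A : Submodule F E) (hA : finrank F A + 1 = finrank F E) :
    ∃ (μ : E →ₗ[F] F) (c : E), μ c = 1 ∧ ∀ e, μ e = 0 ↔ e ∈ A := by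
  have hne : A ≠ ⊤ := by
    rintro rfl
    rw [finrank_top] at hA
    omega
  obtain ⟨c, hc⟩ : ∃ c, c ∉ A := by
    by_contra hcon
    push Not at hcon
    exact hne (eq_top_iff.2 fun x _ => hcon x)
  obtain ⟨f, hf, hmap⟩ := Submodule.exists_dual_map_eq_bot_of_notMem hc inferInstance
  have hle : A ≤ LinearMap.ker f := by
    intro a ha
    have h1 : f a ∈ A.map f := Submodule.mem_map_of_mem ha
    rw [hmap] at h1
    exact (Submodule.mem_bot F).1 h1
  have hr := LinearMap.finrank_range_add_finrank_ker f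
  have hrange : LinearMap.range f = ⊤ := by
    rw [LinearMap.range_eq_top]
    intro t
    refine ⟨(t * (f c)⁻¹) • c, ?_⟩
    rw [map_smul, smul_eq_mul, mul_assoc, inv_mul_cancel₀ hf, mul_one]
  rw [hrange, finrank_top, finrank_self] at hr
  have heq : A = LinearMap.ker f := Submodule.eq_of_le_of_finrank_eq hle (by omega)
  refine ⟨(f c)⁻¹ • f, c, ?_, ?_⟩
  · rw [LinearMap.smul_apply, smul_eq_mul, inv_mul_cancel₀ hf]
  · intro e
    rw [heq, LinearMap.mem_ker, LinearMap.smul_apply, smul_eq_mul]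
    constructor
    · intro h0
      exact (mul_eq_zero.1 h0).resolve_left (inv_ne_zero hf)
    · intro h0
      rw [h0, mul_zero]

theorem finrank_lineSub_inv [FiniteDimensional F E] [FiniteDimensional E V] (y : (Module.End F V)ˣ) (w : V) (hw : w ≠ 0) :
    finrank F (lineSub (E := E) ((y⁻¹ : (Module.End F V)ˣ) : Module.End F V) w) =
      finrank F (lineSub (E := E) (y : Module.End F V) w) := by
  let ev : E →ₗ[F] V := (LinearMap.toSpanSingleton E V w).restrictScalars F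
  have hev : Function.Injective ev := fun a b hab => smul_left_injective E hw hab
  have hyinj := unit_injective y
  have h1 := (Submodule.equivMapOfInjective ev hev (lineSub (E := E) (y : Module.End F V) w)).finrank_eq
  have h2 := (Submodule.equivMapOfInjective ev hev (lineSub (E := E) ((y⁻¹ : (Module.End F V)ˣ) : Module.End F V) w)).finrank_eq
  have h3 := (Submodule.equivMapOfInjective (y : Module.End F V) hyinj
    ((lineSub (E := E) (y : Module.End F V) w).map ev)).finrank_eq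
  have h4 : (lineSub (E := E) ((y⁻¹ : (Module.End F V)ˣ) : Module.End F V) w).map ev =
      ((lineSub (E := E) (y : Module.End F V) w).map ev).map (y : Module.End F V) := by
    ext v
    simp only [Submodule.mem_map]
    constructor
    · rintro ⟨d, hd, rfl⟩
      obtain ⟨c, hc⟩ := Submodule.mem_span_singleton.1 ((mem_lineSub _ _ _).1 hd)
      have hcy : (y : Module.End F V) (c • w) = d • w := by
        rw [hc, u_apply_inv]
      refine ⟨c • w, ⟨c, ?_, rfl⟩, hcy⟩
      rw [mem_lineSub, hcy]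
      exact Submodule.smul_mem _ _ (Submodule.mem_span_singleton_self w)
    · rintro ⟨_, ⟨c, hc, rfl⟩, rfl⟩
      obtain ⟨d, hd⟩ := Submodule.mem_span_singleton.1 ((mem_lineSub _ _ _).1 hc)
      have hdy : ((y⁻¹ : (Module.End F V)ˣ) : Module.End F V) (d • w) = c • w := by
        rw [hd, uinv_apply]
      refine ⟨d, ?_, hd⟩
      rw [mem_lineSub, hdy]
      exact Submodule.smul_mem _ _ (Submodule.mem_span_singleton_self w)
  rw [h1, h2, h4, h3]

theorem isLineLike_of_span (y : (Module.End F V)ˣ) (w : V) (hw : w ≠ 0)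
    (h : ∀ e : E, (y : Module.End F V) (e • w) ∈ Submodule.span E {w}) : IsLineLike (E := E) (y : Module.End F V) w := by
  intro c
  have h3 := h 1
  rw [one_smul] at h3
  obtain ⟨t, ht⟩ := Submodule.mem_span_singleton.1 h3
  have hyw0 : (y : Module.End F V) w ≠ 0 := ne_zero_of_unit y hw
  have ht0 : t ≠ 0 := by
    rintro rfl
    rw [zero_smul] at ht
    exact hyw0 ht.symm
  obtain ⟨s, hs⟩ := Submodule.mem_span_singleton.1 (h c)
  rw [Submodule.mem_span_singleton]
  refine ⟨s * t⁻¹, ?_⟩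
  rw [← ht, smul_smul, mul_assoc, inv_mul_cancel₀ ht0, mul_one, hs]

theorem exists_nearData [Finite F] [FiniteDimensional F E] [FiniteDimensional E V] (hr : (finrank F E).Prime)
    (hm : 2 ≤ finrank E V) (Y : Subgroup (Module.End F V)ˣ)
    (hY : ∀ g : (Module.End F V)ˣ, IsElin (E := E) (g : Module.End F V) → LinearMap.det (g : Module.End F V) = 1 → g ∈ Y)
    (x : (Module.End F V)ˣ) (hxY : x ∈ Y)
    (hx : ¬ ∀ c : E, ∃ c' : E, ∀ v : V, (x : Module.End F V) (c • v) = c' • (x : Module.End F V) v) :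
    ∃ y ∈ Y, ∃ (w : V) (l l' : V →ₗ[E] E) (c₁ d₁ : E) (μA μB : E →ₗ[F] F), NearData y w l l' c₁ d₁ μA μB := by
  have hr2 := hr.two_le
  have hP : ∀ b, 1 ≤ b → b + 1 ≤ finrank F E → NearP (E := E) Y b := by
    intro b hb
    induction b, hb using Nat.le_induction with
    | base => exact fun _ => nearP_base hm Y hY x hxY hx
    | succ b hb ih =>
      intro hle
      exact nearP_step hr Y hY b hb (by omega) (ih (by omega))
  obtain ⟨y, hyY, w, hw, hnl, hb⟩ := hP (finrank F E - 1) (by omega) (by omega)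
  have hfin := finrank_lineSub_inv (E := E) y w hw
  have hAne : lineSub (E := E) (y : Module.End F V) w ≠ ⊤ := by
    intro htop
    apply hnl
    apply isLineLike_of_span y w hw
    intro e
    rw [← mem_lineSub, htop]
    exact Submodule.mem_top
  have hAlt := Submodule.finrank_lt hAne
  have hA1 : finrank F (lineSub (E := E) (y : Module.End F V) w) + 1 = finrank F E := by omega
  have hB1 : finrank F (lineSub (E := E) ((y⁻¹ : (Module.End F V)ˣ) : Module.End F V) w) + 1 = finrank F E := by omega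
  obtain ⟨μA, c₁, hμA1, hμA⟩ := exists_hyperplane_func _ hA1
  obtain ⟨μB, d₁, hμB1, hμB⟩ := exists_hyperplane_func _ hB1
  have hz : (y : Module.End F V) (c₁ • w) ∉ Submodule.span E {w} := by
    intro h0
    have := (hμA c₁).2 h0
    rw [hμA1] at this
    exact one_ne_zero this
  have hp : ((y⁻¹ : (Module.End F V)ˣ) : Module.End F V) (d₁ • w) ∉ Submodule.span E {w} := by
    intro h0
    have := (hμB d₁).2 h0
    rw [hμB1] at this
    exact one_ne_zero this
  obtain ⟨l, hlw, hlz⟩ := exists_func (E := E) w _ hz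
  obtain ⟨l', hl'w, hl'p⟩ := exists_func (E := E) w _ hp
  exact ⟨y, hyY, w, l, l', c₁, d₁, μA, μB,
    { hw := hw, hlw := hlw, hl'w := hl'w, hA := hμA, hB := hμB, hA1 := hμA1, hB1 := hμB1, hlz := hlz, hlp := hl'p }⟩

end Core

end Cfsg.Agent.H29
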