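/-
From one transvection to all transvections.
-/
import Cfsg.Agent.Lib.H29.FieldSeed

set_option autoImplicit false
set_option linter.unusedSectionVars false

namespace Cfsg.Agent.H29

open Module

section Bimodule

variable {F E V : Type*} [Field F] [Field E] [Algebra F E] [AddCommGroup V] [Module F V] [Module E V]
  [IsScalarTower F E V] [Finite F] [FiniteDimensional F E] [FiniteDimensional E V]

theorem exists_sq_add_sq_field (κ : F) : ∃ a b : F, a ^ 2 + b ^ 2 = κ := by
  classical
  letI : Fintype F := Fintype.ofFinite F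
  by_cases h2 : ringChar F = 2
  · obtain ⟨a, ha⟩ := FiniteField.isSquare_of_char_two h2 κ
    exact ⟨a, 0, by rw [ha]; ring⟩
  · have hodd : Fintype.card F % 2 = 1 := FiniteField.odd_card_of_char_ne_two h2
    obtain ⟨a, b, hab⟩ := FiniteField.exists_root_sum_quadratic (f := (Polynomial.X ^ 2 : Polynomial F))
      (g := Polynomial.X ^ 2 - Polynomial.C κ) (by simp) (by
        rw [Polynomial.degree_X_pow_sub_C (by norm_num)]
        rfl) hodd
    refine ⟨a, b, ?_⟩
    simp only [Polynomial.eval_pow, Polynomial.eval_X, Polynomial.eval_sub, Polynomial.eval_C] at hab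
    linear_combination hab

theorem exists_norm_one (hr : 2 ≤ finrank F E) : ∃ δ : E, Algebra.norm F δ = 1 ∧ δ ∉ (algebraMap F E).range := by
  classical
  letI : Fintype F := Fintype.ofFinite F
  haveI : Finite E := Module.finite_of_finite F
  letI : Fintype E := Fintype.ofFinite E
  obtain ⟨g, hg⟩ := IsCyclic.exists_generator (α := Eˣ)
  set q := Fintype.card F with hq
  have hq2 : 2 ≤ q := Fintype.one_lt_card
  refine ⟨(g : E) ^ (q - 1), ?_, ?_⟩
  · rw [map_pow]
    exact FiniteField.pow_card_sub_one_eq_one _ (Algebra.norm_ne_zero_iff.2 g.ne_zero)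
  · rintro ⟨κ, hκ⟩
    have hκ0 : κ ≠ 0 := by
      rintro rfl
      rw [map_zero] at hκ
      exact pow_ne_zero _ g.ne_zero hκ.symm
    have h1 : κ ^ (q - 1) = 1 := FiniteField.pow_card_sub_one_eq_one κ hκ0
    have h2 : (g : E) ^ ((q - 1) * (q - 1)) = 1 := by
      rw [pow_mul, ← hκ, ← map_pow, h1, map_one]
    have h3 : g ^ ((q - 1) * (q - 1)) = 1 := by
      apply Units.ext
      rw [Units.val_pow_eq_pow_val, h2, Units.val_one]
    have h4 : orderOf g ∣ (q - 1) * (q - 1) := orderOf_dvd_of_pow_eq_one h3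
    rw [orderOf_eq_card_of_forall_mem_zpowers hg, Nat.card_eq_fintype_card, Fintype.card_units,
      Module.card_eq_pow_finrank (K := F) (V := E), ← hq] at h4
    have h5 : 0 < (q - 1) * (q - 1) := Nat.mul_pos (by omega) (by omega)
    have h6 := Nat.le_of_dvd h5 h4
    have h7 : q ^ 2 ≤ q ^ finrank F E := Nat.pow_le_pow_right (by omega) hr
    obtain ⟨t, ht⟩ : ∃ t, q = t + 1 := ⟨q - 1, by omega⟩
    have h8 : q - 1 = t := by omega
    rw [h8] at h6
    rw [ht] at h7
    have h9 : (t + 1) ^ 2 = t * t + 2 * t + 1 := by ring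
    rw [h9] at h7
    rw [← ht] at h7
    omega

/-- A diagonal element. -/
theorem exists_torus (l : V →ₗ[E] E) (w : V) (hlw : l w = 0) (hw : w ≠ 0) (hl : l ≠ 0) (a b : E) (ha : a ≠ 0) (hb : b ≠ 0) :
    ∃ g : (Module.End F V)ˣ, IsElin (E := E) (g : Module.End F V) ∧
      LinearMap.det (g : Module.End F V) = Algebra.norm F (a * b) ∧ (g : Module.End F V) w = a • w ∧
        ∀ v, l ((g : Module.End F V) v) = b * l v := by
  obtain ⟨p, hp⟩ : ∃ p, l p ≠ 0 := by
    by_contra hcon
    push Not at hcon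
    exact hl (LinearMap.ext hcon)
  obtain ⟨u, hu⟩ : ∃ u, l u = 1 := ⟨(l p)⁻¹ • p, by rw [l.map_smul, smul_eq_mul, inv_mul_cancel₀ hp]⟩
  have hwu : w ∉ Submodule.span E {u} := by
    intro hm
    obtain ⟨t, ht⟩ := Submodule.mem_span_singleton.1 hm
    have h1 := congrArg l ht
    rw [l.map_smul, hu, hlw, smul_eq_mul, mul_one] at h1
    rw [h1, zero_smul] at ht
    exact hw ht.symm
  obtain ⟨κ, hκu, hκw⟩ := exists_func (E := E) u w hwu
  let mk : E → E → Module.End F V := fun a b => 1 + rootMap κ w (mulF (F := F) (a - 1)) + rootMap l u (mulF (F := F) (b - 1))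
  have hmk : ∀ a b v, mk a b v = v + ((a - 1) * κ v) • w + ((b - 1) * l v) • u := fun a b v => rfl
  have hmkκ : ∀ a b v, κ (mk a b v) = a * κ v := by
    intro a b v
    rw [hmk]
    simp only [map_add, l.map_smul, κ.map_smul, smul_eq_mul, hκw, hκu]
    ring
  have hmkl : ∀ a b v, l (mk a b v) = b * l v := by
    intro a b v
    rw [hmk]
    simp only [map_add, l.map_smul, smul_eq_mul, hlw, hu]
    ring
  have hinv : ∀ a b : E, a ≠ 0 → b ≠ 0 → mk a⁻¹ b⁻¹ * mk a b = 1 := by
    intro a b ha hb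
    ext v
    simp only [Module.End.mul_apply, Module.End.one_apply]
    rw [hmk a⁻¹ b⁻¹, hmkκ, hmkl, hmk a b]
    have e1 : (a⁻¹ - 1) * (a * κ v) = (1 - a) * κ v := by
      field_simp
    have e2 : (b⁻¹ - 1) * (b * l v) = (1 - b) * l v := by
      field_simp
    rw [e1, e2]
    have e3 : ((1 - a) * κ v) • w = - (((a - 1) * κ v) • w) := by
      rw [← neg_smul]
      congr 1
      ring
    have e4 : ((1 - b) * l v) • u = - (((b - 1) * l v) • u) := by
      rw [← neg_smul]
      congr 1
      ring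
    rw [e3, e4]
    abel
  refine ⟨⟨mk a b, mk a⁻¹ b⁻¹, ?_, hinv a b ha hb⟩, ?_, ?_, ?_, ?_⟩
  · have := hinv a⁻¹ b⁻¹ (inv_ne_zero ha) (inv_ne_zero hb)
    rwa [inv_inv, inv_inv] at this
  · intro c v
    change mk a b (c • v) = c • mk a b v
    rw [hmk, hmk, l.map_smul, κ.map_smul, smul_add, smul_add, smul_smul, smul_smul, smul_eq_mul, smul_eq_mul,
      mul_left_comm (a - 1) c, mul_left_comm (b - 1) c]
  · change LinearMap.det (mk a b) = _
    have h1 : mk a b = ((LinearMap.transvection ((a - 1) • κ) w) ∘ₗ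
        (LinearMap.transvection ((b - 1) • l) u)).restrictScalars F := by
      ext v
      rw [hmk]
      change _ = LinearMap.transvection ((a - 1) • κ) w (LinearMap.transvection ((b - 1) • l) u v)
      rw [LinearMap.transvection.apply, LinearMap.transvection.apply]
      have e : ((a - 1) • κ) (v + ((b - 1) • l) v • u) = (a - 1) * κ v := by
        simp only [LinearMap.smul_apply, map_add, κ.map_smul, hκu, smul_zero, mul_zero, add_zero, smul_eq_mul]
      rw [e, LinearMap.smul_apply, smul_eq_mul]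
      abel
    rw [h1, det_restrict, LinearMap.det_comp, LinearMap.transvection.det, LinearMap.transvection.det]
    simp only [LinearMap.smul_apply, smul_eq_mul, hκw, hu, mul_one, add_sub_cancel, map_mul]
  · change mk a b w = _
    rw [hmk, hκw, hlw]
    simp only [mul_one, mul_zero, zero_smul, add_zero, sub_smul, one_smul]
    abel
  · intro v
    exact hmkl a b v

theorem rootU_conj_diag (g : (Module.End F V)ˣ) (hg : IsElin (E := E) (g : Module.End F V)) (l : V →ₗ[E] E) (w : V)
    (hl : l w = 0) (f : E →ₗ[F] E) (a b : E) (hb : b ≠ 0) (hgw : (g : Module.End F V) w = a • w)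
    (hgl : ∀ v, l ((g : Module.End F V) v) = b * l v) :
    g * rootU l w hl f * g⁻¹ = rootU l w hl (mulF (F := F) a ∘ₗ f ∘ₗ mulF (F := F) b⁻¹) := by
  apply Units.ext
  ext v
  have h1 : l (((g⁻¹ : (Module.End F V)ˣ) : Module.End F V) v) = b⁻¹ * l v := by
    have h2 := hgl (((g⁻¹ : (Module.End F V)ˣ) : Module.End F V) v)
    rw [u_apply_inv] at h2
    rw [h2, ← mul_assoc, inv_mul_cancel₀ hb, one_mul]
  simp only [Units.val_mul, Module.End.mul_apply, rootU_coe, LinearMap.add_apply, Module.End.one_apply, rootMap_apply,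
    map_add, u_apply_inv, hg _ w, hgw, h1, LinearMap.comp_apply, mulF, LinearMap.mulLeft_apply, smul_smul]
  congr 2
  ring

theorem rootU_zero (l : V →ₗ[E] E) (w : V) (hl : l w = 0) : rootU l w hl (0 : E →ₗ[F] E) = 1 := by
  apply Units.ext
  ext v
  simp

/-- The `E`-bimodule property. -/
theorem rootU_bimod (hr : (finrank F E).Prime) (Y : Subgroup (Module.End F V)ˣ)
    (hY : ∀ g : (Module.End F V)ˣ, IsElin (E := E) (g : Module.End F V) → LinearMap.det (g : Module.End F V) = 1 → g ∈ Y)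
    (l : V →ₗ[E] E) (w : V) (hl : l w = 0) (hw : w ≠ 0) (hl0 : l ≠ 0) (f : E →ₗ[F] E) (hf : rootU l w hl f ∈ Y) (a b : E) :
    rootU l w hl (mulF (F := F) a ∘ₗ f ∘ₗ mulF (F := F) b) ∈ Y := by
  have hnorm : ∀ (f : E →ₗ[F] E), rootU l w hl f ∈ Y → ∀ a b : E, a ≠ 0 → b ≠ 0 → Algebra.norm F (a * b) = 1 →
      rootU l w hl (mulF (F := F) a ∘ₗ f ∘ₗ mulF (F := F) b⁻¹) ∈ Y := by
    intro f hf a b ha hb hn
    obtain ⟨g, hg, hdet, hgw, hgl⟩ := exists_torus (F := F) l w hl hw hl0 a b ha hb
    rw [← rootU_conj_diag g hg l w hl f a b hb hgw hgl]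
    have hgY : g ∈ Y := hY g hg (by rw [hdet, hn])
    exact Y.mul_mem (Y.mul_mem hgY hf) (Y.inv_mem hgY)
  have hadd : ∀ f g : E →ₗ[F] E, rootU l w hl f ∈ Y → rootU l w hl g ∈ Y → rootU l w hl (f + g) ∈ Y := by
    intro f g hf hg
    rw [rootU_add]
    exact Y.mul_mem hf hg
  have hsq : ∀ (f : E →ₗ[F] E), rootU l w hl f ∈ Y → ∀ s : F, rootU l w hl (s ^ 2 • f) ∈ Y := by
    intro f hf s
    by_cases hs : s = 0
    · subst hs
      rw [zero_pow two_ne_zero, zero_smul, rootU_zero]
      exact Y.one_mem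
    have hs' : algebraMap F E s ≠ 0 := by
      rwa [Ne, map_eq_zero]
    have h1 := hnorm f hf (algebraMap F E s) (algebraMap F E s)⁻¹ hs' (inv_ne_zero hs') (by
      rw [mul_inv_cancel₀ hs', map_one])
    have h2 : mulF (F := F) (algebraMap F E s) ∘ₗ f ∘ₗ mulF (F := F) (algebraMap F E s)⁻¹⁻¹ = s ^ 2 • f := by
      ext e
      simp only [LinearMap.comp_apply, mulF, LinearMap.mulLeft_apply, inv_inv, LinearMap.smul_apply]
      have h3 : algebraMap F E s * e = s • e := (Algebra.smul_def s e).symm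
      rw [h3, LinearMap.map_smul, ← Algebra.smul_def, smul_smul, pow_two]
    rwa [h2] at h1
  have hsmul : ∀ (f : E →ₗ[F] E), rootU l w hl f ∈ Y → ∀ κ : F, rootU l w hl (κ • f) ∈ Y := by
    intro f hf κ
    obtain ⟨s₁, s₂, hs⟩ := exists_sq_add_sq_field κ
    rw [← hs, add_smul]
    exact hadd _ _ (hsq f hf s₁) (hsq f hf s₂)
  obtain ⟨δ, hδ, hδr⟩ := exists_norm_one (F := F) (E := E) hr.two_le
  have hδ0 : δ ≠ 0 := by
    have h1 : Algebra.norm F δ ≠ 0 := by
      rw [hδ]
      exact one_ne_zero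
    exact Algebra.norm_ne_zero_iff.1 h1
  let St : Subalgebra F E :=
    { carrier := {c | ∀ f : E →ₗ[F] E, rootU l w hl f ∈ Y → rootU l w hl (mulF (F := F) c ∘ₗ f) ∈ Y}
      mul_mem' := fun {c d} hc hd f hf => by
        have h1 := hc _ (hd f hf)
        have h2 : mulF (F := F) c ∘ₗ (mulF (F := F) d ∘ₗ f) = mulF (F := F) (c * d) ∘ₗ f := by
          ext e
          simp [mulF, mul_assoc]
        rwa [h2] at h1
      add_mem' := fun {c d} hc hd f hf => by
        have h1 := hadd _ _ (hc f hf) (hd f hf)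
        have h2 : mulF (F := F) c ∘ₗ f + mulF (F := F) d ∘ₗ f = mulF (F := F) (c + d) ∘ₗ f := by
          ext e
          simp [mulF, add_mul]
        rwa [h2] at h1
      algebraMap_mem' := fun κ f hf => by
        have h1 := hsmul f hf κ
        have h2 : κ • f = mulF (F := F) (algebraMap F E κ) ∘ₗ f := by
          ext e
          simp [mulF, Algebra.smul_def]
        rwa [h2] at h1 }
  let St' : Subalgebra F E :=
    { carrier := {c | ∀ f : E →ₗ[F] E, rootU l w hl f ∈ Y → rootU l w hl (f ∘ₗ mulF (F := F) c) ∈ Y}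
      mul_mem' := fun {c d} hc hd f hf => by
        have h1 := hd _ (hc f hf)
        have h2 : (f ∘ₗ mulF (F := F) c) ∘ₗ mulF (F := F) d = f ∘ₗ mulF (F := F) (c * d) := by
          ext e
          simp [mulF, mul_assoc]
        rwa [h2] at h1
      add_mem' := fun {c d} hc hd f hf => by
        have h1 := hadd _ _ (hc f hf) (hd f hf)
        have h2 : f ∘ₗ mulF (F := F) c + f ∘ₗ mulF (F := F) d = f ∘ₗ mulF (F := F) (c + d) := by
          ext e
          simp [mulF, add_mul]
        rwa [h2] at h1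
      algebraMap_mem' := fun κ f hf => by
        have h1 := hsmul f hf κ
        have h2 : κ • f = f ∘ₗ mulF (F := F) (algebraMap F E κ) := by
          ext e
          simp [mulF, ← Algebra.smul_def]
        rwa [h2] at h1 }
  have hSt : St = ⊤ := by
    apply subalgebra_eq_top_of_prime hr St δ hδr
    intro f hf
    have h1 := hnorm f hf δ 1 hδ0 one_ne_zero (by rw [mul_one, hδ])
    have h2 : mulF (F := F) δ ∘ₗ f ∘ₗ mulF (F := F) (1 : E)⁻¹ = mulF (F := F) δ ∘ₗ f := by
      ext e
      simp [mulF]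
    rwa [h2] at h1
  have hSt' : St' = ⊤ := by
    apply subalgebra_eq_top_of_prime hr St' δ hδr
    intro f hf
    have h1 := hnorm f hf 1 δ⁻¹ one_ne_zero (inv_ne_zero hδ0) (by
      rw [one_mul]
      have h3 := map_mul (Algebra.norm F) δ δ⁻¹
      rw [mul_inv_cancel₀ hδ0, map_one, hδ, one_mul] at h3
      exact h3.symm)
    have h2 : mulF (F := F) (1 : E) ∘ₗ f ∘ₗ mulF (F := F) δ⁻¹⁻¹ = f ∘ₗ mulF (F := F) δ := by
      ext e
      simp [mulF]
    rwa [h2] at h1
  have ha : a ∈ St := by
    rw [hSt]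
    exact Algebra.mem_top
  have hb : b ∈ St' := by
    rw [hSt']
    exact Algebra.mem_top
  exact ha _ (hb f hf)

end Bimodule

end Cfsg.Agent.H29
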