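/-
From one transvection to all transvections, part two.
-/
import Cfsg.Agent.Lib.H29.FieldAll

set_option autoImplicit false
set_option linter.unusedSectionVars false

namespace Cfsg.Agent.H29

open Module

section AllOfSeed

variable {F E V : Type*} [Field F] [Field E] [Algebra F E] [AddCommGroup V] [Module F V] [Module E V]
  [IsScalarTower F E V] [Finite F] [FiniteDimensional F E] [FiniteDimensional E V]

theorem exists_lift (tr₀ : E →ₗ[F] F) (htr : tr₀ ≠ 0) (μ : V →ₗ[F] F) :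
    ∃ lam : V →ₗ[E] E, ∀ v, tr₀ (lam v) = μ v := by
  haveI : FiniteDimensional F V := Module.Finite.trans E V
  let Λ : (V →ₗ[E] E) →ₗ[F] (V →ₗ[F] F) :=
    { toFun := fun lam => tr₀ ∘ₗ lam.restrictScalars F
      map_add' := fun a b => by
        ext v
        simp
      map_smul' := fun κ a => by
        ext v
        simp }
  have hΛ : ∀ lam v, Λ lam v = tr₀ (lam v) := fun _ _ => rfl
  have hinj : Function.Injective Λ := by
    rw [injective_iff_map_eq_zero]
    intro lam h0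
    by_contra hne
    obtain ⟨p, hp⟩ : ∃ p, lam p ≠ 0 := by
      by_contra hcon
      push Not at hcon
      exact hne (LinearMap.ext hcon)
    apply htr
    ext e
    have h1 := LinearMap.congr_fun h0 ((e * (lam p)⁻¹) • p)
    rw [hΛ, lam.map_smul, smul_eq_mul, mul_assoc, inv_mul_cancel₀ hp, mul_one, LinearMap.zero_apply] at h1
    simpa using h1
  have hfin : finrank F (V →ₗ[E] E) = finrank F (V →ₗ[F] F) := by
    have h1 := Module.finrank_mul_finrank F E (V →ₗ[E] E)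
    have h2 := Module.finrank_mul_finrank F E V
    have h3 : finrank E (V →ₗ[E] E) = finrank E V := Subspace.dual_finrank_eq
    have h4 : finrank F (V →ₗ[F] F) = finrank F V := Subspace.dual_finrank_eq
    rw [h4, ← h2, ← h1, h3]
  have hsurj := (LinearMap.injective_iff_surjective_of_finrank_eq_finrank hfin).1 hinj
  obtain ⟨lam, hlam⟩ := hsurj μ
  exact ⟨lam, fun v => by rw [← hΛ, hlam]⟩

theorem exists_functional_one : ∃ tr₀ : E →ₗ[F] F, tr₀ 1 = 1 := by
  obtain ⟨f, _, hf⟩ := exists_func (E := F) (V := E) 0 1 (by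
    simp)
  exact ⟨f, hf⟩

/-- The map `e ↦ μ (s * e) • t`. -/
def Rr (μ : E →ₗ[F] F) (t s : E) : E →ₗ[F] E :=
  ((LinearMap.toSpanSingleton F E t) ∘ₗ μ) ∘ₗ mulF (F := F) s

@[simp] theorem Rr_apply (μ : E →ₗ[F] F) (t s e : E) : Rr μ t s e = μ (s * e) • t := rfl

theorem mulF_comp_Rr (μ : E →ₗ[F] F) (t s a b : E) :
    mulF (F := F) a ∘ₗ Rr μ t s ∘ₗ mulF (F := F) b = Rr μ (a * t) (s * b) := by
  ext e
  simp only [LinearMap.comp_apply, mulF, LinearMap.mulLeft_apply, Rr_apply, mul_smul_comm, mul_assoc]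

theorem Rr_comp (μ : E →ₗ[F] F) (t s b : E) : Rr μ t s ∘ₗ mulF (F := F) b = Rr μ t (s * b) := by
  ext e
  simp only [LinearMap.comp_apply, mulF, LinearMap.mulLeft_apply, Rr_apply, mul_assoc]

theorem isElin_inv (g : (Module.End F V)ˣ) (hg : IsElin (E := E) (g : Module.End F V)) :
    IsElin (E := E) ((g⁻¹ : (Module.End F V)ˣ) : Module.End F V) := by
  intro c v
  apply unit_injective g
  rw [u_apply_inv, hg, u_apply_inv]

/-- The inverse of an `E`-linear unit as an `E`-linear map. -/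
def elinInv (g : (Module.End F V)ˣ) (hg : IsElin (E := E) (g : Module.End F V)) : V →ₗ[E] V :=
  { toFun := ((g⁻¹ : (Module.End F V)ˣ) : Module.End F V)
    map_add' := map_add _
    map_smul' := isElin_inv g hg }

theorem elinInv_apply (g : (Module.End F V)ˣ) (hg : IsElin (E := E) (g : Module.End F V)) (v : V) :
    elinInv g hg v = ((g⁻¹ : (Module.End F V)ˣ) : Module.End F V) v := rfl

theorem exists_flag_move (hm : 2 ≤ finrank E V) (l₀ : V →ₗ[E] E) (h : V) (hl₀ : l₀ h = 0) (hh : h ≠ 0) (hl₀0 : l₀ ≠ 0)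
    (v : V) (l' : V →ₗ[E] E) (hl' : l' v = 0) (hv : v ≠ 0) (hl'0 : l' ≠ 0) :
    ∃ (g : (Module.End F V)ˣ) (b : E), IsElin (E := E) (g : Module.End F V) ∧ LinearMap.det (g : Module.End F V) = 1 ∧
      b ≠ 0 ∧ (g : Module.End F V) h = v ∧ ∀ y, l' ((g : Module.End F V) y) = b * l₀ y := by
  obtain ⟨g₁, hg₁, hd₁, hm₁⟩ := exists_elin_move (F := F) (E := E) hm h v hh hv
  let l₁ : V →ₗ[E] E := l₀ ∘ₗ elinInv g₁ hg₁
  have hl₁ : ∀ x, l₁ x = l₀ (((g₁⁻¹ : (Module.End F V)ˣ) : Module.End F V) x) := fun _ => rfl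
  have hl₁v : l₁ v = 0 := by
    rw [hl₁, ← hm₁, uinv_apply, hl₀]
  have hl₁g : ∀ y, l₁ ((g₁ : Module.End F V) y) = l₀ y := by
    intro y
    rw [hl₁, uinv_apply]
  have hl₁0 : l₁ ≠ 0 := by
    intro h0
    apply hl₀0
    ext y
    rw [← hl₁g, h0]
    rfl
  obtain ⟨p₀, hp₀⟩ : ∃ p, l₁ p ≠ 0 := by
    by_contra hcon
    push Not at hcon
    exact hl₁0 (LinearMap.ext hcon)
  obtain ⟨u, hu⟩ : ∃ u, l₁ u = 1 := ⟨(l₁ p₀)⁻¹ • p₀, by rw [l₁.map_smul, smul_eq_mul, inv_mul_cancel₀ hp₀]⟩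
  by_cases hker : ∀ x, l₁ x = 0 → l' x = 0
  · have hbu : l' u ≠ 0 := by
      intro h0
      apply hl'0
      ext x
      have h1 : l₁ (x - l₁ x • u) = 0 := by
        rw [map_sub, l₁.map_smul, hu, smul_eq_mul, mul_one, sub_self]
      have h2 := hker _ h1
      rw [map_sub, l'.map_smul, h0, smul_zero, sub_zero] at h2
      exact h2
    refine ⟨g₁, l' u, hg₁, hd₁, hbu, hm₁, ?_⟩
    intro y
    have h1 : l₁ ((g₁ : Module.End F V) y - l₁ ((g₁ : Module.End F V) y) • u) = 0 := by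
      rw [map_sub, l₁.map_smul, hu, smul_eq_mul, mul_one, sub_self]
    have h2 := hker _ h1
    rw [map_sub, l'.map_smul, sub_eq_zero, hl₁g, smul_eq_mul] at h2
    rw [h2, mul_comm]
  · push Not at hker
    obtain ⟨p₁, hp₁, hp₁'⟩ := hker
    obtain ⟨p₂, hp₂, hp₂'⟩ : ∃ p₂, l₁ p₂ = 0 ∧ l' p₂ = 1 :=
      ⟨(l' p₁)⁻¹ • p₁, by rw [l₁.map_smul, hp₁, smul_zero], by rw [l'.map_smul, smul_eq_mul, inv_mul_cancel₀ hp₁']⟩
    let p : V := u + (1 - l' u) • p₂
    have hp1 : l₁ p = 1 := by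
      simp only [p, map_add, l₁.map_smul, hu, hp₂, smul_zero, add_zero]
    have hp2 : l' p = 1 := by
      simp only [p, map_add, l'.map_smul, hp₂', smul_eq_mul, mul_one]
      ring
    have hκ : (l₁ - l') p = 0 := by
      rw [LinearMap.sub_apply, hp1, hp2, sub_self]
    refine ⟨rootU (l₁ - l') p hκ (mulF (F := F) 1) * g₁, 1, ?_, ?_, one_ne_zero, ?_, ?_⟩
    · intro c x
      rw [Units.val_mul, Module.End.mul_apply, hg₁ c x, Module.End.mul_apply]
      exact isElin_one_add _ _ _ c _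
    · rw [Units.val_mul, map_mul, hd₁, mul_one]
      exact det_one_add _ _ _ hκ
    · rw [Units.val_mul, Module.End.mul_apply, hm₁, rootU_coe, LinearMap.add_apply, Module.End.one_apply,
        rootMap_mulF_apply, LinearMap.sub_apply, hl₁v, hl', sub_self, mul_zero, zero_smul, add_zero]
    · intro y
      rw [Units.val_mul, Module.End.mul_apply, rootU_coe, LinearMap.add_apply, Module.End.one_apply,
        rootMap_mulF_apply, map_add, l'.map_smul, hp2, one_mul, one_mul, smul_eq_mul, mul_one, LinearMap.sub_apply,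
        hl₁g]
      ring

theorem rootU_conj_move (l₀ : V →ₗ[E] E) (h : V) (hl₀ : l₀ h = 0) (v : V) (l' : V →ₗ[E] E) (hl' : l' v = 0)
    (g : (Module.End F V)ˣ) (b : E) (hb : b ≠ 0) (hgh : (g : Module.End F V) h = v)
    (hgl : ∀ y, l' ((g : Module.End F V) y) = b * l₀ y) (hg : IsElin (E := E) (g : Module.End F V)) (f : E →ₗ[F] E) :
    g * rootU l₀ h hl₀ f * g⁻¹ = rootU l' v hl' (f ∘ₗ mulF (F := F) b⁻¹) := by
  apply Units.ext
  ext x
  have h1 : l₀ (((g⁻¹ : (Module.End F V)ˣ) : Module.End F V) x) = b⁻¹ * l' x := by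
    have h2 := hgl (((g⁻¹ : (Module.End F V)ˣ) : Module.End F V) x)
    rw [u_apply_inv] at h2
    rw [h2, ← mul_assoc, inv_mul_cancel₀ hb, one_mul]
  simp only [Units.val_mul, Module.End.mul_apply, rootU_coe, LinearMap.add_apply, Module.End.one_apply, rootMap_apply,
    map_add, u_apply_inv, hg _ h, hgh, h1, LinearMap.comp_apply, mulF, LinearMap.mulLeft_apply]

theorem unipU_congr {f g : Module.End F V} (hf : f * f = 0) (hg : g * g = 0) (e : f = g) : unipU f hf = unipU g hg := by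
  subst e
  rfl

theorem rootMap_Rr_one (tr₀ : E →ₗ[F] F) (l : V →ₗ[E] E) (w : V) (x : V) :
    rootMap l w (Rr tr₀ 1 1) x = tr₀ (l x) • w := by
  rw [rootMap_apply, Rr_apply, one_mul, smul_assoc, one_smul]

/-- From a seed to all root elements of the form `1 + μ ⊗ v`. -/
theorem all_of_seed (hr : (finrank F E).Prime) (hm : 2 ≤ finrank E V) (Y : Subgroup (Module.End F V)ˣ)
    (hY : ∀ g : (Module.End F V)ˣ, IsElin (E := E) (g : Module.End F V) → LinearMap.det (g : Module.End F V) = 1 → g ∈ Y)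
    (hs : HasSeed Y) (μ : V →ₗ[F] F) (v : V) (h : μ v = 0) : unipU (ot μ v) (ot_sq μ v h) ∈ Y := by
  obtain ⟨tr₀, htr₀⟩ : ∃ tr₀ : E →ₗ[F] F, tr₀ 1 = 1 := exists_functional_one
  have htr : tr₀ ≠ 0 := by
    rintro rfl
    exact zero_ne_one htr₀
  obtain ⟨μ₀, v₀, h₀, hv₀, hμ₀, hτ₀⟩ := hs
  obtain ⟨l₀, hl₀⟩ := exists_lift tr₀ htr μ₀
  have hl₀0 : l₀ ≠ 0 := by
    rintro rfl
    apply hμ₀
    ext x
    rw [← hl₀]
    simp
  -- find a type zero element
  obtain ⟨h₁, hh₁, hh₁0, hm₁⟩ : ∃ (h₁ : V) (hz : l₀ h₁ = 0), h₁ ≠ 0 ∧ rootU l₀ h₁ hz (Rr tr₀ 1 1) ∈ Y := by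
    have key : ∀ (h₁ : V) (hz : l₀ h₁ = 0), unipU (ot μ₀ h₁) (ot_sq μ₀ h₁ (by rw [← hl₀, hz, map_zero])) ∈ Y →
        rootU l₀ h₁ hz (Rr tr₀ 1 1) ∈ Y := by
      intro h₁ hz hm
      have e : rootU l₀ h₁ hz (Rr tr₀ 1 1) = unipU (ot μ₀ h₁) (ot_sq μ₀ h₁ (by rw [← hl₀, hz, map_zero])) := by
        apply Units.ext
        ext x
        simp only [rootU_coe, unipU_coe, LinearMap.add_apply, rootMap_Rr_one, ot_apply, hl₀]
      rw [e]
      exact hm
    by_cases hz : l₀ v₀ = 0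
    · exact ⟨v₀, hz, hv₀, key v₀ hz hτ₀⟩
    · -- a vector in the kernel
      obtain ⟨h₁, hz₁, hh₁0⟩ : ∃ h₁, l₀ h₁ = 0 ∧ h₁ ≠ 0 := by
        obtain ⟨q, hq⟩ := exists_not_mem_span hm v₀
        refine ⟨q - (l₀ q * (l₀ v₀)⁻¹) • v₀, ?_, ?_⟩
        · rw [map_sub, l₀.map_smul, smul_eq_mul, mul_assoc, inv_mul_cancel₀ hz, mul_one, sub_self]
        · intro h0
          apply hq
          rw [sub_eq_zero] at h0
          rw [h0]
          exact Submodule.smul_mem _ _ (Submodule.mem_span_singleton_self v₀)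
      have hn : v₀ ∉ Submodule.span E {h₁} := by
        intro hmem
        obtain ⟨t, ht⟩ := Submodule.mem_span_singleton.1 hmem
        apply hz
        rw [← ht, l₀.map_smul, hz₁, smul_zero]
      obtain ⟨ν, hνh, hνv⟩ := exists_func (E := E) h₁ v₀ hn
      refine ⟨h₁, hz₁, hh₁0, key h₁ hz₁ ?_⟩
      have hμh : μ₀ h₁ = 0 := by rw [← hl₀, hz₁, map_zero]
      let s := rootU ν h₁ hνh (mulF (F := F) 1)
      have hsY : s ∈ Y := hY s (isElin_one_add _ _ _) (det_one_add _ _ _ hνh)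
      have hs1 : ∀ x, (s : Module.End F V) x = x + ν x • h₁ := by
        intro x
        simp [s, rootU_coe, rootMap_mulF_apply]
      have hs2 : ∀ x, ((s⁻¹ : (Module.End F V)ˣ) : Module.End F V) x = x - ν x • h₁ := by
        intro x
        apply unit_injective s
        rw [u_apply_inv, hs1, map_sub, ν.map_smul, hνh, smul_zero, sub_zero, sub_add_cancel]
      have hμs : ∀ x, μ₀ (((s⁻¹ : (Module.End F V)ˣ) : Module.End F V) x) = μ₀ x := by
        intro x
        rw [hs2, ← hl₀, map_sub, l₀.map_smul, hz₁, smul_zero, sub_zero, hl₀]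
      have h3 : μ₀ (v₀ + h₁) = 0 := by rw [map_add, h₀, hμh, add_zero]
      have e1 : (s : Module.End F V) * ot μ₀ v₀ * ((s⁻¹ : (Module.End F V)ˣ) : Module.End F V) = ot μ₀ (v₀ + h₁) := by
        ext x
        simp only [Module.End.mul_apply, ot_apply, hμs, map_smul]
        rw [hs1, hνv, one_smul]
      have e2 := unipU_conj s (ot μ₀ v₀) (ot_sq μ₀ v₀ h₀) (by rw [e1]; exact ot_sq _ _ h3)
      have m2 : unipU (ot μ₀ (v₀ + h₁)) (ot_sq _ _ h3) ∈ Y := by
        have e3 : unipU (ot μ₀ (v₀ + h₁)) (ot_sq _ _ h3) = unipU ((s : Module.End F V) * ot μ₀ v₀ *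
            ((s⁻¹ : (Module.End F V)ˣ) : Module.End F V)) (by rw [e1]; exact ot_sq _ _ h3) :=
          unipU_congr _ _ e1.symm
        rw [e3, ← e2]
        exact Y.mul_mem (Y.mul_mem hsY hτ₀) (Y.inv_mem hsY)
      have e4 : ot μ₀ (v₀ + h₁) - ot μ₀ v₀ = ot μ₀ h₁ := by
        ext x
        simp [smul_add]
      have e5 : ot μ₀ (v₀ + h₁) * ot μ₀ v₀ = 0 := by
        ext x
        simp [h₀]
      have e6 := unipU_mul_inv (ot μ₀ (v₀ + h₁)) (ot μ₀ v₀) (ot_sq _ _ h3) (ot_sq _ _ h₀) e5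
        (by rw [e4]; exact ot_sq _ _ hμh)
      have e7 : unipU (ot μ₀ h₁) (ot_sq μ₀ h₁ hμh) = unipU (ot μ₀ (v₀ + h₁) - ot μ₀ v₀) (by rw [e4]; exact ot_sq _ _ hμh) :=
        unipU_congr _ _ e4.symm
      rw [e7, ← e6]
      exact Y.mul_mem m2 (Y.inv_mem hτ₀)
  -- all the type zero elements
  have hbim : ∀ a b, rootU l₀ h₁ hh₁ (Rr tr₀ a b) ∈ Y := by
    intro a b
    have h2 := rootU_bimod (F := F) hr Y hY l₀ h₁ hh₁ hh₁0 hl₀0 _ hm₁ a b
    rw [mulF_comp_Rr, mul_one, one_mul] at h2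
    exact h2
  have htype0 : ∀ (x : V) (l' : V →ₗ[E] E) (hl' : l' x = 0), rootU l' x hl' (Rr tr₀ 1 1) ∈ Y := by
    intro x l' hl'
    by_cases hx : x = 0
    · have e : rootU l' x hl' (Rr tr₀ 1 1) = 1 := by
        apply Units.ext
        ext y
        simp [hx]
      rw [e]
      exact Y.one_mem
    by_cases hl'0 : l' = 0
    · have e : rootU l' x hl' (Rr tr₀ 1 1) = 1 := by
        apply Units.ext
        ext y
        simp [hl'0]
      rw [e]
      exact Y.one_mem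
    obtain ⟨g, b, hg, hd, hb, hgh, hgl⟩ := exists_flag_move (F := F) hm l₀ h₁ hh₁ hh₁0 hl₀0 x l' hl' hx hl'0
    have h3 := rootU_conj_move l₀ h₁ hh₁ x l' hl' g b hb hgh hgl hg (Rr tr₀ 1 b)
    rw [Rr_comp, mul_inv_cancel₀ hb] at h3
    rw [← h3]
    exact Y.mul_mem (Y.mul_mem (hY g hg hd) (hbim _ _)) (Y.inv_mem (hY g hg hd))
  have htype1 : ∀ (x : V) (l' : V →ₗ[E] E) (hl' : l' x = 0), unipU (ot (tr₀ ∘ₗ l'.restrictScalars F) x)
      (ot_sq _ x (by simp [hl'])) ∈ Y := by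
    intro x l' hl'
    have e : unipU (ot (tr₀ ∘ₗ l'.restrictScalars F) x) (ot_sq _ x (by simp [hl'])) = rootU l' x hl' (Rr tr₀ 1 1) := by
      apply Units.ext
      ext y
      simp only [rootU_coe, unipU_coe, LinearMap.add_apply, rootMap_Rr_one, ot_apply]
      rfl
    rw [e]
    exact htype0 x l' hl'
  obtain ⟨lam, hlam⟩ := exists_lift tr₀ htr μ
  have hμeq : μ = tr₀ ∘ₗ lam.restrictScalars F := by
    ext x
    exact (hlam x).symm
  by_cases hlv : lam v = 0
  · subst hμeq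
    exact htype1 v lam hlv
  -- the general case
  have hv0 : v ≠ 0 := by
    rintro rfl
    exact hlv (map_zero _)
  obtain ⟨v', hv'l, hv'0⟩ : ∃ v', lam v' = 0 ∧ v' ≠ 0 := by
    obtain ⟨q, hq⟩ := exists_not_mem_span hm v
    refine ⟨q - (lam q * (lam v)⁻¹) • v, ?_, ?_⟩
    · rw [map_sub, lam.map_smul, smul_eq_mul, mul_assoc, inv_mul_cancel₀ hlv, mul_one, sub_self]
    · intro h0
      apply hq
      rw [sub_eq_zero] at h0
      rw [h0]
      exact Submodule.smul_mem _ _ (Submodule.mem_span_singleton_self v)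
  have hn : v' ∉ Submodule.span E {v} := by
    intro hmem
    obtain ⟨t, ht⟩ := Submodule.mem_span_singleton.1 hmem
    have h1 := congrArg lam ht
    rw [lam.map_smul, hv'l, smul_eq_mul] at h1
    have h2 : t = 0 := (mul_eq_zero.1 h1).resolve_right hlv
    rw [h2, zero_smul] at ht
    exact hv'0 ht.symm
  obtain ⟨l₁, hl₁v, hl₁v'⟩ := exists_func (E := E) v v' hn
  have hμv' : μ v' = 0 := by rw [← hlam, hv'l, map_zero]
  have ma := htype1 v l₁ hl₁v
  have mb : unipU (ot μ v') (ot_sq μ v' hμv') ∈ Y := by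
    have e : unipU (ot μ v') (ot_sq μ v' hμv') = unipU (ot (tr₀ ∘ₗ lam.restrictScalars F) v')
        (ot_sq _ v' (by simp [hv'l])) := unipU_congr _ _ (by rw [← hμeq])
    rw [e]
    exact htype1 v' lam hv'l
  obtain ⟨a, ha⟩ : ∃ a, a = ot (tr₀ ∘ₗ l₁.restrictScalars F) v := ⟨_, rfl⟩
  obtain ⟨b, hb⟩ : ∃ b, b = ot μ v' := ⟨_, rfl⟩
  have hab : ∀ x, a (b x) = μ x • v := by
    intro x
    rw [ha, hb, ot_apply, ot_apply, map_smul]
    change (μ x • tr₀ (l₁ v')) • v = _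
    rw [hl₁v', htr₀, smul_eq_mul, mul_one]
  have hba : ∀ x, b (a x) = 0 := by
    intro x
    rw [ha, hb, ot_apply, ot_apply, map_smul, h, smul_zero, zero_smul]
  have haa : a * a = 0 := by
    rw [ha]
    exact ot_sq _ _ (by simp [hl₁v])
  have hbb : b * b = 0 := by
    rw [hb]
    exact ot_sq _ _ hμv'
  have haba : a * b * a = 0 := by
    ext x
    simp only [Module.End.mul_apply, hba, map_zero, LinearMap.zero_apply]
  have hcomm : a * b - b * a + b * a * b = ot μ v := by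
    ext x
    simp only [LinearMap.add_apply, LinearMap.sub_apply, Module.End.mul_apply, hab, hba, sub_zero, add_zero,
      ot_apply]
    rw [hb, ot_apply, map_smul, h, smul_zero, zero_smul, add_zero]
  have hsq : (a * b - b * a + b * a * b) * (a * b - b * a + b * a * b) = 0 := by
    rw [hcomm]
    exact ot_sq _ _ h
  have e1 := unit_commutator a b haa hbb haba hsq
  have e2 : unipU (ot μ v) (ot_sq μ v h) = unipU (a * b - b * a + b * a * b) hsq := unipU_congr _ _ hcomm.symm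
  rw [e2, ← e1]
  have ma' : unipU a haa ∈ Y := by
    subst ha
    exact ma
  have mb' : unipU b hbb ∈ Y := by
    subst hb
    exact mb
  exact Y.mul_mem (Y.mul_mem (Y.mul_mem ma' mb') (Y.inv_mem ma')) (Y.inv_mem mb')

end AllOfSeed

end Cfsg.Agent.H29
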