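/-
The polarisation argument over the field of two elements.
-/
import Cfsg.Agent.Lib.H29.FieldLift

set_option autoImplicit false
set_option linter.unusedSectionVars false

namespace Cfsg.Agent.H29

open Module

section Polar

variable {F E V : Type*} [Field F] [Field E] [Algebra F E] [AddCommGroup V] [Module F V] [Module E V]
  [IsScalarTower F E V] [Finite F] [FiniteDimensional F E] [FiniteDimensional E V]

/-- The additive group of `f` with `rootU l w f ∈ Y`. -/
def rootS (Y : Subgroup (Module.End F V)ˣ) (l : V →ₗ[E] E) (w : V) (hl : l w = 0) : AddSubgroup (E →ₗ[F] E) where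
  carrier := {f | rootU l w hl f ∈ Y}
  add_mem' := fun {a b} ha hb => by
    change rootU l w hl (a + b) ∈ Y
    rw [rootU_add]
    exact Y.mul_mem ha hb
  zero_mem' := by
    change rootU l w hl 0 ∈ Y
    rw [rootU_zero]
    exact Y.one_mem
  neg_mem' := fun {a} ha => by
    change rootU l w hl (-a) ∈ Y
    rw [rootU_neg]
    exact Y.inv_mem ha

theorem mem_rootS (Y : Subgroup (Module.End F V)ˣ) (l : V →ₗ[E] E) (w : V) (hl : l w = 0) (f : E →ₗ[F] E) :
    f ∈ rootS Y l w hl ↔ rootU l w hl f ∈ Y := Iff.rfl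

theorem Rr_add_left (μ : E →ₗ[F] F) (t t' s : E) : Rr μ (t + t') s = Rr μ t s + Rr μ t' s := by
  ext e
  simp [smul_add]

theorem Rr_add_right (μ : E →ₗ[F] F) (t s s' : E) : Rr μ t (s + s') = Rr μ t s + Rr μ t s' := by
  ext e
  simp [add_mul, add_smul]

theorem char_two_of (hF : ∀ κ : F, κ = 0 ∨ κ = 1) : (2 : F) = 0 := by
  rcases hF 2 with h | h
  · exact h
  · exfalso
    have h1 : (1 : F) + 1 = 1 := by
      rw [← one_add_one_eq_two] at h
      exact h
    have h2 : (1 : F) = 0 := left_eq_add.1 h1.symm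
    exact one_ne_zero h2

theorem endo_add_self (hF : ∀ κ : F, κ = 0 ∨ κ = 1) (f : E →ₗ[F] E) : f + f = 0 := by
  have h1 : f + f = (2 : F) • f := by
    rw [two_smul]
  rw [h1, char_two_of hF, zero_smul]

theorem endo_sub_eq_add (hF : ∀ κ : F, κ = 0 ∨ κ = 1) (f g : E →ₗ[F] E) : f - g = f + g := by
  rw [sub_eq_add_neg]
  congr 1
  rw [neg_eq_iff_add_eq_zero]
  exact endo_add_self hF g

theorem exists_dual_mul (μ : E →ₗ[F] F) (hμ : μ ≠ 0) (κ : E →ₗ[F] F) : ∃ e' : E, ∀ e, μ (e' * e) = κ e := by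
  obtain ⟨lam, hlam⟩ := exists_lift (V := E) μ hμ κ
  refine ⟨lam 1, fun e => ?_⟩
  rw [← hlam]
  congr 1
  have : e = e • (1 : E) := by simp
  conv_rhs => rw [this]
  rw [lam.map_smul, smul_eq_mul, mul_comm]

/-- The key reduction of the polar case. -/
theorem rootS_of_polar (hF : ∀ κ : F, κ = 0 ∨ κ = 1) (hr : (finrank F E).Prime) (Y : Subgroup (Module.End F V)ˣ)
    (hY : ∀ g : (Module.End F V)ˣ, IsElin (E := E) (g : Module.End F V) → LinearMap.det (g : Module.End F V) = 1 → g ∈ Y)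
    (l : V →ₗ[E] E) (w : V) (hl : l w = 0) (hw : w ≠ 0) (hl0 : l ≠ 0) (μ : E →ₗ[F] F) (hμ : μ ≠ 0) (d d' : E) (hd : d ≠ 0)
    (hτ : d' * d⁻¹ ∉ (algebraMap F E).range) (hg : Rr μ d d' + Rr μ d' d ∈ rootS Y l w hl) :
    Rr μ 1 1 ∈ rootS Y l w hl := by
  classical
  have hbim : ∀ f, f ∈ rootS Y l w hl → ∀ a b, mulF (F := F) a ∘ₗ f ∘ₗ mulF (F := F) b ∈ rootS Y l w hl :=
    fun f hf a b => rootU_bimod (F := F) hr Y hY l w hl hw hl0 f hf a b
  obtain ⟨τ, hτd⟩ : ∃ τ, τ = d' * d⁻¹ := ⟨_, rfl⟩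
  have h0 : ∀ t s, Rr μ t (τ * s) - Rr μ (τ * t) s ∈ rootS Y l w hl := by
    intro t s
    have h1 := hbim _ hg (t * d⁻¹) (s * d⁻¹)
    have h2 : mulF (F := F) (t * d⁻¹) ∘ₗ (Rr μ d d' + Rr μ d' d) ∘ₗ mulF (F := F) (s * d⁻¹) =
        Rr μ t (τ * s) + Rr μ (τ * t) s := by
      rw [LinearMap.add_comp, LinearMap.comp_add]
      rw [mulF_comp_Rr, mulF_comp_Rr, hτd]
      congr 2
      · field_simp
      · field_simp
      · field_simp
      · field_simp
    rw [h2] at h1
    rw [endo_sub_eq_add hF]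
    exact h1
  let St : Subalgebra F E :=
    { carrier := {b | ∀ t s, Rr μ t (b * s) - Rr μ (b * t) s ∈ rootS Y l w hl}
      mul_mem' := fun {a b} ha hb t s => by
        have h1 := ha t (b * s)
        have h2 := hb (a * t) s
        have h3 := add_mem h1 h2
        have e1 : Rr μ t (a * (b * s)) - Rr μ (a * t) (b * s) + (Rr μ (a * t) (b * s) - Rr μ (b * (a * t)) s) =
            Rr μ t (a * b * s) - Rr μ (a * b * t) s := by
          rw [mul_assoc, mul_left_comm b a t, mul_assoc]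
          abel
        rwa [e1] at h3
      add_mem' := fun {a b} ha hb t s => by
        have h1 := ha t s
        have h2 := hb t s
        have h3 := add_mem h1 h2
        have e1 : Rr μ t (a * s) - Rr μ (a * t) s + (Rr μ t (b * s) - Rr μ (b * t) s) =
            Rr μ t ((a + b) * s) - Rr μ ((a + b) * t) s := by
          rw [add_mul, add_mul, Rr_add_left, Rr_add_right]
          abel
        rwa [e1] at h3
      algebraMap_mem' := fun κ t s => by
        have e1 : Rr μ t (algebraMap F E κ * s) = Rr μ (algebraMap F E κ * t) s := by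
          ext e
          simp only [Rr_apply]
          rw [← Algebra.smul_def, ← Algebra.smul_def, mul_comm (κ • s) e, mul_smul_comm, map_smul, smul_assoc, mul_comm e s,
            smul_comm]
        rw [e1, sub_self]
        exact zero_mem _ }
  have hSt : St = ⊤ := by
    apply subalgebra_eq_top_of_prime hr St τ (by rw [hτd]; exact hτ)
    exact h0
  have hall : ∀ b t s, Rr μ t (b * s) - Rr μ (b * t) s ∈ rootS Y l w hl := by
    intro b
    have : b ∈ St := by
      rw [hSt]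
      exact Algebra.mem_top
    exact this
  -- the dual basis
  let b := Module.finBasis F E
  choose sh hsh using fun i => exists_dual_mul μ hμ (b.coord i)
  let δ₀ : E := ∑ i, sh i * b i
  have hδ₀ : δ₀ ≠ 0 := by
    obtain ⟨κ, hκ⟩ := Algebra.trace_surjective F E 1
    intro h0
    have e1 : Algebra.trace F E κ = μ (κ * δ₀) := by
      rw [Algebra.trace_eq_matrix_trace b, Matrix.trace]
      simp only [δ₀, Finset.mul_sum, map_sum]
      apply Finset.sum_congr rfl
      intro i _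
      rw [Matrix.diag_apply, Algebra.leftMulMatrix_eq_repr_mul, mul_left_comm, hsh]
      rfl
    rw [h0, mul_zero, map_zero, hκ] at e1
    exact one_ne_zero e1
  have hid : mulF (F := F) 1 ∈ rootS Y l w hl := hY _ (isElin_one_add _ _ _) (det_one_add _ _ _ hl)
  have hsum : ∑ i, (Rr μ (b i) (sh i * 1) - Rr μ (sh i * b i) 1) ∈ rootS Y l w hl :=
    sum_mem fun i _ => hall (sh i) (b i) 1
  have e2 : ∑ i, (Rr μ (b i) (sh i * 1) - Rr μ (sh i * b i) 1) = mulF (F := F) 1 - Rr μ δ₀ 1 := by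
    ext e
    simp only [LinearMap.sum_apply, LinearMap.sub_apply, Rr_apply, mul_one, one_mul, mulF, LinearMap.mulLeft_apply]
    rw [Finset.sum_sub_distrib]
    congr 1
    · simp only [hsh]
      exact b.sum_repr e
    · simp only [δ₀, Finset.smul_sum]
  rw [e2] at hsum
  have h3 : Rr μ δ₀ 1 ∈ rootS Y l w hl := by
    have := sub_mem hid hsum
    rwa [sub_sub_cancel] at this
  have h4 := hbim _ h3 δ₀⁻¹ 1
  rw [mulF_comp_Rr, inv_mul_cancel₀ hδ₀, mul_one] at h4
  exact h4

namespace NearData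

variable {y : (Module.End F V)ˣ} {w : V} {l l' : V →ₗ[E] E} {c₁ d₁ : E} {μA μB : E →ₗ[F] F}

theorem polar_elem (h : NearData y w l l' c₁ d₁ μA μB) {Y : Subgroup (Module.End F V)ˣ}
    (hY : ∀ g : (Module.End F V)ˣ, IsElin (E := E) (g : Module.End F V) → LinearMap.det (g : Module.End F V) = 1 → g ∈ Y)
    (hyY : y ∈ Y) (c d : E) (hcd : (y : Module.End F V) (c • w) = d • w) (hex : etaF y l' μA c = etaG l μB d) :
    Rr μB d₁ d - Rr μB d d₁ + Rr μB d d ∈ rootS Y l w h.hlw := by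
  obtain ⟨φ, hφ⟩ : ∃ φ, φ = rootMap l w (mulF (F := F) d₁) := ⟨_, rfl⟩
  obtain ⟨ψ, hψ⟩ : ∃ ψ, ψ = psiM y l' w c := ⟨_, rfl⟩
  have h1 : φ * φ = 0 := by rw [hφ]; exact h.phi_sq _ _
  have h2 : ψ * ψ = 0 := by rw [hψ]; exact h.psi_mul_psi _ _
  have h3 : φ * ψ * φ = 0 := by rw [hφ, hψ]; exact h.phi_psi_phi c d d₁ hcd
  have hφψ : ∀ v, φ (ψ v) = μB (d * l v) • (d₁ • w) := by
    intro v
    rw [hφ, hψ, h.phi_psi, hex, etaG_apply]
  have hψφ : ∀ v, ψ (φ v) = μB (d₁ * l v) • (d • w) := by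
    intro v
    rw [hφ, hψ, h.psi_phi, etaG_apply, hcd]
  have hψd : ψ (d₁ • w) = d • w := by
    rw [hψ, h.psi_on, h.hB1, one_smul, hcd]
  have e1 : φ * ψ - ψ * φ + ψ * φ * ψ = rootMap l w (Rr μB d₁ d - Rr μB d d₁ + Rr μB d d) := by
    ext v
    simp only [LinearMap.add_apply, LinearMap.sub_apply, Module.End.mul_apply, rootMap_apply, Rr_apply]
    rw [hφψ, hψφ, LinearMap.map_smul, hψd, add_smul, sub_smul, smul_assoc, smul_assoc, smul_assoc]
  have hsq : (φ * ψ - ψ * φ + ψ * φ * ψ) * (φ * ψ - ψ * φ + ψ * φ * ψ) = 0 := by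
    rw [e1]
    exact rootMap_mul_rootMap l w h.hlw _ _
  have e2 := unit_commutator φ ψ h1 h2 h3 hsq
  have e3 : rootU l w h.hlw (Rr μB d₁ d - Rr μB d d₁ + Rr μB d d) = unipU (φ * ψ - ψ * φ + ψ * φ * ψ) hsq :=
    unipU_congr _ _ e1.symm
  change rootU l w h.hlw _ ∈ Y
  rw [e3, ← e2]
  have m1 : unipU φ h1 ∈ Y := by
    subst hφ
    exact h.phiU_mem hY d₁
  have m2 : unipU ψ h2 ∈ Y := by
    subst hψ
    exact h.psiU_mem hY hyY c
  exact Y.mul_mem (Y.mul_mem (Y.mul_mem m1 m2) (Y.inv_mem m1)) (Y.inv_mem m2)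

theorem exists_aligned_of (h : NearData y w l l' c₁ d₁ μA μB) (d : E) (hd : μB d = 0) :
    ∃ c : E, (y : Module.End F V) (c • w) = d • w := by
  obtain ⟨c, hc⟩ := Submodule.mem_span_singleton.1 ((h.hB d).1 hd)
  refine ⟨c, ?_⟩
  rw [hc, u_apply_inv]

theorem μB_ne_zero (h : NearData y w l l' c₁ d₁ μA μB) : μB ≠ 0 := by
  intro h0
  have := h.hB1
  rw [h0] at this
  exact zero_ne_one this

theorem l_ne_zero (h : NearData y w l l' c₁ d₁ μA μB) : l ≠ 0 := by
  intro h0
  have := h.hlz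
  rw [h0] at this
  exact zero_ne_one this

/-- The seed in the case of the field with two elements when the degree is at least three. -/
theorem seed_polar (h : NearData y w l l' c₁ d₁ μA μB) {Y : Subgroup (Module.End F V)ˣ}
    (hF : ∀ κ : F, κ = 0 ∨ κ = 1) (hr : (finrank F E).Prime) (hr3 : 3 ≤ finrank F E)
    (hY : ∀ g : (Module.End F V)ˣ, IsElin (E := E) (g : Module.End F V) → LinearMap.det (g : Module.End F V) = 1 → g ∈ Y)
    (hyY : y ∈ Y) : HasSeed Y := by
  by_cases hne : ∃ c d : E, d ≠ 0 ∧ (y : Module.End F V) (c • w) = d • w ∧ ∃ v, etaF y l' μA c v ≠ etaG l μB d v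
  · obtain ⟨c, d, hd0, hcd, hex⟩ := hne
    exact h.seed_aligned hY hyY c d hd0 hcd hex
  push Not at hne
  have hexc : ∀ c d : E, d ≠ 0 → (y : Module.End F V) (c • w) = d • w → etaF y l' μA c = etaG l μB d :=
    fun c d hd hcd => LinearMap.ext (hne c d hd hcd)
  -- two independent elements of the kernel of `μB`
  have hrk := LinearMap.finrank_range_add_finrank_ker μB
  have hkle : 2 ≤ finrank F (LinearMap.ker μB) := by
    have h1 : finrank F (LinearMap.range μB) ≤ 1 := by
      have := Submodule.finrank_le (LinearMap.range μB)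
      rwa [finrank_self] at this
    omega
  have hkne : LinearMap.ker μB ≠ ⊥ := by
    intro h0
    rw [h0, finrank_bot] at hkle
    omega
  obtain ⟨d, hd, hd0⟩ := Submodule.exists_mem_ne_zero_of_ne_bot hkne
  obtain ⟨d', hd', hd'n⟩ : ∃ d' ∈ LinearMap.ker μB, d' ∉ Submodule.span F {d} := by
    by_contra hcon
    push Not at hcon
    have h2 : LinearMap.ker μB ≤ Submodule.span F {d} := hcon
    have h3 := Submodule.finrank_mono h2
    rw [finrank_span_singleton hd0] at h3
    omega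
  have hτ : d' * d⁻¹ ∉ (algebraMap F E).range := by
    rintro ⟨κ, hκ⟩
    apply hd'n
    rw [Submodule.mem_span_singleton]
    refine ⟨κ, ?_⟩
    rw [Algebra.smul_def, hκ, mul_assoc, inv_mul_cancel₀ hd0, mul_one]
  have hd'0 : d' ≠ 0 := by
    rintro rfl
    exact hd'n (Submodule.zero_mem _)
  have hdd'0 : d + d' ≠ 0 := by
    intro h0
    apply hd'n
    rw [eq_neg_of_add_eq_zero_right h0]
    exact neg_mem (Submodule.mem_span_singleton_self d)
  obtain ⟨c, hc⟩ := h.exists_aligned_of d hd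
  obtain ⟨c', hc'⟩ := h.exists_aligned_of d' hd'
  have hcc' : (y : Module.End F V) ((c + c') • w) = (d + d') • w := by
    rw [add_smul, map_add, hc, hc', add_smul]
  have m1 := h.polar_elem hY hyY c d hc (hexc c d hd0 hc)
  have m2 := h.polar_elem hY hyY c' d' hc' (hexc c' d' hd'0 hc')
  have m3 := h.polar_elem hY hyY (c + c') (d + d') hcc' (hexc _ _ hdd'0 hcc')
  have m4 := sub_mem (sub_mem m3 m1) m2
  have e1 : Rr μB d₁ (d + d') - Rr μB (d + d') d₁ + Rr μB (d + d') (d + d') - (Rr μB d₁ d - Rr μB d d₁ + Rr μB d d) -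
      (Rr μB d₁ d' - Rr μB d' d₁ + Rr μB d' d') = Rr μB d d' + Rr μB d' d := by
    simp only [Rr_add_left, Rr_add_right]
    abel
  rw [e1] at m4
  have m5 := rootS_of_polar hF hr Y hY l w h.hlw h.hw h.l_ne_zero μB h.μB_ne_zero d d' hd0 hτ m4
  have hv : (μB ∘ₗ l.restrictScalars F) w = 0 := by
    simp [h.hlw]
  refine ⟨μB ∘ₗ l.restrictScalars F, w, hv, h.hw, ?_, ?_⟩
  · intro h0
    have e2 := LinearMap.congr_fun h0 (d₁ • (y : Module.End F V) (c₁ • w))
    simp only [LinearMap.comp_apply, LinearMap.restrictScalars_apply, LinearMap.zero_apply] at e2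
    rw [l.map_smul, h.hlz, smul_eq_mul, mul_one, h.hB1] at e2
    exact one_ne_zero e2
  · have e3 : unipU (ot (μB ∘ₗ l.restrictScalars F) w) (ot_sq _ _ hv) = rootU l w h.hlw (Rr μB 1 1) := by
      apply Units.ext
      ext x
      simp only [rootU_coe, unipU_coe, LinearMap.add_apply, rootMap_Rr_one, ot_apply]
      rfl
    rw [e3]
    exact m5

end NearData

end Polar

end Cfsg.Agent.H29
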