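/-
The seed in the smallest case: `F` with two elements, `E` with four elements, `V` of dimension two over `E`.
-/
import Cfsg.Agent.Lib.H29.FieldPolar

set_option autoImplicit false
set_option linter.unusedSectionVars false

namespace Cfsg.Agent.H29

open Module

section Words

/-- Four by four matrices over the field with two elements. -/
abbrev Mat4 := Matrix (Fin 4) (Fin 4) (ZMod 2)

def wZ : Mat4 := !![0, 1, 0, 0; 1, 1, 0, 0; 0, 0, 0, 1; 0, 0, 1, 1]
def wU0 : Mat4 := !![1, 0, 0, 1; 0, 1, 0, 0; 0, 1, 1, 1; 0, 0, 0, 1]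
def wU1 : Mat4 := !![1, 0, 0, 1; 0, 1, 0, 0; 0, 1, 1, 0; 0, 0, 0, 1]
def wT0 : Mat4 := !![1, 0, 0, 0; 0, 1, 0, 0; 0, 0, 1, 0; 0, 1, 0, 1]
def wT1 : Mat4 := !![1, 1, 0, 0; 0, 1, 0, 0; 0, 0, 1, 0; 0, 0, 0, 1]
def wA1 : Mat4 := !![0, 0, 1, 0; 0, 0, 0, 1; 1, 0, 0, 0; 0, 1, 0, 0]
def wA2 : Mat4 := !![0, 0, 1, 0; 0, 0, 0, 1; 1, 0, 0, 1; 0, 1, 1, 1]
def wA2i : Mat4 := !![0, 1, 1, 0; 1, 1, 0, 1; 1, 0, 0, 0; 0, 1, 0, 0]
def wA3 : Mat4 := !![0, 0, 0, 1; 0, 0, 1, 1; 0, 1, 0, 1; 1, 1, 1, 1]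
def wA3i : Mat4 := !![1, 1, 1, 1; 1, 0, 1, 0; 1, 1, 0, 0; 1, 0, 0, 0]
def wA4 : Mat4 := !![1, 0, 0, 1; 0, 1, 1, 1; 0, 1, 0, 1; 1, 1, 1, 1]
def wA4i : Mat4 := !![0, 1, 0, 1; 1, 1, 1, 1; 0, 1, 1, 0; 1, 1, 0, 1]
def wB2 : Mat4 := !![0, 0, 1, 0; 0, 0, 0, 1; 0, 1, 0, 0; 1, 1, 0, 0]
def wB2i : Mat4 := !![0, 0, 1, 1; 0, 0, 1, 0; 1, 0, 0, 0; 0, 1, 0, 0]
def wB3 : Mat4 := !![0, 0, 1, 0; 0, 0, 0, 1; 1, 1, 0, 0; 1, 0, 0, 0]
def wB3i : Mat4 := !![0, 0, 0, 1; 0, 0, 1, 1; 1, 0, 0, 0; 0, 1, 0, 0]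

theorem word0 : wA1 * wU0 * wA1 * (wA2 * wU0 * wA2i) * (wA3 * wU0 * wA3i) * (wA4 * wU0 * wA4i) = wT0 := by
  decide +kernel

theorem word1 : wA1 * wU1 * wA1 * (wB2 * wU1 * wB2i) * (wB3 * wU1 * wB3i) = wT1 := by
  decide +kernel

end Words

section Special

variable {F E V : Type*} [Field F] [Field E] [Algebra F E] [AddCommGroup V] [Module F V] [Module E V]
  [IsScalarTower F E V] [Finite F] [FiniteDimensional F E] [FiniteDimensional E V]

/-- Scalar multiplication as an `F`-linear map. -/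
def smulEnd (c : E) : Module.End F V where
  toFun := fun v => c • v
  map_add' := smul_add c
  map_smul' := fun κ v => smul_comm c κ v

@[simp] theorem smulEnd_apply (c : E) (v : V) : smulEnd (F := F) c v = c • v := rfl

/-- Scalar multiplication as a unit. -/
def smulU (c : E) (hc : c ≠ 0) : (Module.End F V)ˣ where
  val := smulEnd c
  inv := smulEnd c⁻¹
  val_inv := by
    ext v
    simp [smul_smul, mul_inv_cancel₀ hc]
  inv_val := by
    ext v
    simp [smul_smul, inv_mul_cancel₀ hc]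

@[simp] theorem smulU_apply (c : E) (hc : c ≠ 0) (v : V) :
    ((smulU (F := F) (V := V) c hc : (Module.End F V)ˣ) : Module.End F V) v = c • v := rfl

@[simp] theorem smulU_inv_apply (c : E) (hc : c ≠ 0) (v : V) :
    (((smulU (F := F) c hc)⁻¹ : (Module.End F V)ˣ) : Module.End F V) v = c⁻¹ • v := rfl

theorem isElin_smulU (c : E) (hc : c ≠ 0) :
    IsElin (E := E) ((smulU (F := F) (V := V) c hc : (Module.End F V)ˣ) : Module.End F V) := by
  intro e v
  simp only [smulU_apply]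
  rw [smul_comm]

theorem det_one_of_two (hF : ∀ κ : F, κ = 0 ∨ κ = 1) (g : (Module.End F V)ˣ) : LinearMap.det (g : Module.End F V) = 1 := by
  rcases hF (LinearMap.det (g : Module.End F V)) with h | h
  · exfalso
    have h1 := map_mul LinearMap.det (g : Module.End F V) ((g⁻¹ : (Module.End F V)ˣ) : Module.End F V)
    rw [Units.mul_inv, map_one, h, zero_mul] at h1
    exact one_ne_zero h1
  · exact h

theorem exists_decomp (hr : finrank F E = 2) (τ : E) (hτ : τ ∉ (algebraMap F E).range) (e : E) :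
    ∃ α β : F, e = α • 1 + β • τ := by
  have hli : LinearIndependent F ![(1 : E), τ] := by
    rw [LinearIndependent.pair_iff]
    intro s t hst
    have ht : t = 0 := by
      by_contra ht
      apply hτ
      refine ⟨-(t⁻¹ * s), ?_⟩
      have h1 : τ = (-(t⁻¹ * s)) • (1 : E) := by
        have h2 : t • τ = (-s) • (1 : E) := by
          rw [neg_smul]
          exact eq_neg_of_add_eq_zero_right hst
        calc τ = t⁻¹ • (t • τ) := by rw [smul_smul, inv_mul_cancel₀ ht, one_smul]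
          _ = _ := by rw [h2, smul_smul, mul_neg]
      rw [h1, Algebra.algebraMap_eq_smul_one]
    subst ht
    rw [zero_smul, add_zero] at hst
    exact ⟨(smul_eq_zero.1 hst).resolve_right one_ne_zero, rfl⟩
  have htop := hli.span_eq_top_of_card_eq_finrank (by simp [hr])
  have hmem : e ∈ Submodule.span F (Set.range ![(1 : E), τ]) := by
    rw [htop]
    exact Submodule.mem_top
  rw [Matrix.range_cons, Matrix.range_cons, Matrix.range_empty, Set.union_empty, Set.singleton_union,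
    Submodule.mem_span_pair] at hmem
  obtain ⟨a, b, hab⟩ := hmem
  exact ⟨a, b, hab.symm⟩

theorem exists_zeta (hF : ∀ κ : F, κ = 0 ∨ κ = 1) (hr : finrank F E = 2) :
    ∃ ζ : E, ζ ∉ (algebraMap F E).range ∧ ζ * ζ = ζ + 1 := by
  obtain ⟨τ, hτ⟩ := exists_not_mem_range (F := F) (E := E) (by omega)
  refine ⟨τ, hτ, ?_⟩
  have h2 := char_two_of hF
  have h2E : (2 : E) = 0 := by
    have := congrArg (algebraMap F E) h2
    rwa [map_ofNat, map_zero] at this
  have h1 : τ ≠ 1 := by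
    rintro rfl
    exact hτ ⟨1, map_one _⟩
  have h0 : τ ≠ 0 := by
    rintro rfl
    exact hτ ⟨0, map_zero _⟩
  obtain ⟨α, β, h⟩ := exists_decomp hr τ hτ (τ * τ)
  rcases hF α with rfl | rfl <;> rcases hF β with rfl | rfl
  · rw [zero_smul, zero_smul, add_zero] at h
    exact absurd (mul_self_eq_zero.1 h) h0
  · rw [zero_smul, one_smul, zero_add] at h
    exact absurd (mul_right_cancel₀ h0 (by rw [h, one_mul])) h1
  · rw [one_smul, zero_smul, add_zero] at h
    have h3 : (τ - 1) * (τ + 1) = 0 := by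
      have : (τ - 1) * (τ + 1) = τ * τ - 1 := by ring
      rw [this, h, sub_self]
    rcases mul_eq_zero.1 h3 with h4 | h4
    · exact absurd (sub_eq_zero.1 h4) h1
    · apply absurd _ h1
      have : τ = (τ + 1) - 1 := by ring
      rw [this, h4, zero_sub]
      have h5 : (1 : E) + 1 = 0 := by rw [one_add_one_eq_two, h2E]
      exact (neg_eq_of_add_eq_zero_right h5).symm.symm
  · rw [one_smul, one_smul] at h
    rw [h, add_comm]

theorem exists_normal {y : (Module.End F V)ˣ} {w : V} {l l' : V →ₗ[E] E} {c₁ d₁ : E} {μA μB : E →ₗ[F] F}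
    (h : NearData y w l l' c₁ d₁ μA μB) (hF : ∀ κ : F, κ = 0 ∨ κ = 1) (hr : finrank F E = 2)
    {Y : Subgroup (Module.End F V)ˣ}
    (hY : ∀ g : (Module.End F V)ˣ, IsElin (E := E) (g : Module.End F V) → g ∈ Y) (hyY : y ∈ Y) :
    ∃ y₁ ∈ Y, ∃ (ζ : E) (z p : V), (y₁ : Module.End F V) w = w ∧ (y₁ : Module.End F V) (ζ • w) = z ∧
      z ∉ Submodule.span E {w} ∧ ((y₁⁻¹ : (Module.End F V)ˣ) : Module.End F V) (ζ • w) = p ∧
      p ∉ Submodule.span E {w} ∧ ζ * ζ = ζ + 1 ∧ ζ ∉ (algebraMap F E).range := by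
  obtain ⟨c₀, d₀, hc₀, hd₀, hal⟩ := h.exists_aligned (by omega)
  obtain ⟨ζ, hζ, hζ2⟩ := exists_zeta (F := F) (E := E) hF hr
  have hμA : μA c₀ = 0 := (h.hA c₀).2 (by
    rw [hal]
    exact Submodule.smul_mem _ _ (Submodule.mem_span_singleton_self w))
  have hμB : μB d₀ = 0 := (h.hB d₀).2 (by
    rw [← hal, uinv_apply]
    exact Submodule.smul_mem _ _ (Submodule.mem_span_singleton_self w))
  have hstep : ∀ (μ : E →ₗ[F] F) (a t : E), a ≠ 0 → μ a = 0 → μ t = 1 → μ (a * ζ) ≠ 0 := by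
    intro μ a t ha hμa hμt h0
    obtain ⟨α, β, hab⟩ := exists_decomp hr ζ hζ (t * a⁻¹)
    have h1 : t = α • a + β • (a * ζ) := by
      have : t = (t * a⁻¹) * a := by
        rw [mul_assoc, inv_mul_cancel₀ ha, mul_one]
      rw [this, hab, add_mul, smul_mul_assoc, smul_mul_assoc, one_mul, mul_comm ζ a]
    rw [h1, map_add, map_smul, map_smul, hμa, h0, smul_zero, smul_zero, add_zero] at hμt
    exact zero_ne_one hμt
  let m₁ := smulU (F := F) (V := V) d₀⁻¹ (inv_ne_zero hd₀)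
  let m₂ := smulU (F := F) (V := V) c₀ hc₀
  refine ⟨m₁ * y * m₂, Y.mul_mem (Y.mul_mem (hY _ (isElin_smulU _ _)) hyY) (hY _ (isElin_smulU _ _)), ζ,
    _, _, ?_, rfl, ?_, rfl, ?_, hζ2, hζ⟩
  · simp only [m₁, m₂, Units.val_mul, Module.End.mul_apply, smulU_apply]
    rw [hal, smul_smul, inv_mul_cancel₀ hd₀, one_smul]
  · simp only [m₁, m₂, Units.val_mul, Module.End.mul_apply, smulU_apply]
    intro hm
    have h1 : (y : Module.End F V) ((c₀ * ζ) • w) ∈ Submodule.span E {w} := by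
      have h2 := Submodule.smul_mem _ d₀ hm
      rwa [smul_smul, mul_inv_cancel₀ hd₀, one_smul, smul_smul] at h2
    exact hstep μA c₀ c₁ hc₀ hμA h.hA1 ((h.hA _).2 h1)
  · have e1 : ((m₁ * y * m₂)⁻¹ : (Module.End F V)ˣ) = m₂⁻¹ * y⁻¹ * m₁⁻¹ := by
      simp only [mul_inv_rev, mul_assoc]
    rw [e1]
    simp only [m₁, m₂, Units.val_mul, Module.End.mul_apply, smulU_inv_apply]
    intro hm
    have h1 : ((y⁻¹ : (Module.End F V)ˣ) : Module.End F V) ((d₀ * ζ) • w) ∈ Submodule.span E {w} := by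
      have h2 := Submodule.smul_mem _ c₀ hm
      rwa [smul_smul, mul_inv_cancel₀ hc₀, one_smul, inv_inv, smul_smul] at h2
    exact hstep μB d₀ d₁ hd₀ hμB h.hB1 ((h.hB _).2 h1)

/-- The matrices act on the space. -/
noncomputable def phiM (B : Basis (Fin 4) F V) (ι : ZMod 2 →+* F) (M : Mat4) : Module.End F V :=
  Matrix.toLin B B (M.map ι)

theorem phiM_mul (B : Basis (Fin 4) F V) (ι : ZMod 2 →+* F) (M N : Mat4) :
    phiM B ι (M * N) = phiM B ι M * phiM B ι N := by
  unfold phiM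
  rw [Matrix.map_mul, Matrix.toLin_mul B B B]
  rfl

theorem phiM_one (B : Basis (Fin 4) F V) (ι : ZMod 2 →+* F) : phiM B ι 1 = 1 := by
  unfold phiM
  rw [Matrix.map_one _ (map_zero ι) (map_one ι), Matrix.toLin_one]
  rfl

theorem phiM_apply (B : Basis (Fin 4) F V) (ι : ZMod 2 →+* F) (M : Mat4) (k : Fin 4) :
    phiM B ι M (B k) = ι (M 0 k) • B 0 + ι (M 1 k) • B 1 + ι (M 2 k) • B 2 + ι (M 3 k) • B 3 := by
  unfold phiM
  rw [Matrix.toLin_self]
  simp only [Fin.sum_univ_four, Matrix.map_apply]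

/-- The matrices with an image in the group. -/
def InYM (Y : Subgroup (Module.End F V)ˣ) (B : Basis (Fin 4) F V) (ι : ZMod 2 →+* F) (M : Mat4) : Prop :=
  ∃ u ∈ Y, (u : Module.End F V) = phiM B ι M

theorem InYM.mul {Y : Subgroup (Module.End F V)ˣ} {B : Basis (Fin 4) F V} {ι : ZMod 2 →+* F} {M N : Mat4}
    (hM : InYM Y B ι M) (hN : InYM Y B ι N) : InYM Y B ι (M * N) := by
  obtain ⟨u, hu, hu'⟩ := hM
  obtain ⟨v, hv, hv'⟩ := hN
  exact ⟨u * v, Y.mul_mem hu hv, by rw [Units.val_mul, hu', hv', phiM_mul]⟩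

theorem inYM_of_comm {Y : Subgroup (Module.End F V)ˣ} {B : Basis (Fin 4) F V} {ι : ZMod 2 →+* F}
    (hY : ∀ g : (Module.End F V)ˣ, IsElin (E := E) (g : Module.End F V) → g ∈ Y) (hr : finrank F E = 2) (ζ : E)
    (hζ : ζ ∉ (algebraMap F E).range) (hZ : phiM B ι wZ = smulEnd ζ) (M M' : Mat4) (h₁ : M * M' = 1) (h₂ : M' * M = 1)
    (hc : M * wZ = wZ * M) : InYM Y B ι M := by
  let u : (Module.End F V)ˣ :=
    ⟨phiM B ι M, phiM B ι M', by rw [← phiM_mul, h₁, phiM_one], by rw [← phiM_mul, h₂, phiM_one]⟩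
  refine ⟨u, hY u ?_, rfl⟩
  have hcomm : ∀ v, phiM B ι M (ζ • v) = ζ • phiM B ι M v := by
    intro v
    have h3 := congrArg (fun f => phiM B ι f) hc
    simp only [phiM_mul, hZ] at h3
    exact LinearMap.congr_fun h3 v
  intro c v
  obtain ⟨α, β, hab⟩ := exists_decomp hr ζ hζ c
  change phiM B ι M (c • v) = c • phiM B ι M v
  rw [hab, add_smul, add_smul, smul_assoc, smul_assoc, smul_assoc, smul_assoc, one_smul, one_smul, map_add, map_smul,
    map_smul, hcomm]

/-- The transvection seed. -/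
theorem hasSeed_of_word {Y : Subgroup (Module.End F V)ˣ} {B : Basis (Fin 4) F V} {ι : ZMod 2 →+* F} (i j : Fin 4)
    (hij : i ≠ j) (T : Mat4) (hT : InYM Y B ι T) (hform : phiM B ι T = 1 + ot (B.coord j) (B i)) : HasSeed Y := by
  obtain ⟨u, hu, hu'⟩ := hT
  have hμ : B.coord j (B i) = 0 := by
    simp [hij]
  refine ⟨B.coord j, B i, hμ, B.ne_zero i, ?_, ?_⟩
  · intro h0
    have := LinearMap.congr_fun h0 (B j)
    simp at this
  · have e : unipU (ot (B.coord j) (B i)) (ot_sq _ _ hμ) = u := by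
      apply Units.ext
      rw [hu', hform]
      rfl
    rw [e]
    exact hu

/-- The main special case. -/
theorem seed_special {y : (Module.End F V)ˣ} {w : V} {l l' : V →ₗ[E] E} {c₁ d₁ : E} {μA μB : E →ₗ[F] F}
    (h : NearData y w l l' c₁ d₁ μA μB) (hF : ∀ κ : F, κ = 0 ∨ κ = 1) (hr : finrank F E = 2) (hm : finrank E V = 2)
    {Y : Subgroup (Module.End F V)ˣ}
    (hY : ∀ g : (Module.End F V)ˣ, IsElin (E := E) (g : Module.End F V) → LinearMap.det (g : Module.End F V) = 1 → g ∈ Y)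
    (hyY : y ∈ Y) : HasSeed Y := by
  have hY' : ∀ g : (Module.End F V)ˣ, IsElin (E := E) (g : Module.End F V) → g ∈ Y :=
    fun g hg => hY g hg (det_one_of_two hF g)
  obtain ⟨y₁, hy₁Y, ζ, z, p, hy₁w, hy₁ζ, hz, hinvζ, hp, hζ2, hζ⟩ := exists_normal h hF hr hY' hyY
  have hw := h.hw
  have h2F := char_two_of hF
  have h2E : (1 : E) + 1 = 0 := by
    have := congrArg (algebraMap F E) h2F
    rwa [map_ofNat, map_zero, ← one_add_one_eq_two] at this
  haveI : CharP F 2 := CharTwo.of_one_ne_zero_of_two_eq_zero one_ne_zero h2F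
  let ι : ZMod 2 →+* F := ZMod.castHom (dvd_refl 2) F
  have ι0 : ι 0 = 0 := map_zero ι
  have ι1 : ι 1 = 1 := map_one ι
  have hr4 : finrank F V = 4 := by
    rw [← Module.finrank_mul_finrank F E V, hr, hm]
  -- the basis
  let fam : Fin 4 → V := ![w, ζ • w, z, ζ • z]
  have hli : LinearIndependent F fam := by
    rw [Fintype.linearIndependent_iff]
    intro g hg
    rw [Fin.sum_univ_four] at hg
    simp only [fam, Matrix.cons_val_zero, Matrix.cons_val_one, Matrix.cons_val] at hg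
    have e1 : (g 0 • (1 : E) + g 1 • ζ) • w + (g 2 • (1 : E) + g 3 • ζ) • z = 0 := by
      rw [← hg]
      simp only [add_smul, smul_assoc, one_smul]
      abel
    have h2c : g 2 • (1 : E) + g 3 • ζ = 0 := by
      by_contra hne
      apply hz
      rw [Submodule.mem_span_singleton]
      refine ⟨-((g 2 • (1 : E) + g 3 • ζ)⁻¹ * (g 0 • (1 : E) + g 1 • ζ)), ?_⟩
      rw [neg_smul, mul_smul, eq_neg_of_add_eq_zero_left e1, smul_neg, neg_neg, smul_smul,
        inv_mul_cancel₀ hne, one_smul]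
    rw [h2c, zero_smul, add_zero] at e1
    have h1c : g 0 • (1 : E) + g 1 • ζ = 0 := (smul_eq_zero.1 e1).resolve_right hw
    have hind : ∀ a b : F, a • (1 : E) + b • ζ = 0 → a = 0 ∧ b = 0 := by
      intro a b hab
      have hb : b = 0 := by
        by_contra hb
        apply hζ
        refine ⟨-(b⁻¹ * a), ?_⟩
        have e2 : b • ζ = (-a) • (1 : E) := by
          rw [neg_smul]
          exact eq_neg_of_add_eq_zero_right hab
        calc algebraMap F E (-(b⁻¹ * a)) = (-(b⁻¹ * a)) • (1 : E) := Algebra.algebraMap_eq_smul_one _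
          _ = b⁻¹ • ((-a) • (1 : E)) := by rw [smul_smul, mul_neg]
          _ = ζ := by rw [← e2, smul_smul, inv_mul_cancel₀ hb, one_smul]
      subst hb
      rw [zero_smul, add_zero] at hab
      exact ⟨(smul_eq_zero.1 hab).resolve_right one_ne_zero, rfl⟩
    obtain ⟨a0, a1⟩ := hind _ _ h1c
    obtain ⟨a2, a3⟩ := hind _ _ h2c
    intro i
    fin_cases i
    · exact a0
    · exact a1
    · exact a2
    · exact a3
  let B : Basis (Fin 4) F V := basisOfLinearIndependentOfCardEqFinrank hli (by simp [hr4])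
  have hB0 : B 0 = w := by simp [B, fam]
  have hB1 : B 1 = ζ • w := by simp [B, fam]
  have hB2 : B 2 = z := by simp [B, fam]
  have hB3 : B 3 = ζ • z := by simp [B, fam]
  -- the action of `ζ`
  have hZ : phiM B ι wZ = smulEnd ζ := by
    apply B.ext
    intro k
    rw [phiM_apply, smulEnd_apply]
    fin_cases k
    · change ι (wZ 0 0) • B 0 + ι (wZ 1 0) • B 1 + ι (wZ 2 0) • B 2 + ι (wZ 3 0) • B 3 = ζ • B 0
      rw [show wZ 0 0 = 0 by decide, show wZ 1 0 = 1 by decide, show wZ 2 0 = 0 by decide, show wZ 3 0 = 0 by decide,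
        ι0, ι1, hB0, hB1]
      simp
    · change ι (wZ 0 1) • B 0 + ι (wZ 1 1) • B 1 + ι (wZ 2 1) • B 2 + ι (wZ 3 1) • B 3 = ζ • B 1
      rw [show wZ 0 1 = 1 by decide, show wZ 1 1 = 1 by decide, show wZ 2 1 = 0 by decide, show wZ 3 1 = 0 by decide,
        ι0, ι1, hB0, hB1, smul_smul, hζ2, add_smul, one_smul]
      simp [add_comm]
    · change ι (wZ 0 2) • B 0 + ι (wZ 1 2) • B 1 + ι (wZ 2 2) • B 2 + ι (wZ 3 2) • B 3 = ζ • B 2
      rw [show wZ 0 2 = 0 by decide, show wZ 1 2 = 0 by decide, show wZ 2 2 = 0 by decide, show wZ 3 2 = 1 by decide,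
        ι0, ι1, hB2, hB3]
      simp
    · change ι (wZ 0 3) • B 0 + ι (wZ 1 3) • B 1 + ι (wZ 2 3) • B 2 + ι (wZ 3 3) • B 3 = ζ • B 3
      rw [show wZ 0 3 = 0 by decide, show wZ 1 3 = 0 by decide, show wZ 2 3 = 1 by decide, show wZ 3 3 = 1 by decide,
        ι0, ι1, hB2, hB3, smul_smul, hζ2, add_smul, one_smul]
      simp [add_comm]
  have hcomm : ∀ (M M' : Mat4), M * M' = 1 → M' * M = 1 → M * wZ = wZ * M → InYM Y B ι M :=
    fun M M' h₁ h₂ hc => inYM_of_comm hY' hr ζ hζ hZ M M' h₁ h₂ hc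
  -- the functional
  obtain ⟨l₂, hl₂w, hl₂p⟩ := exists_func (E := E) w p hp
  let r := rootU l₂ w hl₂w (mulF (F := F) ζ)
  have hrY : r ∈ Y := hY' r (isElin_one_add _ _ _)
  let u := y₁ * r * y₁⁻¹
  have huY : u ∈ Y := Y.mul_mem (Y.mul_mem hy₁Y hrY) (Y.inv_mem hy₁Y)
  have hu : ∀ v, (u : Module.End F V) v =
      v + (y₁ : Module.End F V) ((ζ * l₂ (((y₁⁻¹ : (Module.End F V)ˣ) : Module.End F V) v)) • w) := by
    intro v
    simp only [u, r, Units.val_mul, Module.End.mul_apply, rootU_coe, LinearMap.add_apply, Module.End.one_apply,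
      rootMap_mulF_apply, map_add, u_apply_inv]
  have hinvw : ((y₁⁻¹ : (Module.End F V)ˣ) : Module.End F V) w = w := by
    have h5 := uinv_apply y₁ w
    rwa [hy₁w] at h5
  have hinvz : ((y₁⁻¹ : (Module.End F V)ˣ) : Module.End F V) z = ζ • w := by
    rw [← hy₁ζ, uinv_apply]
  have hu0 : (u : Module.End F V) w = w := by
    rw [hu, hinvw, hl₂w, mul_zero, zero_smul, map_zero, add_zero]
  have hu1 : (u : Module.End F V) (ζ • w) = ζ • w + z := by
    rw [hu, hinvζ, hl₂p, mul_one, hy₁ζ]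
  have hu2 : (u : Module.End F V) z = z := by
    rw [hu, hinvz, l₂.map_smul, hl₂w, smul_zero, mul_zero, zero_smul, map_zero, add_zero]
  -- the remaining coordinate
  obtain ⟨e₃, he₃⟩ : ∃ e₃, e₃ = l₂ (((y₁⁻¹ : (Module.End F V)ˣ) : Module.End F V) (ζ • z)) := ⟨_, rfl⟩
  have hu3 : (u : Module.End F V) (ζ • z) = ζ • z + (y₁ : Module.End F V) ((ζ * e₃) • w) := by
    rw [hu, he₃]
  have hy₁e : ∀ α β : F, (y₁ : Module.End F V) ((α • (1 : E) + β • ζ) • w) = α • w + β • z := by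
    intro α β
    rw [add_smul, smul_assoc, smul_assoc, one_smul, map_add, map_smul, map_smul, hy₁w, hy₁ζ]
  have hkerl : ∀ x, l₂ x = 0 → x ∈ Submodule.span E {w} := by
    intro x hx
    by_contra hxw
    have hli2 : LinearIndependent E ![w, p] := by
      rw [LinearIndependent.pair_iff]
      intro s t hst
      have h5 := congrArg l₂ hst
      rw [map_add, l₂.map_smul, l₂.map_smul, hl₂w, hl₂p, smul_zero, zero_add, smul_eq_mul, mul_one, map_zero] at h5
      subst h5
      rw [zero_smul, add_zero] at hst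
      exact ⟨(smul_eq_zero.1 hst).resolve_right hw, rfl⟩
    have htop := hli2.span_eq_top_of_card_eq_finrank (by simp [hm])
    have hmem : x ∈ Submodule.span E (Set.range ![w, p]) := by
      rw [htop]
      exact Submodule.mem_top
    rw [Matrix.range_cons, Matrix.range_cons, Matrix.range_empty, Set.union_empty, Set.singleton_union,
      Submodule.mem_span_pair] at hmem
    obtain ⟨a, b, hab⟩ := hmem
    apply hxw
    have h5 := congrArg l₂ hab
    rw [map_add, l₂.map_smul, l₂.map_smul, hl₂w, hl₂p, smul_zero, zero_add, smul_eq_mul, mul_one, hx] at h5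
    subst h5
    rw [zero_smul, add_zero] at hab
    rw [← hab]
    exact Submodule.smul_mem _ _ (Submodule.mem_span_singleton_self w)
  have he₃F : ∀ κ : F, e₃ ≠ κ • (1 : E) := by
    intro κ he
    have h5 : l₂ (((y₁⁻¹ : (Module.End F V)ˣ) : Module.End F V) (ζ • z) - κ • p) = 0 := by
      rw [map_sub, ← he₃, l₂.map_smul_of_tower κ p, hl₂p, he, sub_self]
    obtain ⟨t, ht⟩ := Submodule.mem_span_singleton.1 (hkerl _ h5)
    obtain ⟨α, β, hab⟩ := exists_decomp hr ζ hζ t
    have h6 : (y₁ : Module.End F V) (t • w) = ζ • z - κ • (ζ • w) := by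
      rw [ht, map_sub, u_apply_inv, map_smul, ← hinvζ, u_apply_inv]
    rw [hab, hy₁e] at h6
    have h7 : (ζ - β • (1 : E)) • z = (α • (1 : E) + κ • ζ) • w := by
      rw [sub_smul, add_smul, smul_assoc, smul_assoc, one_smul, one_smul, smul_assoc]
      rw [sub_eq_iff_eq_add]
      rw [eq_sub_iff_add_eq] at h6
      rw [← h6]
      abel
    have h8 : ζ - β • (1 : E) ≠ 0 := by
      intro h9
      apply hζ
      refine ⟨β, ?_⟩
      rw [Algebra.algebraMap_eq_smul_one]
      exact (sub_eq_zero.1 h9).symm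
    apply hz
    rw [Submodule.mem_span_singleton]
    refine ⟨(ζ - β • (1 : E))⁻¹ * (α • (1 : E) + κ • ζ), ?_⟩
    rw [mul_smul, ← h7, smul_smul, inv_mul_cancel₀ h8, one_smul]
  obtain ⟨α, β, he₃d⟩ := exists_decomp hr ζ hζ e₃
  have hβ : β = 1 := by
    rcases hF β with rfl | h1
    · exfalso
      rw [zero_smul, add_zero] at he₃d
      exact he₃F α he₃d
    · exact h1
  subst hβ
  rw [one_smul] at he₃d
  rcases hF α with rfl | rfl
  · -- the case `e₃ = ζ`
    rw [zero_smul, zero_add] at he₃d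
    have hU : InYM Y B ι wU0 := by
      refine ⟨u, huY, ?_⟩
      apply B.ext
      intro k
      rw [phiM_apply]
      fin_cases k
      · change (u : Module.End F V) (B 0) = ι (wU0 0 0) • B 0 + ι (wU0 1 0) • B 1 + ι (wU0 2 0) • B 2 + ι (wU0 3 0) • B 3
        rw [show wU0 0 0 = 1 by decide, show wU0 1 0 = 0 by decide, show wU0 2 0 = 0 by decide, show wU0 3 0 = 0 by decide,
          ι0, ι1, hB0, hu0]
        simp
      · change (u : Module.End F V) (B 1) = ι (wU0 0 1) • B 0 + ι (wU0 1 1) • B 1 + ι (wU0 2 1) • B 2 + ι (wU0 3 1) • B 3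
        rw [show wU0 0 1 = 0 by decide, show wU0 1 1 = 1 by decide, show wU0 2 1 = 1 by decide, show wU0 3 1 = 0 by decide,
          ι0, ι1, hB1, hB2, hu1]
        simp
      · change (u : Module.End F V) (B 2) = ι (wU0 0 2) • B 0 + ι (wU0 1 2) • B 1 + ι (wU0 2 2) • B 2 + ι (wU0 3 2) • B 3
        rw [show wU0 0 2 = 0 by decide, show wU0 1 2 = 0 by decide, show wU0 2 2 = 1 by decide, show wU0 3 2 = 0 by decide,
          ι0, ι1, hB2, hu2]
        simp
      · change (u : Module.End F V) (B 3) = ι (wU0 0 3) • B 0 + ι (wU0 1 3) • B 1 + ι (wU0 2 3) • B 2 + ι (wU0 3 3) • B 3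
        rw [show wU0 0 3 = 1 by decide, show wU0 1 3 = 0 by decide, show wU0 2 3 = 1 by decide, show wU0 3 3 = 1 by decide,
          ι0, ι1, hB0, hB2, hB3, hu3, he₃d, hζ2]
        have e : (ζ + 1) = (1 : F) • (1 : E) + (1 : F) • ζ := by
          rw [one_smul, one_smul, add_comm]
        rw [e, hy₁e]
        simp only [one_smul, zero_smul, add_zero]
        abel
    have hT : InYM Y B ι wT0 := by
      rw [← word0]
      have a1 : InYM Y B ι wA1 := hcomm _ wA1 (by decide +kernel) (by decide +kernel) (by decide +kernel)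
      have a2 : InYM Y B ι wA2 := hcomm _ wA2i (by decide +kernel) (by decide +kernel) (by decide +kernel)
      have a2i : InYM Y B ι wA2i := hcomm _ wA2 (by decide +kernel) (by decide +kernel) (by decide +kernel)
      have a3 : InYM Y B ι wA3 := hcomm _ wA3i (by decide +kernel) (by decide +kernel) (by decide +kernel)
      have a3i : InYM Y B ι wA3i := hcomm _ wA3 (by decide +kernel) (by decide +kernel) (by decide +kernel)
      have a4 : InYM Y B ι wA4 := hcomm _ wA4i (by decide +kernel) (by decide +kernel) (by decide +kernel)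
      have a4i : InYM Y B ι wA4i := hcomm _ wA4 (by decide +kernel) (by decide +kernel) (by decide +kernel)
      exact (((a1.mul hU).mul a1).mul ((a2.mul hU).mul a2i)).mul ((a3.mul hU).mul a3i) |>.mul ((a4.mul hU).mul a4i)
    refine hasSeed_of_word 3 1 (by decide) wT0 hT ?_
    apply B.ext
    intro k
    rw [phiM_apply, LinearMap.add_apply, Module.End.one_apply, ot_apply]
    have e3 : B 3 = B 3 := rfl
    fin_cases k
    · change ι (wT0 0 0) • B 0 + ι (wT0 1 0) • B 1 + ι (wT0 2 0) • B 2 + ι (wT0 3 0) • B 3 = B 0 + B.coord 1 (B 0) • B 3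
      rw [show wT0 0 0 = 1 by decide, show wT0 1 0 = 0 by decide, show wT0 2 0 = 0 by decide, show wT0 3 0 = 0 by decide,
        ι0, ι1]
      simp
    · change ι (wT0 0 1) • B 0 + ι (wT0 1 1) • B 1 + ι (wT0 2 1) • B 2 + ι (wT0 3 1) • B 3 = B 1 + B.coord 1 (B 1) • B 3
      rw [show wT0 0 1 = 0 by decide, show wT0 1 1 = 1 by decide, show wT0 2 1 = 0 by decide, show wT0 3 1 = 1 by decide,
        ι0, ι1]
      simp
    · change ι (wT0 0 2) • B 0 + ι (wT0 1 2) • B 1 + ι (wT0 2 2) • B 2 + ι (wT0 3 2) • B 3 = B 2 + B.coord 1 (B 2) • B 3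
      rw [show wT0 0 2 = 0 by decide, show wT0 1 2 = 0 by decide, show wT0 2 2 = 1 by decide, show wT0 3 2 = 0 by decide,
        ι0, ι1]
      simp
    · change ι (wT0 0 3) • B 0 + ι (wT0 1 3) • B 1 + ι (wT0 2 3) • B 2 + ι (wT0 3 3) • B 3 = B 3 + B.coord 1 (B 3) • B 3
      rw [show wT0 0 3 = 0 by decide, show wT0 1 3 = 0 by decide, show wT0 2 3 = 0 by decide, show wT0 3 3 = 1 by decide,
        ι0, ι1]
      simp
  · -- the case `e₃ = 1 + ζ`
    rw [one_smul] at he₃d
    have hU : InYM Y B ι wU1 := by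
      refine ⟨u, huY, ?_⟩
      apply B.ext
      intro k
      rw [phiM_apply]
      fin_cases k
      · change (u : Module.End F V) (B 0) = ι (wU1 0 0) • B 0 + ι (wU1 1 0) • B 1 + ι (wU1 2 0) • B 2 + ι (wU1 3 0) • B 3
        rw [show wU1 0 0 = 1 by decide, show wU1 1 0 = 0 by decide, show wU1 2 0 = 0 by decide, show wU1 3 0 = 0 by decide,
          ι0, ι1, hB0, hu0]
        simp
      · change (u : Module.End F V) (B 1) = ι (wU1 0 1) • B 0 + ι (wU1 1 1) • B 1 + ι (wU1 2 1) • B 2 + ι (wU1 3 1) • B 3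
        rw [show wU1 0 1 = 0 by decide, show wU1 1 1 = 1 by decide, show wU1 2 1 = 1 by decide, show wU1 3 1 = 0 by decide,
          ι0, ι1, hB1, hB2, hu1]
        simp
      · change (u : Module.End F V) (B 2) = ι (wU1 0 2) • B 0 + ι (wU1 1 2) • B 1 + ι (wU1 2 2) • B 2 + ι (wU1 3 2) • B 3
        rw [show wU1 0 2 = 0 by decide, show wU1 1 2 = 0 by decide, show wU1 2 2 = 1 by decide, show wU1 3 2 = 0 by decide,
          ι0, ι1, hB2, hu2]
        simp
      · change (u : Module.End F V) (B 3) = ι (wU1 0 3) • B 0 + ι (wU1 1 3) • B 1 + ι (wU1 2 3) • B 2 + ι (wU1 3 3) • B 3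
        rw [show wU1 0 3 = 1 by decide, show wU1 1 3 = 0 by decide, show wU1 2 3 = 0 by decide, show wU1 3 3 = 1 by decide,
          ι0, ι1, hB0, hB3, hu3, he₃d]
        have e : ζ * (1 + ζ) = 1 := by
          rw [mul_add, mul_one, hζ2]
          have e5 : ζ + (ζ + 1) = (1 + 1) * ζ + 1 := by ring
          rw [e5, h2E, zero_mul, zero_add]
        rw [e, one_smul, hy₁w]
        simp only [one_smul, zero_smul, add_zero]
        abel
    have hT : InYM Y B ι wT1 := by
      rw [← word1]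
      have a1 : InYM Y B ι wA1 := hcomm _ wA1 (by decide +kernel) (by decide +kernel) (by decide +kernel)
      have b2 : InYM Y B ι wB2 := hcomm _ wB2i (by decide +kernel) (by decide +kernel) (by decide +kernel)
      have b2i : InYM Y B ι wB2i := hcomm _ wB2 (by decide +kernel) (by decide +kernel) (by decide +kernel)
      have b3 : InYM Y B ι wB3 := hcomm _ wB3i (by decide +kernel) (by decide +kernel) (by decide +kernel)
      have b3i : InYM Y B ι wB3i := hcomm _ wB3 (by decide +kernel) (by decide +kernel) (by decide +kernel)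
      exact (((a1.mul hU).mul a1).mul ((b2.mul hU).mul b2i)).mul ((b3.mul hU).mul b3i)
    refine hasSeed_of_word 0 1 (by decide) wT1 hT ?_
    apply B.ext
    intro k
    rw [phiM_apply, LinearMap.add_apply, Module.End.one_apply, ot_apply]
    fin_cases k
    · change ι (wT1 0 0) • B 0 + ι (wT1 1 0) • B 1 + ι (wT1 2 0) • B 2 + ι (wT1 3 0) • B 3 = B 0 + B.coord 1 (B 0) • B 0
      rw [show wT1 0 0 = 1 by decide, show wT1 1 0 = 0 by decide, show wT1 2 0 = 0 by decide, show wT1 3 0 = 0 by decide,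
        ι0, ι1]
      simp
    · change ι (wT1 0 1) • B 0 + ι (wT1 1 1) • B 1 + ι (wT1 2 1) • B 2 + ι (wT1 3 1) • B 3 = B 1 + B.coord 1 (B 1) • B 0
      rw [show wT1 0 1 = 1 by decide, show wT1 1 1 = 1 by decide, show wT1 2 1 = 0 by decide, show wT1 3 1 = 0 by decide,
        ι0, ι1]
      simp [add_comm]
    · change ι (wT1 0 2) • B 0 + ι (wT1 1 2) • B 1 + ι (wT1 2 2) • B 2 + ι (wT1 3 2) • B 3 = B 2 + B.coord 1 (B 2) • B 0
      rw [show wT1 0 2 = 0 by decide, show wT1 1 2 = 0 by decide, show wT1 2 2 = 1 by decide, show wT1 3 2 = 0 by decide,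
        ι0, ι1]
      simp
    · change ι (wT1 0 3) • B 0 + ι (wT1 1 3) • B 1 + ι (wT1 2 3) • B 2 + ι (wT1 3 3) • B 3 = B 3 + B.coord 1 (B 3) • B 0
      rw [show wT1 0 3 = 0 by decide, show wT1 1 3 = 0 by decide, show wT1 2 3 = 0 by decide, show wT1 3 3 = 1 by decide,
        ι0, ι1]
      simp

end Special

end Cfsg.Agent.H29
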