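/-
The normaliser of a field subalgebra of prime degree: the matrix version.
-/
import Cfsg.Agent.Lib.H29.FieldSpecial
import Cfsg.Agent.Lib.H29.NormSinger
import Cfsg.Agent.Lib.Lead.SLn
import Cfsg.Agent.Lib.Lead.CardSL

set_option autoImplicit false
set_option linter.unusedSectionVars false

namespace Cfsg.Agent.H29

open Module

section Abstract

variable {F E V : Type*} [Field F] [Field E] [Algebra F E] [AddCommGroup V] [Module F V] [Module E V]
  [IsScalarTower F E V] [Finite F] [FiniteDimensional F E] [FiniteDimensional E V]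

theorem hasSeed_main (hr : (finrank F E).Prime) (hm : 2 ≤ finrank E V) (Y : Subgroup (Module.End F V)ˣ)
    (hY : ∀ g : (Module.End F V)ˣ, IsElin (E := E) (g : Module.End F V) → LinearMap.det (g : Module.End F V) = 1 → g ∈ Y)
    (x : (Module.End F V)ˣ) (hxY : x ∈ Y)
    (hx : ¬ ∀ c : E, ∃ c' : E, ∀ v : V, (x : Module.End F V) (c • v) = c' • (x : Module.End F V) v) : HasSeed Y := by
  obtain ⟨y, hyY, w, l, l', c₁, d₁, μA, μB, h⟩ := exists_nearData hr hm Y hY x hxY hx
  obtain ⟨c, d, hc, hd, hcd⟩ := h.exists_aligned hr.two_le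
  by_cases hq : ∃ s : F, s ≠ 0 ∧ s ≠ 1
  · obtain ⟨s, hs0, hs1⟩ := hq
    exact h.seed_quad hY hyY s hs0 hs1 c d hc hd hcd
  have hF : ∀ κ : F, κ = 0 ∨ κ = 1 := by
    intro κ
    by_contra hcon
    push Not at hcon
    exact hq ⟨κ, hcon.1, hcon.2⟩
  by_cases hm3 : 3 ≤ finrank E V
  · exact h.seed_var hm3 hY hyY c d hd hcd
  by_cases hr3 : 3 ≤ finrank F E
  · exact h.seed_polar hF hr hr3 hY hyY
  have hr2 := hr.two_le
  exact seed_special h hF (by omega) (by omega) hY hyY

/-- The main abstract theorem. -/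
theorem all_transvections (hr : (finrank F E).Prime) (hm : 2 ≤ finrank E V) (Y : Subgroup (Module.End F V)ˣ)
    (hY : ∀ g : (Module.End F V)ˣ, IsElin (E := E) (g : Module.End F V) → LinearMap.det (g : Module.End F V) = 1 → g ∈ Y)
    (x : (Module.End F V)ˣ) (hxY : x ∈ Y)
    (hx : ¬ ∀ c : E, ∃ c' : E, ∀ v : V, (x : Module.End F V) (c • v) = c' • (x : Module.End F V) v)
    (μ : V →ₗ[F] F) (v : V) (h : μ v = 0) : unipU (ot μ v) (ot_sq μ v h) ∈ Y :=
  all_of_seed hr hm Y hY (hasSeed_main hr hm Y hY x hxY hx) μ v h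

theorem not_semilinear_ot (hr : 2 ≤ finrank F E) (hn : 3 ≤ finrank F V) (μ : V →ₗ[F] F) (v₀ : V) (h : μ v₀ = 0)
    (hv₀ : v₀ ≠ 0) (hμ : μ ≠ 0) :
    ¬ ∀ c : E, ∃ c' : E, ∀ v : V, ((unipU (ot μ v₀) (ot_sq μ v₀ h) : (Module.End F V)ˣ) : Module.End F V) (c • v) =
      c' • ((unipU (ot μ v₀) (ot_sq μ v₀ h) : (Module.End F V)ˣ) : Module.End F V) v := by
  intro hall
  haveI : FiniteDimensional F V := Module.Finite.trans E V
  obtain ⟨τ, hτ⟩ := exists_not_mem_range (F := F) (E := E) hr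
  obtain ⟨c', hc'⟩ := hall τ
  have hform : ∀ v : V, τ • v + μ (τ • v) • v₀ = c' • (v + μ v • v₀) := fun v => hc' v
  let Q : V →ₗ[F] (F × F) := μ.prod (μ ∘ₗ smulEnd τ)
  have hker : LinearMap.ker Q ≠ ⊥ := by
    apply LinearMap.ker_ne_bot_of_finrank_lt
    have : finrank F (F × F) = 2 := by simp
    omega
  obtain ⟨v₁, hv₁, hv₁0⟩ := Submodule.exists_mem_ne_zero_of_ne_bot hker
  have hQ := LinearMap.mem_ker.1 hv₁
  have hQ1 : μ v₁ = 0 := congrArg Prod.fst hQ
  have hQ2 : μ (τ • v₁) = 0 := congrArg Prod.snd hQ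
  have hc'τ : c' = τ := by
    have h1 := hform v₁
    rw [hQ1, hQ2, zero_smul, add_zero, add_zero] at h1
    have h2 : (τ - c') • v₁ = 0 := by
      rw [sub_smul, h1, sub_self]
    have h3 := (smul_eq_zero.1 h2).resolve_right hv₁0
    exact (sub_eq_zero.1 h3).symm
  subst hc'τ
  obtain ⟨p, hp⟩ : ∃ p, μ p ≠ 0 := by
    by_contra hcon
    push Not at hcon
    exact hμ (LinearMap.ext hcon)
  have h4 := hform ((μ p)⁻¹ • p)
  rw [map_smul μ, smul_eq_mul, inv_mul_cancel₀ hp, one_smul, smul_add, add_right_inj] at h4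
  have h5 : (c' - algebraMap F E (μ (c' • ((μ p)⁻¹ • p)))) • v₀ = 0 := by
    rw [sub_smul, ← h4, algebraMap_smul, sub_self]
  have h6 := (smul_eq_zero.1 h5).resolve_right hv₀
  exact hτ ⟨_, (sub_eq_zero.1 h6).symm⟩

end Abstract

section MatInterface

variable {F : Type*} [Field F] {n : ℕ}

/-- `GL` as the group of units of the endomorphism ring. -/
noncomputable def glEnd (F : Type*) [Field F] (n : ℕ) : GL (Fin n) F ≃* (Module.End F (Fin n → F))ˣ :=
  Units.mapEquiv (Matrix.toLinAlgEquiv' (R := F) (n := Fin n)).toMulEquiv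

theorem glEnd_apply (g : GL (Fin n) F) (v : Fin n → F) :
    ((glEnd F n g : (Module.End F (Fin n → F))ˣ) : Module.End F (Fin n → F)) v = (g : Matrix (Fin n) (Fin n) F).mulVec v :=
  Matrix.toLinAlgEquiv'_apply _ _

theorem glEnd_det (g : GL (Fin n) F) :
    LinearMap.det ((glEnd F n g : (Module.End F (Fin n → F))ˣ) : Module.End F (Fin n → F)) =
      (g : Matrix (Fin n) (Fin n) F).det :=
  LinearMap.det_toLin' _

/-- The module structure on column vectors over a field subalgebra. -/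
@[reducible] def fldMod (K : Subalgebra F (Matrix (Fin n) (Fin n) F)) : Module K (Fin n → F) where
  smul c v := (c : Matrix (Fin n) (Fin n) F).mulVec v
  one_smul v := Matrix.one_mulVec v
  mul_smul a b v := (Matrix.mulVec_mulVec v _ _).symm
  smul_zero a := Matrix.mulVec_zero _
  smul_add a u v := Matrix.mulVec_add _ _ _
  add_smul a b v := Matrix.add_mulVec _ _ _
  zero_smul v := Matrix.zero_mulVec v

variable [Fintype F] {r : ℕ} {K : Subalgebra F (Matrix (Fin n) (Fin n) F)}

theorem conj_mulVec (g : GL (Fin n) F) (c : Matrix (Fin n) (Fin n) F) (v : Fin n → F) :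
    ((g : Matrix (Fin n) (Fin n) F) * c * ((g⁻¹ : GL (Fin n) F) : Matrix (Fin n) (Fin n) F)).mulVec
      ((g : Matrix (Fin n) (Fin n) F).mulVec v) = (g : Matrix (Fin n) (Fin n) F).mulVec (c.mulVec v) := by
  rw [Matrix.mulVec_mulVec, mul_assoc, ← Units.val_mul, inv_mul_cancel, Units.val_one, mul_one, Matrix.mulVec_mulVec]

theorem mem_normalizer_of_semilinear (g : GL (Fin n) F)
    (h : ∀ c ∈ K, ∃ c' ∈ K, ∀ v : Fin n → F, (g : Matrix (Fin n) (Fin n) F).mulVec (c.mulVec v) =
      c'.mulVec ((g : Matrix (Fin n) (Fin n) F).mulVec v)) : g ∈ Cfsg.Geo.subalgebraNormalizer K := by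
  have hconj : ∀ c ∈ K, (g : Matrix (Fin n) (Fin n) F) * c * ((g⁻¹ : GL (Fin n) F) : Matrix (Fin n) (Fin n) F) ∈ K := by
    intro c hc
    obtain ⟨c', hc', hcv⟩ := h c hc
    have e : (g : Matrix (Fin n) (Fin n) F) * c * ((g⁻¹ : GL (Fin n) F) : Matrix (Fin n) (Fin n) F) = c' := by
      apply Matrix.toLin'.injective
      apply LinearMap.ext
      intro v
      have h1 : v = (g : Matrix (Fin n) (Fin n) F).mulVec (((g⁻¹ : GL (Fin n) F) : Matrix (Fin n) (Fin n) F).mulVec v) := by
        rw [Matrix.mulVec_mulVec, ← Units.val_mul, mul_inv_cancel, Units.val_one, Matrix.one_mulVec]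
      rw [Matrix.toLin'_apply, Matrix.toLin'_apply, h1, conj_mulVec, hcv]
    rw [e]
    exact hc'
  intro k
  refine ⟨hconj k, fun hk => ?_⟩
  haveI : Finite K := Subtype.finite
  let φ : K → K := fun c => ⟨_, hconj c.1 c.2⟩
  have hφ : Function.Injective φ := by
    intro a b hab
    have h1 : (g : Matrix (Fin n) (Fin n) F) * a.1 * ((g⁻¹ : GL (Fin n) F) : Matrix (Fin n) (Fin n) F) =
        (g : Matrix (Fin n) (Fin n) F) * b.1 * ((g⁻¹ : GL (Fin n) F) : Matrix (Fin n) (Fin n) F) := congrArg Subtype.val hab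
    have h2 : a.1 = b.1 := by
      have h3 := congrArg (fun m => ((g⁻¹ : GL (Fin n) F) : Matrix (Fin n) (Fin n) F) * m * (g : Matrix (Fin n) (Fin n) F)) h1
      simpa [mul_assoc, ← Units.val_mul] using h3
    exact Subtype.ext h2
  obtain ⟨c, hc⟩ := (Finite.injective_iff_surjective.1 hφ) ⟨_, hk⟩
  have h1 : (g : Matrix (Fin n) (Fin n) F) * c.1 * ((g⁻¹ : GL (Fin n) F) : Matrix (Fin n) (Fin n) F) =
      (g : Matrix (Fin n) (Fin n) F) * k * ((g⁻¹ : GL (Fin n) F) : Matrix (Fin n) (Fin n) F) := congrArg Subtype.val hc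
  have h2 : c.1 = k := by
    have h3 := congrArg (fun m => ((g⁻¹ : GL (Fin n) F) : Matrix (Fin n) (Fin n) F) * m * (g : Matrix (Fin n) (Fin n) F)) h1
    simpa [mul_assoc, ← Units.val_mul] using h3
  rw [← h2]
  exact c.2

theorem semilinear_of_mem_normalizer (g : GL (Fin n) F) (hg : g ∈ Cfsg.Geo.subalgebraNormalizer K) (c : Matrix (Fin n) (Fin n) F)
    (hc : c ∈ K) : ∃ c' ∈ K, ∀ v : Fin n → F, (g : Matrix (Fin n) (Fin n) F).mulVec (c.mulVec v) =
      c'.mulVec ((g : Matrix (Fin n) (Fin n) F).mulVec v) :=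
  ⟨_, (hg c).1 hc, fun v => (conj_mulVec g c v).symm⟩

theorem transvection_glEnd (i j : Fin n) (hij : i ≠ j) (c : F) :
    ∃ (μ : (Fin n → F) →ₗ[F] F) (v : Fin n → F) (h : μ v = 0),
      glEnd F n (Matrix.SpecialLinearGroup.toGL (Matrix.SpecialLinearGroup.transvection hij c)) = unipU (ot μ v) (ot_sq μ v h) ∧
      (c ≠ 0 → μ ≠ 0 ∧ v ≠ 0) := by
  refine ⟨c • LinearMap.proj j, Pi.single i 1, by simp [hij], ?_, ?_⟩
  swap
  · intro hc
    refine ⟨?_, ?_⟩
    · intro h0
      have h1 := LinearMap.congr_fun h0 (Pi.single j 1)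
      simp only [LinearMap.smul_apply, LinearMap.proj_apply, Pi.single_eq_same, LinearMap.zero_apply, smul_eq_mul,
        mul_one] at h1
      exact hc h1
    · intro h0
      have h1 := congrFun h0 i
      simp only [Pi.single_eq_same, Pi.zero_apply] at h1
      exact one_ne_zero h1
  apply Units.ext
  apply LinearMap.ext
  intro w
  rw [glEnd_apply]
  have e1 : ((Matrix.SpecialLinearGroup.toGL (Matrix.SpecialLinearGroup.transvection hij c) : GL (Fin n) F) : Matrix (Fin n) (Fin n) F) =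
      1 + Matrix.single i j c := Matrix.SpecialLinearGroup.transvection_coe hij c
  rw [e1, Matrix.add_mulVec, Matrix.one_mulVec, Matrix.single_mulVec, unipU_coe, LinearMap.add_apply, Module.End.one_apply,
    ot_apply]
  congr 1
  ext k
  by_cases hk : k = i
  · subst hk
    simp
  · simp [hk, Function.update_of_ne]

/-- A subgroup containing `N ⊓ SL` and an element outside `N` contains `SL`. -/
theorem sl_le_of_not_normalizer (hr : r.Prime) (hrn : r ∣ n) (hlt : r < n) (hK : Cfsg.Geo.IsFieldSubalgebra r K)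
    (X : Subgroup (GL (Fin n) F)) (hX : Cfsg.Geo.subalgebraNormalizer K ⊓ Cfsg.Geo.specialLinear (Fin n) F ≤ X)
    (x : GL (Fin n) F) (hx : x ∈ X) (hxN : x ∉ Cfsg.Geo.subalgebraNormalizer K) : Cfsg.Geo.specialLinear (Fin n) F ≤ X := by
  have hn : n ≠ 0 := by omega
  letI := fldField hK hn
  letI := fldMod K
  haveI : IsScalarTower F K (Fin n → F) := ⟨fun κ c v => Matrix.smul_mulVec _ _ _⟩
  haveI : FiniteDimensional F K := inferInstanceAs (FiniteDimensional F (Subalgebra.toSubmodule K))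
  haveI : FiniteDimensional K (Fin n → F) := Module.Finite.of_restrictScalars_finite F K _
  have hrk : finrank F K = r := hK.finrank_eq
  have hm : 2 ≤ finrank K (Fin n → F) := by
    have h1 := Module.finrank_mul_finrank F K (Fin n → F)
    rw [Module.finrank_fin_fun, hrk] at h1
    by_contra hcon
    have h2 : finrank K (Fin n → F) ≤ 1 := by omega
    have h3 : r * finrank K (Fin n → F) ≤ r * 1 := Nat.mul_le_mul_left _ h2
    omega
  let Y : Subgroup (Module.End F (Fin n → F))ˣ := X.comap (glEnd F n).symm.toMonoidHom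
  have hmemY : ∀ g, g ∈ Y ↔ (glEnd F n).symm g ∈ X := fun g => Iff.rfl
  have hY : ∀ g : (Module.End F (Fin n → F))ˣ, IsElin (E := K) (g : Module.End F (Fin n → F)) →
      LinearMap.det (g : Module.End F (Fin n → F)) = 1 → g ∈ Y := by
    intro g hg hdet
    rw [hmemY]
    apply hX
    obtain ⟨g₀, rfl⟩ := (glEnd F n).surjective g
    rw [MulEquiv.symm_apply_apply]
    refine ⟨?_, ?_⟩
    · apply mem_normalizer_of_semilinear
      intro c hc
      refine ⟨c, hc, fun v => ?_⟩
      have h1 := hg (⟨c, hc⟩ : K) v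
      rw [glEnd_apply, glEnd_apply] at h1
      exact h1
    · rw [glEnd_det] at hdet
      change Matrix.GeneralLinearGroup.det g₀ = 1
      apply Units.ext
      exact hdet
  have hxY : glEnd F n x ∈ Y := by
    rw [hmemY, MulEquiv.symm_apply_apply]
    exact hx
  have hxs : ¬ ∀ c : K, ∃ c' : K, ∀ v : Fin n → F, ((glEnd F n x : (Module.End F (Fin n → F))ˣ) : Module.End F (Fin n → F)) (c • v) =
      c' • ((glEnd F n x : (Module.End F (Fin n → F))ˣ) : Module.End F (Fin n → F)) v := by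
    intro hall
    apply hxN
    apply mem_normalizer_of_semilinear
    intro c hc
    obtain ⟨c', hc'⟩ := hall ⟨c, hc⟩
    refine ⟨c'.1, c'.2, fun v => ?_⟩
    have h1 := hc' v
    rw [glEnd_apply, glEnd_apply] at h1
    exact h1
  have hall := all_transvections (by rw [hrk]; exact hr) hm Y hY (glEnd F n x) hxY hxs
  have htr : ∀ (i j : Fin n) (hij : i ≠ j) (c : F),
      Matrix.SpecialLinearGroup.toGL (Matrix.SpecialLinearGroup.transvection hij c) ∈ X := by
    intro i j hij c
    obtain ⟨μ, v, h, he, -⟩ := transvection_glEnd i j hij c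
    have h1 := hall μ v h
    rw [← he, hmemY, MulEquiv.symm_apply_apply] at h1
    exact h1
  haveI : Nontrivial (Fin n) := by
    have : 2 ≤ n := by
      have := hr.two_le
      omega
    exact Fin.nontrivial_iff_two_le.2 this
  intro g hg
  have h2 : g ∈ (Matrix.SpecialLinearGroup.toGL (n := Fin n) (R := F)).range := by
    rw [Cfsg.Agent.Lead.range_toGL_eq_ker_det]
    exact hg
  obtain ⟨A, rfl⟩ := h2
  refine Cfsg.Agent.Lead.transvection_induction' (fun A => Matrix.SpecialLinearGroup.toGL A ∈ X) ?_ ?_ A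
  · intro i j h c
    exact htr i j h c
  · intro A B hA hB
    rw [map_mul]
    exact X.mul_mem hA hB

theorem exists_sl_not_normalizer (hr : r.Prime) (hrn : r ∣ n) (hlt : r < n) (hK : Cfsg.Geo.IsFieldSubalgebra r K) :
    ∃ t ∈ Cfsg.Geo.specialLinear (Fin n) F, t ∉ Cfsg.Geo.subalgebraNormalizer K := by
  have hn : n ≠ 0 := by omega
  letI := fldField hK hn
  letI := fldMod K
  haveI : IsScalarTower F K (Fin n → F) := ⟨fun κ c v => Matrix.smul_mulVec _ _ _⟩
  haveI : FiniteDimensional F K := inferInstanceAs (FiniteDimensional F (Subalgebra.toSubmodule K))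
  haveI : FiniteDimensional K (Fin n → F) := Module.Finite.of_restrictScalars_finite F K _
  have hrk : finrank F K = r := hK.finrank_eq
  have hr2 := hr.two_le
  obtain ⟨m, rfl⟩ := hrn
  have hm : 2 ≤ m := by
    by_contra hcon
    have h2 : m ≤ 1 := by omega
    have h3 : r * m ≤ r * 1 := Nat.mul_le_mul_left _ h2
    omega
  have hn4 : 4 ≤ r * m := Nat.mul_le_mul hr2 hm
  have hij : (⟨0, by omega⟩ : Fin (r * m)) ≠ ⟨1, by omega⟩ := by simp
  refine ⟨Matrix.SpecialLinearGroup.toGL (Matrix.SpecialLinearGroup.transvection hij 1), ?_, ?_⟩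
  · have h2 : Matrix.SpecialLinearGroup.toGL (Matrix.SpecialLinearGroup.transvection hij (1 : F)) ∈
        (Matrix.SpecialLinearGroup.toGL (n := Fin (r * m)) (R := F)).range := ⟨_, rfl⟩
    rw [Cfsg.Agent.Lead.range_toGL_eq_ker_det] at h2
    exact h2
  · intro htN
    obtain ⟨μ, v, h, he, hne⟩ := transvection_glEnd _ _ hij (1 : F)
    obtain ⟨hμ, hv⟩ := hne one_ne_zero
    refine not_semilinear_ot (E := K) (by rw [hrk]; exact hr2) (by rw [Module.finrank_fin_fun]; omega) μ v h hv hμ ?_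
    intro c
    obtain ⟨c', hc', hcv⟩ := semilinear_of_mem_normalizer _ htN c.1 c.2
    refine ⟨⟨c', hc'⟩, fun w => ?_⟩
    rw [← he, glEnd_apply, glEnd_apply]
    exact hcv w

theorem exists_normalizer_det (hr : r.Prime) (hrn : r ∣ n) (hlt : r < n) (hK : Cfsg.Geo.IsFieldSubalgebra r K) (d : Fˣ) :
    ∃ e ∈ Cfsg.Geo.subalgebraNormalizer K, Matrix.GeneralLinearGroup.det e = d := by
  have hn : n ≠ 0 := by omega
  letI := fldField hK hn
  letI := fldMod K
  haveI : IsScalarTower F K (Fin n → F) := ⟨fun κ c v => Matrix.smul_mulVec _ _ _⟩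
  haveI : FiniteDimensional F K := inferInstanceAs (FiniteDimensional F (Subalgebra.toSubmodule K))
  haveI : FiniteDimensional K (Fin n → F) := Module.Finite.of_restrictScalars_finite F K _
  haveI : Finite K := Subtype.finite
  have hrk : finrank F K = r := hK.finrank_eq
  have hm : 2 ≤ finrank K (Fin n → F) := by
    have h1 := Module.finrank_mul_finrank F K (Fin n → F)
    rw [Module.finrank_fin_fun, hrk] at h1
    by_contra hcon
    have h2 : finrank K (Fin n → F) ≤ 1 := by omega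
    have h3 : r * finrank K (Fin n → F) ≤ r * 1 := Nat.mul_le_mul_left _ h2
    omega
  obtain ⟨a, ha⟩ := FiniteField.norm_surjective F K (d : F)
  have ha0 : a ≠ 0 := by
    apply Algebra.norm_ne_zero_iff (R := F).1
    rw [ha]
    exact d.ne_zero
  haveI : Nontrivial (Fin n → F) := Module.nontrivial_of_finrank_pos (R := K) (by omega)
  obtain ⟨w, hw⟩ := exists_ne (0 : Fin n → F)
  obtain ⟨q, hq⟩ := exists_not_mem_span hm w
  obtain ⟨l, hlw, hlq⟩ := exists_func (E := K) w q hq
  have hl0 : l ≠ 0 := by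
    rintro rfl
    exact zero_ne_one hlq
  obtain ⟨g, hg, hdet, -, -⟩ := exists_torus (F := F) l w hlw hw hl0 a 1 ha0 one_ne_zero
  obtain ⟨g₀, rfl⟩ := (glEnd F n).surjective g
  refine ⟨g₀, ?_, ?_⟩
  · apply mem_normalizer_of_semilinear
    intro c hc
    refine ⟨c, hc, fun v => ?_⟩
    have h1 := hg (⟨c, hc⟩ : K) v
    rw [glEnd_apply, glEnd_apply] at h1
    exact h1
  · apply Units.ext
    rw [glEnd_det, mul_one, ha] at hdet
    exact hdet

/-- The maximality theorem. -/
theorem field_normalizer_maximal (hr : r.Prime) (hrn : r ∣ n) (hlt : r < n) (hK : Cfsg.Geo.IsFieldSubalgebra r K) :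
    IsCoatom (Cfsg.Geo.subalgebraNormalizer K) ∧
      Cfsg.Geo.IsMaximalIn (Cfsg.Geo.specialLinear (Fin n) F)
        (Cfsg.Geo.subalgebraNormalizer K ⊓ Cfsg.Geo.specialLinear (Fin n) F) := by
  obtain ⟨t, htS, htN⟩ := exists_sl_not_normalizer hr hrn hlt hK
  refine ⟨⟨?_, ?_⟩, ?_, ?_⟩
  · intro h0
    apply htN
    rw [h0]
    exact Subgroup.mem_top t
  · intro X hX
    obtain ⟨x, hxX, hxN⟩ := SetLike.exists_of_lt hX
    have hSL := sl_le_of_not_normalizer hr hrn hlt hK X (inf_le_left.trans hX.le) x hxX hxN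
    rw [eq_top_iff]
    intro g _
    obtain ⟨e, heN, hde⟩ := exists_normalizer_det hr hrn hlt hK (Matrix.GeneralLinearGroup.det g)
    have h1 : g * e⁻¹ ∈ Cfsg.Geo.specialLinear (Fin n) F := by
      change Matrix.GeneralLinearGroup.det (g * e⁻¹) = 1
      rw [map_mul, map_inv, hde, mul_inv_cancel]
    have h2 := X.mul_mem (hSL h1) (hX.le heN)
    rwa [inv_mul_cancel_right] at h2
  · refine lt_of_le_of_ne inf_le_right ?_
    intro h0
    have h1 : t ∈ Cfsg.Geo.subalgebraNormalizer K ⊓ Cfsg.Geo.specialLinear (Fin n) F := by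
      rw [h0]
      exact htS
    exact htN h1.1
  · intro M h1 h2
    by_cases hle : M ≤ Cfsg.Geo.subalgebraNormalizer K ⊓ Cfsg.Geo.specialLinear (Fin n) F
    · exact Or.inl (le_antisymm hle h1)
    · right
      obtain ⟨x, hxM, hx⟩ := SetLike.not_le_iff_exists.1 hle
      have hxN : x ∉ Cfsg.Geo.subalgebraNormalizer K := fun h => hx ⟨h, h2 hxM⟩
      exact le_antisymm h2 (sl_le_of_not_normalizer hr hrn hlt hK M h1 x hxM hxN)

end MatInterface

end Cfsg.Agent.H29
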