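/-
Groups in which centralizers of noncentral elements are maximal (under a group of operators):
the counting argument and the Frobenius structure.
-/
import Mathlib
import Cfsg.Prelude.Def_Solvable
import Cfsg.Agent.Lib.H01.Fitting

set_option autoImplicit false
set_option linter.style.haveILetI false
set_option linter.unusedSectionVars false

namespace Cfsg.Agent.H29.MaxCent

open Subgroup Cfsg

variable {A : Type*} [Group A]

/-- The centralizer of an element. -/
abbrev Cn (x : A) : Subgroup A := centralizer ({x} : Set A)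

theorem mem_Cn {x y : A} : y ∈ Cn x ↔ y * x = x * y := by
  rw [Cn, mem_centralizer_singleton_iff]

/-- The properties of centralizers used in the counting argument. -/
structure Hyp (A : Type*) [Group A] : Prop where
  pow : ∀ (x : A) (k : ℕ), x ∉ center A → x ^ k ∉ center A → Cn (x ^ k) = Cn x
  cop : ∀ x y : A, x ∉ center A → y ∉ center A → Commute x y → (orderOf x).Coprime (orderOf y) →
    Cn x = Cn y
  nrm : ∀ x : A, x ∉ center A → (Cn x).Normal ∨ normalizer (Cn x : Set A) = Cn x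

/-- If two coprime powers lie in a subgroup, so does the element. -/
theorem mem_of_coprime_pows {h : A} {m n : ℕ} (hc : m.Coprime n) (P : Subgroup A) (h1 : h ^ m ∈ P)
    (h2 : h ^ n ∈ P) : h ∈ P := by
  obtain ⟨u, v, e⟩ := Nat.isCoprime_iff_coprime.2 hc
  have h3 : h = (h ^ m) ^ u * (h ^ n) ^ v := by
    rw [← zpow_natCast, ← zpow_natCast, ← zpow_mul, ← zpow_mul, ← zpow_add,
      mul_comm (m : ℤ), mul_comm (n : ℤ), e, zpow_one]
  rw [h3]
  exact P.mul_mem (P.zpow_mem h1 u) (P.zpow_mem h2 v)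

variable [Finite A]

theorem exists_primary (x : A) (hx : x ∉ center A) :
    ∃ k r a : ℕ, r.Prime ∧ x ^ k ∉ center A ∧ orderOf (x ^ k) = r ^ a := by
  induction h : orderOf x using Nat.strong_induction_on generalizing x with
  | _ n ih =>
    have hx1 : x ≠ 1 := fun e => hx (e ▸ one_mem _)
    have hn0 : n ≠ 0 := by
      rw [← h]; exact (orderOf_pos x).ne'
    have hn1 : n ≠ 1 := by
      rw [← h]; intro e; exact hx1 (orderOf_eq_one_iff.1 e)
    have hr := Nat.minFac_prime hn1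
    set r := n.minFac with hrdef
    obtain ⟨a, b, hb, hab⟩ := Nat.exists_eq_pow_mul_and_not_dvd hn0 r hr.ne_one
    by_cases hb1 : b = 1
    · refine ⟨1, r, a, hr, by rwa [pow_one], ?_⟩
      rw [pow_one, h, hab, hb1, mul_one]
    have hb0 : b ≠ 0 := by
      rintro rfl
      exact hb (dvd_zero r)
    have ha0 : a ≠ 0 := by
      rintro rfl
      rw [pow_zero, one_mul] at hab
      apply hb
      rw [← hab]
      exact Nat.minFac_dvd n
    have hra : 1 < r ^ a := Nat.one_lt_pow ha0 hr.one_lt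
    have hb2 : 1 < b := by omega
    have hord1 : orderOf (x ^ (r ^ a)) = b := by
      rw [orderOf_pow_of_dvd (by positivity) (by rw [h, hab]; exact dvd_mul_right _ _), h, hab]
      exact Nat.mul_div_cancel_left _ (by positivity)
    have hord2 : orderOf (x ^ b) = r ^ a := by
      rw [orderOf_pow_of_dvd hb0 (by rw [h, hab]; exact dvd_mul_left _ _), h, hab]
      exact Nat.mul_div_cancel _ (by omega)
    have hcop : (r ^ a).Coprime b := Nat.Coprime.pow_left a ((Nat.Prime.coprime_iff_not_dvd hr).2 hb)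
    by_cases h1 : x ^ (r ^ a) ∈ center A
    · by_cases h2 : x ^ b ∈ center A
      · exact absurd (mem_of_coprime_pows hcop _ h1 h2) hx
      · obtain ⟨k, s, c, hs, hk, ho⟩ := ih (r ^ a) (by rw [hab]; nlinarith) (x ^ b) h2 hord2
        refine ⟨b * k, s, c, hs, ?_, ?_⟩
        · rwa [pow_mul]
        · rwa [pow_mul]
    · obtain ⟨k, s, c, hs, hk, ho⟩ := ih b (by rw [hab]; nlinarith) (x ^ (r ^ a)) h1 hord1
      refine ⟨r ^ a * k, s, c, hs, ?_, ?_⟩
      · rwa [pow_mul]
      · rwa [pow_mul]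

omit [Finite A] in
theorem central_of_coprime (H : Hyp A) {y : A} (hy : y ∉ center A) {r a : ℕ}
    (hord : orderOf y = r ^ a) {w : A} (hw : w ∈ Cn y) (hc : (orderOf w).Coprime r) {g : A}
    (hg : g ∈ Cn y) : g * w = w * g := by
  by_cases hwZ : w ∈ center A
  · exact (mem_center_iff.1 hwZ g)
  · have h1 : Commute y w := (mem_Cn.1 hw).symm
    have h2 : (orderOf y).Coprime (orderOf w) := by
      rw [hord]
      exact (Nat.Coprime.pow_right a hc).symm
    have h3 := H.cop y w hy hwZ h1 h2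
    rw [h3] at hg
    exact mem_Cn.1 hg

theorem pow_part {r : ℕ} (hr : r.Prime) (g : A) : ∃ e : ℕ, (orderOf (g ^ (r ^ e))).Coprime r := by
  obtain ⟨e, b, hb, hab⟩ := Nat.exists_eq_pow_mul_and_not_dvd (orderOf_pos g).ne' r hr.ne_one
  refine ⟨e, ?_⟩
  rw [orderOf_pow_of_dvd (by have := hr.pos; positivity) (by rw [hab]; exact dvd_mul_right _ _), hab,
    Nat.mul_div_cancel_left _ (by have := hr.pos; positivity)]
  exact ((Nat.Prime.coprime_iff_not_dvd hr).2 hb).symm

/-- Centralizers of noncentral elements are nilpotent. -/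
theorem nil_cn (H : Hyp A) {x : A} (hx : x ∉ center A) : Group.IsNilpotent (Cn x) := by
  obtain ⟨k, r, a, hr, hk, hord⟩ := exists_primary x hx
  have e := H.pow x k hx hk
  rw [← e]
  haveI : Fact r.Prime := ⟨hr⟩
  have hp : IsPGroup r (Cn (x ^ k) ⧸ center (Cn (x ^ k))) := by
    intro q
    obtain ⟨g, rfl⟩ := QuotientGroup.mk_surjective q
    obtain ⟨e', he'⟩ := pow_part hr (g : A)
    refine ⟨e', ?_⟩
    rw [← QuotientGroup.mk_pow, QuotientGroup.eq_one_iff, mem_center_iff]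
    intro t
    apply Subtype.ext
    have hw : (g : A) ^ r ^ e' ∈ Cn (x ^ k) := (Cn (x ^ k)).pow_mem g.2 _
    exact central_of_coprime H hk hord hw he' t.2
  haveI : Group.IsNilpotent (Cn (x ^ k) ⧸ center (Cn (x ^ k))) := hp.isNilpotent
  exact of_quotient_center_nilpotent inferInstance

omit [Finite A] in
/-- A strict subgroup of a nilpotent subgroup is normalized by something more. -/
theorem exists_normalizer_elt {C D : Subgroup A} (hnil : Group.IsNilpotent C) (hlt : D < C) :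
    ∃ t ∈ C, t ∉ D ∧ t ∈ normalizer (D : Set A) := by
  have hne : D.subgroupOf C ≠ ⊤ := by
    intro h
    apply hlt.not_ge
    intro y hy
    have : (⟨y, hy⟩ : C) ∈ D.subgroupOf C := by rw [h]; trivial
    exact mem_subgroupOf.1 this
  have h1 := Group.normalizerCondition_of_isNilpotent (G := C) (D.subgroupOf C) (lt_top_iff_ne_top.2 hne)
  obtain ⟨t, ht, ht'⟩ := SetLike.exists_of_lt h1
  refine ⟨t, t.2, fun h => ht' (mem_subgroupOf.2 h), ?_⟩
  rw [mem_normalizer_iff]
  intro h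
  rw [mem_normalizer_iff] at ht
  constructor
  · intro hh
    have hhC : h ∈ C := hlt.le hh
    have := (ht ⟨h, hhC⟩).1 (mem_subgroupOf.2 hh)
    exact mem_subgroupOf.1 this
  · intro hh
    have h2 : (t : A) * h * (t : A)⁻¹ ∈ C := hlt.le hh
    have hhC : h ∈ C := by
      have : h = (t : A)⁻¹ * ((t : A) * h * (t : A)⁻¹) * t := by group
      rw [this]
      exact C.mul_mem (C.mul_mem (C.inv_mem t.2) h2) t.2
    have h3 : t * ⟨h, hhC⟩ * t⁻¹ ∈ D.subgroupOf C := mem_subgroupOf.2 hh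
    exact mem_subgroupOf.1 ((ht ⟨h, hhC⟩).2 h3)

theorem self_norm_eq (H : Hyp A) {x : A} (hs : normalizer (Cn x : Set A) = Cn x) {w : A}
    (hwc : ∀ g ∈ Cn x, g * w = w * g) (hwZ : w ∉ center A) : Cn w = Cn x := by
  have hle : Cn x ≤ Cn w := fun g hg => mem_Cn.2 (hwc g hg)
  by_contra hne
  obtain ⟨t, ht, ht', htn⟩ := exists_normalizer_elt (nil_cn H hwZ)
    (lt_of_le_of_ne hle (Ne.symm hne))
  rw [hs] at htn
  exact ht' htn

/-- Structure of a nonabelian centralizer. -/
theorem struct (H : Hyp A) {x : A} (hx : x ∉ center A) {k r a : ℕ} (hr : r.Prime)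
    (hk : x ^ k ∉ center A) (hord : orderOf (x ^ k) = r ^ a) (hna : ¬ IsMulCommutative (Cn x)) :
    ∀ g ∈ Cn x, ∃ e : ℕ, g ^ (r ^ e) ∈ center A := by
  intro g hg
  have e0 := H.pow x k hx hk
  obtain ⟨e, he⟩ := pow_part hr g
  refine ⟨e, ?_⟩
  by_contra hw
  have hwC : g ^ r ^ e ∈ Cn (x ^ k) := by
    rw [e0]; exact (Cn x).pow_mem hg _
  obtain ⟨l, s, b, hs, hl, hordl⟩ := exists_primary _ hw
  have e1 := H.pow _ l hw hl
  have e2 : Cn (x ^ k) = Cn (g ^ r ^ e) := by
    apply H.cop _ _ hk hw (mem_Cn.1 hwC).symm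
    rw [hord]
    exact (Nat.Coprime.pow_right a he).symm
  have e3 : Cn ((g ^ r ^ e) ^ l) = Cn x := by rw [e1, ← e2, e0]
  have hsr : s ≠ r := by
    rintro rfl
    have hb0 : b ≠ 0 := by
      rintro rfl
      rw [pow_zero, orderOf_eq_one_iff] at hordl
      exact hl (hordl ▸ one_mem _)
    have h1 : s ∣ orderOf ((g ^ s ^ e) ^ l) := by
      rw [hordl]; exact dvd_pow_self s hb0
    have h2 : s ∣ orderOf (g ^ s ^ e) := h1.trans (orderOf_pow_dvd l)
    have := Nat.dvd_gcd h2 (dvd_refl s)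
    rw [he] at this
    exact hs.one_lt.ne' (Nat.dvd_one.1 this)
  apply hna
  rw [isMulCommutative_iff]
  rintro ⟨u, hu⟩ ⟨h, hh⟩
  apply Subtype.ext
  show u * h = h * u
  -- the element `h` centralizes the centralizer
  have hP : h ∈ centralizer (Cn x : Set A) := by
    obtain ⟨c, d, hd, hcd⟩ := Nat.exists_eq_pow_mul_and_not_dvd (orderOf_pos h).ne' r hr.ne_one
    have hd0 : d ≠ 0 := by
      rintro rfl
      exact hd (dvd_zero r)
    have hcop : (r ^ c).Coprime d := Nat.Coprime.pow_left c ((Nat.Prime.coprime_iff_not_dvd hr).2 hd)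
    apply mem_of_coprime_pows hcop
    · rw [mem_centralizer_iff]
      intro v hv
      have h1 : orderOf (h ^ r ^ c) = d := by
        rw [orderOf_pow_of_dvd (by have := hr.pos; positivity) (by rw [hcd]; exact dvd_mul_right _ _),
          hcd, Nat.mul_div_cancel_left _ (by have := hr.pos; positivity)]
      have h2 : h ^ r ^ c ∈ Cn (x ^ k) := by rw [e0]; exact (Cn x).pow_mem hh _
      have h3 := central_of_coprime H hk hord h2 (by
        rw [h1]; exact ((Nat.Prime.coprime_iff_not_dvd hr).2 hd).symm) (g := v) (by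
        rw [e0]; exact hv)
      exact h3
    · rw [mem_centralizer_iff]
      intro v hv
      have h1 : orderOf (h ^ d) = r ^ c := by
        rw [orderOf_pow_of_dvd hd0 (by rw [hcd]; exact dvd_mul_left _ _), hcd,
          Nat.mul_div_cancel _ (Nat.pos_of_ne_zero hd0)]
      have h2 : h ^ d ∈ Cn ((g ^ r ^ e) ^ l) := by rw [e3]; exact (Cn x).pow_mem hh _
      have h3 := central_of_coprime H hl hordl h2 (by
        rw [h1]
        exact Nat.Coprime.pow_left c ((Nat.coprime_primes hr hs).2 (Ne.symm hsr))) (g := v) (by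
        rw [e3]; exact hv)
      exact h3
  exact ((mem_centralizer_iff.1 hP u hu))

/-- A self-normalizing subgroup which is a `p`-group modulo the centre is Sylow modulo the centre. -/
theorem exists_sylow {R : Subgroup A} (hZ : center A ≤ R) (hs : normalizer (R : Set A) = R) {r : ℕ}
    [Fact r.Prime] (hp : ∀ g ∈ R, ∃ e : ℕ, g ^ (r ^ e) ∈ center A) :
    ∃ Q : Sylow r (A ⧸ center A), (Q : Subgroup (A ⧸ center A)) = R.map (QuotientGroup.mk' (center A)) := by
  set R' := R.map (QuotientGroup.mk' (center A)) with hR'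
  have hmem : ∀ g : A, (g : A ⧸ center A) ∈ R' ↔ g ∈ R := by
    intro g
    constructor
    · rintro ⟨h, hh, he⟩
      have h1 : h⁻¹ * g ∈ center A := QuotientGroup.eq.1 he
      have : g = h * (h⁻¹ * g) := by group
      rw [this]
      exact R.mul_mem hh (hZ h1)
    · intro h
      exact ⟨g, h, rfl⟩
  have hpg : IsPGroup r R' := by
    rintro ⟨_, g, hg, rfl⟩
    obtain ⟨e, he⟩ := hp g hg
    refine ⟨e, ?_⟩
    apply Subtype.ext
    show (QuotientGroup.mk' (center A) g) ^ r ^ e = 1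
    rw [← map_pow]
    exact (QuotientGroup.eq_one_iff _).2 he
  obtain ⟨Q, hQ⟩ := hpg.exists_le_sylow
  refine ⟨Q, le_antisymm ?_ hQ⟩
  by_contra hne
  have hlt : R' < (Q : Subgroup (A ⧸ center A)) := lt_of_le_of_ne hQ (fun e => hne e.ge)
  have hnil : Group.IsNilpotent (Q : Subgroup (A ⧸ center A)) := Q.isPGroup'.isNilpotent
  obtain ⟨t, htQ, htn, htN⟩ := exists_normalizer_elt hnil hlt
  obtain ⟨t', rfl⟩ := QuotientGroup.mk_surjective t
  apply htn
  rw [hmem]
  have h5 : t' ∈ normalizer (R : Set A) := by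
    rw [mem_normalizer_iff]
    intro h
    rw [mem_normalizer_iff] at htN
    rw [← hmem, ← hmem]
    exact htN _
  rwa [hs] at h5

/-- Two such subgroups are conjugate. -/
theorem conj_of_two {R₁ R₂ : Subgroup A} (hZ₁ : center A ≤ R₁) (hs₁ : normalizer (R₁ : Set A) = R₁)
    (hZ₂ : center A ≤ R₂) (hs₂ : normalizer (R₂ : Set A) = R₂) {r : ℕ} [Fact r.Prime]
    (hp₁ : ∀ g ∈ R₁, ∃ e : ℕ, g ^ (r ^ e) ∈ center A)
    (hp₂ : ∀ g ∈ R₂, ∃ e : ℕ, g ^ (r ^ e) ∈ center A) :
    ∃ g : A, ∀ h : A, h ∈ R₂ ↔ g⁻¹ * h * g ∈ R₁ := by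
  obtain ⟨Q₁, hQ₁⟩ := exists_sylow hZ₁ hs₁ hp₁
  obtain ⟨Q₂, hQ₂⟩ := exists_sylow hZ₂ hs₂ hp₂
  obtain ⟨g', hg'⟩ := MulAction.exists_smul_eq (A ⧸ center A) Q₁ Q₂
  obtain ⟨g, rfl⟩ := QuotientGroup.mk_surjective g'
  refine ⟨g, fun h => ?_⟩
  have hmem : ∀ (R : Subgroup A) (_ : center A ≤ R) (g : A),
      (g : A ⧸ center A) ∈ R.map (QuotientGroup.mk' (center A)) ↔ g ∈ R := by
    intro R hZ g
    constructor
    · rintro ⟨h, hh, he⟩
      have h1 : h⁻¹ * g ∈ center A := QuotientGroup.eq.1 he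
      have : g = h * (h⁻¹ * g) := by group
      rw [this]
      exact R.mul_mem hh (hZ h1)
    · intro h
      exact ⟨g, h, rfl⟩
  rw [← hmem R₂ hZ₂, ← hmem R₁ hZ₁, ← hQ₂, ← hQ₁, ← hg', Sylow.smul_def, Sylow.pointwise_smul_def,
    Subgroup.mem_pointwise_smul_iff_inv_smul_mem]
  simp only [MulAut.smul_def, map_inv, MulAut.conj_inv_apply]
  rfl

/-- Sum of inverse squares of primes. -/
theorem sum_inv_sq_primes (S : Finset ℕ) (hS : ∀ r ∈ S, r.Prime) :
    ∑ r ∈ S, (1 : ℚ) / (r : ℚ) ^ 2 < 1 / 2 := by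
  classical
  have htel : ∀ K : ℕ, ∑ k ∈ Finset.range K, ((1 : ℚ) / ((k : ℚ) + 1) - 1 / ((k : ℚ) + 2)) =
      1 - 1 / ((K : ℚ) + 1) := by
    intro K
    induction K with
    | zero => simp
    | succ K ih =>
      rw [Finset.sum_range_succ, ih]
      push_cast
      field_simp
      ring
  set T := S.erase 2 with hT
  have hTodd : ∀ r ∈ T, ∃ k : ℕ, r = 2 * k + 3 := by
    intro r hr
    rw [hT, Finset.mem_erase] at hr
    have hp := hS r hr.2
    have hodd := hp.odd_of_ne_two hr.1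
    have h2 := hp.two_le
    obtain ⟨m, hm⟩ := hodd
    exact ⟨m - 1, by omega⟩
  let f : ℕ → ℕ := fun r => (r - 3) / 2
  have hinj : Set.InjOn f (T : Set ℕ) := by
    intro a ha b hb hab
    obtain ⟨k, hk⟩ := hTodd a ha
    obtain ⟨l, hl⟩ := hTodd b hb
    simp only [f] at hab
    omega
  have h1 : ∑ r ∈ T, (1 : ℚ) / (r : ℚ) ^ 2 ≤
      ∑ k ∈ T.image f, (1 / 4 : ℚ) * ((1 : ℚ) / ((k : ℚ) + 1) - 1 / ((k : ℚ) + 2)) := by
    rw [Finset.sum_image hinj]
    apply Finset.sum_le_sum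
    intro r hr
    obtain ⟨k, hk⟩ := hTodd r hr
    have hf : f r = k := by
      simp only [f]; omega
    rw [hf, hk]
    have h0 : (0 : ℚ) ≤ k := Nat.cast_nonneg k
    push_cast
    have key : (1 / 4 : ℚ) * ((1 : ℚ) / ((k : ℚ) + 1) - 1 / ((k : ℚ) + 2)) =
        1 / (4 * (((k : ℚ) + 1) * ((k : ℚ) + 2))) := by
      field_simp; ring
    rw [key]
    apply one_div_le_one_div_of_le (by positivity)
    nlinarith
  obtain ⟨K, hK⟩ : ∃ K, T.image f ⊆ Finset.range K := by
    refine ⟨(T.image f).sup id + 1, ?_⟩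
    intro k hk
    rw [Finset.mem_range]
    exact Nat.lt_succ_of_le (Finset.le_sup (f := id) hk)
  have h2 : ∑ k ∈ T.image f, (1 / 4 : ℚ) * ((1 : ℚ) / ((k : ℚ) + 1) - 1 / ((k : ℚ) + 2)) ≤
      ∑ k ∈ Finset.range K, (1 / 4 : ℚ) * ((1 : ℚ) / ((k : ℚ) + 1) - 1 / ((k : ℚ) + 2)) := by
    apply Finset.sum_le_sum_of_subset_of_nonneg hK
    intro k _ _
    have h0 : (0 : ℚ) ≤ k := Nat.cast_nonneg k
    have : (1 : ℚ) / ((k : ℚ) + 2) ≤ 1 / ((k : ℚ) + 1) :=
      one_div_le_one_div_of_le (by positivity) (by linarith)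
    linarith
  have h3 : ∑ k ∈ Finset.range K, (1 / 4 : ℚ) * ((1 : ℚ) / ((k : ℚ) + 1) - 1 / ((k : ℚ) + 2)) < 1 / 4 := by
    rw [← Finset.mul_sum, htel]
    have h0 : (0 : ℚ) ≤ K := Nat.cast_nonneg K
    have : (0 : ℚ) < 1 / ((K : ℚ) + 1) := by positivity
    linarith
  have h4 : ∑ r ∈ S, (1 : ℚ) / (r : ℚ) ^ 2 ≤ 1 / 4 + ∑ r ∈ T, (1 : ℚ) / (r : ℚ) ^ 2 := by
    by_cases h2S : 2 ∈ S
    · rw [← Finset.add_sum_erase S _ h2S]
      have e : (1 : ℚ) / (((2 : ℕ) : ℚ)) ^ 2 = 1 / 4 := by norm_num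
      rw [e]
    · have : S.erase 2 = S := Finset.erase_eq_of_notMem h2S
      rw [hT, this]
      norm_num
  linarith

/-- The set of noncentral elements of type `r` with non-normal centralizer. -/
def XX (A : Type*) [Group A] (r : ℕ) : Set A :=
  {x | x ∉ center A ∧ ¬ (Cn x).Normal ∧ ∃ k a : ℕ, x ^ k ∉ center A ∧ orderOf (x ^ k) = r ^ a}

/-- The counting bound. -/
theorem card_XX_le (H : Hyp A) (hno : ∀ x : A, x ∉ center A → ¬ (Cn x).Normal → ¬ IsMulCommutative (Cn x))
    {r : ℕ} (hr : r.Prime) : r ^ 2 * Nat.card (XX A r) ≤ Nat.card A := by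
  classical
  haveI : Fact r.Prime := ⟨hr⟩
  by_cases hem : (XX A r).Nonempty
  swap
  · rw [Set.not_nonempty_iff_eq_empty] at hem
    rw [hem]
    simp
  obtain ⟨x₀, hx₀, hn₀, k₀, a₀, hk₀, ho₀⟩ := hem
  have hs₀ := (H.nrm x₀ hx₀).resolve_left hn₀
  have hna₀ := hno x₀ hx₀ hn₀
  have hp₀ := struct H hx₀ hr hk₀ ho₀ hna₀
  have hZ₀ : center A ≤ Cn x₀ := fun z hz => mem_Cn.2 (mem_center_iff.1 hz x₀ |>.symm)
  set R₀ := Cn x₀ with hR₀
  -- every element of the set is a conjugate of an element of the centre of `R₀`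
  have hcov : ∀ x ∈ XX A r, ∃ (g : A) (w : center R₀), x = g * (w : R₀) * g⁻¹ := by
    rintro x ⟨hx, hn, k, a, hk, ho⟩
    have hs := (H.nrm x hx).resolve_left hn
    have hna := hno x hx hn
    have hp := struct H hx hr hk ho hna
    have hZ : center A ≤ Cn x := fun z hz => mem_Cn.2 (mem_center_iff.1 hz x |>.symm)
    obtain ⟨g, hg⟩ := conj_of_two hZ₀ hs₀ hZ hs hp₀ hp
    have hw : g⁻¹ * x * g ∈ R₀ := (hg x).1 (mem_Cn.2 rfl)
    refine ⟨g, ⟨⟨_, hw⟩, ?_⟩, by group⟩
    rw [mem_center_iff]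
    rintro ⟨t, ht⟩
    apply Subtype.ext
    show t * (g⁻¹ * x * g) = (g⁻¹ * x * g) * t
    have h1 : g * t * g⁻¹ ∈ Cn x := by
      rw [hg]
      have : g⁻¹ * (g * t * g⁻¹) * g = t := by group
      rwa [this]
    have h2 := mem_Cn.1 h1
    calc t * (g⁻¹ * x * g) = g⁻¹ * ((g * t * g⁻¹) * x) * g := by group
      _ = g⁻¹ * (x * (g * t * g⁻¹)) * g := by rw [h2]
      _ = (g⁻¹ * x * g) * t := by group
  -- the parametrization
  let φ : (A ⧸ R₀) × center R₀ → A := fun q => q.1.out * ((q.2 : R₀) : A) * q.1.out⁻¹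
  have hsub : XX A r ⊆ Set.range φ := by
    intro x hx
    obtain ⟨g, w, rfl⟩ := hcov x hx
    refine ⟨⟨(g : A ⧸ R₀), w⟩, ?_⟩
    obtain ⟨t, ht⟩ := QuotientGroup.mk_out_eq_mul R₀ g
    simp only [φ]
    rw [ht]
    have h1 : (t : A) * ((w : R₀) : A) * (t : A)⁻¹ = ((w : R₀) : A) := by
      have := mem_center_iff.1 w.2 t
      have h2 : (t : A) * ((w : R₀) : A) = ((w : R₀) : A) * (t : A) := congrArg Subtype.val this
      rw [h2]; group
    calc g * (t : A) * ((w : R₀) : A) * (g * (t : A))⁻¹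
        = g * ((t : A) * ((w : R₀) : A) * (t : A)⁻¹) * g⁻¹ := by group
      _ = g * ((w : R₀) : A) * g⁻¹ := by rw [h1]
  have hcard1 : Nat.card (XX A r) ≤ Nat.card (A ⧸ R₀) * Nat.card (center R₀) := by
    rw [← Nat.card_prod]
    have h1 : Nat.card (XX A r) ≤ Nat.card (Set.range φ) :=
      Nat.card_mono (Set.toFinite _) hsub
    exact h1.trans (by
      rw [← Set.image_univ]
      have := Nat.card_image_le (s := Set.univ) (f := φ) (Set.toFinite _)
      rwa [Nat.card_univ] at this)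
  -- the index of the centre
  have hcard2 : r ^ 2 * Nat.card (center R₀) ≤ Nat.card R₀ := by
    have h1 := Subgroup.card_mul_index (center R₀)
    have hpq : IsPGroup r (R₀ ⧸ center R₀) := by
      intro q
      obtain ⟨g, rfl⟩ := QuotientGroup.mk_surjective q
      obtain ⟨e, he⟩ := hp₀ g g.2
      refine ⟨e, ?_⟩
      rw [← QuotientGroup.mk_pow, QuotientGroup.eq_one_iff, mem_center_iff]
      intro t
      apply Subtype.ext
      exact mem_center_iff.1 he t
    obtain ⟨e, he⟩ := IsPGroup.iff_card.1 hpq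
    have hidx : (center R₀).index = r ^ e := by
      rw [Subgroup.index, he]
    have he2 : 2 ≤ e := by
      by_contra hlt
      apply hna₀
      have hcyc : IsCyclic (R₀ ⧸ center R₀) := by
        rcases (by omega : e = 0 ∨ e = 1) with rfl | rfl
        · rw [pow_zero] at he
          haveI : Subsingleton (R₀ ⧸ center R₀) := (Nat.card_eq_one_iff_unique.1 he).1
          exact isCyclic_of_subsingleton
        · rw [pow_one] at he
          exact isCyclic_of_prime_card he
      rw [isMulCommutative_iff]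
      exact commutative_of_cyclic_center_quotient (QuotientGroup.mk' (center R₀)) (by
        rw [QuotientGroup.ker_mk']) 
    obtain ⟨e', rfl⟩ : ∃ e', e = e' + 2 := ⟨e - 2, by omega⟩
    rw [hidx, pow_add] at h1
    rw [← h1]
    have : 0 < r ^ e' := pow_pos hr.pos _
    nlinarith [Nat.card_pos (α := center R₀), Nat.zero_le (Nat.card (center R₀) * r ^ 2)]
  have h3 := Subgroup.card_mul_index R₀
  rw [Subgroup.index] at h3
  rw [← h3]
  calc r ^ 2 * Nat.card (XX A r) ≤ r ^ 2 * (Nat.card (A ⧸ R₀) * Nat.card (center R₀)) :=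
        Nat.mul_le_mul_left _ hcard1
    _ = (r ^ 2 * Nat.card (center R₀)) * Nat.card (A ⧸ R₀) := by ring
    _ ≤ Nat.card R₀ * Nat.card (A ⧸ R₀) := Nat.mul_le_mul_right _ hcard2

/-- The counting theorem. -/
theorem nilpotent_of_hyp (H : Hyp A)
    (hno : ∀ x : A, x ∉ center A → ¬ (Cn x).Normal → ¬ IsMulCommutative (Cn x)) :
    Group.IsNilpotent A := by
  classical
  by_contra hnil
  haveI := Fintype.ofFinite A
  set F := Cfsg.fittingSubgroup A with hF
  have hFnil : Group.IsNilpotent F := H01.fitting_nilpotent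
  have hFtop : F ≠ ⊤ := by
    intro h
    apply hnil
    have e : F ≃* A := (MulEquiv.subgroupCongr h).trans Subgroup.topEquiv
    exact (Group.isNilpotent_congr e).1 hFnil
  have hFcard : 2 * Nat.card F ≤ Nat.card A := by
    have h1 := Subgroup.card_mul_index F
    have h2 : F.index ≠ 1 := fun e => hFtop (Subgroup.index_eq_one.1 e)
    have h3 : F.index ≠ 0 := Subgroup.FiniteIndex.index_ne_zero
    rw [← h1]
    have : 2 ≤ F.index := by omega
    nlinarith [Nat.card_pos (α := F)]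
  have hle_F : ∀ {K : Subgroup A}, K.Normal → Group.IsNilpotent K → K ≤ F := by
    intro K hK hKn
    exact le_sSup ⟨hK, hKn⟩
  have hZF : center A ≤ F := by
    apply hle_F inferInstance
    letI : CommGroup (center A) := { (inferInstance : Group (center A)) with
      mul_comm := fun a b => Subtype.ext (mem_center_iff.1 b.2 (a : A)) }
    exact CommGroup.isNilpotent
  let S := (Nat.card A).primeFactors
  have hcover : (Set.univ : Set A) ⊆ (F : Set A) ∪ ⋃ r ∈ S, XX A r := by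
    intro x _
    by_cases hx : x ∈ center A
    · exact Or.inl (hZF hx)
    by_cases hn : (Cn x).Normal
    · left
      exact hle_F hn (nil_cn H hx) (mem_Cn.2 rfl)
    right
    obtain ⟨k, r, a, hr, hk, ho⟩ := exists_primary x hx
    refine Set.mem_biUnion (x := r) ?_ ⟨hx, hn, k, a, hk, ho⟩
    simp only [S, Finset.mem_coe]
    rw [Nat.mem_primeFactors]
    refine ⟨hr, ?_, Nat.card_pos.ne'⟩
    have ha : a ≠ 0 := by
      rintro rfl
      rw [pow_zero, orderOf_eq_one_iff] at ho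
      exact hk (ho ▸ one_mem _)
    exact (dvd_pow_self r ha).trans (by rw [← ho]; exact orderOf_dvd_natCard _)
  have hsum : (Nat.card A : ℚ) ≤ Nat.card F + ∑ r ∈ S, (Nat.card (XX A r) : ℚ) := by
    have h1 : Nat.card A ≤ Nat.card F + ∑ r ∈ S, Nat.card (XX A r) := by
      have h2 : (Set.univ : Set A).ncard ≤ ((F : Set A) ∪ ⋃ r ∈ S, XX A r).ncard :=
        Set.ncard_le_ncard hcover (Set.toFinite _)
      have h3 := Set.ncard_union_le (F : Set A) (⋃ r ∈ S, XX A r)
      have h4 := Finset.set_ncard_biUnion_le S (XX A)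
      rw [Set.ncard_univ] at h2
      have h5 : (F : Set A).ncard = Nat.card F := (Nat.card_coe_set_eq _).symm
      have h6 : ∑ r ∈ S, (XX A r).ncard = ∑ r ∈ S, Nat.card (XX A r) :=
        Finset.sum_congr rfl (fun r _ => (Nat.card_coe_set_eq _).symm)
      omega
    exact_mod_cast h1
  have hX : ∀ r ∈ S, (Nat.card (XX A r) : ℚ) ≤ (Nat.card A : ℚ) * (1 / (r : ℚ) ^ 2) := by
    intro r hr
    have hp := Nat.prime_of_mem_primeFactors hr
    have h1 := card_XX_le H hno hp
    have h2 : ((r : ℚ)) ^ 2 * (Nat.card (XX A r) : ℚ) ≤ (Nat.card A : ℚ) := by exact_mod_cast h1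
    have h3 : (0 : ℚ) < (r : ℚ) ^ 2 := by
      have : (0 : ℚ) < r := by exact_mod_cast hp.pos
      positivity
    rw [mul_one_div, le_div_iff₀ h3]
    linarith
  have h1 : ∑ r ∈ S, (Nat.card (XX A r) : ℚ) ≤ (Nat.card A : ℚ) * ∑ r ∈ S, (1 : ℚ) / (r : ℚ) ^ 2 := by
    rw [Finset.mul_sum]
    exact Finset.sum_le_sum hX
  have h2 := sum_inv_sq_primes S (fun r hr => Nat.prime_of_mem_primeFactors hr)
  have h3 : (0 : ℚ) < Nat.card A := by exact_mod_cast Nat.card_pos
  have h4 : (2 : ℚ) * Nat.card F ≤ Nat.card A := by exact_mod_cast hFcard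
  nlinarith

end Cfsg.Agent.H29.MaxCent
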