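/-
Maximal centralizers under a group of operators: the operator setup and the nilpotent case.
-/
import Mathlib
import Cfsg.Agent.Lib.H29.MaxCent
import Cfsg.Prelude.Def_Transfer

set_option autoImplicit false
set_option linter.style.haveILetI false
set_option linter.unusedSectionVars false

namespace Cfsg.Agent.H29.MaxCent

open Subgroup Cfsg
open scoped commutatorElement

section Setup

variable {A Γ : Type*} [Group A] [Group Γ]

theorem aut_inv_fix (s : MulAut A) {x : A} (h : s x = x) : s⁻¹ x = x := by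
  calc s⁻¹ x = s⁻¹ (s x) := by rw [h]
    _ = x := MulAut.inv_apply_self _ _ _

/-- The stabilizer of an element. -/
def St (ρ : Γ →* MulAut A) (x : A) : Subgroup Γ where
  carrier := {γ | ρ γ x = x}
  mul_mem' := by
    intro a b ha hb
    simp only [Set.mem_setOf_eq] at ha hb ⊢
    rw [map_mul, MulAut.mul_apply, hb, ha]
  one_mem' := by simp
  inv_mem' := by
    intro a ha
    simp only [Set.mem_setOf_eq] at ha ⊢
    rw [map_inv]
    exact aut_inv_fix _ ha

theorem mem_St {ρ : Γ →* MulAut A} {x : A} {γ : Γ} : γ ∈ St ρ x ↔ ρ γ x = x := Iff.rfl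

/-- The setup: `A` maps to `Γ`, `Γ` acts on `A` extending the inner action, and stabilizers of
noncentral elements are maximal. -/
structure Act (ι : A →* Γ) (ρ : Γ →* MulAut A) : Prop where
  inner : ∀ a y : A, ρ (ι a) y = a * y * a⁻¹
  comp : ∀ (γ : Γ) (a : A), ι (ρ γ a) = γ * ι a * γ⁻¹
  coat : ∀ x : A, x ∉ center A → IsCoatom (St ρ x)

variable {ι : A →* Γ} {ρ : Γ →* MulAut A}

theorem Act.mem_St (S : Act ι ρ) {x y : A} : ι y ∈ St ρ x ↔ y ∈ Cn x := by
  rw [MaxCent.mem_St, S.inner, mem_Cn]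
  constructor
  · intro h
    calc y * x = (y * x * y⁻¹) * y := by group
      _ = x * y := by rw [h]
  · intro h
    rw [h]; group

/-- Products from a subgroup normalized by a stabilizer. -/
theorem Act.decomp (S : Act ι ρ) {x : A} (hx : x ∉ center A) (T : Subgroup A)
    (hinv : ∀ γ ∈ St ρ x, ∀ t ∈ T, ρ γ t ∈ T) (hne : ¬ T ≤ Cn x) (g : Γ) :
    ∃ t ∈ T, ∃ m ∈ St ρ x, g = ι t * m := by
  let U : Subgroup Γ :=
    { carrier := {g | ∃ t ∈ T, ∃ m ∈ St ρ x, g = ι t * m}
      mul_mem' := by
        rintro _ _ ⟨t, ht, m, hm, rfl⟩ ⟨t', ht', m', hm', rfl⟩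
        refine ⟨t * ρ m t', T.mul_mem ht (hinv m hm t' ht'), m * m', (St ρ x).mul_mem hm hm', ?_⟩
        rw [map_mul ι, S.comp]
        group
      one_mem' := ⟨1, T.one_mem, 1, (St ρ x).one_mem, by simp⟩
      inv_mem' := by
        rintro _ ⟨t, ht, m, hm, rfl⟩
        refine ⟨ρ m⁻¹ t⁻¹, hinv _ ((St ρ x).inv_mem hm) _ (T.inv_mem ht), m⁻¹, (St ρ x).inv_mem hm, ?_⟩
        rw [S.comp, map_inv ι]
        group }
  have hle : St ρ x < U := by
    apply lt_of_le_of_ne
    · intro m hm
      exact ⟨1, T.one_mem, m, hm, by simp⟩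
    · intro e
      apply hne
      intro t ht
      have h1 : ι t ∈ U := ⟨t, ht, 1, (St ρ x).one_mem, by simp⟩
      rw [← e] at h1
      exact S.mem_St.1 h1
  have htop := (S.coat x hx).2 U hle
  have hg : g ∈ U := by rw [htop]; trivial
  exact hg

/-- Factorization of `A`. -/
theorem Act.factor (S : Act ι ρ) {x : A} (hx : x ∉ center A) (T : Subgroup A)
    (hinv : ∀ γ ∈ St ρ x, ∀ t ∈ T, ρ γ t ∈ T) (hne : ¬ T ≤ Cn x) (y : A) :
    ∃ t ∈ T, ∃ c ∈ Cn x, y = t * c := by
  obtain ⟨t, ht, m, hm, he⟩ := S.decomp hx T hinv hne (ι y)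
  refine ⟨t, ht, t⁻¹ * y, ?_, by group⟩
  rw [← S.mem_St, map_mul, map_inv, he]
  have : (ι t)⁻¹ * (ι t * m) = m := by group
  rwa [this]

theorem Act.st_eq (S : Act ι ρ) {x y : A} (hx : x ∉ center A) (hy : y ∉ center A)
    (h : St ρ x ≤ St ρ y) : Cn y = Cn x := by
  have h1 := ((S.coat x hx).le_iff_eq (S.coat y hy).1).1 h
  ext z
  rw [← S.mem_St, ← S.mem_St, h1]

/-- The hypotheses of the counting theorem hold. -/
theorem Act.hyp [Finite A] (S : Act ι ρ) : Hyp A := by
  refine ⟨?_, ?_, ?_⟩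
  · intro x k hx hk
    apply S.st_eq hx hk
    intro γ hγ
    rw [MaxCent.mem_St] at hγ ⊢
    rw [map_pow, hγ]
  · intro x y hx hy hc hco
    obtain ⟨k, hk1, hk2⟩ := Nat.chineseRemainder hco 1 0
    obtain ⟨l, hl1, hl2⟩ := Nat.chineseRemainder hco 0 1
    have e1 : (x * y) ^ k = x := by
      rw [hc.mul_pow, (pow_eq_pow_iff_modEq.2 hk1), (pow_eq_pow_iff_modEq.2 hk2)]
      simp
    have e2 : (x * y) ^ l = y := by
      rw [hc.mul_pow, (pow_eq_pow_iff_modEq.2 hl1), (pow_eq_pow_iff_modEq.2 hl2)]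
      simp
    have hu : x * y ∉ center A := by
      intro h
      apply hx
      rw [← e1]
      exact pow_mem h k
    have h1 : Cn x = Cn (x * y) := by
      apply S.st_eq hu hx
      intro γ hγ
      rw [MaxCent.mem_St] at hγ ⊢
      conv_lhs => rw [← e1]
      rw [map_pow, hγ, e1]
    have h2 : Cn y = Cn (x * y) := by
      apply S.st_eq hu hy
      intro γ hγ
      rw [MaxCent.mem_St] at hγ ⊢
      conv_lhs => rw [← e2]
      rw [map_pow, hγ, e2]
    rw [h1, h2]
  · intro x hx
    by_cases hT : normalizer (Cn x : Set A) ≤ Cn x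
    · right
      exact le_antisymm hT le_normalizer
    · left
      have hkey : ∀ γ ∈ St ρ x, ∀ h : A, h ∈ Cn x ↔ ρ γ h ∈ Cn x := by
        intro γ hγ h
        rw [MaxCent.mem_St] at hγ
        rw [mem_Cn, mem_Cn]
        constructor
        · intro e
          have := congrArg (ρ γ) e
          rwa [map_mul, map_mul, hγ] at this
        · intro e
          apply (ρ γ).injective
          rw [map_mul, map_mul, hγ]
          exact e
      have hinv : ∀ γ ∈ St ρ x, ∀ t ∈ normalizer (Cn x : Set A), ρ γ t ∈ normalizer (Cn x : Set A) := by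
        intro γ hγ t ht
        rw [mem_normalizer_iff] at ht ⊢
        intro h
        have e : ρ γ t * h * (ρ γ t)⁻¹ = ρ γ (t * ((ρ γ)⁻¹ h) * t⁻¹) := by
          rw [map_mul, map_mul, map_inv, MulAut.apply_inv_self]
        rw [e, ← hkey γ hγ, ← ht]
        have e2 : h = ρ γ ((ρ γ)⁻¹ h) := (MulAut.apply_inv_self _ _ _).symm
        conv_lhs => rw [e2]
        rw [← hkey γ hγ]
      rw [← normalizer_eq_top_iff, eq_top_iff]
      intro y _
      obtain ⟨t, ht, c, hc, rfl⟩ := S.factor hx _ hinv hT y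
      exact Subgroup.mul_mem _ ht (le_normalizer hc)

omit [Group Γ] in
/-- Commutator formula in class two. -/
theorem pow_form_aux {x y w : A} (h : y * x = x * y * w) (hwy : Commute w y) (m : ℕ) :
    y ^ m * x = x * y ^ m * w ^ m := by
  induction m with
  | zero => simp
  | succ m ih =>
    have e1 : w ^ m * y = y * w ^ m := ((hwy.pow_left m).eq)
    calc y ^ (m + 1) * x = y ^ m * (y * x) := by rw [pow_succ]; group
      _ = (y ^ m * x) * y * w := by rw [h]; group
      _ = x * y ^ m * (w ^ m * y) * w := by rw [ih]; group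
      _ = x * y ^ (m + 1) * w ^ (m + 1) := by rw [e1, pow_succ, pow_succ]; group

omit [Group Γ] in
/-- A coatom of a finite nilpotent group has prime index. -/
theorem coatom_prime [Finite A] (hnil : Group.IsNilpotent A) {C : Subgroup A} (hC : IsCoatom C) :
    ∃ t : ℕ, t.Prime ∧ (∀ y : A, y ^ t ∈ C) ∧ commutator A ≤ C := by
  have hN : normalizer (C : Set A) = ⊤ :=
    hC.2 _ (Group.normalizerCondition_of_isNilpotent (G := A) C hC.lt_top)
  haveI hCn : C.Normal := normalizer_eq_top_iff.1 hN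
  have hnt : Nontrivial (A ⧸ C) := QuotientGroup.nontrivial_iff.2 (fun h => hC.1 h)
  have h1 : Nat.card (A ⧸ C) ≠ 1 := by
    have := Finite.one_lt_card (α := A ⧸ C)
    omega
  obtain ⟨t, ht, htd⟩ := Nat.exists_prime_and_dvd h1
  haveI : Fact t.Prime := ⟨ht⟩
  obtain ⟨q, hq⟩ := exists_prime_orderOf_dvd_card' t htd
  have hq1 : q ≠ 1 := by
    rintro rfl
    rw [orderOf_one] at hq
    exact ht.one_lt.ne hq
  have hall : ∀ v : A ⧸ C, v ∈ zpowers q := by
    have hle : C < (zpowers q).comap (QuotientGroup.mk' C) := by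
      apply lt_of_le_of_ne
      · intro c hc
        rw [mem_comap]
        have : QuotientGroup.mk' C c = 1 := (QuotientGroup.eq_one_iff c).2 hc
        rw [this]
        exact one_mem _
      · intro e
        obtain ⟨q', rfl⟩ := QuotientGroup.mk'_surjective C q
        have h2 : q' ∈ (zpowers (QuotientGroup.mk' C q')).comap (QuotientGroup.mk' C) := by
          rw [mem_comap]
          exact mem_zpowers _
        rw [← e] at h2
        exact hq1 ((QuotientGroup.eq_one_iff q').2 h2)
    have h2 := hC.2 _ hle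
    intro v
    obtain ⟨v', rfl⟩ := QuotientGroup.mk'_surjective C v
    have h3 : v' ∈ (zpowers q).comap (QuotientGroup.mk' C) := by rw [h2]; trivial
    exact h3
  refine ⟨t, ht, ?_, ?_⟩
  · intro y
    rw [← QuotientGroup.eq_one_iff, QuotientGroup.mk_pow]
    obtain ⟨i, hi⟩ := Subgroup.mem_zpowers_iff.1 (hall (y : A ⧸ C))
    rw [← hi, ← zpow_natCast, ← zpow_mul, mul_comm, zpow_mul, zpow_natCast, ← hq, pow_orderOf_eq_one,
      one_zpow]
  · rw [commutator_def, Subgroup.commutator_le]
    rintro a - b -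
    rw [← QuotientGroup.eq_one_iff]
    obtain ⟨i, hi⟩ := Subgroup.mem_zpowers_iff.1 (hall (a : A ⧸ C))
    obtain ⟨j, hj⟩ := Subgroup.mem_zpowers_iff.1 (hall (b : A ⧸ C))
    have h5 : ((⁅a, b⁆ : A) : A ⧸ C) = ⁅(a : A ⧸ C), (b : A ⧸ C)⁆ := rfl
    rw [h5, commutatorElement_eq_one_iff_mul_comm, ← hi, ← hj]
    exact ((Commute.refl q).zpow_zpow i j).eq

/-- The nilpotent case. -/
theorem Act.nil_case [Finite A] (S : Act ι ρ) (hnil : Group.IsNilpotent A) :
    ∃ p : ℕ, p.Prime ∧ Cfsg.IsElementaryAbelian p (⊤ : Subgroup (A ⧸ center A)) := by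
  classical
  have hcoat : ∀ x : A, x ∉ center A → ∃ C : Subgroup A, IsCoatom C ∧ Cn x ≤ C := by
    intro x hx
    refine (eq_top_or_exists_le_coatom (Cn x)).resolve_left ?_
    intro h
    apply hx
    rw [mem_center_iff]
    intro g
    have : g ∈ Cn x := by rw [h]; trivial
    exact mem_Cn.1 this
  -- the derived subgroup is central
  have hcomm : commutator A ≤ center A := by
    intro z hz
    rw [mem_center_iff]
    intro g
    by_cases hg : g ∈ center A
    · exact (mem_center_iff.1 hg z).symm ▸ rfl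
    obtain ⟨C, hC, hle⟩ := hcoat g hg
    obtain ⟨t, ht, -, hcC⟩ := coatom_prime hnil hC
    have hT : commutator A ≤ Cn g := by
      by_contra hne
      have hinv : ∀ γ ∈ St ρ g, ∀ t ∈ commutator A, ρ γ t ∈ commutator A := by
        intro γ _ t ht
        have h1 := (Subgroup.characteristic_iff_map_le.1 (inferInstance : (commutator A).Characteristic)) (ρ γ)
        exact h1 ⟨t, ht, rfl⟩
      apply hC.1
      rw [eq_top_iff]
      intro y _
      obtain ⟨t, ht, c, hc, rfl⟩ := S.factor hg _ hinv hne y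
      exact C.mul_mem (hcC ht) (hle hc)
    exact (mem_Cn.1 (hT hz)).symm
  have hpow : ∀ x : A, x ∉ center A → ∃ t : ℕ, t.Prime ∧ x ^ t ∈ center A := by
    intro x hx
    obtain ⟨C, hC, hle⟩ := hcoat x hx
    obtain ⟨t, ht, hyC, -⟩ := coatom_prime hnil hC
    refine ⟨t, ht, ?_⟩
    let T : Subgroup A := closure {z | ∃ y : A, z = y ^ t}
    have hinv : ∀ γ ∈ St ρ x, ∀ l ∈ T, ρ γ l ∈ T := by
      intro γ _ l hl
      induction hl using Subgroup.closure_induction with
      | mem z hz =>
        obtain ⟨y, rfl⟩ := hz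
        rw [map_pow]
        exact Subgroup.subset_closure ⟨_, rfl⟩
      | one => rw [map_one]; exact T.one_mem
      | mul a b _ _ ha hb => rw [map_mul]; exact T.mul_mem ha hb
      | inv a _ ha => rw [map_inv]; exact T.inv_mem ha
    have hTC : T ≤ C := by
      rw [Subgroup.closure_le]
      rintro _ ⟨y, rfl⟩
      exact hyC y
    have hT : T ≤ Cn x := by
      by_contra hne
      apply hC.1
      rw [eq_top_iff]
      intro y _
      obtain ⟨t', ht', c, hc, rfl⟩ := S.factor hx _ hinv hne y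
      exact C.mul_mem (hTC ht') (hle hc)
    rw [mem_center_iff]
    intro y
    have hw : (x * y)⁻¹ * (y * x) ∈ center A := by
      apply hcomm
      have : (x * y)⁻¹ * (y * x) = ⁅y⁻¹, x⁻¹⁆ := by
        rw [commutatorElement_def]; group
      rw [this]
      exact Subgroup.commutator_mem_commutator (mem_top _) (mem_top _)
    set w := (x * y)⁻¹ * (y * x) with hwdef
    have hcw : ∀ g : A, g * w = w * g := fun g => mem_center_iff.1 hw g
    have h1 : y * x = x * y * w := by rw [hwdef]; group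
    have h2 := pow_form_aux (A := A) h1 (Commute.symm (hcw y)) t
    have h3 : y ^ t * x = x * y ^ t := mem_Cn.1 (hT (Subgroup.subset_closure ⟨y, rfl⟩))
    rw [h3] at h2
    have h4 : w ^ t = 1 := by
      have := mul_left_cancel (a := x * y ^ t) (b := 1) (c := w ^ t) (by rw [mul_one]; exact h2)
      exact this.symm
    have h5 : x * y = y * x * w⁻¹ := by
      rw [h1]
      have : w⁻¹ = w⁻¹ := rfl
      group
    have h6 := pow_form_aux (A := A) (x := y) (y := x) (w := w⁻¹) h5
      (Commute.inv_left (Commute.symm (hcw x))) t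
    rw [inv_pow, h4, inv_one, mul_one] at h6
    exact h6.symm
  have hcommQ : ∀ a b : A ⧸ center A, a * b = b * a := by
    intro a b
    obtain ⟨a', rfl⟩ := QuotientGroup.mk_surjective a
    obtain ⟨b', rfl⟩ := QuotientGroup.mk_surjective b
    have h5 : ((⁅a', b'⁆ : A) : A ⧸ center A) = ⁅(a' : A ⧸ center A), (b' : A ⧸ center A)⁆ := rfl
    rw [← commutatorElement_eq_one_iff_mul_comm, ← h5, QuotientGroup.eq_one_iff]
    exact hcomm (Subgroup.commutator_mem_commutator (mem_top _) (mem_top _))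
  have hIM : IsMulCommutative (⊤ : Subgroup (A ⧸ center A)) := by
    rw [isMulCommutative_iff]
    rintro ⟨a, _⟩ ⟨b, _⟩
    exact Subtype.ext (hcommQ a b)
  by_cases hall : ∀ x : A, x ∈ center A
  · refine ⟨2, Nat.prime_two, hIM, ?_⟩
    intro a _
    obtain ⟨a', rfl⟩ := QuotientGroup.mk_surjective a
    have : (a' : A ⧸ center A) = 1 := (QuotientGroup.eq_one_iff a').2 (hall a')
    rw [this, one_pow]
  · push Not at hall
    obtain ⟨x₀, hx₀⟩ := hall
    obtain ⟨p, hp, hx₀p⟩ := hpow x₀ hx₀
    refine ⟨p, hp, hIM, ?_⟩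
    intro a _
    obtain ⟨y, rfl⟩ := QuotientGroup.mk_surjective a
    rw [← QuotientGroup.mk_pow, QuotientGroup.eq_one_iff]
    by_contra hyp
    have hy : y ∉ center A := fun h => hyp (pow_mem h p)
    obtain ⟨t, ht, hyt⟩ := hpow y hy
    haveI : Fact p.Prime := ⟨hp⟩
    haveI : Fact t.Prime := ⟨ht⟩
    have hne : p ≠ t := by
      rintro rfl
      exact hyp hyt
    have hoa : orderOf (x₀ : A ⧸ center A) = p := by
      apply orderOf_eq_prime
      · rw [← QuotientGroup.mk_pow, QuotientGroup.eq_one_iff]; exact hx₀p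
      · rw [Ne, QuotientGroup.eq_one_iff]; exact hx₀
    have hob : orderOf (y : A ⧸ center A) = t := by
      apply orderOf_eq_prime
      · rw [← QuotientGroup.mk_pow, QuotientGroup.eq_one_iff]; exact hyt
      · rw [Ne, QuotientGroup.eq_one_iff]; exact hy
    have hoab : orderOf ((x₀ : A ⧸ center A) * (y : A ⧸ center A)) = p * t := by
      rw [Commute.orderOf_mul_eq_mul_orderOf_of_coprime (hcommQ _ _), hoa, hob]
      rw [hoa, hob]
      exact (Nat.coprime_primes hp ht).2 hne
    have hu : x₀ * y ∉ center A := by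
      intro h
      have h1 : ((x₀ * y : A) : A ⧸ center A) = 1 := (QuotientGroup.eq_one_iff _).2 h
      rw [QuotientGroup.mk_mul] at h1
      rw [h1, orderOf_one] at hoab
      have := hp.two_le
      have := ht.two_le
      nlinarith
    obtain ⟨t', ht', hut⟩ := hpow _ hu
    have h1 : ((x₀ : A ⧸ center A) * (y : A ⧸ center A)) ^ t' = 1 := by
      rw [← QuotientGroup.mk_mul, ← QuotientGroup.mk_pow, QuotientGroup.eq_one_iff]
      exact hut
    have h2 := orderOf_dvd_of_pow_eq_one h1
    rw [hoab] at h2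
    have h3 : p = t' := (Nat.prime_dvd_prime_iff_eq hp ht').1 ((dvd_mul_right p t).trans h2)
    have h4 : t = t' := (Nat.prime_dvd_prime_iff_eq ht ht').1 ((dvd_mul_left t p).trans h2)
    exact hne (h3.trans h4.symm)

end Setup

end Cfsg.Agent.H29.MaxCent
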