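/-
Maximal centralizers under a group of operators: the Frobenius structure.
-/
import Mathlib
import Cfsg.Agent.Lib.H29.MaxCent2
import Cfsg.Agent.Lib.H01.Frobenius
import Cfsg.Agent.Lib.H01.Frob
import Cfsg.Agent.Lib.H20.Frob

set_option autoImplicit false
set_option linter.style.haveILetI false
set_option linter.unusedSectionVars false

namespace Cfsg.Agent.H29.MaxCent

open Subgroup Cfsg
open scoped Pointwise

section Norm

/-- Two commuting automorphisms whose cyclic subgroups act without fixed points. -/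
theorem norm_identity {V : Type*} [CommGroup V] (α β : MulAut V) {r : ℕ} (hcomm : α * β = β * α)
    (hα : α ^ r = 1) (hβ : β ^ r = 1) (h1 : ∀ (j : ℕ) (v : V), (α * β ^ j) v = v → v = 1)
    (h2 : ∀ i : ℕ, 0 < i → i < r → ∀ v : V, (β ^ i) v = v → v = 1) (x : V) : x ^ r = 1 := by
  classical
  let T : MulAut V → V := fun c => ∏ i ∈ Finset.range r, (c ^ i) x
  have hfix : ∀ c : MulAut V, c ^ r = 1 → c (T c) = T c := by
    intro c hc
    have h3 : c (T c) = ∏ i ∈ Finset.range r, (c ^ (i + 1)) x := by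
      show c (∏ i ∈ Finset.range r, (c ^ i) x) = _
      rw [map_prod]
      apply Finset.prod_congr rfl
      intro i _
      rw [pow_succ', MulAut.mul_apply]
    rw [h3]
    have h4 := Finset.prod_range_succ (fun i => (c ^ i) x) r
    have h5 := Finset.prod_range_succ' (fun i => (c ^ i) x) r
    rw [h4] at h5
    have h6 : (c ^ r) x = (c ^ 0) x := by rw [hc, pow_zero]
    rw [h6] at h5
    exact (mul_right_cancel h5).symm
  have hcp : Commute α β := hcomm
  have hT1 : ∀ j : ℕ, T (α * β ^ j) = 1 := by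
    intro j
    apply h1 j
    apply hfix
    rw [(hcp.pow_right j).mul_pow, hα, one_mul, ← pow_mul, mul_comm, pow_mul, hβ, one_pow]
  have hT2 : ∀ i : ℕ, 0 < i → i < r → T (β ^ i) = 1 := by
    intro i hi hir
    apply h2 i hi hir
    apply hfix
    rw [← pow_mul, mul_comm, pow_mul, hβ, one_pow]
  have h3 : ∏ j ∈ Finset.range r, T (α * β ^ j) = 1 := Finset.prod_eq_one fun j _ => hT1 j
  have h4 : ∏ j ∈ Finset.range r, T (α * β ^ j) =
      ∏ i ∈ Finset.range r, (α ^ i) (T (β ^ i)) := by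
    show ∏ j ∈ Finset.range r, ∏ i ∈ Finset.range r, ((α * β ^ j) ^ i) x = _
    rw [Finset.prod_comm]
    apply Finset.prod_congr rfl
    intro i _
    show _ = (α ^ i) (∏ j ∈ Finset.range r, ((β ^ i) ^ j) x)
    rw [map_prod]
    apply Finset.prod_congr rfl
    intro j _
    rw [(hcp.pow_right j).mul_pow, MulAut.mul_apply, ← pow_mul, ← pow_mul, mul_comm j i]
  rw [h4] at h3
  by_cases hr : r = 0
  · subst hr
    simp
  have h5 : ∏ i ∈ Finset.range r, (α ^ i) (T (β ^ i)) = x ^ r := by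
    have hrpos : 0 < r := Nat.pos_of_ne_zero hr
    rw [← Finset.prod_erase_mul _ _ (Finset.mem_range.mpr hrpos)]
    rw [Finset.prod_eq_one]
    · have h6 : T (β ^ 0) = x ^ r := by
        show ∏ j ∈ Finset.range r, ((β ^ 0) ^ j) x = x ^ r
        simp
      rw [h6]
      simp
    · intro i hi
      rw [Finset.mem_erase, Finset.mem_range] at hi
      rw [hT2 i (Nat.pos_of_ne_zero hi.1) hi.2, map_one]
  rw [← h5, h3]

theorem norm_identity' {V : Type*} [Group V] (hc : ∀ x y : V, x * y = y * x) (α β : MulAut V) {r : ℕ}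
    (hcomm : α * β = β * α)
    (hα : α ^ r = 1) (hβ : β ^ r = 1) (h1 : ∀ (j : ℕ) (v : V), (α * β ^ j) v = v → v = 1)
    (h2 : ∀ i : ℕ, 0 < i → i < r → ∀ v : V, (β ^ i) v = v → v = 1) (x : V) : x ^ r = 1 := by
  letI : CommGroup V := { ‹Group V› with mul_comm := hc }
  exact norm_identity α β hcomm hα hβ h1 h2 x

end Norm

section FrobPrime

variable {F : Type*} [Group F] [Finite F]

/-- An abelian Frobenius complement of prime exponent acting on an abelian kernel has prime order. -/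
theorem card_prime_of_exp (Q K : Subgroup F) (hFC : IsFrobeniusComplement Q) [K.Normal]
    (hc : IsComplement' K Q) (hKab : ∀ a ∈ K, ∀ b ∈ K, a * b = b * a)
    (hQab : ∀ a ∈ Q, ∀ b ∈ Q, a * b = b * a) {q : ℕ} (hq : q.Prime) (hexp : ∀ a ∈ Q, a ^ q = 1) :
    Nat.card Q = q := by
  classical
  haveI : Fact q.Prime := ⟨hq⟩
  obtain ⟨a, haQ, ha1⟩ := (Subgroup.bot_or_exists_ne_one Q).resolve_left hFC.1
  have hoa : orderOf a = q := orderOf_eq_prime (hexp a haQ) ha1
  by_contra hne
  have hle : zpowers a ≤ Q := zpowers_le.2 haQ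
  have hlt : zpowers a ≠ Q := by
    intro e
    apply hne
    rw [← e, Nat.card_zpowers, hoa]
  obtain ⟨b, hbQ, hb⟩ := SetLike.exists_of_lt (lt_of_le_of_ne hle hlt)
  have hb1 : b ≠ 1 := by
    rintro rfl
    exact hb (one_mem _)
  have hob : orderOf b = q := orderOf_eq_prime (hexp b hbQ) hb1
  have hab : a ∉ zpowers b := by
    intro h
    have h1 : zpowers a ≤ zpowers b := zpowers_le.2 h
    have h2 : zpowers a = zpowers b := Subgroup.eq_of_le_of_card_ge h1 (by
      rw [Nat.card_zpowers, Nat.card_zpowers, hoa, hob])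
    exact hb (h2 ▸ mem_zpowers b)
  have hfpf : ∀ c ∈ Q, c ≠ 1 → ∀ v : K, (MulAut.conjNormal c) v = v → v = 1 := by
    intro c hc1 hc2 v hv
    have h1 : c * (v : F) * c⁻¹ = v := by
      have := congrArg Subtype.val hv
      rwa [MulAut.conjNormal_apply] at this
    have h2 : (v : F) * c = c * v := by
      calc (v : F) * c = (c * (v : F) * c⁻¹) * c := by rw [h1]
        _ = c * v := by group
    have h3 := H20.frob_centralizer_le Q hFC c hc1 hc2 v h2
    have h4 : (v : F) ∈ K ⊓ Q := ⟨v.2, h3⟩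
    rw [disjoint_iff.1 hc.disjoint] at h4
    exact Subtype.ext h4
  have hall : ∀ v : K, v ^ q = 1 := by
    apply norm_identity' (fun u v => Subtype.ext (hKab u u.2 v v.2))
      (MulAut.conjNormal a) (MulAut.conjNormal b)
    · rw [← map_mul, ← map_mul, hQab a haQ b hbQ]
    · rw [← map_pow, hexp a haQ, map_one]
    · rw [← map_pow, hexp b hbQ, map_one]
    · intro j v hv
      rw [← map_pow, ← map_mul] at hv
      refine hfpf _ (Q.mul_mem haQ (Q.pow_mem hbQ j)) ?_ v hv
      intro h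
      apply hab
      have : a = (b ^ j)⁻¹ := eq_inv_of_mul_eq_one_left h
      rw [this]
      exact inv_mem (pow_mem (mem_zpowers b) j)
    · intro i hi hir v hv
      rw [← map_pow] at hv
      refine hfpf _ (Q.pow_mem hbQ i) ?_ v hv
      exact pow_ne_one_of_lt_orderOf hi.ne' (by rw [hob]; exact hir)
  -- the kernel is nontrivial
  have hKne : K ≠ ⊥ := by
    intro h
    apply hFC.2.1
    have := hc.sup_eq_top
    rwa [h, bot_sup_eq] at this
  obtain ⟨v, hvK, hv1⟩ := (Subgroup.bot_or_exists_ne_one K).resolve_left hKne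
  have hov : orderOf (⟨v, hvK⟩ : K) = q := by
    apply orderOf_eq_prime (hall _)
    intro h
    exact hv1 (congrArg Subtype.val h)
  have h1 : q ∣ Nat.card K := by
    rw [← hov]; exact orderOf_dvd_natCard _
  have h2 : q ∣ Nat.card Q := by
    have : orderOf (⟨a, haQ⟩ : Q) = q := by
      rw [Subgroup.orderOf_mk, hoa]
    rw [← this]; exact orderOf_dvd_natCard _
  have h3 := H01.card_dvd_index_sub_one hFC
  have hidx : Q.index = Nat.card K := by
    have h4 := Q.card_mul_index
    rw [← hc.card_mul_card, mul_comm] at h4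
    exact Nat.eq_of_mul_eq_mul_right Nat.card_pos h4
  rw [hidx] at h3
  have h4 : q ∣ Nat.card K - 1 := h2.trans h3
  have h5 : q ∣ 1 := by
    have h6 : Nat.card K = (Nat.card K - 1) + 1 := by
      have : 0 < Nat.card K := Nat.card_pos
      omega
    rw [h6] at h1
    exact (Nat.dvd_add_right h4).1 h1
  exact hq.one_lt.ne' (Nat.dvd_one.1 h5)

end FrobPrime

section Struct

variable {A Γ : Type*} [Group A] [Group Γ] [Finite A] {ι : A →* Γ} {ρ : Γ →* MulAut A}

omit [Finite A] in
theorem mem_map_mk {R : Subgroup A} (hZ : center A ≤ R) (g : A) :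
    (g : A ⧸ center A) ∈ R.map (QuotientGroup.mk' (center A)) ↔ g ∈ R := by
  constructor
  · rintro ⟨h, hh, he⟩
    have h1 : h⁻¹ * g ∈ center A := QuotientGroup.eq.1 he
    have : g = h * (h⁻¹ * g) := by group
    rw [this]
    exact R.mul_mem hh (hZ h1)
  · intro h
    exact ⟨g, h, rfl⟩

/-- The image of the centralizer is a Frobenius complement. -/
theorem frob_compl (H : Hyp A) {x : A} (hx : x ∉ center A) (hab : IsMulCommutative (Cn x))
    (hs : normalizer (Cn x : Set A) = Cn x) :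
    IsFrobeniusComplement ((Cn x).map (QuotientGroup.mk' (center A))) := by
  have hZ : center A ≤ Cn x := fun z hz => mem_Cn.2 (mem_center_iff.1 hz x |>.symm)
  have hcm : ∀ a ∈ Cn x, ∀ b ∈ Cn x, a * b = b * a := by
    intro a ha b hb
    exact congrArg Subtype.val ((isMulCommutative_iff.1 hab) ⟨a, ha⟩ ⟨b, hb⟩)
  refine ⟨?_, ?_, ?_⟩
  · intro h
    have h1 : (x : A ⧸ center A) ∈ (Cn x).map (QuotientGroup.mk' (center A)) :=
      (mem_map_mk hZ x).2 (mem_Cn.2 rfl)
    rw [h, Subgroup.mem_bot, QuotientGroup.eq_one_iff] at h1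
    exact hx h1
  · intro h
    apply hx
    rw [mem_center_iff]
    intro g
    have h1 : (g : A ⧸ center A) ∈ (Cn x).map (QuotientGroup.mk' (center A)) := by
      rw [h]; trivial
    exact mem_Cn.1 ((mem_map_mk hZ g).1 h1)
  · intro g' hg'
    obtain ⟨g, rfl⟩ := QuotientGroup.mk_surjective g'
    rw [mem_map_mk hZ] at hg'
    rw [eq_bot_iff]
    rintro _ ⟨⟨w, hw, rfl⟩, hw2⟩
    rw [Subgroup.mem_bot]
    by_contra hw1
    have hwZ : w ∉ center A := fun h => hw1 ((QuotientGroup.eq_one_iff w).2 h)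
    have hw3 : g⁻¹ * w * g ∈ Cn x := by
      have h1 := (H20.mem_conj_smul_iff _ _ _).1 hw2
      have h2 : ((g : A ⧸ center A))⁻¹ * QuotientGroup.mk' (center A) w * (g : A ⧸ center A) =
          ((g⁻¹ * w * g : A) : A ⧸ center A) := rfl
      rw [h2] at h1
      exact (mem_map_mk hZ _).1 h1
    have hw3Z : g⁻¹ * w * g ∉ center A := by
      intro h
      apply hwZ
      have h4 := (inferInstance : (center A).Normal).conj_mem _ h g
      have : g * (g⁻¹ * w * g) * g⁻¹ = w := by group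
      rwa [this] at h4
    have e1 := self_norm_eq H hs (w := w) (fun t ht => hcm t ht w hw) hwZ
    have e2 := self_norm_eq H hs (w := g⁻¹ * w * g) (fun t ht => hcm t ht _ hw3) hw3Z
    apply hg'
    rw [← SetLike.mem_coe]
    have h5 : g ∈ normalizer (Cn x : Set A) := by
      rw [mem_normalizer_iff]
      intro h
      have h6 : h ∈ Cn (g⁻¹ * w * g) ↔ g * h * g⁻¹ ∈ Cn w := by
        rw [mem_Cn, mem_Cn]
        constructor
        · intro e
          calc g * h * g⁻¹ * w = g * (h * (g⁻¹ * w * g)) * g⁻¹ := by group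
            _ = g * ((g⁻¹ * w * g) * h) * g⁻¹ := by rw [e]
            _ = w * (g * h * g⁻¹) := by group
        · intro e
          calc h * (g⁻¹ * w * g) = g⁻¹ * ((g * h * g⁻¹) * w) * g := by group
            _ = g⁻¹ * (w * (g * h * g⁻¹)) * g := by rw [e]
            _ = (g⁻¹ * w * g) * h := by group
      rw [e2, e1] at h6
      exact h6
    rwa [hs] at h5

/-- The Frobenius structure. -/
theorem Act.frob_struct (S : Act ι ρ) {x : A} (hx : x ∉ center A) (hab : IsMulCommutative (Cn x))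
    (hs : normalizer (Cn x : Set A) = Cn x) :
    ∃ (K : Subgroup (A ⧸ center A)) (s : ℕ), s.Prime ∧ K.Normal ∧
      (K : Set (A ⧸ center A)) = frobeniusKernel ((Cn x).map (QuotientGroup.mk' (center A))) ∧
      IsComplement' K ((Cn x).map (QuotientGroup.mk' (center A))) ∧
      IsElementaryAbelian s K ∧ (Nat.card ((Cn x).map (QuotientGroup.mk' (center A)))).Prime := by
  classical
  have H := S.hyp
  set mk := QuotientGroup.mk' (center A) with hmk
  set R := Cn x with hR
  set Q := R.map mk with hQ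
  have hZ : center A ≤ R := fun z hz => mem_Cn.2 (mem_center_iff.1 hz x |>.symm)
  have hmemQ : ∀ g : A, mk g ∈ Q ↔ g ∈ R := mem_map_mk hZ
  have hcm : ∀ a ∈ R, ∀ b ∈ R, a * b = b * a := by
    intro a ha b hb
    exact congrArg Subtype.val ((isMulCommutative_iff.1 hab) ⟨a, ha⟩ ⟨b, hb⟩)
  have hFC : IsFrobeniusComplement Q := frob_compl H hx hab hs
  have hxR : x ∈ R := mem_Cn.2 rfl
  have hmk1 : ∀ g : A, mk g = 1 ↔ g ∈ center A := fun g => QuotientGroup.eq_one_iff g
  obtain ⟨K, hKset, hKn, hKc⟩ := H01.frobenius_theorem Q hFC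
  refine ⟨K, ?_⟩
  set Kh := K.comap mk with hKh
  haveI hKhn : Kh.Normal := inferInstance
  have hmemK : ∀ g : A, g ∈ Kh ↔ mk g ∈ K := fun g => Iff.rfl
  have hZK : center A ≤ Kh := by
    intro z hz
    rw [hmemK, (hmk1 z).2 hz]
    exact K.one_mem
  have hRK : ∀ r ∈ R, r ∈ Kh → r ∈ center A := by
    intro r hr hrK
    have h1 : mk r ∈ K ⊓ Q := ⟨hrK, (hmemQ r).2 hr⟩
    rw [disjoint_iff.1 hKc.disjoint, Subgroup.mem_bot] at h1
    exact (hmk1 r).1 h1
  have hKnot : ∀ y : A, y ∉ Kh → y ∉ center A ∧ ∃ g : A, g⁻¹ * y * g ∈ R := by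
    intro y hy
    refine ⟨fun h => hy (hZK h), ?_⟩
    have h1 : mk y ∉ frobeniusKernel Q := by
      rw [← hKset]; exact hy
    simp only [frobeniusKernel, Set.mem_ofPred_eq, not_or, not_forall, not_not] at h1
    obtain ⟨-, g', hg'⟩ := h1
    obtain ⟨g, rfl⟩ := QuotientGroup.mk_surjective g'
    refine ⟨g, ?_⟩
    rw [H20.mem_conj_smul_iff] at hg'
    exact (hmemQ _).1 hg'
  have hKne : Kh ≠ ⊤ := by
    intro h
    have h1 : x ∈ Kh := by rw [h]; trivial
    exact hx (hRK x hxR h1)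
  have hKbot : K ≠ ⊥ := by
    intro h
    apply hFC.2.1
    have := hKc.sup_eq_top
    rwa [h, bot_sup_eq] at this
  obtain ⟨z, hzK, hzZ⟩ : ∃ z ∈ Kh, z ∉ center A := by
    obtain ⟨v, hvK, hv1⟩ := (Subgroup.bot_or_exists_ne_one K).resolve_left hKbot
    obtain ⟨z, rfl⟩ := QuotientGroup.mk_surjective v
    exact ⟨z, hvK, fun h => hv1 ((hmk1 z).2 h)⟩
  -- invariance of the kernel
  have hinvK : ∀ γ : Γ, ∀ l ∈ Kh, ρ γ l ∈ Kh := by
    intro γ l hl
    obtain ⟨n, -, m, hm, rfl⟩ := S.decomp hx (⊤ : Subgroup A) (fun _ _ _ _ => mem_top _)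
      (fun h => hx (by
        rw [mem_center_iff]
        intro g
        exact mem_Cn.1 (h (mem_top g)))) γ
    rw [map_mul, MulAut.mul_apply, S.inner]
    apply hKhn.conj_mem
    by_contra hcon
    obtain ⟨hcZ, g, hg⟩ := hKnot _ hcon
    rw [MaxCent.mem_St] at hm
    set σ := ρ m with hσ
    have hσR : ∀ h : A, h ∈ R ↔ σ h ∈ R := by
      intro h
      rw [hR, mem_Cn, mem_Cn]
      constructor
      · intro e
        have := congrArg σ e
        rwa [map_mul, map_mul, hm] at this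
      · intro e
        apply σ.injective
        rw [map_mul, map_mul, hm]
        exact e
    have hσZ : l ∈ center A → σ l ∈ center A := by
      intro hlZ
      rw [mem_center_iff]
      intro t
      have e : t = σ (σ⁻¹ t) := (MulAut.apply_inv_self _ _ _).symm
      rw [e, ← map_mul, ← map_mul, mem_center_iff.1 hlZ]
    have h1 : (σ⁻¹ g)⁻¹ * l * (σ⁻¹ g) ∈ R := by
      rw [hσR]
      rw [map_mul, map_mul, map_inv, MulAut.apply_inv_self]
      exact hg
    have h2 : mk l ∈ frobeniusKernel Q := by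
      rw [← hKset]; exact hl
    rcases h2 with h2 | h2
    · exact hcZ (hσZ ((hmk1 l).1 h2))
    · apply h2 (mk (σ⁻¹ g))
      rw [H20.mem_conj_smul_iff]
      exact (hmemQ _).2 h1
  -- centralizers of elements of the kernel
  have hcent : ∀ z ∈ Kh, z ∉ center A → ∀ y : A, y * z = z * y → y ∈ Kh := by
    intro z hz hzZ y hyz
    by_contra hy
    obtain ⟨hyZ, g, hg⟩ := hKnot y hy
    have hc : g⁻¹ * z * g ∈ Kh := by
      have := hKhn.conj_mem z hz g⁻¹
      rwa [inv_inv] at this
    have hcZ : g⁻¹ * z * g ∉ center A := by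
      intro h
      apply hzZ
      have h4 := (inferInstance : (center A).Normal).conj_mem _ h g
      have : g * (g⁻¹ * z * g) * g⁻¹ = z := by group
      rwa [this] at h4
    have hrZ : g⁻¹ * y * g ∉ center A := by
      intro h
      apply hyZ
      have h4 := (inferInstance : (center A).Normal).conj_mem _ h g
      have : g * (g⁻¹ * y * g) * g⁻¹ = y := by group
      rwa [this] at h4
    have hcomm : (g⁻¹ * z * g) * (g⁻¹ * y * g) = (g⁻¹ * y * g) * (g⁻¹ * z * g) := by
      calc (g⁻¹ * z * g) * (g⁻¹ * y * g) = g⁻¹ * (z * y) * g := by group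
        _ = g⁻¹ * (y * z) * g := by rw [hyz]
        _ = (g⁻¹ * y * g) * (g⁻¹ * z * g) := by group
    have h1 := H20.frob_centralizer_le Q hFC (mk (g⁻¹ * y * g)) ((hmemQ _).2 hg)
      (fun h => hrZ ((hmk1 _).1 h)) (mk (g⁻¹ * z * g)) (by
        rw [← map_mul, ← map_mul, hcomm])
    exact hcZ (hRK _ ((hmemQ _).1 h1) hc)
  -- the preimage of the kernel is abelian
  have hKab : ∀ a ∈ Kh, ∀ b ∈ Kh, a * b = b * a := by
    intro a ha b hb
    by_cases hbZ : b ∈ center A
    · exact (mem_center_iff.1 hbZ a)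
    have hle : Kh ≤ Cn b := by
      by_contra hne
      apply hKne
      rw [eq_top_iff]
      intro y _
      obtain ⟨t, ht, c, hc, rfl⟩ := S.factor hbZ Kh (fun γ _ t ht => hinvK γ t ht) hne y
      exact Kh.mul_mem ht (hcent b hb hbZ c (mem_Cn.1 hc))
    exact mem_Cn.1 (hle ha)
  have hcenter_inv : ∀ γ : Γ, ∀ c ∈ center A, ρ γ c ∈ center A := by
    intro γ c hc
    rw [mem_center_iff]
    intro t
    have e : t = ρ γ ((ρ γ)⁻¹ t) := (MulAut.apply_inv_self _ _ _).symm
    rw [e, ← map_mul, ← map_mul, mem_center_iff.1 hc]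
  -- the exponent of the kernel
  obtain ⟨s, hsp, hsd⟩ := Nat.exists_prime_and_dvd (n := Nat.card K) (by
    intro h
    apply hKbot
    exact Subgroup.card_eq_one.1 h)
  haveI : Fact s.Prime := ⟨hsp⟩
  let Ts : Subgroup A :=
    { carrier := {y | ∃ k ∈ Kh, ∃ c ∈ center A, y = k ^ s * c}
      mul_mem' := by
        rintro _ _ ⟨k, hk, c, hc, rfl⟩ ⟨k', hk', c', hc', rfl⟩
        refine ⟨k * k', Kh.mul_mem hk hk', c * c', mul_mem hc hc', ?_⟩
        have h1 : Commute k k' := hKab k hk k' hk'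
        rw [h1.mul_pow]
        have h2 : k' ^ s * c = c * k' ^ s := mem_center_iff.1 hc (k' ^ s)
        calc k ^ s * c * (k' ^ s * c') = k ^ s * (c * k' ^ s) * c' := by group
          _ = k ^ s * (k' ^ s * c) * c' := by rw [h2]
          _ = k ^ s * k' ^ s * (c * c') := by group
      one_mem' := ⟨1, Kh.one_mem, 1, one_mem _, by simp⟩
      inv_mem' := by
        rintro _ ⟨k, hk, c, hc, rfl⟩
        refine ⟨k⁻¹, Kh.inv_mem hk, c⁻¹, inv_mem hc, ?_⟩
        have h2 : (k ^ s)⁻¹ * c⁻¹ = c⁻¹ * (k ^ s)⁻¹ := mem_center_iff.1 (inv_mem hc) ((k ^ s)⁻¹)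
        rw [mul_inv_rev, inv_pow, ← h2] }
  have hTsK : Ts ≤ Kh := by
    rintro _ ⟨k, hk, c, hc, rfl⟩
    exact Kh.mul_mem (Kh.pow_mem hk s) (hZK hc)
  have hTsinv : ∀ γ : Γ, ∀ t ∈ Ts, ρ γ t ∈ Ts := by
    rintro γ _ ⟨k, hk, c, hc, rfl⟩
    refine ⟨ρ γ k, hinvK γ k hk, ρ γ c, hcenter_inv γ c hc, ?_⟩
    rw [map_mul, map_pow]
  have hexpK : ∀ k ∈ Kh, k ^ s ∈ center A := by
    by_cases hle : Ts ≤ R
    · intro k hk
      have h1 : k ^ s ∈ Ts := ⟨k, hk, 1, one_mem _, by simp⟩
      exact hRK _ (hle h1) (hTsK h1)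
    · exfalso
      have hsurj : Function.Surjective (fun a : K => a ^ s) := by
        rintro ⟨k', hk'⟩
        obtain ⟨k, rfl⟩ := QuotientGroup.mk_surjective k'
        have hkK : k ∈ Kh := hk'
        obtain ⟨t, ht, c, hc, he⟩ := S.factor hx Ts (fun γ _ t ht => hTsinv γ t ht) hle k
        have hcK : c ∈ Kh := by
          have : c = t⁻¹ * k := by rw [he]; group
          rw [this]
          exact Kh.mul_mem (Kh.inv_mem (hTsK ht)) hkK
        have hcZ := hRK c hc hcK
        obtain ⟨k₁, hk₁, c₁, hc₁, rfl⟩ := ht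
        refine ⟨⟨mk k₁, hk₁⟩, ?_⟩
        apply Subtype.ext
        show (mk k₁) ^ s = (k : A ⧸ center A)
        have e1 : (k : A ⧸ center A) = mk k := rfl
        rw [e1, he, map_mul, map_mul, (hmk1 _).2 hcZ, (hmk1 _).2 hc₁, map_pow]
        simp
      have hinj := Finite.injective_iff_surjective.2 hsurj
      obtain ⟨v, hv⟩ := exists_prime_orderOf_dvd_card' (G := K) s hsd
      have h1 : v ^ s = (1 : K) ^ s := by rw [← hv, pow_orderOf_eq_one, one_pow]
      have h2 : v = 1 := hinj h1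
      rw [h2, orderOf_one] at hv
      exact hsp.one_lt.ne hv
  have hElem : IsElementaryAbelian s K := by
    constructor
    · rw [isMulCommutative_iff]
      rintro ⟨a, ha⟩ ⟨b, hb⟩
      apply Subtype.ext
      obtain ⟨a', rfl⟩ := QuotientGroup.mk_surjective a
      obtain ⟨b', rfl⟩ := QuotientGroup.mk_surjective b
      show mk a' * mk b' = mk b' * mk a'
      rw [← map_mul, ← map_mul, hKab a' ha b' hb]
    · intro a ha
      obtain ⟨a', rfl⟩ := QuotientGroup.mk_surjective a
      have e : (a' : A ⧸ center A) ^ s = mk (a' ^ s) := rfl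
      rw [e]
      exact (hmk1 _).2 (hexpK a' ha)
  refine ⟨s, hsp, hKn, hKset, hKc, hElem, ?_⟩
  -- factorization and the quotient
  have hdec : ∀ y : A, ∃ r ∈ R, ∃ k ∈ Kh, y = r * k := by
    intro y
    have h : mk y ∈ ((Q ⊔ K : Subgroup (A ⧸ center A)) : Set (A ⧸ center A)) := by
      rw [sup_comm, hKc.sup_eq_top]; trivial
    rw [Subgroup.mul_normal, Set.mem_mul] at h
    obtain ⟨q, ⟨r, hr, rfl⟩, k', hk', he⟩ := h
    obtain ⟨k, rfl⟩ := QuotientGroup.mk_surjective k'
    have h1 : (r * k)⁻¹ * y ∈ center A := by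
      apply QuotientGroup.eq.1
      exact he
    refine ⟨r, hr, k * ((r * k)⁻¹ * y), Kh.mul_mem hk' (hZK h1), by group⟩
  let mk₂ := QuotientGroup.mk' Kh
  have hmk₂ : ∀ k ∈ Kh, mk₂ k = 1 := fun k hk => (QuotientGroup.eq_one_iff k).2 hk
  have hWcomm : ∀ a b : A ⧸ Kh, a * b = b * a := by
    intro a b
    obtain ⟨a', rfl⟩ := QuotientGroup.mk'_surjective Kh a
    obtain ⟨b', rfl⟩ := QuotientGroup.mk'_surjective Kh b
    obtain ⟨r, hr, k, hk, rfl⟩ := hdec a'
    obtain ⟨r', hr', k', hk', rfl⟩ := hdec b'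
    have e : ∀ (r k : A), k ∈ Kh → QuotientGroup.mk' Kh (r * k) = QuotientGroup.mk' Kh r := by
      intro r k hk
      rw [map_mul, hmk₂ k hk, mul_one]
    rw [e r k hk, e r' k' hk', ← map_mul, ← map_mul, hcm r hr r' hr']
  have hWnt : Nontrivial (A ⧸ Kh) := QuotientGroup.nontrivial_iff.2 hKne
  obtain ⟨q, hqp, hqd⟩ := Nat.exists_prime_and_dvd (n := Nat.card (A ⧸ Kh)) (by
    have := Finite.one_lt_card (α := A ⧸ Kh)
    omega)
  haveI : Fact q.Prime := ⟨hqp⟩
  let Pw : Subgroup (A ⧸ Kh) := closure {a | ∃ b : A ⧸ Kh, a = b ^ q}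
  have hform : ∀ v ∈ Pw, ∃ b : A ⧸ Kh, v = b ^ q := by
    intro v hv
    induction hv using Subgroup.closure_induction with
    | mem v hv => exact hv
    | one => exact ⟨1, by simp⟩
    | mul a b _ _ ha hb =>
      obtain ⟨u, rfl⟩ := ha
      obtain ⟨w, rfl⟩ := hb
      exact ⟨u * w, ((show Commute u w from hWcomm u w).mul_pow q).symm⟩
    | inv a _ ha =>
      obtain ⟨u, rfl⟩ := ha
      exact ⟨u⁻¹, by simp⟩
  have hPw : Pw ≠ ⊤ := by
    intro h
    have hsurj : Function.Surjective (fun a : A ⧸ Kh => a ^ q) := by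
      intro v
      obtain ⟨b, hb⟩ := hform v (by rw [h]; trivial)
      exact ⟨b, hb.symm⟩
    have hinj := Finite.injective_iff_surjective.2 hsurj
    obtain ⟨v, hv⟩ := exists_prime_orderOf_dvd_card' (G := A ⧸ Kh) q hqd
    have h1 : v ^ q = (1 : A ⧸ Kh) ^ q := by rw [← hv, pow_orderOf_eq_one, one_pow]
    have h2 : v = 1 := hinj h1
    rw [h2, orderOf_one] at hv
    exact hqp.one_lt.ne hv
  let Tq : Subgroup A := closure ((Kh : Set A) ∪ {y | ∃ u : A, y = u ^ q})
  have hTqinv : ∀ γ : Γ, ∀ t ∈ Tq, ρ γ t ∈ Tq := by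
    intro γ t ht
    induction ht using Subgroup.closure_induction with
    | mem t ht =>
      rcases ht with ht | ⟨u, rfl⟩
      · exact Subgroup.subset_closure (Or.inl (hinvK γ t ht))
      · rw [map_pow]
        exact Subgroup.subset_closure (Or.inr ⟨_, rfl⟩)
    | one => rw [map_one]; exact Tq.one_mem
    | mul a b _ _ ha hb => rw [map_mul]; exact Tq.mul_mem ha hb
    | inv a _ ha => rw [map_inv]; exact Tq.inv_mem ha
  have hTqle : Tq ≤ Pw.comap mk₂ := by
    rw [Subgroup.closure_le]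
    rintro t (ht | ⟨u, rfl⟩)
    · show mk₂ t ∈ Pw
      rw [hmk₂ t ht]
      exact Pw.one_mem
    · show mk₂ (u ^ q) ∈ Pw
      rw [map_pow]
      exact Subgroup.subset_closure ⟨_, rfl⟩
  have hTq : Tq ≤ Cn z := by
    by_contra hne
    apply hPw
    rw [eq_top_iff]
    intro w _
    obtain ⟨w', rfl⟩ := QuotientGroup.mk'_surjective Kh w
    obtain ⟨t, ht, c, hc, rfl⟩ := S.factor hzZ Tq (fun γ _ t ht => hTqinv γ t ht) hne w'
    have hcK : c ∈ Kh := hcent z hzK hzZ c (mem_Cn.1 hc)
    have hcT : c ∈ Tq := Subgroup.subset_closure (Or.inl hcK)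
    exact hTqle (Tq.mul_mem ht hcT)
  have hexpQ : ∀ a ∈ Q, a ^ q = 1 := by
    rintro _ ⟨r, hr, rfl⟩
    have h1 : r ^ q ∈ Tq := Subgroup.subset_closure (Or.inr ⟨r, rfl⟩)
    have h2 : r ^ q ∈ Kh := hcent z hzK hzZ _ (mem_Cn.1 (hTq h1))
    have h3 := hRK _ (R.pow_mem hr q) h2
    rw [← map_pow]
    exact (hmk1 _).2 h3
  have hKabq : ∀ a ∈ K, ∀ b ∈ K, a * b = b * a := by
    intro a ha b hb
    obtain ⟨a', rfl⟩ := QuotientGroup.mk_surjective a
    obtain ⟨b', rfl⟩ := QuotientGroup.mk_surjective b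
    show mk a' * mk b' = mk b' * mk a'
    rw [← map_mul, ← map_mul, hKab a' ha b' hb]
  have hQab : ∀ a ∈ Q, ∀ b ∈ Q, a * b = b * a := by
    rintro _ ⟨a', ha, rfl⟩ _ ⟨b', hb, rfl⟩
    rw [← map_mul, ← map_mul, hcm a' ha b' hb]
  rw [card_prime_of_exp Q K hFC hKc hKabq hQab hqp hexpQ]
  exact hqp

/-- The dichotomy. -/
theorem Act.main (S : Act ι ρ) :
    (∃ p : ℕ, p.Prime ∧ IsElementaryAbelian p (⊤ : Subgroup (A ⧸ center A))) ∨
    (∃ x : A, x ∉ center A ∧ ∃ (K : Subgroup (A ⧸ center A)) (s : ℕ), s.Prime ∧ K.Normal ∧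
      (K : Set (A ⧸ center A)) = frobeniusKernel ((Cn x).map (QuotientGroup.mk' (center A))) ∧
      IsComplement' K ((Cn x).map (QuotientGroup.mk' (center A))) ∧
      IsElementaryAbelian s K ∧ (Nat.card ((Cn x).map (QuotientGroup.mk' (center A)))).Prime ∧
      IsFrobeniusComplement ((Cn x).map (QuotientGroup.mk' (center A)))) := by
  by_cases hno : ∀ x : A, x ∉ center A → ¬ (Cn x).Normal → ¬ IsMulCommutative (Cn x)
  · exact Or.inl (S.nil_case (nilpotent_of_hyp S.hyp hno))
  · push Not at hno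
    obtain ⟨x, hx, hn, hab⟩ := hno
    have hs := (S.hyp.nrm x hx).resolve_left hn
    obtain ⟨K, s, h1, h2, h3, h4, h5, h6⟩ := S.frob_struct hx hab hs
    exact Or.inr ⟨x, hx, K, s, h1, h2, h3, h4, h5, h6, frob_compl S.hyp hx hab hs⟩

end Struct

section Min

variable {F : Type*} [Group F] [Finite F]

/-- A Frobenius group with elementary abelian kernel and maximal complement of prime order. -/
theorem frob_minimal (Q K : Subgroup F) (hFC : IsFrobeniusComplement Q) (hKn : K.Normal)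
    (hKset : (K : Set F) = frobeniusKernel Q) (hc : IsComplement' K Q) {s : ℕ} (hs : s.Prime)
    (hE : IsElementaryAbelian s K) (hQp : (Nat.card Q).Prime) (hQc : IsCoatom Q) :
    ¬ IsMulCommutative F ∧ (∀ H : Subgroup F, H ≠ ⊤ → IsMulCommutative H) ∧
      ∃ p q a : ℕ, p.Prime ∧ q.Prime ∧ p ≠ q ∧ Nat.card F = p ^ a * q ∧
        ∀ P : Subgroup F, Nat.card P = p ^ a → P.Normal := by
  classical
  haveI : Fact s.Prime := ⟨hs⟩
  have hKbot : K ≠ ⊥ := by
    intro h
    apply hFC.2.1
    have := hc.sup_eq_top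
    rwa [h, bot_sup_eq] at this
  have hIsP : IsPGroup s K := by
    rintro ⟨v, hv⟩
    refine ⟨1, ?_⟩
    apply Subtype.ext
    simpa using hE.2 v hv
  obtain ⟨a, ha⟩ := IsPGroup.iff_card.1 hIsP
  have ha0 : a ≠ 0 := by
    rintro rfl
    rw [pow_zero] at ha
    exact hKbot (Subgroup.card_eq_one.1 ha)
  have hidx : Q.index = Nat.card K := by
    have h4 := Q.card_mul_index
    rw [← hc.card_mul_card, mul_comm] at h4
    exact Nat.eq_of_mul_eq_mul_right Nat.card_pos h4
  have hsq : s ≠ Nat.card Q := by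
    intro e
    have h3 := H01.card_dvd_index_sub_one hFC
    rw [hidx, ← e] at h3
    have h1 : s ∣ Nat.card K := by
      rw [ha]; exact dvd_pow_self s ha0
    have h6 : Nat.card K = (Nat.card K - 1) + 1 := by
      have : 0 < Nat.card K := Nat.card_pos
      omega
    rw [h6] at h1
    have h5 := (Nat.dvd_add_right h3).1 h1
    exact hs.one_lt.ne' (Nat.dvd_one.1 h5)
  have hcard : Nat.card F = s ^ a * Nat.card Q := by
    rw [← ha, hc.card_mul_card]
  refine ⟨?_, ?_, s, Nat.card Q, a, hs, hQp, hsq, hcard, ?_⟩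
  · intro hcomm
    have hc' := isMulCommutative_iff.1 hcomm
    obtain ⟨g, hg⟩ : ∃ g, g ∉ Q := by
      by_contra h
      push Not at h
      exact hFC.2.1 (eq_top_iff.2 (fun g _ => h g))
    obtain ⟨t, ht, ht1⟩ := (Subgroup.bot_or_exists_ne_one Q).resolve_left hFC.1
    have h1 : t ∈ Q ⊓ (MulAut.conj g • Q) := by
      refine ⟨ht, ?_⟩
      show t ∈ MulAut.conj g • Q
      rw [H20.mem_conj_smul_iff]
      have : g⁻¹ * t * g = t := by
        rw [hc' g⁻¹ t]; group
      rwa [this]
    rw [hFC.2.2 g hg] at h1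
    exact ht1 h1
  · intro H hH
    by_cases hHK : H ≤ K
    · rw [isMulCommutative_iff]
      rintro ⟨a, ha⟩ ⟨b, hb⟩
      apply Subtype.ext
      show a * b = b * a
      have := (isMulCommutative_iff.1 hE.1) (⟨a, hHK ha⟩ : K) ⟨b, hHK hb⟩
      exact congrArg Subtype.val this
    · obtain ⟨y, hyH, hyK⟩ := Set.not_subset.1 hHK
      have h1 : y ∉ frobeniusKernel Q := by
        rw [← hKset]; exact hyK
      simp only [frobeniusKernel, Set.mem_ofPred_eq, not_or, not_forall, not_not] at h1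
      obtain ⟨hy1, g, hg⟩ := h1
      rw [H20.mem_conj_smul_iff] at hg
      have hw1 : g⁻¹ * y * g ≠ 1 := by
        intro h
        apply hy1
        have : y = g * (g⁻¹ * y * g) * g⁻¹ := by group
        rw [this, h]; group
      haveI : Fact (Nat.card Q).Prime := ⟨hQp⟩
      have hgen : ∀ u ∈ Q, u ∈ zpowers (g⁻¹ * y * g) := by
        intro u hu
        have h2 := mem_zpowers_of_prime_card (G := Q) (p := Nat.card Q) rfl
          (g := ⟨g⁻¹ * y * g, hg⟩) (g' := ⟨u, hu⟩)
          (fun h => hw1 (congrArg Subtype.val h))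
        obtain ⟨i, hi⟩ := Subgroup.mem_zpowers_iff.1 h2
        refine Subgroup.mem_zpowers_iff.2 ⟨i, ?_⟩
        exact congrArg Subtype.val hi
      have hQcomm : ∀ a ∈ Q, ∀ b ∈ Q, a * b = b * a := by
        intro a ha b hb
        obtain ⟨i, rfl⟩ := Subgroup.mem_zpowers_iff.1 (hgen a ha)
        obtain ⟨j, rfl⟩ := Subgroup.mem_zpowers_iff.1 (hgen b hb)
        exact ((Commute.refl _).zpow_zpow i j).eq
      let L : Subgroup F := H.comap (MulAut.conj g).toMonoidHom
      have hmemL : ∀ t, t ∈ L ↔ g * t * g⁻¹ ∈ H := fun t => Iff.rfl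
      have hQL : Q ≤ L := by
        intro u hu
        obtain ⟨i, rfl⟩ := Subgroup.mem_zpowers_iff.1 (hgen u hu)
        rw [hmemL, ← conj_zpow]
        have e : g * (g⁻¹ * y * g) * g⁻¹ = y := by group
        rw [e]
        exact H.zpow_mem hyH i
      have hLtop : L ≠ ⊤ := by
        intro h
        apply hH
        rw [eq_top_iff]
        intro t _
        have h2 : g⁻¹ * t * g ∈ L := by rw [h]; trivial
        rw [hmemL] at h2
        have : g * (g⁻¹ * t * g) * g⁻¹ = t := by group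
        rwa [this] at h2
      have hLQ : L = Q := by
        rcases hQL.eq_or_lt with h | h
        · exact h.symm
        · exact absurd (hQc.2 L h) hLtop
      rw [isMulCommutative_iff]
      rintro ⟨a, ha⟩ ⟨b, hb⟩
      apply Subtype.ext
      show a * b = b * a
      have ha' : g⁻¹ * a * g ∈ Q := by
        rw [← hLQ, hmemL]
        have : g * (g⁻¹ * a * g) * g⁻¹ = a := by group
        rwa [this]
      have hb' : g⁻¹ * b * g ∈ Q := by
        rw [← hLQ, hmemL]
        have : g * (g⁻¹ * b * g) * g⁻¹ = b := by group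
        rwa [this]
      have h3 := hQcomm _ ha' _ hb'
      have h4 : g⁻¹ * (a * b) * g = g⁻¹ * (b * a) * g := by
        calc g⁻¹ * (a * b) * g = (g⁻¹ * a * g) * (g⁻¹ * b * g) := by group
          _ = (g⁻¹ * b * g) * (g⁻¹ * a * g) := h3
          _ = g⁻¹ * (b * a) * g := by group
      have h5 := mul_right_cancel h4
      exact mul_left_cancel h5
  · intro P hP
    have hPK : P ≤ K := by
      intro y hy
      have h1 : y ^ s ^ a = 1 := by
        have h2 := pow_card_eq_one' (x := (⟨y, hy⟩ : P))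
        rw [hP] at h2
        exact congrArg Subtype.val h2
      have h2 : (y : F ⧸ K) ^ s ^ a = 1 := by
        rw [← QuotientGroup.mk_pow, h1]; rfl
      have h3 : (y : F ⧸ K) ^ Nat.card Q = 1 := by
        have h4 : Nat.card (F ⧸ K) = Nat.card Q := by
          have h5 := K.card_mul_index
          rw [← hc.card_mul_card] at h5
          exact Nat.eq_of_mul_eq_mul_left Nat.card_pos h5
        rw [← h4]
        exact pow_card_eq_one'
      have hcop : (s ^ a).Coprime (Nat.card Q) :=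
        Nat.Coprime.pow_left a ((Nat.coprime_primes hs hQp).2 hsq)
      have h5 := Nat.dvd_gcd (orderOf_dvd_of_pow_eq_one h2) (orderOf_dvd_of_pow_eq_one h3)
      rw [hcop] at h5
      have h6 := orderOf_eq_one_iff.1 (Nat.dvd_one.1 h5)
      exact (QuotientGroup.eq_one_iff y).1 h6
    have hPeq : P = K := Subgroup.eq_of_le_of_card_ge hPK (by rw [hP, ha])
    rw [hPeq]
    exact hKn

end Min

end Cfsg.Agent.H29.MaxCent
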