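import Mathlib
import Cfsg.Agent.Lib.H29.Fibre

/-!
Index-`n` subgroups of symmetric groups: the "three-transposition" analysis.
-/

set_option autoImplicit false
set_option linter.unusedSimpArgs false
set_option linter.unusedSectionVars false

namespace Cfsg.Agent.H29

open Equiv Equiv.Perm

section Swaps

variable {Ω : Type*} [DecidableEq Ω]

lemma swap_conj_eq (g : Perm Ω) (x y : Ω) : g * swap x y * g⁻¹ = swap (g x) (g y) :=
  (Equiv.swap_apply_apply g x y).symm

/-- The product of two swaps has order at most `3`. -/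
lemma swap_mul_swap_pow [Fintype Ω] {p q r s : Ω} (hpq : p ≠ q) (hrs : r ≠ s) :
    (swap p q * swap r s) ^ 2 = 1 ∨ (swap p q * swap r s) ^ 3 = 1 := by
  by_cases h1 : r = p
  · subst h1
    by_cases h2 : s = q
    · subst h2
      left
      simp
    · right
      exact (isThreeCycle_swap_mul_swap_same hpq hrs (Ne.symm h2)).orderOf ▸ pow_orderOf_eq_one _
  by_cases h3 : r = q
  · subst h3
    rw [swap_comm p r]
    by_cases h2 : s = p
    · subst h2
      left
      simp
    · right
      exact (isThreeCycle_swap_mul_swap_same hpq.symm hrs (Ne.symm h2)).orderOf ▸ pow_orderOf_eq_one _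
  by_cases h4 : s = p
  · subst h4
    rw [swap_comm r s]
    right
    exact (isThreeCycle_swap_mul_swap_same hpq hrs.symm (Ne.symm h3)).orderOf ▸ pow_orderOf_eq_one _
  by_cases h5 : s = q
  · subst h5
    rw [swap_comm p s, swap_comm r s]
    right
    exact (isThreeCycle_swap_mul_swap_same hpq.symm hrs.symm (Ne.symm h1)).orderOf ▸ pow_orderOf_eq_one _
  left
  have hd : Disjoint (swap p q) (swap r s) :=
    disjoint_swap_swap (by simp [hpq, hrs, Ne.symm h1, Ne.symm h3, Ne.symm h4, Ne.symm h5])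
  rw [hd.commute.mul_pow, pow_two, pow_two, swap_mul_self, swap_mul_self, one_mul]

/-- Non-commuting swaps share a point. -/
lemma swap_share {p q r s : Ω} (hpq : p ≠ q) (hrs : r ≠ s)
    (h : ¬ Commute (swap p q) (swap r s)) : r = p ∨ r = q ∨ s = p ∨ s = q := by
  by_contra hcon
  push Not at hcon
  obtain ⟨h1, h2, h3, h4⟩ := hcon
  apply h
  have hd : Disjoint (swap p q) (swap r s) :=
    disjoint_swap_swap (by simp [hpq, hrs, Ne.symm h1, Ne.symm h2, Ne.symm h3, Ne.symm h4])
  exact hd.commute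

/-- A swap moving `x` is a swap with `x`. -/
lemma isSwap_eq_of_moves {f : Perm Ω} (hf : f.IsSwap) {x : Ω} (hx : f x ≠ x) :
    f = swap x (f x) := by
  obtain ⟨u, v, huv, rfl⟩ := hf
  by_cases h1 : x = u
  · subst h1
    simp
  · by_cases h2 : x = v
    · subst h2
      rw [swap_apply_right, swap_comm]
    · exact absurd (swap_apply_of_ne_of_ne h1 h2) hx

lemma isSwap_conj {f : Perm Ω} (hf : f.IsSwap) (g : Perm Ω) : (g * f * g⁻¹).IsSwap := by
  obtain ⟨u, v, huv, rfl⟩ := hf
  exact ⟨g u, g v, fun h => huv (g.injective h), swap_conj_eq g u v⟩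

end Swaps

section Trichotomy

variable {X : Type*} [Fintype X] [DecidableEq X]

omit [DecidableEq X] in
lemma exists_not_mem_finset (s : Finset X) (h : s.card < Fintype.card X) : ∃ x, x ∉ s := by
  by_contra hcon
  push Not at hcon
  have : s = Finset.univ := Finset.eq_univ_of_forall hcon
  rw [this, Finset.card_univ] at h
  omega

lemma inv_apply_of_apply {g : Perm X} {x y : X} (h : g x = y) : g⁻¹ y = x := by
  rw [← h]; simp

set_option maxRecDepth 5000 in
/-- An involution of `X` whose conjugates have products of order at most `3` is a swap, or is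
fixed point free on a set with fewer than 8 points. -/
theorem invol_trichotomy (c : Perm X) (hc : c * c = 1) (hc1 : c ≠ 1)
    (hconj : ∀ g : Perm X, (c * (g * c * g⁻¹)) ^ 2 = 1 ∨ (c * (g * c * g⁻¹)) ^ 3 = 1) :
    c.IsSwap ∨ ((∀ x, c x ≠ x) ∧ Fintype.card X < 8) := by
  have hcc : ∀ x, c (c x) = x := fun x => by
    have := congrArg (fun f : Perm X => f x) hc
    simpa using this
  by_cases hsw : c.IsSwap
  · exact Or.inl hsw
  right
  -- two disjoint pairs
  obtain ⟨a, ha⟩ : ∃ a, c a ≠ a := by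
    by_contra h
    push Not at h
    exact hc1 (Equiv.ext h)
  set b := c a with hb
  have hcb : c b = a := hcc a
  obtain ⟨p, hp⟩ : ∃ p, c p ≠ swap a b p := by
    by_contra h
    push Not at h
    exact hsw ⟨a, b, ha.symm, Equiv.ext h⟩
  have hpa : p ≠ a := by
    rintro rfl
    rw [swap_apply_left] at hp
    exact hp rfl
  have hpb : p ≠ b := by
    rintro rfl
    rw [swap_apply_right] at hp
    exact hp hcb
  have hpp : c p ≠ p := by
    rwa [swap_apply_of_ne_of_ne hpa hpb] at hp
  set q := c p with hq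
  have hcq : c q = p := hcc p
  have hqa : q ≠ a := by
    intro h
    apply hpb
    rw [← hcq, h]
  have hqb : q ≠ b := by
    intro h
    apply hpa
    rw [← hcq, h, hcb]
  have hneq : ∀ x y, x ≠ y → c x ≠ c y := fun x y h h2 => h (c.injective h2)
  by_cases hfix : ∃ e, c e = e
  · exfalso
    obtain ⟨e, he⟩ := hfix
    have hea : e ≠ a := by rintro rfl; exact ha he
    have heb : e ≠ b := by rintro rfl; rw [hcb] at he; exact ha he.symm
    have hep : e ≠ p := by rintro rfl; exact hpp he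
    have heq : e ≠ q := by rintro rfl; rw [hcq] at he; exact hpp he.symm
    have hab : a ≠ b := ha.symm
    have hqp : q ≠ p := hpp
    let g : Perm X := swap b p * swap p q * swap q e
    have gb : g b = p := by
      simp [g, swap_apply_def, hab, Ne.symm hab, hpa, Ne.symm hpa, hpb, Ne.symm hpb, hqa, Ne.symm hqa, hqb, Ne.symm hqb, hqp, Ne.symm hqp, hea, Ne.symm hea, heb, Ne.symm heb, hep, Ne.symm hep, heq, Ne.symm heq]
    have gp : g p = q := by
      simp [g, swap_apply_def, hab, Ne.symm hab, hpa, Ne.symm hpa, hpb, Ne.symm hpb, hqa, Ne.symm hqa, hqb, Ne.symm hqb, hqp, Ne.symm hqp, hea, Ne.symm hea, heb, Ne.symm heb, hep, Ne.symm hep, heq, Ne.symm heq]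
    have gq : g q = e := by
      simp [g, swap_apply_def, hab, Ne.symm hab, hpa, Ne.symm hpa, hpb, Ne.symm hpb, hqa, Ne.symm hqa, hqb, Ne.symm hqb, hqp, Ne.symm hqp, hea, Ne.symm hea, heb, Ne.symm heb, hep, Ne.symm hep, heq, Ne.symm heq]
    have ge : g e = b := by
      simp [g, swap_apply_def, hab, Ne.symm hab, hpa, Ne.symm hpa, hpb, Ne.symm hpb, hqa, Ne.symm hqa, hqb, Ne.symm hqb, hqp, Ne.symm hqp, hea, Ne.symm hea, heb, Ne.symm heb, hep, Ne.symm hep, heq, Ne.symm heq]
    have ga : g a = a := by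
      simp [g, swap_apply_def, hab, Ne.symm hab, hpa, Ne.symm hpa, hpb, Ne.symm hpb, hqa, Ne.symm hqa, hqb, Ne.symm hqb, hqp, Ne.symm hqp, hea, Ne.symm hea, heb, Ne.symm heb, hep, Ne.symm hep, heq, Ne.symm heq]
    set d := g * c * g⁻¹ with hd
    have da : d a = p := by
      rw [hd]; simp only [Perm.mul_apply]; rw [inv_apply_of_apply ga, ← hb, gb]
    have dp : d p = a := by
      rw [hd]; simp only [Perm.mul_apply]; rw [inv_apply_of_apply gb, hcb, ga]
    have dq : d q = e := by
      rw [hd]; simp only [Perm.mul_apply]; rw [inv_apply_of_apply gp, ← hq, gq]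
    have de : d e = q := by
      rw [hd]; simp only [Perm.mul_apply]; rw [inv_apply_of_apply gq, hcq, gp]
    have dst1 : (c * d) a = q := by rw [Perm.mul_apply, da]
    have dst2 : (c * d) q = e := by rw [Perm.mul_apply, dq, he]
    have dst3 : (c * d) e = p := by rw [Perm.mul_apply, de, hcq]
    rcases hconj g with h | h
    · have h1 := congrArg (fun f : Perm X => f a) h
      simp only [pow_two, Perm.mul_apply (c * d) (c * d), Perm.one_apply] at h1
      change (c * d) ((c * d) a) = a at h1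
      rw [dst1, dst2] at h1
      exact hea h1
    · have h1 := congrArg (fun f : Perm X => f a) h
      simp only [pow_three, Perm.one_apply] at h1
      change (c * d) ((c * d) ((c * d) a)) = a at h1
      rw [dst1, dst2, dst3] at h1
      exact hpa h1
  · push Not at hfix
    refine ⟨hfix, ?_⟩
    by_contra hcard
    push Not at hcard
    exfalso
    obtain ⟨r, hr⟩ := exists_not_mem_finset ({a, b, p, q} : Finset X)
      (lt_of_le_of_lt Finset.card_le_four (by omega))
    simp only [Finset.mem_insert, Finset.mem_singleton, not_or] at hr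
    obtain ⟨hra, hrb, hrp, hrq⟩ := hr
    set s := c r with hs
    have hcs : c s = r := hcc r
    have hsr : s ≠ r := hfix r
    have hsa : s ≠ a := by intro h; apply hrb; rw [← hcs, h]
    have hsb : s ≠ b := by intro h; apply hra; rw [← hcs, h, hcb]
    have hsp : s ≠ p := by intro h; apply hrq; rw [← hcs, h]
    have hsq : s ≠ q := by intro h; apply hrp; rw [← hcs, h, hcq]
    obtain ⟨u, hu⟩ := exists_not_mem_finset ({a, b, p, q, r, s} : Finset X)
      (lt_of_le_of_lt (Finset.card_le_six) (by omega))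
    simp only [Finset.mem_insert, Finset.mem_singleton, not_or] at hu
    obtain ⟨hua, hub, hup, huq, hur, hus⟩ := hu
    set v := c u with hv
    have hcv : c v = u := hcc u
    have hvu : v ≠ u := hfix u
    have hva : v ≠ a := by intro h; apply hub; rw [← hcv, h]
    have hvb : v ≠ b := by intro h; apply hua; rw [← hcv, h, hcb]
    have hvp : v ≠ p := by intro h; apply huq; rw [← hcv, h]
    have hvq : v ≠ q := by intro h; apply hup; rw [← hcv, h, hcq]
    have hvr : v ≠ r := by intro h; apply hus; rw [← hcv, h]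
    have hvs : v ≠ s := by intro h; apply hur; rw [← hcv, h, hcs]
    have hab : a ≠ b := ha.symm
    have hqp : q ≠ p := hpp
    -- the 8-cycle
    let g : Perm X := swap a b * swap b p * swap p q * swap q r * swap r s * swap s u * swap u v
    have gb : g a = b := by
      simp [g, swap_apply_def, hab, Ne.symm hab, hpa, Ne.symm hpa, hpb, Ne.symm hpb, hqa, Ne.symm hqa, hqb, Ne.symm hqb, hqp, Ne.symm hqp, hra, Ne.symm hra, hrb, Ne.symm hrb, hrp, Ne.symm hrp, hrq, Ne.symm hrq, hsa, Ne.symm hsa, hsb, Ne.symm hsb, hsp, Ne.symm hsp, hsq, Ne.symm hsq, hsr, Ne.symm hsr, hua, Ne.symm hua, hub, Ne.symm hub, hup, Ne.symm hup, huq, Ne.symm huq, hur, Ne.symm hur, hus, Ne.symm hus, hva, Ne.symm hva, hvb, Ne.symm hvb, hvp, Ne.symm hvp, hvq, Ne.symm hvq, hvr, Ne.symm hvr, hvs, Ne.symm hvs, hvu, Ne.symm hvu]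
    have gbp : g b = p := by
      simp [g, swap_apply_def, hab, Ne.symm hab, hpa, Ne.symm hpa, hpb, Ne.symm hpb, hqa, Ne.symm hqa, hqb, Ne.symm hqb, hqp, Ne.symm hqp, hra, Ne.symm hra, hrb, Ne.symm hrb, hrp, Ne.symm hrp, hrq, Ne.symm hrq, hsa, Ne.symm hsa, hsb, Ne.symm hsb, hsp, Ne.symm hsp, hsq, Ne.symm hsq, hsr, Ne.symm hsr, hua, Ne.symm hua, hub, Ne.symm hub, hup, Ne.symm hup, huq, Ne.symm huq, hur, Ne.symm hur, hus, Ne.symm hus, hva, Ne.symm hva, hvb, Ne.symm hvb, hvp, Ne.symm hvp, hvq, Ne.symm hvq, hvr, Ne.symm hvr, hvs, Ne.symm hvs, hvu, Ne.symm hvu]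
    have gpq : g p = q := by
      simp [g, swap_apply_def, hab, Ne.symm hab, hpa, Ne.symm hpa, hpb, Ne.symm hpb, hqa, Ne.symm hqa, hqb, Ne.symm hqb, hqp, Ne.symm hqp, hra, Ne.symm hra, hrb, Ne.symm hrb, hrp, Ne.symm hrp, hrq, Ne.symm hrq, hsa, Ne.symm hsa, hsb, Ne.symm hsb, hsp, Ne.symm hsp, hsq, Ne.symm hsq, hsr, Ne.symm hsr, hua, Ne.symm hua, hub, Ne.symm hub, hup, Ne.symm hup, huq, Ne.symm huq, hur, Ne.symm hur, hus, Ne.symm hus, hva, Ne.symm hva, hvb, Ne.symm hvb, hvp, Ne.symm hvp, hvq, Ne.symm hvq, hvr, Ne.symm hvr, hvs, Ne.symm hvs, hvu, Ne.symm hvu]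
    have gqr : g q = r := by
      simp [g, swap_apply_def, hab, Ne.symm hab, hpa, Ne.symm hpa, hpb, Ne.symm hpb, hqa, Ne.symm hqa, hqb, Ne.symm hqb, hqp, Ne.symm hqp, hra, Ne.symm hra, hrb, Ne.symm hrb, hrp, Ne.symm hrp, hrq, Ne.symm hrq, hsa, Ne.symm hsa, hsb, Ne.symm hsb, hsp, Ne.symm hsp, hsq, Ne.symm hsq, hsr, Ne.symm hsr, hua, Ne.symm hua, hub, Ne.symm hub, hup, Ne.symm hup, huq, Ne.symm huq, hur, Ne.symm hur, hus, Ne.symm hus, hva, Ne.symm hva, hvb, Ne.symm hvb, hvp, Ne.symm hvp, hvq, Ne.symm hvq, hvr, Ne.symm hvr, hvs, Ne.symm hvs, hvu, Ne.symm hvu]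
    have grs : g r = s := by
      simp [g, swap_apply_def, hab, Ne.symm hab, hpa, Ne.symm hpa, hpb, Ne.symm hpb, hqa, Ne.symm hqa, hqb, Ne.symm hqb, hqp, Ne.symm hqp, hra, Ne.symm hra, hrb, Ne.symm hrb, hrp, Ne.symm hrp, hrq, Ne.symm hrq, hsa, Ne.symm hsa, hsb, Ne.symm hsb, hsp, Ne.symm hsp, hsq, Ne.symm hsq, hsr, Ne.symm hsr, hua, Ne.symm hua, hub, Ne.symm hub, hup, Ne.symm hup, huq, Ne.symm huq, hur, Ne.symm hur, hus, Ne.symm hus, hva, Ne.symm hva, hvb, Ne.symm hvb, hvp, Ne.symm hvp, hvq, Ne.symm hvq, hvr, Ne.symm hvr, hvs, Ne.symm hvs, hvu, Ne.symm hvu]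
    have gsu : g s = u := by
      simp [g, swap_apply_def, hab, Ne.symm hab, hpa, Ne.symm hpa, hpb, Ne.symm hpb, hqa, Ne.symm hqa, hqb, Ne.symm hqb, hqp, Ne.symm hqp, hra, Ne.symm hra, hrb, Ne.symm hrb, hrp, Ne.symm hrp, hrq, Ne.symm hrq, hsa, Ne.symm hsa, hsb, Ne.symm hsb, hsp, Ne.symm hsp, hsq, Ne.symm hsq, hsr, Ne.symm hsr, hua, Ne.symm hua, hub, Ne.symm hub, hup, Ne.symm hup, huq, Ne.symm huq, hur, Ne.symm hur, hus, Ne.symm hus, hva, Ne.symm hva, hvb, Ne.symm hvb, hvp, Ne.symm hvp, hvq, Ne.symm hvq, hvr, Ne.symm hvr, hvs, Ne.symm hvs, hvu, Ne.symm hvu]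
    have guv : g u = v := by
      simp [g, swap_apply_def, hab, Ne.symm hab, hpa, Ne.symm hpa, hpb, Ne.symm hpb, hqa, Ne.symm hqa, hqb, Ne.symm hqb, hqp, Ne.symm hqp, hra, Ne.symm hra, hrb, Ne.symm hrb, hrp, Ne.symm hrp, hrq, Ne.symm hrq, hsa, Ne.symm hsa, hsb, Ne.symm hsb, hsp, Ne.symm hsp, hsq, Ne.symm hsq, hsr, Ne.symm hsr, hua, Ne.symm hua, hub, Ne.symm hub, hup, Ne.symm hup, huq, Ne.symm huq, hur, Ne.symm hur, hus, Ne.symm hus, hva, Ne.symm hva, hvb, Ne.symm hvb, hvp, Ne.symm hvp, hvq, Ne.symm hvq, hvr, Ne.symm hvr, hvs, Ne.symm hvs, hvu, Ne.symm hvu]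
    have gva : g v = a := by
      simp [g, swap_apply_def, hab, Ne.symm hab, hpa, Ne.symm hpa, hpb, Ne.symm hpb, hqa, Ne.symm hqa, hqb, Ne.symm hqb, hqp, Ne.symm hqp, hra, Ne.symm hra, hrb, Ne.symm hrb, hrp, Ne.symm hrp, hrq, Ne.symm hrq, hsa, Ne.symm hsa, hsb, Ne.symm hsb, hsp, Ne.symm hsp, hsq, Ne.symm hsq, hsr, Ne.symm hsr, hua, Ne.symm hua, hub, Ne.symm hub, hup, Ne.symm hup, huq, Ne.symm huq, hur, Ne.symm hur, hus, Ne.symm hus, hva, Ne.symm hva, hvb, Ne.symm hvb, hvp, Ne.symm hvp, hvq, Ne.symm hvq, hvr, Ne.symm hvr, hvs, Ne.symm hvs, hvu, Ne.symm hvu]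
    set d := g * c * g⁻¹ with hd
    have da : d a = v := by
      rw [hd]; simp only [Perm.mul_apply]; rw [inv_apply_of_apply gva, hcv, guv]
    have du : d u = s := by
      rw [hd]; simp only [Perm.mul_apply]; rw [inv_apply_of_apply gsu, hcs, grs]
    have dr : d r = q := by
      rw [hd]; simp only [Perm.mul_apply]; rw [inv_apply_of_apply gqr, hcq, gpq]
    have dst1 : (c * d) a = u := by rw [Perm.mul_apply, da, hcv]
    have dst2 : (c * d) u = r := by rw [Perm.mul_apply, du, hcs]
    have dst3 : (c * d) r = p := by rw [Perm.mul_apply, dr, hcq]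
    rcases hconj g with h | h
    · have h1 := congrArg (fun f : Perm X => f a) h
      simp only [pow_two, Perm.one_apply] at h1
      change (c * d) ((c * d) a) = a at h1
      rw [dst1, dst2] at h1
      exact hra h1
    · have h1 := congrArg (fun f : Perm X => f a) h
      simp only [pow_three, Perm.one_apply] at h1
      change (c * d) ((c * d) ((c * d) a)) = a at h1
      rw [dst1, dst2, dst3] at h1
      exact hpa h1

end Trichotomy


section Star

variable {Ω : Type*} [DecidableEq Ω]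

/-- Normal form of two non-commuting swaps. -/
lemma two_swaps {p q r s : Ω} (hpq : p ≠ q) (hrs : r ≠ s)
    (h : ¬ Commute (swap p q) (swap r s)) :
    ∃ a b c, a ≠ b ∧ a ≠ c ∧ b ≠ c ∧ swap p q = swap a b ∧ swap r s = swap a c := by
  have hne : swap p q ≠ swap r s := fun h2 => h (h2 ▸ Commute.refl _)
  rcases swap_share hpq hrs h with h1 | h1 | h1 | h1
  · subst h1
    refine ⟨r, q, s, hpq, hrs, ?_, rfl, rfl⟩
    rintro rfl
    exact hne rfl
  · subst h1
    refine ⟨r, p, s, hpq.symm, hrs, ?_, swap_comm _ _, rfl⟩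
    rintro rfl
    exact hne (swap_comm _ _)
  · subst h1
    refine ⟨s, q, r, hpq, hrs.symm, ?_, rfl, swap_comm _ _⟩
    rintro rfl
    exact hne (swap_comm _ _)
  · subst h1
    refine ⟨s, p, r, hpq.symm, hrs.symm, ?_, swap_comm _ _, swap_comm _ _⟩
    rintro rfl
    exact hne rfl

/-- A family of pairwise non-commuting swaps with at least four members has a common point. -/
theorem star {Y : Type*} [Finite Y] (hY : 4 ≤ Nat.card Y) (τ : Y → Perm Ω)
    (hτ : ∀ y, (τ y).IsSwap) (hinj : Function.Injective τ)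
    (hnc : ∀ y y', y ≠ y' → ¬ Commute (τ y) (τ y')) : ∃ a, ∀ y, τ y a ≠ a := by
  classical
  have : Fintype Y := Fintype.ofFinite Y
  rw [Nat.card_eq_fintype_card] at hY
  obtain ⟨y₁⟩ : Nonempty Y := Fintype.card_pos_iff.mp (by omega)
  obtain ⟨y₂, h12⟩ : ∃ y₂, y₂ ∉ ({y₁} : Finset Y) :=
    exists_not_mem_finset _ (by simp; omega)
  simp only [Finset.mem_singleton] at h12
  obtain ⟨p, q, hpq, hp⟩ := hτ y₁
  obtain ⟨r, s, hrs, hr⟩ := hτ y₂
  have hnc12 := hnc y₁ y₂ (Ne.symm h12)
  rw [hp, hr] at hnc12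
  obtain ⟨a, b, c, hab, hac, hbc, h1, h2⟩ := two_swaps hpq hrs hnc12
  rw [← hp] at h1
  rw [← hr] at h2
  refine ⟨a, ?_⟩
  -- a general statement: a swap not moving `a` must be `swap b c`
  have hshape : ∀ y, τ y a = a → τ y = swap b c := by
    intro y hya
    have hy1 : y ≠ y₁ := by
      rintro rfl
      rw [h1, swap_apply_left] at hya
      exact hab hya.symm
    have hy2 : y ≠ y₂ := by
      rintro rfl
      rw [h2, swap_apply_left] at hya
      exact hac hya.symm
    obtain ⟨u, v, huv, hu⟩ := hτ y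
    have hua : u ≠ a := by
      rintro rfl
      rw [hu, swap_apply_left] at hya
      exact huv hya.symm
    have hva : v ≠ a := by
      rintro rfl
      rw [hu, swap_apply_right] at hya
      exact huv hya
    have hc1 := hnc y₁ y (Ne.symm hy1)
    rw [h1, hu] at hc1
    have hc2 := hnc y₂ y (Ne.symm hy2)
    rw [h2, hu] at hc2
    have hs1 := swap_share hab huv hc1
    have hs2 := swap_share hac huv hc2
    have hub : (u = b ∨ v = b) := by
      rcases hs1 with h | h | h | h
      · exact absurd h hua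
      · exact Or.inl h
      · exact absurd h hva
      · exact Or.inr h
    have huc : (u = c ∨ v = c) := by
      rcases hs2 with h | h | h | h
      · exact absurd h hua
      · exact Or.inl h
      · exact absurd h hva
      · exact Or.inr h
    rw [hu]
    rcases hub with rfl | rfl
    · rcases huc with rfl | rfl
      · exact absurd rfl hbc
      · rfl
    · rcases huc with rfl | rfl
      · exact swap_comm _ _
      · exact absurd rfl hbc
  by_contra hcon
  push Not at hcon
  obtain ⟨y₃, hy₃⟩ := hcon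
  have h3 := hshape y₃ hy₃
  obtain ⟨y₄, h4⟩ : ∃ y₄, y₄ ∉ ({y₁, y₂, y₃} : Finset Y) :=
    exists_not_mem_finset _ (lt_of_le_of_lt Finset.card_le_three (by omega))
  simp only [Finset.mem_insert, Finset.mem_singleton, not_or] at h4
  obtain ⟨h41, h42, h43⟩ := h4
  -- `τ y₄` moves `a`, and must meet `swap b c`
  have hy4a : τ y₄ a ≠ a := by
    intro h
    apply h43
    exact hinj ((hshape y₄ h).trans h3.symm)
  have hform := isSwap_eq_of_moves (hτ y₄) hy4a
  set w := τ y₄ a with hw
  have hwa : a ≠ w := Ne.symm hy4a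
  have hc3 := hnc y₃ y₄ (Ne.symm h43)
  rw [h3, hform] at hc3
  rcases swap_share hbc hwa hc3 with h | h | h | h
  · exact hab h
  · exact hac h
  · apply h41
    apply hinj
    rw [h1, hform, h]
  · apply h42
    apply hinj
    rw [h2, hform, h]

end Star

section Core

open MulAction

variable {Ω : Type*} [Fintype Ω] [DecidableEq Ω]

lemma stabilizer_le_of_swaps {a : Ω} {H : Subgroup (Perm Ω)}
    (h : ∀ b c, b ≠ a → c ≠ a → swap b c ∈ H) : stabilizer (Perm Ω) a ≤ H := by
  intro g hg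
  have hga : g a = a := hg
  have hp : ∀ x, g x ≠ a ↔ x ≠ a := by
    intro x
    rw [not_iff_not]
    constructor
    · intro hx
      exact g.injective (hx.trans hga.symm)
    · rintro rfl
      exact hga
  let g' : Perm {x // x ≠ a} := g.subtypePerm hp
  have hg' : g = ofSubtype g' := by
    ext x
    by_cases hx : x = a
    · subst hx
      rw [ofSubtype_apply_of_not_mem g' (by simp), hga]
    · rw [ofSubtype_apply_of_mem g' hx]
      rfl
  rw [hg']
  induction g' using swap_induction_on with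
  | one => simp
  | swap_mul f x y hxy ih =>
    rw [map_mul, ofSubtype_swap_eq]
    exact H.mul_mem (h _ _ x.2 y.2) ih

/-- Abstract core: an isomorphism `Perm Ω → Perm X` sending a swap to a swap sends the stabiliser
of a point into the stabiliser of `x₀`. -/
theorem stabilizer_le_of_swap_image {X : Type*} [Fintype X] [DecidableEq X]
    (hn : 5 ≤ Fintype.card Ω) (hX : Fintype.card X = Fintype.card Ω)
    (φ : Perm Ω →* Perm X) (hφ : Function.Bijective φ) (x₀ : X) {t₀ : Perm Ω} (ht₀ : t₀.IsSwap)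
    (himg : (φ t₀).IsSwap) : ∃ a, ∀ g : Perm Ω, g a = a → φ g x₀ = x₀ := by
  classical
  have hinj := hφ.1
  have hsurj := hφ.2
  -- all swaps go to swaps
  have hall : ∀ t : Perm Ω, t.IsSwap → (φ t).IsSwap := by
    intro t ht
    obtain ⟨p, q, hpq, rfl⟩ := ht
    obtain ⟨u, v, huv, hu⟩ := ht₀
    obtain ⟨g, hg1, hg2⟩ := exists_perm_pair huv hpq
    have h1 : swap p q = g * t₀ * g⁻¹ := by
      rw [hu, swap_conj_eq, hg1, hg2]
    rw [h1, map_mul, map_mul, map_inv]
    exact isSwap_conj himg _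
  -- all swaps at `x₀` are images of swaps
  have hpre : ∀ y : {y : X // y ≠ x₀}, ∃ t : Perm Ω, t.IsSwap ∧ φ t = swap x₀ y.1 := by
    rintro ⟨y, hy⟩
    obtain ⟨u, v, huv, hu⟩ := himg
    obtain ⟨h, hh1, hh2⟩ := exists_perm_pair huv (Ne.symm hy)
    obtain ⟨g, rfl⟩ := hsurj h
    refine ⟨g * t₀ * g⁻¹, isSwap_conj ht₀ g, ?_⟩
    rw [map_mul, map_mul, map_inv, hu, swap_conj_eq, hh1, hh2]
  choose τ hτ1 hτ2 using hpre
  have hτinj : Function.Injective τ := by
    intro y y' h
    have h1 : swap x₀ y.1 = swap x₀ y'.1 := by rw [← hτ2, ← hτ2, h]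
    have h2 := congrArg (fun f : Perm X => f x₀) h1
    simp only [swap_apply_left] at h2
    exact Subtype.ext h2
  have hnc : ∀ y y', y ≠ y' → ¬ Commute (τ y) (τ y') := by
    intro y y' hyy h
    have h1 : φ (τ y) * φ (τ y') = φ (τ y') * φ (τ y) := by
      rw [← map_mul, ← map_mul, h.eq]
    rw [hτ2, hτ2] at h1
    have h2 := congrArg (fun f : Perm X => f x₀) h1
    have hne : y.1 ≠ y'.1 := fun h => hyy (Subtype.ext h)
    simp only [Perm.mul_apply, swap_apply_left] at h2
    rw [swap_apply_of_ne_of_ne y'.2 (Ne.symm hne), swap_apply_of_ne_of_ne y.2 hne] at h2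
    exact hne h2.symm
  have hcardY : 4 ≤ Nat.card {y : X // y ≠ x₀} := by
    rw [Nat.card_eq_fintype_card, Fintype.card_subtype_compl, hX]
    simp
    omega
  obtain ⟨a, ha⟩ := star hcardY τ hτ1 hτinj hnc
  refine ⟨a, ?_⟩
  -- swaps avoiding `a` fix `x₀`
  have hsw : ∀ b c : Ω, b ≠ a → c ≠ a → φ (swap b c) x₀ = x₀ := by
    intro b c hb hc
    by_cases hbc : b = c
    · subst hbc
      have h1 : swap b b = (1 : Perm Ω) := swap_self b
      rw [h1, map_one]
      rfl
    by_contra hmove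
    have hs : (φ (swap b c)).IsSwap := hall _ ⟨b, c, hbc, rfl⟩
    have h1 := isSwap_eq_of_moves hs hmove
    have h2 : swap b c = τ ⟨_, hmove⟩ := by
      apply hinj
      rw [hτ2]
      exact h1
    apply ha ⟨_, hmove⟩
    rw [← h2]
    exact swap_apply_of_ne_of_ne (Ne.symm hb) (Ne.symm hc)
  let H : Subgroup (Perm Ω) := (MulAction.stabilizer (Perm X) x₀).comap φ
  have hle := stabilizer_le_of_swaps (H := H) (a := a) (fun b c hb hc => hsw b c hb hc)
  intro g hg
  exact hle hg

variable (H : Subgroup (Perm Ω))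

/-- The permutation representation on cosets. -/
noncomputable abbrev cosetRep : Perm Ω →* Perm (Perm Ω ⧸ H) := MulAction.toPermHom (Perm Ω) (Perm Ω ⧸ H)

lemma mem_of_cosetRep_fix {g : Perm Ω} (h : cosetRep H g ((1 : Perm Ω) : Perm Ω ⧸ H) = ((1 : Perm Ω) : Perm Ω ⧸ H)) :
    g ∈ H := by
  have h1 : g • ((1 : Perm Ω) : Perm Ω ⧸ H) = ((1 : Perm Ω) : Perm Ω ⧸ H) := h
  rw [MulAction.Quotient.smul_coe, smul_eq_mul, mul_one, QuotientGroup.eq] at h1
  simpa using H.inv_mem h1

lemma cosetRep_fix_of_mem {g : Perm Ω} (h : g ∈ H) :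
    cosetRep H g ((1 : Perm Ω) : Perm Ω ⧸ H) = ((1 : Perm Ω) : Perm Ω ⧸ H) := by
  show g • ((1 : Perm Ω) : Perm Ω ⧸ H) = _
  rw [MulAction.Quotient.smul_coe, smul_eq_mul, mul_one, QuotientGroup.eq]
  simpa using H.inv_mem h

lemma cosetRep_bijective (hH : H.index = Fintype.card Ω) (hinj : Function.Injective (cosetRep H)) :
    Function.Bijective (cosetRep H) := by
  refine hinj.bijective_of_nat_card_le ?_
  rw [Nat.card_perm, Nat.card_perm, ← Subgroup.index_eq_card, hH, Nat.card_eq_fintype_card]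

/-- Subgroups of index `n ≥ 5` of `S_n` have trivial core. -/
lemma cosetRep_injective (hn : 5 ≤ Fintype.card Ω) (hH : H.index = Fintype.card Ω) :
    Function.Injective (cosetRep H) := by
  rw [← MonoidHom.ker_eq_bot_iff]
  by_contra hker
  have hnorm : (cosetRep H).ker.Normal := (cosetRep H).normal_ker
  have hnt : Nontrivial (cosetRep H).ker := (Subgroup.nontrivial_iff_ne_bot _).mpr hker
  have h1 : alternatingGroup Ω ≤ (cosetRep H).ker :=
    alternatingGroup_le_of_normal (by rwa [Nat.card_eq_fintype_card]) hnt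
  have h2 : (cosetRep H).ker ≤ H := fun g hg => mem_of_cosetRep_fix H (by
    have : cosetRep H g = 1 := hg
    rw [this]; rfl)
  have h3 := Subgroup.index_dvd_of_le (h1.trans h2)
  have hnt2 : Nontrivial Ω := by
    apply Fintype.one_lt_card_iff_nontrivial.mp
    omega
  rw [alternatingGroup.index_eq_two, hH] at h3
  have := Nat.le_of_dvd (by norm_num) h3
  omega

/-- The type dichotomy for an index `n` subgroup. -/
lemma cosetRep_swap_image [DecidableEq (Perm Ω ⧸ H)] (hn : 5 ≤ Fintype.card Ω) (hH : H.index = Fintype.card Ω)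
    {t : Perm Ω} (ht : t.IsSwap) [Fintype (Perm Ω ⧸ H)] :
    (cosetRep H t).IsSwap ∨ ((∀ x, cosetRep H t x ≠ x) ∧ Fintype.card (Perm Ω ⧸ H) < 8) := by
  have hinj := cosetRep_injective H hn hH
  have hbij := cosetRep_bijective H hH hinj
  obtain ⟨p, q, hpq, rfl⟩ := ht
  apply invol_trichotomy
  · rw [← map_mul, swap_mul_self, map_one]
  · intro h
    apply hpq
    have h1 : swap p q = 1 := hinj (by rw [h, map_one])
    have h2 := congrArg (fun f : Perm Ω => f p) h1
    simpa using h2.symm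
  · intro g
    obtain ⟨g', rfl⟩ := hbij.2 g
    rw [← map_inv, ← map_mul, ← map_mul, ← map_mul, swap_conj_eq, ← map_pow, ← map_pow]
    have h1 : g' p ≠ g' q := fun h => hpq (g'.injective h)
    rcases swap_mul_swap_pow hpq h1 with h | h
    · left; rw [h, map_one]
    · right; rw [h, map_one]

/-- If the coset representation sends one swap to a swap, `H` is a point stabiliser. -/
theorem eq_stabilizer_of_swap_image [DecidableEq (Perm Ω ⧸ H)] [Fintype (Perm Ω ⧸ H)]
    (hn : 5 ≤ Fintype.card Ω) (hH : H.index = Fintype.card Ω)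
    {t₀ : Perm Ω} (ht₀ : t₀.IsSwap) (himg : (cosetRep H t₀).IsSwap) :
    ∃ a : Ω, H = MulAction.stabilizer (Perm Ω) a := by
  have hinj := cosetRep_injective H hn hH
  have hbij := cosetRep_bijective H hH hinj
  have hX : Fintype.card (Perm Ω ⧸ H) = Fintype.card Ω := by
    rw [← Nat.card_eq_fintype_card, ← Subgroup.index_eq_card, hH]
  obtain ⟨a, ha⟩ := stabilizer_le_of_swap_image hn hX (cosetRep H) hbij
    ((1 : Perm Ω) : Perm Ω ⧸ H) ht₀ himg
  refine ⟨a, ?_⟩
  have hle : MulAction.stabilizer (Perm Ω) a ≤ H := fun g hg =>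
    mem_of_cosetRep_fix H (ha g hg)
  have hn2 : Nontrivial Ω := by
    apply Fintype.one_lt_card_iff_nontrivial.mp
    omega
  have hpre : MulAction.IsPretransitive (Perm Ω) Ω := inferInstance
  have hidx : (MulAction.stabilizer (Perm Ω) a).index = H.index := by
    rw [MulAction.index_stabilizer_of_transitive, hH, Nat.card_eq_fintype_card]
  have h2 : Nat.card H ≤ Nat.card (MulAction.stabilizer (Perm Ω) a) := by
    have h3 := Subgroup.index_mul_card H
    have h4 := Subgroup.index_mul_card (MulAction.stabilizer (Perm Ω) a)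
    rw [hidx] at h4
    have h5 : 0 < H.index := by rw [hH]; omega
    exact (Nat.eq_of_mul_eq_mul_left h5 (h3.trans h4.symm)).le
  exact (Subgroup.eq_of_le_of_card_ge hle h2).symm

/-- Equality with a stabiliser from containment and the index. -/
lemma eq_stabilizer_of_le {a : Ω} (hle : H ≤ MulAction.stabilizer (Perm Ω) a)
    (hH : H.index = Fintype.card Ω) : H = MulAction.stabilizer (Perm Ω) a := by
  have hidx : (MulAction.stabilizer (Perm Ω) a).index = H.index := by
    rw [MulAction.index_stabilizer_of_transitive, hH, Nat.card_eq_fintype_card]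
  have h2 : Nat.card (MulAction.stabilizer (Perm Ω) a) ≤ Nat.card H := by
    have h3 := Subgroup.index_mul_card H
    have h4 := Subgroup.index_mul_card (MulAction.stabilizer (Perm Ω) a)
    rw [hidx] at h4
    have h5 : 0 < H.index := Nat.pos_of_ne_zero Subgroup.index_ne_zero_of_finite
    exact (Nat.eq_of_mul_eq_mul_left h5 (h4.trans h3.symm)).le
  exact Subgroup.eq_of_le_of_card_ge hle h2

end Core

end Cfsg.Agent.H29
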