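import Mathlib
import Cfsg.Agent.Lib.H29.SymAut

/-!
The exotic `S₅` in `S₆` and the classification of subgroups of index six.
-/

set_option autoImplicit false
set_option linter.unusedSimpArgs false
set_option linter.unusedSectionVars false

namespace Cfsg.Agent.H29

open Equiv Equiv.Perm MulAction

section Concrete

/-- A one-factorisation of `K₆`: the colour of an edge. -/
def sixCol : Fin 6 → Fin 6 → Fin 6 :=
  ![![5, 3, 1, 4, 2, 0],
    ![3, 5, 4, 2, 0, 1],
    ![1, 4, 5, 0, 3, 2],
    ![4, 2, 0, 5, 1, 3],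
    ![2, 0, 3, 1, 5, 4],
    ![0, 1, 2, 3, 4, 5]]

/-- The stabiliser of the one-factorisation. -/
def exoticS6 : Subgroup (Perm (Fin 6)) where
  carrier := {g | ∀ a b c d, a ≠ b → c ≠ d → (sixCol a b = sixCol c d ↔ sixCol (g a) (g b) = sixCol (g c) (g d))}
  mul_mem' := by
    intro x y hx hy a b c d hab hcd
    exact (hy a b c d hab hcd).trans (hx (y a) (y b) (y c) (y d)
      (fun h => hab (y.injective h)) (fun h => hcd (y.injective h)))
  one_mem' := fun _ _ _ _ _ _ => Iff.rfl
  inv_mem' := by
    intro x hx a b c d hab hcd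
    have hh : ∀ z, x (x⁻¹ z) = z := fun z => by simp
    have h := hx (x⁻¹ a) (x⁻¹ b) (x⁻¹ c) (x⁻¹ d)
      (fun h => hab (x⁻¹.injective h)) (fun h => hcd (x⁻¹.injective h))
    rw [hh, hh, hh, hh] at h
    exact h.symm

instance : DecidablePred (· ∈ exoticS6) := fun g =>
  inferInstanceAs (Decidable (∀ a b c d, a ≠ b → c ≠ d →
    (sixCol a b = sixCol c d ↔ sixCol (g a) (g b) = sixCol (g c) (g d))))

theorem exoticS6_card_filter : (Finset.univ.filter (fun g : Perm (Fin 6) => g ∈ exoticS6)).card = 120 := by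
  decide +kernel

theorem exoticS6_no_swap : ∀ a b : Fin 6, a ≠ b → swap a b ∉ exoticS6 := by
  decide +kernel

theorem exoticS6_natCard : Nat.card exoticS6 = 120 := by
  rw [Nat.card_eq_fintype_card, Fintype.card_subtype]
  exact exoticS6_card_filter

theorem exoticS6_index : exoticS6.index = 6 := by
  have h1 := Subgroup.index_mul_card exoticS6
  rw [exoticS6_natCard, Nat.card_perm, Nat.card_fin] at h1
  have : Nat.factorial 6 = 720 := rfl
  omega

end Concrete

end Cfsg.Agent.H29
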