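import Mathlib
import Cfsg.Agent.Lib.H29.SymAut

/-!
Subgroups of index six in a symmetric group of degree six.
-/

set_option autoImplicit false
set_option linter.unusedSimpArgs false
set_option linter.unusedSectionVars false

namespace Cfsg.Agent.H29

open Equiv Equiv.Perm MulAction

section General

/-- The image of a swap under an isomorphism of symmetric groups. -/
lemma iso_swap_image {A B : Type*} [Fintype A] [DecidableEq A] [Fintype B] [DecidableEq B]
    (ψ : Perm A →* Perm B) (hψ : Function.Bijective ψ) {t : Perm A} (ht : t.IsSwap) :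
    (ψ t).IsSwap ∨ ((∀ x, ψ t x ≠ x) ∧ Fintype.card B < 8) := by
  obtain ⟨p, q, hpq, rfl⟩ := ht
  apply invol_trichotomy
  · rw [← map_mul, swap_mul_self, map_one]
  · intro h
    apply hpq
    have h1 : swap p q = 1 := hψ.1 (by rw [h, map_one])
    have h2 := congrArg (fun f : Perm A => f p) h1
    simpa using h2.symm
  · intro g
    obtain ⟨g', rfl⟩ := hψ.2 g
    rw [← map_inv, ← map_mul, ← map_mul, ← map_mul, swap_conj_eq, ← map_pow, ← map_pow]
    have h1 : g' p ≠ g' q := fun h => hpq (g'.injective h)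
    rcases swap_mul_swap_pow hpq h1 with h | h
    · left; rw [h, map_one]
    · right; rw [h, map_one]

/-- Two fixed point free involutions are conjugate. -/
lemma isConj_of_fpf {Ω : Type*} [Fintype Ω] [DecidableEq Ω] {c d : Perm Ω}
    (hc : c * c = 1) (hd : d * d = 1) (hc' : ∀ x, c x ≠ x) (hd' : ∀ x, d x ≠ x) : IsConj c d := by
  have key : ∀ f : Perm Ω, f * f = 1 → (∀ x, f x ≠ x) →
      f.cycleType = Multiset.replicate (Fintype.card Ω / 2) 2 := by
    intro f hf hf'
    have hsupp : f.support = Finset.univ := by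
      rw [Finset.eq_univ_iff_forall]
      intro x
      exact Equiv.Perm.mem_support.mpr (hf' x)
    have h2 : f ^ 2 = 1 := by rw [pow_two, hf]
    have hmem : ∀ n ∈ f.cycleType, n = 2 := by
      intro n hn
      have h3 : n ∣ orderOf f := dvd_of_mem_cycleType hn
      have h4 : orderOf f ∣ 2 := orderOf_dvd_of_pow_eq_one h2
      have h5 := two_le_of_mem_cycleType hn
      have h6 := Nat.le_of_dvd (by norm_num) (dvd_trans h3 h4)
      omega
    have hsum : f.cycleType.sum = Fintype.card Ω := by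
      rw [sum_cycleType, hsupp, Finset.card_univ]
    obtain ⟨m, hm⟩ : ∃ m, f.cycleType = Multiset.replicate m 2 :=
      ⟨_, Multiset.eq_replicate_card.mpr hmem⟩
    rw [hm, Multiset.sum_replicate, smul_eq_mul] at hsum
    rw [hm, ← hsum]
    simp
  rw [isConj_iff_cycleType_eq, key c hc hc', key d hd hd']

variable {Ω : Type*} [Fintype Ω] [DecidableEq Ω]

/-- Index six subgroups containing a swap are point stabilisers. -/
theorem eq_stabilizer_of_swap_mem (hn : 5 ≤ Fintype.card Ω) (hn8 : Fintype.card Ω < 8)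
    (H : Subgroup (Perm Ω)) (hH : H.index = Fintype.card Ω)
    {s : Perm Ω} (hs : s.IsSwap) (hsH : s ∈ H) : ∃ a : Ω, H = stabilizer (Perm Ω) a := by
  classical
  haveI : Fintype (Perm Ω ⧸ H) := Fintype.ofFinite _
  rcases cosetRep_swap_image H hn hH hs with h | ⟨h, -⟩
  · exact eq_stabilizer_of_swap_image H hn hH hs h
  · exact absurd (cosetRep_fix_of_mem H hsH) (h _)

/-- Point stabilisers contain swaps. -/
lemma exists_swap_mem_stabilizer (hn : 3 ≤ Fintype.card Ω) (a : Ω) :
    ∃ s ∈ stabilizer (Perm Ω) a, s.IsSwap := by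
  obtain ⟨b, hb⟩ := exists_not_mem_finset ({a} : Finset Ω) (by simp; omega)
  obtain ⟨c, hc⟩ := exists_not_mem_finset ({a, b} : Finset Ω)
    (lt_of_le_of_lt Finset.card_le_two (by omega))
  simp only [Finset.mem_insert, Finset.mem_singleton, not_or] at hb hc
  refine ⟨swap b c, ?_, b, c, Ne.symm hc.2, rfl⟩
  show swap b c a = a
  exact swap_apply_of_ne_of_ne (Ne.symm hb) (Ne.symm hc.1)

/-- The stabiliser of a point is the symmetric group on the remaining points. -/
noncomputable def stabilizerPermEquiv {Y : Type*} [DecidableEq Y] (y₀ : Y) :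
    stabilizer (Perm Y) y₀ ≃* Perm {y : Y // y ≠ y₀} where
  toFun k := (k.1).subtypePerm (by
    intro y
    have hk : k.1 y₀ = y₀ := k.2
    rw [not_iff_not]
    constructor
    · intro h
      exact k.1.injective (h.trans hk.symm)
    · rintro rfl
      exact hk)
  invFun p := ⟨ofSubtype p, by
    have h : ¬ (y₀ ≠ y₀) := by simp
    exact ofSubtype_apply_of_not_mem p h⟩
  left_inv k := by
    apply Subtype.ext
    ext y
    by_cases hy : y = y₀
    · subst hy
      have hk : k.1 y = y := k.2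
      have h : ¬ (y ≠ y) := by simp
      exact (ofSubtype_apply_of_not_mem (p := fun z => z ≠ y) _ h).trans hk.symm
    · exact ofSubtype_apply_of_mem (p := fun z => z ≠ y₀) _ hy
  right_inv p := by
    ext ⟨y, hy⟩
    show ofSubtype p y = p ⟨y, hy⟩
    exact ofSubtype_apply_of_mem p hy
  map_mul' a b := by
    ext ⟨y, hy⟩
    rfl

section NoSwap

variable (hΩ : Fintype.card Ω = 6)
include hΩ


/-- The coset representation is bijective. -/
lemma cosetRep_bij (H : Subgroup (Perm Ω)) (hH : H.index = 6) : Function.Bijective (cosetRep H) :=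
  cosetRep_bijective H (by rw [hH, hΩ]) (cosetRep_injective H (by omega) (by rw [hH, hΩ]))

/-- Without swaps in `H`, swaps have fixed point free images. -/
lemma image_not_swap (H' : Subgroup (Perm Ω)) [DecidableEq (Perm Ω ⧸ H')] (hH : H'.index = 6)
    (hno : ∀ s ∈ H', ¬ s.IsSwap) {t : Perm Ω} (ht : t.IsSwap) : ¬ (cosetRep H' t).IsSwap := by
  intro h
  haveI : Fintype (Perm Ω ⧸ H') := Fintype.ofFinite _
  obtain ⟨a, ha⟩ := eq_stabilizer_of_swap_image H' (by omega) (by rw [hH, hΩ]) ht h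
  obtain ⟨s, hs, hs2⟩ := exists_swap_mem_stabilizer (by omega) a
  rw [← ha] at hs
  exact hno s hs hs2

/-- The preimage of a swap under the coset representation is a fixed point free involution. -/
lemma preimage_fpf (H' : Subgroup (Perm Ω)) [DecidableEq (Perm Ω ⧸ H')] [Fintype (Perm Ω ⧸ H')] (hH : H'.index = 6)
    (hno : ∀ s ∈ H', ¬ s.IsSwap) {g : Perm Ω} (hg : (cosetRep H' g).IsSwap) :
    g * g = 1 ∧ ∀ x, g x ≠ x := by
  have hbij := cosetRep_bij hΩ H' hH
  let e : Perm Ω ≃* Perm (Perm Ω ⧸ H') := MulEquiv.ofBijective (cosetRep H') hbij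
  have he : ∀ g, e g = cosetRep H' g := fun _ => rfl
  let ψ : Perm (Perm Ω ⧸ H') →* Perm Ω := e.symm.toMonoidHom
  have hψ : Function.Bijective ψ := e.symm.bijective
  have hψg : ψ (cosetRep H' g) = g := e.symm_apply_apply g
  have h1 := iso_swap_image ψ hψ hg
  rw [hψg] at h1
  constructor
  · apply hbij.1
    obtain ⟨u, v, _, hu⟩ := hg
    rw [map_mul, hu, swap_mul_self, map_one]
  · rcases h1 with h | ⟨h, _⟩
    · exact absurd hg (image_not_swap hΩ H' hH hno h)
    · exact h

/-- Two index six subgroups without swaps: the second one contains an element that the coset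
representation of the first one sends to a swap. -/
lemma exists_swap_in_image (H₁ H₂ : Subgroup (Perm Ω)) [DecidableEq (Perm Ω ⧸ H₁)] [Fintype (Perm Ω ⧸ H₁)]
    [DecidableEq (Perm Ω ⧸ H₂)] [Fintype (Perm Ω ⧸ H₂)] (h1 : H₁.index = 6) (h2 : H₂.index = 6)
    (hno1 : ∀ s ∈ H₁, ¬ s.IsSwap) (hno2 : ∀ s ∈ H₂, ¬ s.IsSwap) :
    ∃ g ∈ H₂, (cosetRep H₁ g).IsSwap := by
  have hbij1 := cosetRep_bij hΩ H₁ h1
  have hbij2 := cosetRep_bij hΩ H₂ h2
  have hX1 : Fintype.card (Perm Ω ⧸ H₁) = 6 := by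
    rw [← Nat.card_eq_fintype_card, ← Subgroup.index_eq_card, h1]
  have hX2 : Fintype.card (Perm Ω ⧸ H₂) = 6 := by
    rw [← Nat.card_eq_fintype_card, ← Subgroup.index_eq_card, h2]
  -- a swap of the second coset space fixing the base point
  set x₀ : Perm Ω ⧸ H₂ := ((1 : Perm Ω) : Perm Ω ⧸ H₂) with hx₀
  obtain ⟨s, hs1, hs2⟩ := exists_swap_mem_stabilizer (by omega : 3 ≤ Fintype.card (Perm Ω ⧸ H₂)) x₀
  obtain ⟨g, hg⟩ := hbij2.2 s
  have hgH : g ∈ H₂ := by
    apply mem_of_cosetRep_fix H₂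
    rw [hg]
    exact hs1
  obtain ⟨g1, g2⟩ := preimage_fpf hΩ H₂ h2 hno2 (by rw [hg]; exact hs2)
  -- a swap of the first coset space
  obtain ⟨y⟩ : Nonempty (Perm Ω ⧸ H₁) := inferInstance
  obtain ⟨s', _, hs'⟩ := exists_swap_mem_stabilizer (by omega : 3 ≤ Fintype.card (Perm Ω ⧸ H₁)) y
  obtain ⟨c, hc⟩ := hbij1.2 s'
  obtain ⟨c1, c2⟩ := preimage_fpf hΩ H₁ h1 hno1 (by rw [hc]; exact hs')
  obtain ⟨a, ha⟩ := isConj_iff.mp (isConj_of_fpf c1 g1 c2 g2)
  refine ⟨g, hgH, ?_⟩
  rw [← ha, map_mul, map_mul, map_inv, hc]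
  exact isSwap_conj hs' _

/-- Any two index six subgroups without swaps are conjugate: the second is the stabiliser of a coset
of the first. -/
theorem eq_stabilizer_coset (H₁ H₂ : Subgroup (Perm Ω)) (h1 : H₁.index = 6) (h2 : H₂.index = 6)
    (hno1 : ∀ s ∈ H₁, ¬ s.IsSwap) (hno2 : ∀ s ∈ H₂, ¬ s.IsSwap) :
    ∃ x : Perm Ω ⧸ H₁, H₂ = stabilizer (Perm Ω) x := by
  classical
  haveI : Fintype (Perm Ω ⧸ H₁) := Fintype.ofFinite _
  haveI : Fintype (Perm Ω ⧸ H₂) := Fintype.ofFinite _
  obtain ⟨g, hgH, hgs⟩ := exists_swap_in_image hΩ H₁ H₂ h1 h2 hno1 hno2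
  have hbij := cosetRep_bij hΩ H₁ h1
  have hX1 : Fintype.card (Perm Ω ⧸ H₁) = 6 := by
    rw [← Nat.card_eq_fintype_card, ← Subgroup.index_eq_card, h1]
  let K : Subgroup (Perm (Perm Ω ⧸ H₁)) := H₂.map (cosetRep H₁)
  have hK : K.index = Fintype.card (Perm Ω ⧸ H₁) := by
    rw [hX1, ← h2]
    exact Subgroup.index_map_of_bijective hbij _
  obtain ⟨x, hx⟩ := eq_stabilizer_of_swap_mem (by omega) (by omega) K hK hgs ⟨g, hgH, rfl⟩
  refine ⟨x, ?_⟩
  ext g'
  constructor
  · intro hg'
    have : cosetRep H₁ g' ∈ K := ⟨g', hg', rfl⟩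
    rw [hx] at this
    exact this
  · intro hg'
    have : cosetRep H₁ g' ∈ K := by
      rw [hx]
      exact hg'
    obtain ⟨g'', h3, h4⟩ := this
    rwa [← hbij.1 h4]

/-- Every index six subgroup is isomorphic to `S₅`. -/
theorem nonempty_mulEquiv_perm_five (H : Subgroup (Perm Ω)) (hH : H.index = 6) :
    Nonempty (H ≃* Perm (Fin 5)) := by
  classical
  haveI : Fintype (Perm Ω ⧸ H) := Fintype.ofFinite _
  have hbij := cosetRep_bij hΩ H hH
  have hX : Fintype.card (Perm Ω ⧸ H) = 6 := by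
    rw [← Nat.card_eq_fintype_card, ← Subgroup.index_eq_card, hH]
  set x₀ : Perm Ω ⧸ H := ((1 : Perm Ω) : Perm Ω ⧸ H) with hx₀
  have hmap : H.map (cosetRep H) = stabilizer (Perm (Perm Ω ⧸ H)) x₀ := by
    ext k
    constructor
    · rintro ⟨g, hg, rfl⟩
      exact cosetRep_fix_of_mem H hg
    · intro hk
      obtain ⟨g, rfl⟩ := hbij.2 k
      exact ⟨g, mem_of_cosetRep_fix H hk, rfl⟩
  have hcard : Fintype.card {y : Perm Ω ⧸ H // y ≠ x₀} = 5 := by
    rw [Fintype.card_subtype_compl, hX]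
    simp
  exact ⟨(H.equivMapOfInjective _ hbij.1).trans ((MulEquiv.subgroupCongr hmap).trans
    ((stabilizerPermEquiv x₀).trans
      (Fintype.equivFinOfCardEq hcard).permCongrHom))⟩

end NoSwap

end General

end Cfsg.Agent.H29
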